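import Cfsg.Agent.Core.Cores
import Cfsg.Prelude.Def_LieTypeDatum

/-! The `p'`-core of the centraliser of an outer automorphism of prime order in an almost simple
group, when the automorphism has a large centraliser in the socle. -/

set_option autoImplicit false

namespace Cfsg.Agent.KnownB.Proj.Balance

open Cfsg.Agent.Core

universe u

variable {X : Type u} [Group X] {p : ℕ} [Fact p.Prime]

/-- A normal subgroup of order prime to `p` of the centraliser is trivial. -/
theorem core_eq_bot [Finite X] (A I : Subgroup X) [I.Normal] (hIA : I ≤ A) {x : X}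
    (hord : orderOf x = p) (hxI : x ∉ I) (K₀ : Subgroup X)
    (hle : K₀ ≤ I ⊓ Subgroup.centralizer {x})
    (hnorm : ∀ g ∈ I ⊓ Subgroup.centralizer {x}, ∀ k ∈ K₀, g * k * g⁻¹ ∈ K₀)
    (hK : ∀ M : Subgroup K₀, M.Normal → ¬ p ∣ Nat.card M → M = ⊥)
    (hcent : ∀ y : X, Commute y x → (∀ k ∈ K₀, Commute y k) → y ∈ Subgroup.zpowers x) :
    Cfsg.pPrimeCore p ↥(A ⊓ Subgroup.centralizer {x}) = ⊥ := by
  set C := A ⊓ Subgroup.centralizer {x} with hC
  set N := (Cfsg.pPrimeCore p C).map C.subtype with hN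
  have hNC : N ≤ C := Subgroup.map_subtype_le _
  have hNn : ∀ c ∈ C, ∀ n ∈ N, c * n * c⁻¹ ∈ N := by
    rintro c hc _ ⟨n, hn, rfl⟩
    exact ⟨⟨c, hc⟩ * n * ⟨c, hc⟩⁻¹,
      (inferInstance : (Cfsg.pPrimeCore p C).Normal).conj_mem n hn ⟨c, hc⟩, rfl⟩
  have hNp : ¬ p ∣ Nat.card N := by
    rw [hN, Subgroup.card_map_of_injective C.subtype_injective]
    exact not_dvd_card_pPrimeCore p C
  have hKx : I ⊓ Subgroup.centralizer {x} ≤ C := inf_le_inf_right _ hIA
  have hxcomm : ∀ c ∈ C, Commute c x := fun c hc =>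
    Subgroup.mem_centralizer_singleton_iff.mp hc.2
  -- it meets `K₀` trivially
  have hbot : N.subgroupOf K₀ = ⊥ := by
    have hn : (N.subgroupOf K₀).Normal := ⟨fun n hn g => by
      rw [Subgroup.mem_subgroupOf] at hn ⊢
      exact hNn _ (hKx (hle g.2)) _ hn⟩
    refine hK _ hn fun hd => hNp (hd.trans ?_)
    have e : Nat.card (N.subgroupOf K₀) = Nat.card ↥(N ⊓ K₀) := by
      rw [← Subgroup.card_map_of_injective K₀.subtype_injective, Subgroup.subgroupOf_map_subtype]
    rw [e]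
    exact Subgroup.card_dvd_of_le inf_le_left
  have hNK : ∀ k ∈ K₀, k ∈ N → k = 1 := fun k hk hkN => by
    have h : (⟨k, hk⟩ : K₀) ∈ N.subgroupOf K₀ := hkN
    rw [hbot, Subgroup.mem_bot] at h
    exact congrArg Subtype.val h
  -- it meets the inner centraliser trivially
  have hM : ∀ y ∈ I ⊓ Subgroup.centralizer {x}, y ∈ N → y = 1 := by
    intro y hy hyN
    have hyk : ∀ k ∈ K₀, Commute y k := fun k hk => by
      have h1 : y * k * y⁻¹ * k⁻¹ ∈ K₀ := mul_mem (hnorm y hy k hk) (inv_mem hk)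
      have h2 : y * (k * y⁻¹ * k⁻¹) ∈ N :=
        mul_mem hyN (hNn k (hKx (hle hk)) _ (inv_mem hyN))
      have h3 := hNK _ h1 (by simpa [mul_assoc] using h2)
      rw [mul_inv_eq_one, mul_inv_eq_iff_eq_mul] at h3
      exact h3
    obtain ⟨i, hi⟩ := hcent y (Subgroup.mem_centralizer_singleton_iff.mp hy.2) hyk
    change x ^ i = y at hi
    rw [← hi]
    by_contra hne
    -- a non-trivial power generates
    have hco : ¬ ((p : ℤ) ∣ i) := fun hd => hne (by
      obtain ⟨j, rfl⟩ := hd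
      rw [zpow_mul, zpow_natCast, ← hord, pow_orderOf_eq_one, one_zpow])
    obtain ⟨a, b, hab⟩ :=
      ((Nat.prime_iff_prime_int.mp (Fact.out : p.Prime)).coprime_iff_not_dvd).mpr hco
    refine hxI ?_
    have h1 : x = (x ^ i) ^ b := by
      conv_lhs => rw [← zpow_one x, ← hab]
      rw [zpow_add, mul_comm a, zpow_mul, zpow_natCast, ← hord, pow_orderOf_eq_one, one_zpow,
        one_mul, mul_comm, zpow_mul]
    rw [h1]
    exact zpow_mem (hi ▸ hy.1) b
  -- hence it lies in `⟨x⟩`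
  have hNx : N ≤ Subgroup.zpowers x := fun n hn => hcent n (hxcomm n (hNC hn)) fun k hk => by
    have hkC := hKx (hle hk)
    have h1 : n * k * n⁻¹ * k⁻¹ ∈ N := by
      simpa [mul_assoc] using mul_mem hn (hNn k hkC _ (inv_mem hn))
    have h2 : n * k * n⁻¹ * k⁻¹ ∈ I ⊓ Subgroup.centralizer {x} := by
      have hk' := Subgroup.mem_inf.mp (hle hk)
      refine Subgroup.mem_inf.mpr ⟨mul_mem ((inferInstance : I.Normal).conj_mem k hk'.1 n) (inv_mem hk'.1), ?_⟩
      have hn' : n ∈ Subgroup.centralizer {x} := (hNC hn).2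
      have hk2 : k ∈ Subgroup.centralizer {x} := hk'.2
      show n * k * n⁻¹ * k⁻¹ ∈ Subgroup.centralizer {x}
      exact mul_mem (mul_mem (mul_mem hn' hk'.2) (inv_mem hn')) (inv_mem hk2)
    have h3 := hM _ h2 h1
    rw [mul_inv_eq_one, mul_inv_eq_iff_eq_mul] at h3
    exact h3
  have hN1 : N = ⊥ := by
    have h1 := Subgroup.card_dvd_of_le hNx
    rw [Nat.card_zpowers, hord, Nat.dvd_prime (Fact.out : p.Prime)] at h1
    rcases h1 with h1 | h1
    · exact Subgroup.card_eq_one.mp h1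
    · exact absurd h1.symm.dvd hNp
  rw [hN] at hN1
  exact (Subgroup.map_eq_bot_iff_of_injective _ C.subtype_injective).mp hN1

/-- The criterion. -/
theorem balance_iff' {K : Type u} [Group K] [Finite K]
    (hinj : Function.Injective (MulAut.conj : K → MulAut K))
    (A : Subgroup (MulAut K)) (hinn : ∀ k : K, MulAut.conj k ∈ A) {x α τ : MulAut K}
    (hx : α * x * α⁻¹ = τ) (hord : orderOf x = p) (hτI : τ ∉ Cfsg.Inn K)
    (K₀ : Subgroup (MulAut K)) (hle : K₀ ≤ Cfsg.Inn K ⊓ Subgroup.centralizer {τ})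
    (hnorm : ∀ g ∈ Cfsg.Inn K ⊓ Subgroup.centralizer {τ}, ∀ k ∈ K₀, g * k * g⁻¹ ∈ K₀)
    (hnt : Nontrivial K₀)
    (hK : p ∣ Nat.card ↥(Cfsg.Inn K ⊓ Subgroup.centralizer {τ}) →
      ∀ M : Subgroup K₀, M.Normal → ¬ p ∣ Nat.card M → M = ⊥)
    (hcent : ∀ y, Commute y τ → (∀ k ∈ K₀, Commute y k) → y ∈ Subgroup.zpowers τ) :
    Cfsg.pPrimeCore p ↥(A ⊓ Subgroup.centralizer {x}) ≠ ⊥ ↔
      Nat.Coprime p (Nat.card ↥(MonoidHom.eqLocus x.toMonoidHom (MonoidHom.id K))) := by
  haveI : Finite (MulAut K) := Finite.of_injective (fun e : MulAut K => (e : K → K)) DFunLike.coe_injective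
  have key : ∀ (β : MulAut K) (k : K), β * MulAut.conj k * β⁻¹ = MulAut.conj (β k) := fun β k =>
    MulEquiv.ext fun y => by
      show β (k * β⁻¹ y * k⁻¹) = β k * y * (β k)⁻¹
      rw [map_mul, map_mul, map_inv, MulAut.apply_inv_self]
  haveI hIn : (Cfsg.Inn K).Normal := ⟨by rintro _ ⟨k, rfl⟩ β; exact ⟨β k, (key β k).symm⟩⟩
  set I := Cfsg.Inn K
  have hIA : I ≤ A := by rintro _ ⟨k, rfl⟩; exact hinn k
  -- transport to `x`
  let c : MulAut K ≃* MulAut K := (MulAut.conj α).symm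
  have hcx : c τ = x := by
    show α⁻¹ * τ * α = x
    rw [← hx]; group
  have hτord : orderOf τ = p := by rw [← hord, ← hcx, MulEquiv.orderOf_eq]
  have hmap : (I ⊓ Subgroup.centralizer {τ}).map c.toMonoidHom = I ⊓ Subgroup.centralizer {x} := by
    ext y
    rw [Subgroup.mem_map_equiv, Subgroup.mem_inf, Subgroup.mem_inf,
      Subgroup.mem_centralizer_singleton_iff, Subgroup.mem_centralizer_singleton_iff]
    show MulAut.conj α y ∈ I ∧ _ ↔ _
    refine and_congr ⟨fun h => ?_, fun h => hIn.conj_mem y h α⟩ ?_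
    · simpa [mul_assoc] using hIn.conj_mem _ h α⁻¹
    · show MulAut.conj α y * τ = τ * MulAut.conj α y ↔ _
      rw [show τ = MulAut.conj α x from hx.symm, ← map_mul, ← map_mul, EmbeddingLike.apply_eq_iff_eq]
  have hcard : Nat.card ↥(I ⊓ Subgroup.centralizer {τ}) =
      Nat.card ↥(I ⊓ Subgroup.centralizer {x}) := by
    rw [← hmap]; exact (Subgroup.card_map_of_injective c.injective).symm
  have hfix : Nat.card ↥(I ⊓ Subgroup.centralizer {x}) =
      Nat.card ↥(MonoidHom.eqLocus x.toMonoidHom (MonoidHom.id K)) := by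
    have e : I ⊓ Subgroup.centralizer {x} =
        (MonoidHom.eqLocus x.toMonoidHom (MonoidHom.id K)).map MulAut.conj := by
      ext y
      rw [Subgroup.mem_inf, Subgroup.mem_centralizer_singleton_iff, Subgroup.mem_map]
      constructor
      · rintro ⟨⟨k, rfl⟩, hk⟩
        exact ⟨k, hinj (by rw [MulEquiv.coe_toMonoidHom, ← key, ← hk, mul_inv_cancel_right]; rfl), rfl⟩
      · rintro ⟨k, hk, rfl⟩
        refine ⟨⟨k, rfl⟩, ?_⟩
        have := key x k
        rw [show x k = k from hk, mul_inv_eq_iff_eq_mul] at this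
        exact this.symm
    rw [e, Subgroup.card_map_of_injective hinj]
  constructor
  · intro hne
    by_contra hco
    have hK' := hK (by
      rw [hcard, hfix]
      exact not_not.mp fun h => hco ((Fact.out : p.Prime).coprime_iff_not_dvd.mpr h))
    refine hne (core_eq_bot A I hIA hord ?_ (K₀.map c.toMonoidHom) ?_ ?_ ?_ ?_)
    · exact fun h => hτI (by rw [← hx]; exact hIn.conj_mem x h α)
    · rw [← hmap]; exact Subgroup.map_mono hle
    · rw [← hmap]
      rintro _ ⟨g, hg, rfl⟩ _ ⟨k, hk, rfl⟩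
      exact ⟨g * k * g⁻¹, hnorm g hg k hk, by simp⟩
    · intro M hM hMp
      let e := Subgroup.equivMapOfInjective K₀ c.toMonoidHom c.injective
      have h1 := hK' (M.map e.symm.toMonoidHom) (hM.map _ e.symm.surjective)
        (by rwa [Subgroup.card_map_of_injective e.symm.injective])
      exact (Subgroup.map_eq_bot_iff_of_injective _ e.symm.injective).mp h1
    · intro y hy hyk
      obtain ⟨y, rfl⟩ := c.surjective y
      obtain ⟨i, hi⟩ := hcent y (by
        refine c.injective ?_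
        rw [map_mul, map_mul, hcx]; exact hy) fun k hk => by
          refine c.injective ?_
          rw [map_mul, map_mul]; exact hyk _ ⟨k, hk, rfl⟩
      exact ⟨i, by rw [← hi, map_zpow, hcx]⟩
  · intro hco hbot
    set C := A ⊓ Subgroup.centralizer {x} with hC
    set M := (I ⊓ Subgroup.centralizer {x}).subgroupOf C
    have hle' : I ⊓ Subgroup.centralizer {x} ≤ C := inf_le_inf_right _ hIA
    have hMn : M.Normal := ⟨fun n hn g => by
      obtain ⟨hn1, hn2⟩ := Subgroup.mem_inf.mp (Subgroup.mem_subgroupOf.mp hn)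
      refine Subgroup.mem_subgroupOf.mpr (Subgroup.mem_inf.mpr ⟨hIn.conj_mem _ hn1 g.1, ?_⟩)
      have hg : g.1 ∈ Subgroup.centralizer {x} := g.2.2
      exact mul_mem (mul_mem hg hn2) (inv_mem hg)⟩
    have hMc : Nat.card M = Nat.card ↥(I ⊓ Subgroup.centralizer {x}) :=
      Nat.card_congr (Subgroup.subgroupOfEquivOfLe hle').toEquiv
    have h1 : M ≤ Cfsg.pPrimeCore p C := le_pPrimeCore hMn (by rw [hMc, hfix]; exact hco.symm)
    rw [hbot, le_bot_iff] at h1
    have h2 : Nat.card ↥(I ⊓ Subgroup.centralizer {τ}) = 1 := by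
      rw [hcard, ← hMc, h1, Subgroup.card_bot]
    haveI := hnt
    have := Subgroup.card_dvd_of_le hle
    rw [h2, Nat.dvd_one] at this
    exact (Finite.one_lt_card (α := K₀)).ne' this

/-- The criterion, for a simple subgroup of the centraliser. -/
theorem balance_iff {K : Type u} [Group K] [Finite K]
    (hinj : Function.Injective (MulAut.conj : K → MulAut K))
    (A : Subgroup (MulAut K)) (hinn : ∀ k : K, MulAut.conj k ∈ A) {x α τ : MulAut K}
    (hx : α * x * α⁻¹ = τ) (hord : orderOf x = p) (hτI : τ ∉ Cfsg.Inn K)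
    (K₀ : Subgroup (MulAut K)) (hle : K₀ ≤ Cfsg.Inn K ⊓ Subgroup.centralizer {τ})
    (hnorm : ∀ g ∈ Cfsg.Inn K ⊓ Subgroup.centralizer {τ}, ∀ k ∈ K₀, g * k * g⁻¹ ∈ K₀)
    (hs : IsSimpleGroup K₀)
    (hdvd : p ∣ Nat.card ↥(Cfsg.Inn K ⊓ Subgroup.centralizer {τ}) → p ∣ Nat.card K₀)
    (hcent : ∀ y, Commute y τ → (∀ k ∈ K₀, Commute y k) → y ∈ Subgroup.zpowers τ) :
    Cfsg.pPrimeCore p ↥(A ⊓ Subgroup.centralizer {x}) ≠ ⊥ ↔
      Nat.Coprime p (Nat.card ↥(MonoidHom.eqLocus x.toMonoidHom (MonoidHom.id K))) :=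
  balance_iff' hinj A hinn hx hord hτI K₀ hle hnorm hs.toNontrivial
    (fun hp M hM hMp => (hs.eq_bot_or_eq_top_of_normal M hM).resolve_right fun ht => hMp (by
      rw [ht, Subgroup.card_top]; exact hdvd hp)) hcent

end Cfsg.Agent.KnownB.Proj.Balance
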