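import Cfsg.Agent.KnownB.Proj.Balance.PSLGraph

/-! The graph drivers for a symmetric or skew Gram matrix. -/

set_option autoImplicit false
set_option maxHeartbeats 1000000

namespace Cfsg.Agent.KnownB.Proj.Balance.GramDriver

open Matrix
open Cfsg.Agent.KnownB.AutPSL (mapGL mapGL_val)
open Cfsg.Agent.KnownB.Proj.Balance.LinHelp
open Cfsg.Agent.KnownB.Proj.Balance.Reflect (Herm)

universe u w

variable {n : ℕ} {K : Type u} [Field K]

/-- The isometries of a Gram matrix. -/
def iso (J : Matrix (Fin n) (Fin n) K) : Subgroup (GL (Fin n) K) where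
  carrier := {h | h.1.transpose * J * h.1 = J}
  one_mem' := by simp
  mul_mem' {a b} ha hb := by
    show ((a * b : GL (Fin n) K)).1.transpose * J * (a * b : GL (Fin n) K).1 = J
    rw [Units.val_mul, Matrix.transpose_mul,
      show b.1.transpose * a.1.transpose * J * (a.1 * b.1) =
        b.1.transpose * (a.1.transpose * J * a.1) * b.1 by simp only [Matrix.mul_assoc],
      show a.1.transpose * J * a.1 = J from ha]
    exact hb
  inv_mem' {a} ha := by
    show (a⁻¹).1.transpose * J * (a⁻¹).1 = J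
    conv_lhs => rw [← (show a.1.transpose * J * a.1 = J from ha)]
    rw [show (a⁻¹).1.transpose * (a.1.transpose * J * a.1) * (a⁻¹).1 =
      (a.1 * (a⁻¹).1).transpose * J * (a.1 * (a⁻¹).1) by
        rw [Matrix.transpose_mul]; simp only [Matrix.mul_assoc], Units.mul_inv, Matrix.transpose_one,
      Matrix.one_mul, Matrix.mul_one]

theorem mem_iso {J : Matrix (Fin n) (Fin n) K} {h : GL (Fin n) K}
    (hh : ∀ a b, bf 1 J (h.1 *ᵥ a) (h.1 *ᵥ b) = bf 1 J a b) : h ∈ iso J :=
  eq_of_bf 1 J h.1 hh

theorem bf_of_semi {J g : Matrix (Fin n) (Fin n) K} {τ : K ≃+* K} {c : K}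
    (h : g.transpose * J * g = c • J.map τ) (a b : Fin n → K) :
    bf 1 J (g *ᵥ (⇑τ ∘ a)) (g *ᵥ (⇑τ ∘ b)) = c * τ (bf 1 J a b) :=
  bf_semi 1 τ (fun _ => rfl) J g c h a b

variable [Fintype K] {G : Type w} [Group G] [Finite G]

/-- The criterion. -/
theorem core_eq_bot_gram (hn : 3 ≤ n) (h2 : (2 : K) ≠ 0) (J : Matrix (Fin n) (Fin n) K)
    (hJdet : J.det ≠ 0) (hJ : J.transpose = J ∨ J.transpose = -J)
    (A I : Subgroup G) [I.Normal] (hIA : I ≤ A) (x : G) (Ψ : iso J →* G)
    (hker : ∀ h, Ψ h = 1 ↔ ∃ k : K, ∀ z, h.1.1 *ᵥ z = k • z)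
    (hcomm : ∀ h, Commute (Ψ h) x)
    (hinn : ∀ h : iso J, h.1.1.det = 1 → Ψ h ∈ I)
    (hdata : ∀ y, Commute y x → Odd (orderOf y) →
      ∃ (m : GL (Fin n) K) (τ : K ≃+* K) (c : K), c ≠ 0 ∧
        m.1.transpose * J * m.1 = c • J.map τ ∧
        (∀ h h' : iso J, h'.1 = m * mapGL τ h.1 * m⁻¹ → y * Ψ h * y⁻¹ = Ψ h') ∧
        (τ = 1 → (∃ k : K, ∀ z, m.1 *ᵥ z = k • z) → y = 1)) :
    Cfsg.pPrimeCore 2 ↥(A ⊓ Subgroup.centralizer {x}) = ⊥ := by
  classical
  have hdim : 3 ≤ Module.finrank K (Fin n → K) := by simpa using hn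
  have hmk : ∀ (m : GL (Fin n) K) (τ : K ≃+* K) (h : GL (Fin n) K) (z : Fin n → K),
      (m * mapGL τ h * m⁻¹).1 *ᵥ (m.1 *ᵥ (⇑τ ∘ z)) = m.1 *ᵥ (⇑τ ∘ (h.1 *ᵥ z)) := by
    intro m τ h z
    rw [Units.val_mul, Units.val_mul, ← Matrix.mulVec_mulVec, ← Matrix.mulVec_mulVec,
      Matrix.mulVec_mulVec _ (m⁻¹).1, ← Units.val_mul, inv_mul_cancel, Units.val_one,
      Matrix.one_mulVec, mapGL_val, LinHelp.map_mulVec]
  rcases hJ with hsym | hskew
  · let D : Herm K (Fin n → K) :=
      { σ := 1
        invol := fun _ => rfl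
        H := fun a b => bf 1 J a b
        add_right := fun u x y => by simp [bf, Matrix.mulVec_add, dotProduct_add]
        smul_right := fun u k x => by simp [bf, Matrix.mulVec_smul, dotProduct_smul]
        symm := fun a b => by
          show bf 1 J a b = bf 1 J b a
          show a ⬝ᵥ (J *ᵥ b) = b ⬝ᵥ (J *ᵥ a)
          rw [Matrix.dotProduct_mulVec, dotProduct_comm, ← Matrix.mulVec_transpose, hsym]
        nd := fun x hx => by
          by_contra hx0
          obtain ⟨i, hi⟩ : ∃ i, (J *ᵥ x) i ≠ 0 := by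
            by_contra hcon
            push Not at hcon
            exact hx0 (Matrix.eq_zero_of_mulVec_eq_zero hJdet (funext hcon))
          have h1 := hx (Pi.single i 1)
          simp only [bf, LinHelp.comp_single, single_dotProduct, one_mul] at h1
          exact hi h1
        two := h2
        dim := hdim }
    let inc : D.U →* iso J := (toGL.comp D.U.subtype).codRestrict _ fun h =>
      mem_iso fun a b => by
        rw [MonoidHom.comp_apply, toGL_mulVec, toGL_mulVec]
        exact h.2 a b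
    have hinc : ∀ (h : D.U) z, (inc h).1.1 *ᵥ z = h.1 z := fun h z => toGL_mulVec h.1 z
    refine Reflect.core_eq_bot_herm D A I hIA x (Ψ.comp inc) ?_ ?_ ?_ ?_
    · intro h hh
      obtain ⟨k, hk⟩ := (hker _).mp hh
      exact ⟨k, fun z => by rw [← hinc, hk]⟩
    · exact fun h => hcomm _
    · intro a b ha hb _
      exact hinn _ (congrArg Units.val (PSLGraph.det_refl_mul (D := D) ha hb))
    · intro y hy hodd
      obtain ⟨m, τ, c, hc, hm, hconj, hone⟩ := hdata y hy hodd
      let L : (Fin n → K) ≃+ (Fin n → K) :=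
        { toFun := fun z => m.1 *ᵥ (⇑τ ∘ z)
          invFun := fun z => ⇑τ.symm ∘ ((m⁻¹).1 *ᵥ z)
          left_inv := fun z => by
            dsimp only
            rw [Matrix.mulVec_mulVec, ← Units.val_mul, inv_mul_cancel, Units.val_one,
              Matrix.one_mulVec]
            exact funext fun i => τ.symm_apply_apply _
          right_inv := fun z => by
            dsimp only
            rw [show ⇑τ ∘ (⇑τ.symm ∘ ((m⁻¹).1 *ᵥ z)) = (m⁻¹).1 *ᵥ z from
                funext fun i => τ.apply_symm_apply _,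
              Matrix.mulVec_mulVec, ← Units.val_mul, mul_inv_cancel, Units.val_one,
              Matrix.one_mulVec]
          map_add' := fun a b => by rw [LinHelp.comp_add, Matrix.mulVec_add] }
      let S : D.Semi :=
        { L := L
          τ := τ
          c := c
          hc := hc
          smul := fun k z => by
            show m.1 *ᵥ (⇑τ ∘ (k • z)) = _
            rw [LinHelp.comp_smul, Matrix.mulVec_smul]
            rfl
          map := bf_of_semi hm }
      refine ⟨S, fun h => hconj _ _ (Units.ext (Forms.matrix_ext_mulVec fun z => ?_)),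
        fun hτ k hk => ?_⟩
      · obtain ⟨z, rfl⟩ := L.surjective z
        refine (hinc (S.conj h) (L z)).trans ?_
        rw [Reflect.Herm.Semi.conj_apply]
        show m.1 *ᵥ (⇑τ ∘ h.1 z) = (m * mapGL τ (inc h).1 * m⁻¹).1 *ᵥ (m.1 *ᵥ (⇑τ ∘ z))
        rw [hmk, hinc]
      · change τ = 1 at hτ
        subst hτ
        exact hone rfl ⟨k, hk⟩
  · set Bl := Matrix.toBilin' J with hBl
    have hBv : ∀ a b, Bl a b = bf 1 J a b := fun a b => Matrix.toBilin'_apply' _ _ _
    have halt' : Bl.IsAlt := fun a => by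
      rw [hBv]
      have h1 : bf 1 J a a = -bf 1 J a a := by
        conv_lhs => rw [show bf 1 J a a = a ⬝ᵥ (J *ᵥ a) from rfl, Matrix.dotProduct_mulVec,
          dotProduct_comm, ← Matrix.mulVec_transpose, hskew, Matrix.neg_mulVec, dotProduct_neg]
        rfl
      exact (mul_eq_zero.mp (show (2 : K) * bf 1 J a a = 0 by linear_combination h1)).resolve_left
        h2
    have hI := Forms.isForm_alt Bl (Matrix.nondegenerate_toBilin'_iff.mpr
      (Matrix.nondegenerate_of_det_ne_zero hJdet)) halt'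
    obtain ⟨l, hl⟩ : ∃ l, n = 2 * l := by
      rcases Nat.even_or_odd n with ⟨l, hl⟩ | hodd
      · exact ⟨l, by omega⟩
      exfalso
      have h1 := congrArg Matrix.det hskew
      rw [Matrix.det_transpose, Matrix.det_neg, Fintype.card_fin, hodd.neg_one_pow] at h1
      exact hJdet ((mul_eq_zero.mp (show (2 : K) * J.det = 0 by linear_combination h1)).resolve_left
        h2)
    obtain ⟨b, hb⟩ := Symp.exists_symp_basis Bl hI l (by simp [hl])
    set Θ : (Fin l ⊕ Fin l → K) ≃ₗ[K] (Fin n → K) := b.equivFun.symm with hΘ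
    have hΘB : ∀ w w', bf 1 J (Θ w) (Θ w') = Cfsg.sympForm l K w w' := by
      intro w w'
      have h1 : Bl.compl₁₂ Θ.toLinearMap Θ.toLinearMap = Forms.sympB l K :=
        LinearMap.ext_basis (Pi.basisFun K _) (Pi.basisFun K _) fun i k => by
          simp [hΘ, Symp.sB, hb, Module.Basis.equivFun_symm_apply, Pi.single_apply]
      rw [← hBv, ← Symp.sB, ← h1]
      rfl
    let spLin : Matrix.symplecticGroup (Fin l) K →* ((Fin n → K) ≃ₗ[K] (Fin n → K)) :=
      { toFun := fun s => Θ.symm.trans ((Matrix.toLinearEquiv' (s.1)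
          (Units.invertible (Forms.spToGL l K s))).trans Θ)
        map_one' := LinearEquiv.ext fun z => by
          show Θ ((1 : Matrix.symplecticGroup (Fin l) K).1 *ᵥ Θ.symm z) = z
          rw [Symp.sp_one_mulVec, LinearEquiv.apply_symm_apply]
        map_mul' := fun s t => LinearEquiv.ext fun z => by
          show Θ ((s * t).1 *ᵥ Θ.symm z) = Θ (s.1 *ᵥ Θ.symm (Θ (t.1 *ᵥ Θ.symm z)))
          rw [Symp.sp_mul_mulVec, LinearEquiv.symm_apply_apply] }
    have hspLin : ∀ s z, spLin s z = Θ (s.1 *ᵥ Θ.symm z) := fun s z => rfl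
    let inc : Matrix.symplecticGroup (Fin l) K →* iso J :=
      (toGL.comp spLin).codRestrict _ fun s => mem_iso fun a b => by
        rw [MonoidHom.comp_apply, toGL_mulVec, toGL_mulVec, hspLin, hspLin, hΘB, Symp.sp_B, ← hΘB,
          LinearEquiv.apply_symm_apply, LinearEquiv.apply_symm_apply]
    have hinc : ∀ s z, (inc s).1.1 *ᵥ z = Θ (s.1 *ᵥ Θ.symm z) := fun s z => toGL_mulVec _ z
    have hl2 : 2 ≤ l := by omega
    refine Reflect.core_eq_bot_symp hl2 h2 A I hIA x (Ψ.comp inc) ?_ ?_ ?_ ?_
    · ext s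
      rw [MonoidHom.mem_ker, ← Symplectic.spInc_scalar_iff (by omega : 1 ≤ l), MonoidHom.comp_apply,
        hker]
      constructor
      · rintro ⟨k, hk⟩
        have hk0 : k ≠ 0 := by
          rintro rfl
          have h1 : ((inc s).1⁻¹.1 * (inc s).1.1) *ᵥ (Pi.single ⟨0, by omega⟩ 1 : Fin n → K) = 0 := by
            rw [← Matrix.mulVec_mulVec, hk, zero_smul, Matrix.mulVec_zero]
          rw [← Units.val_mul, inv_mul_cancel, Units.val_one, Matrix.one_mulVec] at h1
          simpa using congrFun h1 ⟨0, by omega⟩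
        refine ⟨Units.mk0 k hk0, Symp.gsp_ext fun w => Θ.injective ?_⟩
        rw [Symp.sc_mulVec, Symp.spInc_val, map_smul]
        have h1 := hinc s (Θ w)
        rw [LinearEquiv.symm_apply_apply, hk] at h1
        exact h1
      · rintro ⟨k, hk⟩
        refine ⟨(k : K), fun z => ?_⟩
        rw [hinc, ← Symp.spInc_val, ← hk, Symp.sc_mulVec, map_smul, LinearEquiv.apply_symm_apply]
    · exact fun s => hcomm _
    · intro s
      refine hinn _ ?_
      let f : Matrix.symplecticGroup (Fin l) K →* Kˣ :=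
        GeneralLinearGroup.det.comp (toGL.comp spLin)
      have hf : f = 1 := by
        have h1 := Abelianization.commutator_subset_ker f
        rw [Forms.commutator_symplectic_eq_top (by
          have := Fintype.one_lt_card (α := K)
          have h3 : 3 ≤ Fintype.card K := by
            by_contra hcon
            have hc2 : Fintype.card K = 2 := by omega
            exact h2 (by
              have h4 := FiniteField.cast_card_eq_zero K
              rw [hc2] at h4
              exact_mod_cast h4)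
          rcases eq_or_lt_of_le hl2 with h | h
          · exact Or.inr (Or.inl ⟨h.symm, h3⟩)
          · exact Or.inl h)] at h1
        exact MonoidHom.ext fun s => MonoidHom.mem_ker.mp (h1 (Subgroup.mem_top s))
      exact congrArg Units.val (DFunLike.congr_fun hf s)
    · intro y hy hodd
      obtain ⟨m, τ, c, hc, hm, hconj, hone⟩ := hdata y hy hodd
      let L : (Fin l ⊕ Fin l → K) → (Fin l ⊕ Fin l → K) :=
        fun w => Θ.symm (m.1 *ᵥ (⇑τ ∘ Θ w))
      let f : (Fin l ⊕ Fin l → K) →ₗ[K] (Fin l ⊕ Fin l → K) :=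
        { toFun := fun w => L (⇑τ.symm ∘ w)
          map_add' := fun w w' => by
            simp only [L, LinHelp.comp_add, map_add, Matrix.mulVec_add]
          map_smul' := fun k w => by
            simp only [L, LinHelp.comp_smul, map_smul, Matrix.mulVec_smul, RingHom.id_apply,
              RingEquiv.apply_symm_apply] }
      have hfinj : Function.Injective f := fun w w' h => by
        have h1 := congrArg (fun z => (m⁻¹).1 *ᵥ z) (Θ.symm.injective h)
        simp only [Matrix.mulVec_mulVec, ← Units.val_mul, inv_mul_cancel, Units.val_one,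
          Matrix.one_mulVec] at h1
        have h2 := Θ.injective (funext fun i => τ.injective (congrFun h1 i))
        exact funext fun i => τ.symm.injective (congrFun h2 i)
      let fe := LinearEquiv.ofInjectiveEndo f hfinj
      have hgm : (toGL fe : GL (Fin l ⊕ Fin l) K) ∈ Cfsg.GSp l K := by
        refine ⟨Units.mk0 c hc, fun w w' => ?_⟩
        rw [toGL_mulVec, toGL_mulVec]
        show Cfsg.sympForm l K (L _) (L _) = c * _
        rw [← hΘB, LinearEquiv.apply_symm_apply, LinearEquiv.apply_symm_apply, bf_of_semi hm, hΘB,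
          ← Symp.sympForm_map, Symp.comp_symm, Symp.comp_symm]
      refine ⟨⟨toGL fe, hgm⟩, τ, fun s => hconj _ _ (Units.ext (Forms.matrix_ext_mulVec fun z => ?_)),
        ?_⟩
      · obtain ⟨z, rfl⟩ : ∃ z', m.1 *ᵥ (⇑τ ∘ Θ z') = z := by
          refine ⟨Θ.symm (⇑τ.symm ∘ ((m⁻¹).1 *ᵥ z)), ?_⟩
          rw [LinearEquiv.apply_symm_apply,
            show ⇑τ ∘ (⇑τ.symm ∘ ((m⁻¹).1 *ᵥ z)) = (m⁻¹).1 *ᵥ z from
              funext fun i => τ.apply_symm_apply _,
            Matrix.mulVec_mulVec, ← Units.val_mul, mul_inv_cancel, Units.val_one, Matrix.one_mulVec]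
        rw [hinc, hmk, hinc, LinearEquiv.symm_apply_apply]
        apply Θ.symm.injective
        rw [LinearEquiv.symm_apply_apply]
        have hL : ∀ w, (toGL fe : GL (Fin l ⊕ Fin l) K).1 *ᵥ (⇑τ ∘ w) = L w := fun w => by
          rw [toGL_mulVec]
          show L (⇑τ.symm ∘ (⇑τ ∘ w)) = L w
          rw [show ⇑τ.symm ∘ (⇑τ ∘ w) = w from funext fun i => τ.symm_apply_apply _]
        show ((toGL fe : GL (Fin l ⊕ Fin l) K).1 * s.1.map τ * (toGL fe)⁻¹.1) *ᵥ L z =
          L (s.1 *ᵥ z)
        rw [← hL, ← hL, ← Symp.map_mulVec, Matrix.mulVec_mulVec, Matrix.mulVec_mulVec,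
          Matrix.mul_assoc _ _ (toGL fe).1, ← Units.val_mul, inv_mul_cancel, Units.val_one,
          Matrix.mul_one]
      · rintro ⟨k, hk⟩ rfl
        refine hone rfl ⟨(k : K), fun z => ?_⟩
        have h1 : (toGL fe : GL (Fin l ⊕ Fin l) K).1 *ᵥ Θ.symm z = (k : K) • Θ.symm z := by
          rw [← Symp.sc_mulVec, hk]
        rw [toGL_mulVec] at h1
        have h3 : Θ (L (⇑(1 : K ≃+* K).symm ∘ Θ.symm z)) = Θ ((k : K) • Θ.symm z) :=
          congrArg Θ h1
        simp only [L, LinearEquiv.apply_symm_apply, map_smul] at h3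
        rw [show ⇑(1 : K ≃+* K).symm ∘ Θ.symm z = Θ.symm z from rfl,
          LinearEquiv.apply_symm_apply] at h3
        exact h3

end Cfsg.Agent.KnownB.Proj.Balance.GramDriver
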