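import Cfsg.Agent.KnownB.Proj.Balance.SympFix
import Cfsg.Agent.KnownB.Proj.Orth.TwistGen
import Cfsg.Agent.Forms.SympBridge
import Cfsg.Agent.Linear.Sp42
import Mathlib.FieldTheory.Finite.GaloisField
import Mathlib.GroupTheory.SpecificGroups.Alternating.Simple

/-! The balance criterion for the symplectic groups. -/

set_option autoImplicit false
set_option maxHeartbeats 1000000

namespace Cfsg.Agent.KnownB.Proj.Balance.Symplectic

open Matrix
open Cfsg.Agent.KnownB.Proj.Symp
open Cfsg.Agent.KnownB.AutPSL (fixSub mem_fixSub pow_coset)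
open Cfsg.Agent.KnownB.Proj.Orth (fixedF fixedF_spec)

universe u v

variable {m : ℕ}

theorem T_not_central {F : Type u} [Field F] {v : Fin m ⊕ Fin m → F} (hm : 1 ≤ m) (hv : v ≠ 0) :
    T v (1 : F) ∉ Subgroup.center (Matrix.symplecticGroup (Fin m) F) := fun h => by
  obtain ⟨k, -, hk⟩ := center_scalar hm h
  have h1 := hk v
  rw [T_mulVec, B_self, mul_zero, zero_smul, add_zero] at h1
  have hk1 : k = 1 := (smul_left_injective F hv ((one_smul F v).trans h1)).symm
  exact T_ne_one hv one_ne_zero (sp_ext fun x => by rw [hk, hk1, one_smul, sp_one_mulVec])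

theorem psp_nontrivial {F : Type u} [Field F] (hm : 1 ≤ m) : Nontrivial (Cfsg.PSp m F) :=
  have hv : (Pi.single (Sum.inl ⟨0, hm⟩) 1 : Fin m ⊕ Fin m → F) ≠ 0 := fun h =>
    one_ne_zero (α := F) (by simpa using congrFun h (Sum.inl ⟨0, hm⟩))
  ⟨⟨QuotientGroup.mk (T _ 1), 1, fun h => T_not_central hm hv ((QuotientGroup.eq_one_iff _).mp h)⟩⟩

/-- Minus one on a hyperbolic plane. -/
theorem exists_involution_psp {F : Type u} [Field F] (hm : 2 ≤ m) (h2 : (2 : F) ≠ 0) :
    ∃ z : Cfsg.PSp m F, orderOf z = 2 := by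
  classical
  let i₀ : Fin m := ⟨0, by omega⟩
  let d : Fin m → F := fun i => if i = i₀ then -1 else 1
  have hd : ∀ i, d i * d i = 1 := fun i => by by_cases h : i = i₀ <;> simp [d, h]
  let s : Matrix.symplecticGroup (Fin m) F := ⟨Matrix.diagonal (Sum.elim d d),
    Forms.mem_symplectic_iff.mpr fun u v => by
      simp only [Forms.sympForm_eq, Matrix.mulVec_diagonal, Sum.elim_inl, Sum.elim_inr]
      refine Finset.sum_congr rfl fun i _ => ?_
      linear_combination (u (Sum.inr i) * v (Sum.inl i) - u (Sum.inl i) * v (Sum.inr i)) * hd i⟩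
  refine ⟨QuotientGroup.mk s, orderOf_eq_prime ?_ ?_⟩
  · rw [← QuotientGroup.mk_pow, ← QuotientGroup.mk_one]
    refine congrArg QuotientGroup.mk (Subtype.ext ?_)
    rw [SubmonoidClass.coe_pow, Matrix.diagonal_pow, OneMemClass.coe_one, ← Matrix.diagonal_one]
    refine congrArg Matrix.diagonal (funext ?_)
    rintro (i | i) <;> simp [pow_two, hd]
  · intro h
    obtain ⟨k, -, hk⟩ := center_scalar (by omega) ((QuotientGroup.eq_one_iff s).mp h)
    let i₁ : Fin m := ⟨1, by omega⟩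
    have e0 := congrFun (hk (Pi.single (Sum.inl i₀) 1)) (Sum.inl i₀)
    have e1 := congrFun (hk (Pi.single (Sum.inl i₁) 1)) (Sum.inl i₁)
    simp [s, d, Matrix.mulVec_diagonal, i₀, i₁] at e0 e1
    exact h2 (by linear_combination e1 - e0)

theorem psp_four_two {F : Type u} [Field F] [Fintype F] (hF : Fintype.card F = 2) :
    Nonempty (Cfsg.PSp 2 F ≃* Equiv.Perm (Fin 6)) := by
  classical
  have hc : Fintype.card F = Fintype.card (ZMod 2) := by rw [hF, ZMod.card]
  let e : Matrix.symplecticGroup (Fin 2) F ≃* Equiv.Perm (Fin 6) :=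
    (Cfsg.Agent.Linear.spCongr (FiniteField.ringEquivOfCardEq hc)).trans
    (MulEquiv.ofBijective Cfsg.Agent.Linear.sixHom Cfsg.Agent.Linear.sixHom_bijective).symm
  have hbot : Subgroup.center (Matrix.symplecticGroup (Fin 2) F) = ⊥ := by
    refine Subgroup.card_eq_one.mp ?_
    rw [Forms.card_center_symplectic hF one_le_two]
    rfl
  exact ⟨(QuotientGroup.quotientMulEquivOfEq hbot).trans (QuotientGroup.quotientBot.trans e)⟩

/-- Normal subgroups of order prime to a divisor of the order. -/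
theorem normal_eq_bot {F : Type u} [Field F] [Fintype F] (hm : 2 ≤ m) {p : ℕ} (hp : p.Prime)
    (h2 : m = 2 → Fintype.card F = 2 → p ≠ 2) (hd : p ∣ Nat.card (Cfsg.PSp m F))
    (M : Subgroup (Cfsg.PSp m F)) (hM : M.Normal) (hMp : ¬ p ∣ Nat.card M) : M = ⊥ := by
  classical
  by_cases h : m = 2 ∧ Fintype.card F = 2
  · obtain ⟨rfl, hF⟩ := h
    obtain ⟨e⟩ := psp_four_two hF
    by_contra hne
    haveI hN : (M.map e.toMonoidHom).Normal := hM.map _ e.surjective
    have hnt : Nontrivial (M.map e.toMonoidHom) := (Subgroup.nontrivial_iff_ne_bot _).mpr fun h0 =>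
      hne ((Subgroup.map_eq_bot_iff_of_injective _ e.injective).mp h0)
    have h1 := Subgroup.card_dvd_of_le (Equiv.Perm.alternatingGroup_le_of_normal (α := Fin 6)
      (by simp) hnt)
    rw [Subgroup.card_map_of_injective e.injective] at h1
    refine hMp (Dvd.dvd.trans ?_ h1)
    have h3 : 2 * Nat.card (alternatingGroup (Fin 6)) = Nat.card (Cfsg.PSp 2 F) := by
      rw [two_mul_nat_card_alternatingGroup, ← Nat.card_congr e.toEquiv]
    rw [← h3] at hd
    exact (hp.dvd_mul.mp hd).resolve_left fun h4 =>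
      h2 rfl hF ((Nat.prime_dvd_prime_iff_eq hp Nat.prime_two).mp h4)
  · haveI := Forms.psp_simple (F := F) hm fun h2' => by
      have := Fintype.one_lt_card (α := F)
      by_contra hc
      exact h ⟨h2', by omega⟩
    refine (IsSimpleGroup.eq_bot_or_eq_top_of_normal M hM).resolve_right fun ht => hMp ?_
    rwa [ht, Subgroup.card_top]

/-- The criterion. -/
theorem balance {F : Type u} [Field F] [Fintype F] {r : ℕ} [Fact r.Prime] [CharP F r]
    (hm : 2 ≤ m) (A' : Subgroup (MulAut (Cfsg.PSp m F)))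
    (hinn : ∀ k : Cfsg.PSp m F, MulAut.conj k ∈ A') {p : ℕ} [Fact p.Prime] (hpr : p ≠ r)
    (x : MulAut (Cfsg.PSp m F)) (hord : orderOf x = p)
    (hnot : ¬ Cfsg.IsInnerDiagonalAutPSp x) :
    Cfsg.pPrimeCore p ↥(A' ⊓ Subgroup.centralizer {x}) ≠ ⊥ ↔ (Cfsg.IsFieldAutClassPSp x ∧
      Nat.Coprime p (Nat.card ↥(MonoidHom.eqLocus x.toMonoidHom
        (MonoidHom.id (Cfsg.PSp m F))))) := by
  classical
  have hp : p.Prime := Fact.out
  have hm1 : 1 ≤ m := by omega
  obtain ⟨g, σ, hxd⟩ := decomp_of_odd r hm x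
    (fun _ hr => hp.odd_of_ne_two (hr ▸ hpr)) (hord ▸ pow_orderOf_eq_one x)
  have hσ1 : σ ≠ 1 := fun h => hnot ((isInnerDiagonal_iff x).mpr
    ⟨g, by rw [hxd, h, map_one, mul_one]⟩)
  have hσp : orderOf σ = p := by
    refine orderOf_eq_prime ?_ hσ1
    have h := pow_orderOf_eq_one x
    rw [hord, hxd, pow_coset (mapGSp σ) (A m F) _ (Fd_A σ), ← map_pow,
      mul_eq_one_iff_inv_eq, ← map_inv] at h
    exact Forms.fd_eq_A_imp hm h.symm
  have tw := fieldTwist hm hp.pos hσp
  obtain ⟨c, hc⟩ := tw.coset_conj g (by rw [← hxd]; exact hord ▸ pow_orderOf_eq_one x)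
  set α := (A m F c)⁻¹ with hα
  have hx : α * x * α⁻¹ = Fd m F σ := by
    rw [hxd, hc, hα]; group
  have hfield : Cfsg.IsFieldAutClassPSp x :=
    ⟨α, σ, fun h => hσ1 h, (isStdField_iff σ _).mpr hx⟩
  rw [and_iff_right hfield]
  let F₀ := fixedF σ
  haveI : Fintype F₀ := Fintype.ofFinite _
  set j : F₀ →+* F := F₀.subtype with hjdef
  have hj : ∀ y : F, σ y = y ↔ y ∈ j.range := fixedF_spec σ
  have hτI : Fd m F σ ∉ Cfsg.Inn (Cfsg.PSp m F) := fun h => by
    rw [Inn_eq_map hm1] at h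
    obtain ⟨g', -, hg'⟩ := h
    exact hσ1 (Forms.fd_eq_A_imp hm hg'.symm)
  have hcenteq : ∀ y ∈ Cfsg.Inn (Cfsg.PSp m F) ⊓ Subgroup.centralizer {Fd m F σ},
      ∃ g₀, A m F (jG j g₀) = y := by
    intro y hy
    obtain ⟨hy1, hy2⟩ := Subgroup.mem_inf.mp hy
    rw [Inn_eq_map hm1] at hy1
    have hy' : y ∈ (A m F).range ⊓ Subgroup.centralizer {Fd m F σ} :=
      ⟨Subgroup.map_le_range _ _ hy1, hy2⟩
    rw [tw.centralizer_eq] at hy'
    obtain ⟨t, ht, rfl⟩ := hy'
    obtain ⟨g₀, rfl⟩ := exists_jG j hm1 hj (mem_fixSub.mp ht)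
    exact ⟨g₀, rfl⟩
  have e₀ : Cfsg.PSp m F₀ ≃* (Xi m j).range :=
    (QuotientGroup.quotientMulEquivOfEq (Xi_ker j hm).symm).trans
      (QuotientGroup.quotientKerEquivRange (Xi m j))
  haveI : Finite (MulAut (Cfsg.PSp m F)) :=
    Finite.of_injective (fun e : MulAut _ => (e : _ → _)) DFunLike.coe_injective
  refine balance_iff' (conj_injective hm) A' hinn hx hord hτI (Xi m j).range ?_ ?_ ?_ ?_ ?_
  · rintro _ ⟨s, rfl⟩
    refine Subgroup.mem_inf.mpr ⟨?_, ?_⟩
    · rw [Inn_eq_map hm1]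
      refine ⟨jG j (spInc s), ?_, rfl⟩
      show mult hm1 _ = 1
      rw [mult_jG j hm1, spInc_mult hm1, map_one]
    · rw [Subgroup.mem_centralizer_singleton_iff]
      show A m F (jG j (spInc s)) * Fd m F σ = Fd m F σ * A m F (jG j (spInc s))
      rw [Fd_A, mapGSp_jG j hj]
  · rintro y hy _ ⟨s, rfl⟩
    obtain ⟨g₀, rfl⟩ := hcenteq y hy
    refine ⟨conjSp g₀ s, ?_⟩
    show A m F (jG j _) = A m F (jG j g₀) * A m F (jG j _) * (A m F (jG j g₀))⁻¹
    rw [← map_mul, ← map_inv, ← map_mul, ← map_mul, ← map_inv, ← map_mul]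
    exact congrArg (fun z => A m F (jG j z)) (Subtype.ext (Units.ext rfl))
  · haveI := psp_nontrivial (F := F₀) hm1
    exact e₀.symm.toEquiv.nontrivial
  · intro hd M hM hMp
    have hd₀ : p ∣ Nat.card (Cfsg.PSp m F₀) := by
      by_cases h2 : p = 2
      · subst h2
        obtain ⟨z, hz⟩ := exists_involution_psp (F := F₀) hm (by
          intro h
          have h' : ((2 : ℕ) : F) = 0 := by
            have := congrArg j h
            rw [map_ofNat, map_zero] at this
            exact_mod_cast this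
          exact hpr ((Nat.prime_dvd_prime_iff_eq Fact.out Nat.prime_two).mp
            ((CharP.cast_eq_zero_iff F r 2).mp h')).symm)
        exact hz ▸ orderOf_dvd_natCard z
      · obtain ⟨z, hz⟩ := exists_prime_orderOf_dvd_card' (G := ↥(Cfsg.Inn (Cfsg.PSp m F) ⊓
          Subgroup.centralizer {Fd m F σ})) p hd
        obtain ⟨g₀, hg₀⟩ := hcenteq z.1 z.2
        obtain ⟨s, hs⟩ := exists_spInc hm1
          (g := g₀ * g₀ * sc m F₀ (mult hm1 g₀)⁻¹) (by
            rw [map_mul, map_mul, mult_sc, ← pow_two, inv_pow, mul_inv_cancel])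
        have h2' : z.1 ^ 2 = Xi m j s := by
          show _ = A m F (jG j (spInc s))
          rw [hs, map_mul, map_mul, map_mul, map_mul, hg₀, jG_sc,
            (A_eq_one_iff hm (sc m F _)).mpr ⟨_, rfl⟩, mul_one, pow_two]
        have ho : orderOf (z.1 ^ 2) = p := by
          rw [orderOf_pow', Subgroup.orderOf_coe, hz]
          · rw [((Nat.coprime_primes hp Nat.prime_two).mpr h2).gcd_eq_one, Nat.div_one]
          · norm_num
        rw [Nat.card_congr e₀.toEquiv, ← ho]
        have hmem : z.1 ^ 2 ∈ (Xi m j).range := ⟨s, h2'.symm⟩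
        have := orderOf_dvd_natCard (⟨z.1 ^ 2, hmem⟩ : (Xi m j).range)
        rwa [Subgroup.orderOf_mk] at this
    have h1 := normal_eq_bot hm hp (fun _ hF => ?_) hd₀ (M.map e₀.symm.toMonoidHom)
      (hM.map _ e₀.symm.surjective) (by rwa [Subgroup.card_map_of_injective e₀.symm.injective])
    · exact (Subgroup.map_eq_bot_iff_of_injective _ e₀.symm.injective).mp h1
    · haveI : CharP F₀ r := RingHom.charP j j.injective r
      have h2' : r = 2 := by
        have h3 : ((2 : ℕ) : F₀) = 0 := by rw [← hF]; exact FiniteField.cast_card_eq_zero F₀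
        exact (Nat.prime_dvd_prime_iff_eq Fact.out Nat.prime_two).mp
          ((CharP.cast_eq_zero_iff F₀ r 2).mp h3)
      exact h2' ▸ hpr
  · intro y _ hyk
    have hfix : ∀ v : Fin m ⊕ Fin m → F₀, v ≠ 0 →
        y (QuotientGroup.mk (T (⇑j ∘ v) 1)) = QuotientGroup.mk (T (⇑j ∘ v) 1) := by
      intro v _
      have hc' : Commute y (MulAut.conj (QuotientGroup.mk (T (⇑j ∘ v) 1) : Cfsg.PSp m F)) := by
        rw [← map_one j, mk_T_mem]
        exact hyk _ ⟨_, rfl⟩
      apply conj_injective hm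
      refine Eq.trans (MulEquiv.ext fun w => ?_) (mul_inv_eq_iff_eq_mul.mpr hc'.eq)
      show y _ * w * (y _)⁻¹ = y (_ * y⁻¹ w * _⁻¹)
      rw [map_mul, map_mul, map_inv, MulAut.apply_inv_self]
    obtain ⟨τ, hτ, rfl⟩ := eq_Fd_of_fix j r hm y hfix
    obtain ⟨i, hi⟩ := Balance.mem_zpowers_of_fix j hj hτ
    exact ⟨i, by rw [← hi]; exact (map_zpow (Fd m F) σ i).symm⟩

end Cfsg.Agent.KnownB.Proj.Balance.Symplectic
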