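import Cfsg.Agent.KnownB.Proj.Balance.Reflect
import Cfsg.Agent.KnownB.Proj.Balance.SympBalance

/-! The `2'`-core of the centraliser of a graph-type involution is trivial. -/

set_option autoImplicit false

namespace Cfsg.Agent.KnownB.Proj.Balance.Reflect

open Module
open Cfsg.Agent.Core

universe u v w

variable {G : Type w} [Group G] [Finite G]

theorem odd_orderOf_of_mem (M : Subgroup G) (hM : ¬ 2 ∣ Nat.card M) {y : G} (hy : y ∈ M) :
    Odd (orderOf y) := by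
  rw [← Nat.not_even_iff_odd, even_iff_two_dvd, ← Subgroup.orderOf_mk y hy]
  exact fun h => hM (h.trans (orderOf_dvd_natCard _))

theorem eq_one_of_sq {y : G} (hy : Odd (orderOf y)) (h : y * y = 1) : y = 1 := by
  have h1 := orderOf_dvd_of_pow_eq_one (show y ^ 2 = 1 by rw [pow_two, h])
  rcases (Nat.dvd_prime Nat.prime_two).mp h1 with h2 | h2
  · exact orderOf_eq_one_iff.mp h2
  · rw [h2] at hy
    exact absurd hy (by decide)

/-- The criterion for forms with reflections. -/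
theorem core_eq_bot_herm {K : Type u} [Field K] [Finite K] {V : Type v} [AddCommGroup V]
    [Module K V] [FiniteDimensional K V] (D : Herm K V) (A I : Subgroup G) [I.Normal]
    (hIA : I ≤ A) (x : G) (Φ : D.U →* G)
    (hker : ∀ h, Φ h = 1 → ∃ k : K, ∀ z, h.1 z = k • z)
    (hcomm : ∀ h, Commute (Φ h) x)
    (hplane : ∀ (a b : V) (ha : D.H a a ≠ 0) (hb : D.H b b ≠ 0), D.H a b = 0 →
      Φ (D.refl ha * D.refl hb) ∈ I)
    (hdata : ∀ y, Commute y x → Odd (orderOf y) → ∃ S : D.Semi,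
      (∀ h, y * Φ h * y⁻¹ = Φ (S.conj h)) ∧
        (S.τ = 1 → ∀ k : K, (∀ z, S.L z = k • z) → y = 1)) :
    Cfsg.pPrimeCore 2 ↥(A ⊓ Subgroup.centralizer {x}) = ⊥ := by
  haveI : Fact (Nat.Prime 2) := ⟨Nat.prime_two⟩
  set C := A ⊓ Subgroup.centralizer {x} with hC
  set E := I ⊓ Subgroup.centralizer {x} with hE
  have hEC : E ≤ C := inf_le_inf_right _ hIA
  have hIn : I.Normal := inferInstance
  set M := (Cfsg.pPrimeCore 2 E).map E.subtype with hM
  have hMp : ¬ 2 ∣ Nat.card M := by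
    rw [hM, Subgroup.card_map_of_injective E.subtype_injective]
    exact not_dvd_card_pPrimeCore 2 E
  have hME : M ≤ E := Subgroup.map_subtype_le _
  have hEconj : ∀ g, Commute g x → ∀ e ∈ E, g * e * g⁻¹ ∈ E := fun g hg e he => by
    obtain ⟨he1, he2⟩ := Subgroup.mem_inf.mp he
    refine Subgroup.mem_inf.mpr ⟨hIn.conj_mem e he1 g, ?_⟩
    have hg' : g ∈ Subgroup.centralizer {x} := Subgroup.mem_centralizer_singleton_iff.mpr hg
    exact mul_mem (mul_mem hg' he2) (inv_mem hg')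
  have hle : ∀ L : Subgroup G, L ≤ E → (∀ e ∈ E, ∀ l ∈ L, e * l * e⁻¹ ∈ L) → ¬ 2 ∣ Nat.card L →
      L ≤ M := fun L hL hLn hLp l hl => by
    refine ⟨⟨l, hL hl⟩, ?_, rfl⟩
    have h1 : (L.subgroupOf E).Normal := ⟨fun n hn e => hLn e e.2 n hn⟩
    refine le_pPrimeCore h1 ?_ hl
    rw [Nat.card_congr (Subgroup.subgroupOfEquivOfLe hL).toEquiv]
    exact ((Nat.prime_two).coprime_iff_not_dvd.mpr hLp).symm
  have hMn : ∀ e ∈ E, ∀ l ∈ M, e * l * e⁻¹ ∈ M := by
    rintro e he _ ⟨n, hn, rfl⟩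
    exact ⟨⟨e, he⟩ * n * ⟨e, he⟩⁻¹,
      (inferInstance : (Cfsg.pPrimeCore 2 E).Normal).conj_mem n hn ⟨e, he⟩, rfl⟩
  have hMC : ∀ g, Commute g x → ∀ l ∈ M, g * l * g⁻¹ ∈ M := fun g hg l hl => by
    refine hle (M.map (MulAut.conj g).toMonoidHom) ?_ ?_ ?_ ⟨l, hl, rfl⟩
    · rintro _ ⟨n, hn, rfl⟩
      exact hEconj g hg n (hME hn)
    · rintro e he _ ⟨n, hn, rfl⟩
      refine ⟨g⁻¹ * e * g * n * (g⁻¹ * e * g)⁻¹, hMn _ ?_ n hn, ?_⟩
      · simpa using hEconj g⁻¹ hg.inv_left e he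
      · show g * _ * g⁻¹ = e * (g * n * g⁻¹) * e⁻¹
        group
    · rwa [Subgroup.card_map_of_injective (MulAut.conj g).injective]
  -- the core of the inner centraliser is trivial
  have hM1 : ∀ y ∈ M, y = 1 := by
    intro y hy
    have hyx : Commute y x := Subgroup.mem_centralizer_singleton_iff.mp (hME hy).2
    obtain ⟨S, hS, hone⟩ := hdata y hyx (odd_orderOf_of_mem M hMp hy)
    obtain ⟨hτ, k, hk⟩ := D.scalar_of_points S.L.toAddMonoidHom S.τ S.smul
      (fun ha => D.ne_zero (S.ne ha)) fun a ha =>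
      D.points Φ hker M (Nat.not_even_iff_odd.mp fun h => hMp (even_iff_two_dvd.mp h))
        (fun b hb n hn => hMC _ (hcomm _) n hn) hy S hS ha
    exact hone hτ k hk
  set N := (Cfsg.pPrimeCore 2 C).map C.subtype with hN
  have hNp : ¬ 2 ∣ Nat.card N := by
    rw [hN, Subgroup.card_map_of_injective C.subtype_injective]
    exact not_dvd_card_pPrimeCore 2 C
  have hNC : N ≤ C := Subgroup.map_subtype_le _
  have hNn : ∀ c ∈ C, ∀ n ∈ N, c * n * c⁻¹ ∈ N := by
    rintro c hc _ ⟨n, hn, rfl⟩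
    exact ⟨⟨c, hc⟩ * n * ⟨c, hc⟩⁻¹,
      (inferInstance : (Cfsg.pPrimeCore 2 C).Normal).conj_mem n hn ⟨c, hc⟩, rfl⟩
  have hNE : ∀ n ∈ N, n ∈ E → n = 1 := fun n hn hnE => by
    refine hM1 n (hle (N ⊓ E) inf_le_right ?_ ?_ ⟨hn, hnE⟩)
    · intro e he l hl
      obtain ⟨hl1, hl2⟩ := Subgroup.mem_inf.mp hl
      exact Subgroup.mem_inf.mpr ⟨hNn e (hEC he) l hl1, mul_mem (mul_mem he hl2) (inv_mem he)⟩
    · exact fun h => hNp (h.trans (Subgroup.card_dvd_of_le inf_le_left))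
  suffices h1 : ∀ y ∈ N, y = 1 by
    have h2 : N = ⊥ := (Subgroup.eq_bot_iff_forall N).mpr h1
    exact (Subgroup.map_eq_bot_iff_of_injective _ C.subtype_injective).mp h2
  intro y hy
  have hyx : Commute y x := Subgroup.mem_centralizer_singleton_iff.mp (hNC hy).2
  have hodd := odd_orderOf_of_mem N hNp hy
  have hfix : ∀ (a b : V) (ha : D.H a a ≠ 0) (hb : D.H b b ≠ 0), D.H a b = 0 →
      Commute y (Φ (D.refl ha * D.refl hb)) := fun a b ha hb hab => by
    set t := Φ (D.refl ha * D.refl hb)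
    have htE : t ∈ E := Subgroup.mem_inf.mpr
      ⟨hplane a b ha hb hab, Subgroup.mem_centralizer_singleton_iff.mpr (hcomm _)⟩
    have h1 : y * t * y⁻¹ * t⁻¹ ∈ N := by
      simpa [mul_assoc] using mul_mem hy (hNn t (hEC htE) _ (inv_mem hy))
    have h2 := hNE _ h1 (mul_mem (hEconj y hyx t htE) (inv_mem htE))
    rwa [mul_inv_eq_one, mul_inv_eq_iff_eq_mul] at h2
  obtain ⟨S, hS, -⟩ := hdata y hyx hodd
  obtain ⟨S', hS', hone⟩ := hdata (y * y) (hyx.mul_left hyx) (by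
    exact odd_orderOf_of_mem N hNp (mul_mem hy hy))
  obtain ⟨hτ, k, hk⟩ := D.scalar_of_points S'.L.toAddMonoidHom S'.τ S'.smul
    (fun ha => D.ne_zero (S'.ne ha)) fun a ha => by
      have e : Φ (D.refl (S.ne (S.ne ha))) = Φ (D.refl (S'.ne ha)) := by
        rw [← S.conj_refl (S.ne ha), ← S.conj_refl ha, ← hS, ← hS, ← S'.conj_refl ha, ← hS']
        group
      obtain ⟨l, hl⟩ := D.par_of_refl_eq Φ hker _ _ e
      obtain ⟨l', hl'⟩ := D.plane_sq Φ hker y S hS hfix ha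
      exact ⟨l * l', by show S'.L a = _; rw [hl, hl', smul_smul]⟩
  exact eq_one_of_sq hodd (hone hτ k hk)

/-- The criterion for alternating forms. -/
theorem core_eq_bot_symp {K : Type u} [Field K] [Fintype K] {m : ℕ} (hm : 2 ≤ m)
    (h2 : (2 : K) ≠ 0) (A I : Subgroup G) (hIA : I ≤ A) (x : G)
    (Φ : Matrix.symplecticGroup (Fin m) K →* G)
    (hker : Φ.ker = Subgroup.center (Matrix.symplecticGroup (Fin m) K))
    (hcomm : ∀ s, Commute (Φ s) x) (hinn : ∀ s, Φ s ∈ I)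
    (hdata : ∀ y, Commute y x → Odd (orderOf y) →
      ∃ (g : Cfsg.GSp m K) (τ : K ≃+* K),
        (∀ s, y * Φ s * y⁻¹ = Φ (Symp.conjSp g (Symp.fieldSp τ s))) ∧
          (g ∈ (Symp.sc m K).range → τ = 1 → y = 1)) :
    Cfsg.pPrimeCore 2 ↥(A ⊓ Subgroup.centralizer {x}) = ⊥ := by
  classical
  haveI : Fact (Nat.Prime 2) := ⟨Nat.prime_two⟩
  obtain ⟨r, hr⟩ := CharP.exists K
  obtain ⟨f, hrp, hf⟩ := FiniteField.card K r
  haveI := Fact.mk hrp
  have h3 : 3 ≤ Fintype.card K := by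
    have h1 := Fintype.one_lt_card (α := K)
    by_contra hc
    have hc2 : Fintype.card K = 2 := by omega
    exact h2 (by
      have h4 := FiniteField.cast_card_eq_zero K
      rw [hc2] at h4
      exact_mod_cast h4)
  set C := A ⊓ Subgroup.centralizer {x} with hC
  have hΦC : ∀ s, Φ s ∈ C := fun s =>
    Subgroup.mem_inf.mpr ⟨hIA (hinn s), Subgroup.mem_centralizer_singleton_iff.mpr (hcomm s)⟩
  have e₀ : Cfsg.PSp m K ≃* Φ.range :=
    (QuotientGroup.quotientMulEquivOfEq hker.symm).trans (QuotientGroup.quotientKerEquivRange Φ)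
  set N := (Cfsg.pPrimeCore 2 C).map C.subtype with hN
  have hNp : ¬ 2 ∣ Nat.card N := by
    rw [hN, Subgroup.card_map_of_injective C.subtype_injective]
    exact not_dvd_card_pPrimeCore 2 C
  have hNC : N ≤ C := Subgroup.map_subtype_le _
  have hNn : ∀ c ∈ C, ∀ n ∈ N, c * n * c⁻¹ ∈ N := by
    rintro c hc _ ⟨n, hn, rfl⟩
    exact ⟨⟨c, hc⟩ * n * ⟨c, hc⟩⁻¹,
      (inferInstance : (Cfsg.pPrimeCore 2 C).Normal).conj_mem n hn ⟨c, hc⟩, rfl⟩
  obtain ⟨z, hz⟩ := Symplectic.exists_involution_psp (F := K) hm h2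
  have hbot : ∀ s, Φ s ∈ N → Φ s = 1 := by
    have h1 := Symplectic.normal_eq_bot (F := K) hm Nat.prime_two (fun _ h => absurd h (by omega))
      (hz ▸ orderOf_dvd_natCard z) ((N.subgroupOf Φ.range).map e₀.symm.toMonoidHom)
      ((⟨fun n hn g => by
        obtain ⟨s, hs⟩ := g.2
        rw [Subgroup.mem_subgroupOf] at hn ⊢
        simpa using hNn g.1 (hs ▸ hΦC s) _ hn⟩ : (N.subgroupOf Φ.range).Normal).map _
          e₀.symm.surjective) (by
        rw [Subgroup.card_map_of_injective e₀.symm.injective,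
          ← Subgroup.card_map_of_injective Φ.range.subtype_injective,
          Subgroup.subgroupOf_map_subtype]
        exact fun h => hNp (h.trans (Subgroup.card_dvd_of_le inf_le_left)))
    have h2 := (Subgroup.map_eq_bot_iff_of_injective _ e₀.symm.injective).mp h1
    intro s hs
    have h3 : (⟨Φ s, s, rfl⟩ : Φ.range) ∈ N.subgroupOf Φ.range := hs
    rw [h2, Subgroup.mem_bot] at h3
    exact congrArg Subtype.val h3
  suffices h1 : ∀ y ∈ N, y = 1 by
    have h2 : N = ⊥ := (Subgroup.eq_bot_iff_forall N).mpr h1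
    exact (Subgroup.map_eq_bot_iff_of_injective _ C.subtype_injective).mp h2
  intro y hy
  obtain ⟨g, τ, hy', hone⟩ := hdata y (Subgroup.mem_centralizer_singleton_iff.mp (hNC hy).2)
    (odd_orderOf_of_mem N hNp hy)
  have hfix : ∀ s, Φ (Symp.conjSp g (Symp.fieldSp τ s)) = Φ s := fun s => by
    have h1 : y * Φ s * y⁻¹ * (Φ s)⁻¹ ∈ N := by
      simpa [mul_assoc] using mul_mem hy (hNn _ (hΦC s) _ (inv_mem hy))
    have h4 := hbot (Symp.conjSp g (Symp.fieldSp τ s) * s⁻¹) (by rwa [map_mul, map_inv, ← hy'])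
    rwa [map_mul, map_inv, mul_inv_eq_one] at h4
  obtain ⟨τ', hτ', he⟩ := Symplectic.eq_Fd_of_fix (RingHom.id K) r hm
    (Symp.A m K g * Symp.Fd m K τ) fun v _ => by
      show QuotientGroup.mk (Symp.conjSp g (Symp.fieldSp τ (Symp.T (⇑(RingHom.id K) ∘ v) 1))) = _
      rw [QuotientGroup.eq, ← hker, MonoidHom.mem_ker, map_mul, map_inv, hfix, inv_mul_cancel]
  have hτ1 : τ' = 1 := RingEquiv.ext hτ'
  rw [hτ1, map_one] at he
  have hFd : Symp.Fd m K τ = Symp.A m K g⁻¹ := by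
    rw [map_inv]; exact eq_inv_of_mul_eq_one_right he
  have hτ := Forms.fd_eq_A_imp hm hFd
  rw [hτ, map_one, mul_one, Symp.A_eq_one_iff hm] at he
  exact hone he hτ

end Cfsg.Agent.KnownB.Proj.Balance.Reflect
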