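import Cfsg.Agent.KnownB.Proj.Balance.GraphDriver
import Cfsg.Agent.KnownB.AutPSL.Classes
import Mathlib.LinearAlgebra.Matrix.SchurComplement
import Mathlib.LinearAlgebra.Matrix.Nondegenerate

/-! Matrices of linear equivalences, and hermitian forms given by matrices. -/

set_option autoImplicit false

namespace Cfsg.Agent.KnownB.Proj.Balance.LinHelp

open Matrix

universe u

variable {F : Type u} [Field F] {ι : Type} [Fintype ι] [DecidableEq ι]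

/-- The matrix of a linear automorphism. -/
noncomputable def toGL : ((ι → F) ≃ₗ[F] (ι → F)) →* GL ι F :=
  (Units.map (LinearMap.toMatrixAlgEquiv' (R := F) (n := ι)).toMonoidHom).comp
    (LinearMap.GeneralLinearGroup.generalLinearEquiv F (ι → F)).symm.toMonoidHom

theorem toGL_mulVec (h : (ι → F) ≃ₗ[F] (ι → F)) (x : ι → F) :
    ((toGL h : GL ι F) : Matrix ι ι F) *ᵥ x = h x := by
  show LinearMap.toMatrixAlgEquiv' (h : (ι → F) →ₗ[F] (ι → F)) *ᵥ x = h x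
  rw [← Matrix.toLinAlgEquiv'_apply, Matrix.toLinAlgEquiv'_toMatrixAlgEquiv']
  rfl

theorem map_mulVec (σ : F ≃+* F) (M : Matrix ι ι F) (x : ι → F) :
    M.map σ *ᵥ (⇑σ ∘ x) = ⇑σ ∘ (M *ᵥ x) := by
  funext i
  simp [Matrix.mulVec, dotProduct, map_sum]

theorem comp_dot (σ : F ≃+* F) (x y : ι → F) :
    (⇑σ ∘ x) ⬝ᵥ (⇑σ ∘ y) = σ (x ⬝ᵥ y) := by
  simp [dotProduct, map_sum]

theorem comp_add (σ : F ≃+* F) (x y : ι → F) : ⇑σ ∘ (x + y) = ⇑σ ∘ x + ⇑σ ∘ y :=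
  funext fun i => map_add σ _ _

theorem comp_smul (σ : F ≃+* F) (k : F) (x : ι → F) : ⇑σ ∘ (k • x) = σ k • (⇑σ ∘ x) :=
  funext fun i => map_mul σ _ _

theorem comp_single (σ : F ≃+* F) (i : ι) :
    ⇑σ ∘ (Pi.single i (1 : F) : ι → F) = Pi.single i 1 := by
  funext l; by_cases hl : l = i <;> simp [hl]

/-- The sesquilinear form of a matrix. -/
def bf (σ : F ≃+* F) (J : Matrix ι ι F) (x y : ι → F) : F := (⇑σ ∘ x) ⬝ᵥ (J *ᵥ y)

theorem bf_single (σ : F ≃+* F) (J : Matrix ι ι F) (i k : ι) :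
    bf σ J (Pi.single i 1) (Pi.single k 1) = J i k := by
  rw [bf, comp_single, single_dotProduct, one_mul]
  simp [Matrix.mulVec_single_one, Matrix.col_apply]

theorem bf_map (σ τ : F ≃+* F) (hc : ∀ a, σ (τ a) = τ (σ a)) (J g : Matrix ι ι F)
    (x y : ι → F) :
    bf σ J (g *ᵥ (⇑τ ∘ x)) (g *ᵥ (⇑τ ∘ y)) =
      (⇑τ ∘ (⇑σ ∘ x)) ⬝ᵥ (((g.map σ).transpose * J * g) *ᵥ (⇑τ ∘ y)) := by
  rw [bf, ← map_mulVec]
  rw [show ⇑σ ∘ (⇑τ ∘ x) = ⇑τ ∘ (⇑σ ∘ x) from funext fun i => hc _]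
  rw [Matrix.mul_assoc, ← Matrix.mulVec_mulVec, ← Matrix.mulVec_mulVec,
    Matrix.dotProduct_mulVec _ (g.map σ).transpose, Matrix.vecMul_transpose]

theorem bf_semi (σ τ : F ≃+* F) (hc : ∀ a, σ (τ a) = τ (σ a)) (J g : Matrix ι ι F) (u : F)
    (h : (g.map σ).transpose * J * g = u • J.map τ) (x y : ι → F) :
    bf σ J (g *ᵥ (⇑τ ∘ x)) (g *ᵥ (⇑τ ∘ y)) = u * τ (bf σ J x y) := by
  rw [bf_map σ τ hc, h, Matrix.smul_mulVec, dotProduct_smul, map_mulVec, comp_dot, smul_eq_mul]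
  rfl

theorem eq_of_bf (σ : F ≃+* F) (J g : Matrix ι ι F)
    (h : ∀ x y, bf σ J (g *ᵥ x) (g *ᵥ y) = bf σ J x y) :
    (g.map σ).transpose * J * g = J := by
  refine Matrix.ext fun i k => ?_
  have h1 := bf_map σ 1 (fun a => rfl) J g (Pi.single i 1) (Pi.single k 1)
  simp only [comp_single] at h1
  rw [single_dotProduct, one_mul, h, bf_single] at h1
  rw [h1]
  simp [Matrix.mulVec_single_one, Matrix.col_apply]

end Cfsg.Agent.KnownB.Proj.Balance.LinHelp
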