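import Cfsg.Agent.KnownB.Proj.Balance.OrthGraphBase
import Mathlib.Algebra.QuadraticAlgebra.Basic

/-! The centraliser of a self-adjoint similarity of non-square square: a form over the quadratic
extension. -/

set_option autoImplicit false
set_option maxHeartbeats 1000000

namespace Cfsg.Agent.KnownB.Proj.Balance.OrthGraph

open Matrix Module
open Cfsg.Agent.KnownB.Proj.Orth
open Cfsg.Agent.KnownB.Proj.Balance.Reflect (Herm)

universe u

variable {ι : Type} [Fintype ι] [DecidableEq ι] {F : Type u} [Field F] [Fintype F]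
  {Q : QuadraticForm F (ι → F)}

/-- A self-adjoint map of non-square square. -/
structure Nonsplit (Q : QuadraticForm F (ι → F)) (c : F) where
  h2 : (2 : F) ≠ 0
  hG : Good Q
  g : GO Q
  sq : ∀ v, (g.1 : Matrix ι ι F) *ᵥ ((g.1 : Matrix ι ι F) *ᵥ v) = c • v
  adj : ∀ u v, QuadraticMap.polar ⇑Q ((g.1 : Matrix ι ι F) *ᵥ u) v =
    QuadraticMap.polar ⇑Q u ((g.1 : Matrix ι ι F) *ᵥ v)

namespace Nonsplit

variable {c : F} (N : Nonsplit Q c)

/-- The similarity as a linear map. -/
def T : (ι → F) →ₗ[F] (ι → F) := (N.g.1 : Matrix ι ι F).mulVecLin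

theorem TT (v : ι → F) : N.T (N.T v) = c • v := N.sq v

theorem T_adj (u v : ι → F) :
    QuadraticMap.polar ⇑Q (N.T u) v = QuadraticMap.polar ⇑Q u (N.T v) := N.adj u v

/-- The quadratic extension. -/
abbrev E (c : F) : Type u := QuadraticAlgebra F c 0

variable [Fact (∀ r : F, r ^ 2 ≠ c + 0 * r)]

theorem c_ne : c ≠ 0 := fun h =>
  (Fact.out : ∀ r : F, r ^ 2 ≠ c + 0 * r) 0 (by rw [h]; ring)

theorem finite_E : Finite (E c) := Finite.of_equiv _ (QuadraticAlgebra.equivProd c 0).symm

/-- The vector space over the extension. -/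
@[reducible]
noncomputable def moduleE : Module (E c) (ι → F) where
  smul e v := e.re • v + e.im • N.T v
  one_smul v := by
    show (1 : E c).re • v + (1 : E c).im • N.T v = v
    simp [QuadraticAlgebra.re_one, QuadraticAlgebra.im_one]
  mul_smul e e' v := by
    show (e * e').re • v + (e * e').im • N.T v =
      e.re • (e'.re • v + e'.im • N.T v) + e.im • N.T (e'.re • v + e'.im • N.T v)
    rw [map_add, map_smul, map_smul, TT, QuadraticAlgebra.re_mul, QuadraticAlgebra.im_mul]
    module
  smul_zero e := by
    show e.re • (0 : ι → F) + e.im • N.T 0 = 0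
    simp
  smul_add e u v := by
    show e.re • (u + v) + e.im • N.T (u + v) = e.re • u + e.im • N.T u + (e.re • v + e.im • N.T v)
    rw [map_add]
    module
  add_smul e e' v := by
    show (e + e').re • v + (e + e').im • N.T v = e.re • v + e.im • N.T v + (e'.re • v + e'.im • N.T v)
    rw [QuadraticAlgebra.re_add, QuadraticAlgebra.im_add]
    module
  zero_smul v := by
    show (0 : E c).re • v + (0 : E c).im • N.T v = 0
    simp

theorem smul_def (e : E c) (v : ι → F) :
    letI := N.moduleE
    e • v = e.re • v + e.im • N.T v := rfl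

theorem C_smul (k : F) (v : ι → F) :
    letI := N.moduleE
    (QuadraticAlgebra.C k : E c) • v = k • v := by
  letI := N.moduleE
  rw [smul_def, QuadraticAlgebra.re_C, QuadraticAlgebra.im_C, zero_smul, add_zero]

theorem root_smul (v : ι → F) :
    letI := N.moduleE
    (⟨0, 1⟩ : E c) • v = N.T v := by
  letI := N.moduleE
  rw [smul_def, zero_smul, zero_add, one_smul]

/-- The symmetric form over the extension. -/
noncomputable def DE {k : ℕ} (hk : Fintype.card ι = 2 * k) :
    letI := N.moduleE
    Herm (E c) (ι → F) :=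
  letI := N.moduleE
  { σ := 1
    invol := fun _ => rfl
    H := fun u v => ⟨QuadraticMap.polar ⇑Q u v, QuadraticMap.polar ⇑Q u (N.T v) / c⟩
    add_right := fun u x y => by
      refine QuadraticAlgebra.ext ?_ ?_
      · simp [B_add_right]
      · simp [B_add_right, add_div]
    smul_right := fun u e x => by
      have hc := c_ne (c := c)
      rw [smul_def]
      refine QuadraticAlgebra.ext ?_ ?_
      · rw [QuadraticAlgebra.re_mul, B_add_right, B_smul_right, B_smul_right]
        field_simp
      · simp only [QuadraticAlgebra.im_mul, map_add, map_smul, TT, B_add_right, B_smul_right]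
        field_simp
        ring
    symm := fun u x => by
      refine QuadraticAlgebra.ext ?_ ?_
      · exact B_comm u x
      · show QuadraticMap.polar ⇑Q u (N.T x) / c = QuadraticMap.polar ⇑Q x (N.T u) / c
        rw [← N.T_adj x u, B_comm]
    nd := fun x hx => N.hG.nd.2 x fun u => congrArg QuadraticAlgebra.re (hx u)
    two := fun h => N.h2 (by
      have e : ((1 : E c) + 1).re = (0 : E c).re := by
        rw [show (1 : E c) + 1 = 2 by norm_num, h]
      rw [QuadraticAlgebra.re_add, QuadraticAlgebra.re_one, QuadraticAlgebra.re_zero] at e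
      linear_combination e)
    dim := by
      have hst : IsScalarTower F (E c) (ι → F) := ⟨fun r e v => by
        rw [smul_def, smul_def, QuadraticAlgebra.re_smul, QuadraticAlgebra.im_smul]
        module⟩
      have h := Module.finrank_mul_finrank F (E c) (ι → F)
      rw [QuadraticAlgebra.finrank_eq_two, Module.finrank_fintype_fun_eq_card, hk] at h
      have h7 := N.hG.dim
      rw [Module.finrank_fintype_fun_eq_card, hk] at h7
      omega }

variable {k : ℕ} (hk : Fintype.card ι = 2 * k)

/-- The isometries over the extension as isometries over `F`. -/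
noncomputable def res :
    letI := N.moduleE
    (N.DE hk).U →* (form N.h2 N.hG).U :=
  letI := N.moduleE
  { toFun := fun h =>
      ⟨{ toFun := h.1
         invFun := h.1.symm
         left_inv := h.1.symm_apply_apply
         right_inv := h.1.apply_symm_apply
         map_add' := map_add h.1
         map_smul' := fun a v => by
           rw [← N.C_smul, map_smul, N.C_smul, RingHom.id_apply] },
        fun x y => congrArg QuadraticAlgebra.re (h.2 x y)⟩
    map_one' := (form N.h2 N.hG).U_ext fun _ => rfl
    map_mul' := fun _ _ => (form N.h2 N.hG).U_ext fun _ => rfl }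

theorem res_T :
    letI := N.moduleE
    ∀ (h : (N.DE hk).U) (v : ι → F), (N.res hk h).1 (N.T v) = N.T ((N.res hk h).1 v) := by
  letI := N.moduleE
  intro h v
  rw [← N.root_smul v, ← N.root_smul ((N.res hk h).1 v)]
  exact map_smul h.1 _ v

/-- The action of the isometries over the extension. -/
noncomputable def Φ :
    letI := N.moduleE
    (N.DE hk).U →* MulAut (Cfsg.POmega F ⇑Q) :=
  letI := N.moduleE
  (phi N.h2 N.hG).comp (N.res hk)

theorem Φ_commute :
    letI := N.moduleE
    ∀ h : (N.DE hk).U, Commute (N.Φ hk h) (A Q N.g) := by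
  letI := N.moduleE
  exact fun h => phi_commute N.h2 N.hG fun v => N.res_T hk h v

include hk in
/-- The two steps. -/
theorem steps [Finite (MulAut (Cfsg.POmega F ⇑Q))] {y : MulAut (Cfsg.POmega F ⇑Q)}
    (hodd : Odd (orderOf y)) (hyc : Commute y (A Q N.g))
    (h : (∃ M : Subgroup (MulAut (Cfsg.POmega F ⇑Q)), ¬ 2 ∣ Nat.card M ∧
        (∀ g, Commute g (A Q N.g) → ∀ l ∈ M, g * l * g⁻¹ ∈ M) ∧ y ∈ M) ∨
      ∀ e ∈ Cfsg.Inn (Cfsg.POmega F ⇑Q) ⊓ Subgroup.centralizer {A Q N.g}, Commute y e) :
    y = 1 := by
  letI := N.moduleE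
  haveI := finite_E (c := c)
  haveI : Module.Finite (E c) (ι → F) := Module.Finite.of_finite
  have hc0 := c_ne (c := c)
  obtain ⟨S, hS⟩ := exists_data N.hG y
  obtain ⟨u, hu⟩ := exists_twist N.hG hS hyc
  have hu' : ∀ v, S.L (N.T v) = (u : F) • N.T (S.L v) := hu
  have huc : (u : F) * u * c = S.σ c := by
    obtain ⟨v, hv⟩ := exists_Q_one N.hG
    have hv0 : S.L v ≠ 0 := by
      rw [ne_eq, S.L.map_eq_zero_iff]
      rintro rfl
      rw [QuadraticMap.map_zero] at hv
      exact zero_ne_one hv
    refine smul_left_injective F hv0 ?_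
    show ((u : F) * u * c) • S.L v = S.σ c • S.L v
    rw [← S.map_smul', ← N.TT v, hu', hu', map_smul, N.TT, smul_smul, smul_smul]
  let f : E c →+* E c :=
    { toFun := fun e => ⟨S.σ e.re, S.σ e.im * (u : F)⟩
      map_one' := QuadraticAlgebra.ext (by simp [QuadraticAlgebra.re_one])
        (by simp [QuadraticAlgebra.im_one])
      map_mul' := fun e e' => QuadraticAlgebra.ext
        (by simp only [QuadraticAlgebra.re_mul, map_add, map_mul, map_zero, mul_zero, zero_mul]
            linear_combination -(S.σ e.im * S.σ e'.im) * huc)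
        (by simp only [QuadraticAlgebra.im_mul, map_add, map_mul, map_zero, mul_zero, zero_mul]
            ring)
      map_zero' := QuadraticAlgebra.ext (by simp) (by simp)
      map_add' := fun e e' => QuadraticAlgebra.ext (by simp) (by simp [add_mul]) }
  let τ : E c ≃+* E c :=
    RingEquiv.ofBijective f (Finite.injective_iff_bijective.mp f.injective)
  have hτ : ∀ e : E c, τ e = ⟨S.σ e.re, S.σ e.im * (u : F)⟩ := fun _ => rfl
  have hsm : ∀ (e : E c) (v : ι → F), S.L (e • v) = τ e • S.L v := fun e v => by
    rw [hτ, smul_def, smul_def, map_add, S.map_smul', S.map_smul', hu', smul_smul]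
  let S' : (N.DE hk).Semi :=
    { L := S.L
      τ := τ
      c := QuadraticAlgebra.C S.c
      hc := fun h0 => S.c_ne (congrArg QuadraticAlgebra.re h0)
      smul := hsm
      map := fun x y => by
        rw [hτ]
        refine QuadraticAlgebra.ext ?_ ?_
        · show QuadraticMap.polar ⇑Q (S.L x) (S.L y) = _
          rw [QuadraticAlgebra.re_mul, QuadraticAlgebra.re_C, QuadraticAlgebra.im_C, S.map_B]
          show _ = S.c * S.σ (QuadraticMap.polar ⇑Q x y) + _
          ring
        · show QuadraticMap.polar ⇑Q (S.L x) (N.T (S.L y)) / c = _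
          rw [QuadraticAlgebra.im_mul, QuadraticAlgebra.re_C, QuadraticAlgebra.im_C]
          show _ = S.c * (S.σ (QuadraticMap.polar ⇑Q x (N.T y) / c) * (u : F)) + _ + _
          have h1 : (u : F) * QuadraticMap.polar ⇑Q (S.L x) (N.T (S.L y)) =
              S.c * S.σ (QuadraticMap.polar ⇑Q x (N.T y)) := by
            rw [← B_smul_right, ← hu', S.map_B]
          rw [map_div₀, ← huc]
          have hu0 := u.ne_zero
          field_simp
          linear_combination h1 }
  have hconj : ∀ g : (N.DE hk).U, y * N.Φ hk g * y⁻¹ = N.Φ hk (S'.conj g) := fun g => by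
    show y * phi N.h2 N.hG _ * y⁻¹ = phi N.h2 N.hG _
    rw [semi_conj N.h2 N.hG hS]
    exact congrArg _ ((form N.h2 N.hG).U_ext fun v => rfl)
  -- the scalar lies in the ground field or in the line of the root
  have hfinal : ∀ e : E c, (∀ v, S.L (S.L v) = e • v) → y = 1 := by
    intro e he
    obtain ⟨a, ha⟩ : ∃ a : F, e * e = QuadraticAlgebra.C a := by
      obtain ⟨v, hv⟩ := exists_Q_one N.hG
      have hv0 : (N.DE hk).H v v ≠ 0 := fun h0 => by
        have h1 : QuadraticMap.polar ⇑Q v v = 0 := congrArg QuadraticAlgebra.re h0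
        rw [QuadraticMap.polar_self, hv] at h1
        exact N.h2 (by simpa using h1)
      have h1 : (N.DE hk).H (S.L (S.L v)) (S.L (S.L v)) =
          QuadraticAlgebra.C S.c * τ (QuadraticAlgebra.C S.c * τ ((N.DE hk).H v v)) := by
        rw [← S'.map v v, ← S'.map]
      rw [he, (N.DE hk).smul_left, (N.DE hk).smul_right] at h1
      change e * (e * (N.DE hk).H v v) = _ at h1
      rw [map_mul] at h1
      have h2' : τ (τ ((N.DE hk).H v v)) = (N.DE hk).H v v := by
        have h5 : e • ((N.DE hk).H v v • v) = τ (τ ((N.DE hk).H v v)) • (e • v) := by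
          rw [← he, ← he, hsm, hsm]
        rw [smul_comm e] at h5
        refine smul_left_injective (E c) ?_ h5.symm
        intro h0
        have h6 := he v
        rw [h0, S.L.map_eq_zero_iff, S.L.map_eq_zero_iff] at h6
        exact hv0 (by rw [h6, (N.DE hk).zero_left])
      rw [h2', ← mul_assoc, ← mul_assoc] at h1
      refine ⟨S.c * S.σ S.c, ?_⟩
      rw [mul_right_cancel₀ hv0 h1, hτ]
      refine QuadraticAlgebra.ext ?_ ?_ <;> simp
    refine finish_sq (S := S) hS hodd (k := a) fun v => ?_
    rw [he, he, smul_smul, ha, N.C_smul]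
  rcases h with ⟨M, hM, hn, hy⟩ | hE
  · obtain ⟨-, e, he⟩ := (N.DE hk).scalar_of_norm (N.Φ hk) (fun g hg => by
        obtain ⟨a, ha⟩ := phi_one N.h2 N.hG _ hg
        exact ⟨QuadraticAlgebra.C a, fun v => by rw [N.C_smul]; exact ha v⟩)
      M hM (fun a ha l hl => hn _ (N.Φ_commute hk _) l hl) hy S' hconj
    refine hfinal (τ e * e) fun v => ?_
    rw [← smul_smul, show S.L v = e • v from he v, hsm, show S.L v = e • v from he v]
  · obtain ⟨-, e, he⟩ := (N.DE hk).sq_scalar S'
      (Pr := fun {a b} _ _ => (N.DE hk).H b b = (N.DE hk).H a a)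
      (fun {a} ha => by
        have hd : 4 ≤ finrank (E c) (ι → F) := by
          have hst : IsScalarTower F (E c) (ι → F) := ⟨fun r e v => by
            rw [smul_def, smul_def, QuadraticAlgebra.re_smul, QuadraticAlgebra.im_smul]
            module⟩
          have h := Module.finrank_mul_finrank F (E c) (ι → F)
          rw [QuadraticAlgebra.finrank_eq_two, Module.finrank_fintype_fun_eq_card, hk] at h
          have h7 := N.hG.dim
          rw [Module.finrank_fintype_fun_eq_card, hk] at h7
          omega
        obtain ⟨b, c', hab, hac, hbc, hb, hc⟩ := (N.DE hk).exists_frame hd ha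
        exact ⟨b, c', hb.trans_ne ha, hc.trans_ne ha, hab, hac, hbc, hb, hc⟩)
      (fun a b ha hb hab hP => by
        set g := (N.DE hk).refl ha * (N.DE hk).refl hb
        have hcomm : Commute y (N.Φ hk g) := hE _ (Subgroup.mem_inf.mpr
          ⟨phi_mem_inn N.h2 N.hG (mem_commutator_map (N.res hk)
            ((N.DE hk).refl_mul_mem_commutator ha hb hab hP)),
          Subgroup.mem_centralizer_singleton_iff.mpr (N.Φ_commute hk g)⟩)
        obtain ⟨a', ha'⟩ := phi_one N.h2 N.hG (N.res hk (g⁻¹ * S'.conj g)) (by
          show N.Φ hk (g⁻¹ * S'.conj g) = 1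
          rw [map_mul, map_inv, ← hconj, hcomm.eq, mul_inv_cancel_right, inv_mul_cancel])
        refine ⟨QuadraticAlgebra.C a', fun z => ?_⟩
        have h1 := congrArg g.1 (ha' (S'.L z))
        change g.1 (g.1.symm ((S'.conj g).1 (S'.L z))) = g.1 (a' • S'.L z) at h1
        rw [LinearEquiv.apply_symm_apply, Herm.Semi.conj_apply, ← N.C_smul, map_smul] at h1
        exact h1)
    exact hfinal e he

end Nonsplit

end Cfsg.Agent.KnownB.Proj.Balance.OrthGraph
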