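import Cfsg.Agent.KnownB.Proj.Balance.OrthSplitGraph
import Cfsg.Agent.KnownB.Proj.Balance.OrthNonsplitGraph
import Mathlib.LinearAlgebra.Determinant

/-! The `2'`-core of the centraliser of a graph involution of an orthogonal group in even
dimension. -/

set_option autoImplicit false
set_option maxHeartbeats 1000000

namespace Cfsg.Agent.KnownB.Proj.Balance.OrthGraph

open Matrix Module
open Cfsg.Agent.KnownB.Proj.Orth
open Cfsg.Agent.KnownB.Proj.Balance.Reflect (Herm)

universe u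

variable {ι : Type} [Fintype ι] [DecidableEq ι] {F : Type u} [Field F] [Fintype F]
  {Q : QuadraticForm F (ι → F)}

local notation "Vι" => (ι → F)
local notation "Mι" => Matrix ι ι F

namespace Invol

variable (I : Invol Q)

/-- Scalars on both eigenspaces. -/
theorem sq_of_sides {S : SSim Q} (hσ : S.σ = 1) {M : Vι → Vι}
    (hadd : ∀ u v, M (u + v) = M u + M v) {κ : F}
    (hB : ∀ u v, I.D.H (M u) (M v) = κ * I.D.H u v)
    {t : Fˣ} (ht : (t : F) * t = 1) (hd : 1 ≤ finrank F (I.W t))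
    (hd' : 1 ≤ finrank F (I.W (-t))) {α β : F} (hα : ∀ v ∈ I.W t, M v = α • v)
    (hβ : ∀ v ∈ I.W (-t), M v = β • v) (v : Vι) : M (M v) = κ • v := by
  have ht' : ((-t : Fˣ) : F) * ((-t : Fˣ) : F) = 1 := by rw [Units.val_neg, neg_mul_neg, ht]
  have hsq : ∀ (s : Fˣ), (s : F) * s = 1 → 1 ≤ finrank F (I.W s) → ∀ γ : F,
      (∀ v ∈ I.W s, M v = γ • v) → γ * γ = κ := by
    intro s hs hds γ hγ
    obtain ⟨a, haW, ha⟩ := I.exists_aniso hs hds
    have h := hB a a
    rw [hγ a haW, I.D.smul_left, I.D.smul_right, ← mul_assoc] at h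
    exact mul_right_cancel₀ ha h
  have h1 := hsq t ht hd α hα
  have h2 := hsq (-t) ht' hd' β hβ
  conv_lhs => rw [← I.P_add t v]
  rw [hadd, hα _ (I.P_mem ht v), hβ _ (I.P_mem ht' v), hadd,
    hα _ (Submodule.smul_mem _ _ (I.P_mem ht v)), hβ _ (Submodule.smul_mem _ _ (I.P_mem ht' v)),
    smul_smul, smul_smul, h1, h2, ← smul_add, I.P_add]

/-- Semilinear scalars on a line. -/
theorem line {t : Fˣ} (hd : finrank F (I.W t) = 1) {M : Vι → Vι}
    (hlin : ∀ (k : F) v, M (k • v) = k • M v) (hmem : ∀ v ∈ I.W t, M v ∈ I.W t) :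
    ∃ k : F, ∀ v ∈ I.W t, M v = k • v := by
  obtain ⟨w, -, hw⟩ := finrank_eq_one_iff'.mp hd
  obtain ⟨k, hk⟩ := hw ⟨M w.1, hmem _ w.2⟩
  refine ⟨k, fun v hv => ?_⟩
  obtain ⟨a, ha⟩ := hw ⟨v, hv⟩
  have ha' : a • w.1 = v := congrArg Subtype.val ha
  have hk' : k • w.1 = M w.1 := congrArg Subtype.val hk
  rw [← ha', hlin, ← hk', smul_comm]

/-- The eigenspaces have odd dimension. -/
theorem dims (hdet : (I.g.1 : Mι).det ≠ 1) {k : ℕ} (hk : Fintype.card ι = 2 * k) :
    Odd (finrank F (I.W 1)) ∧ finrank F (I.W 1) + finrank F (I.W (-1)) = 2 * k := by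
  have h1 : ((1 : Fˣ) : F) * ((1 : Fˣ) : F) = 1 := by simp
  have h1' : ((-1 : Fˣ) : F) * ((-1 : Fˣ) : F) = 1 := by simp
  have hsum : finrank F (I.W 1) + finrank F (I.W (-1)) = 2 * k := by
    have h := LinearMap.finrank_range_add_finrank_ker (I.P (-1))
    rw [Module.finrank_fintype_fun_eq_card, hk] at h
    have hr : LinearMap.range (I.P (-1)) = I.W (-1) := le_antisymm
      (by rintro _ ⟨v, rfl⟩; exact I.P_mem h1' v) fun v hv => ⟨v, I.P_fix h1' hv⟩
    have hker : LinearMap.ker (I.P (-1)) = I.W 1 := by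
      ext v
      rw [LinearMap.mem_ker]
      constructor
      · intro hv
        have h := I.P_add 1 v
        rw [hv, add_zero] at h
        rw [← h]
        exact I.P_mem h1 v
      · intro hv
        have h := I.P_add 1 v
        rwa [I.P_fix h1 hv, add_eq_left] at h
    rw [hr, hker] at h
    omega
  refine ⟨?_, hsum⟩
  have he : I.W 1 ≤ (I.W 1).comap I.T := fun v hv => by
    show I.T v ∈ I.W 1
    rw [I.mem_W.mp hv]
    exact Submodule.smul_mem _ _ hv
  have h := I.T.det_eq_det_mul_det (I.W 1) he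
  have hres : I.T.restrict he = LinearMap.id := LinearMap.ext fun v => Subtype.ext (by
    show I.T v.1 = v.1
    rw [I.mem_W.mp v.2, Units.val_one, one_smul])
  have hq : (I.W 1).mapQ (I.W 1) I.T he = (-1 : F) • LinearMap.id := by
    refine LinearMap.ext fun z => ?_
    obtain ⟨v, rfl⟩ := Submodule.Quotient.mk_surjective _ z
    rw [Submodule.mapQ_apply]
    show _ = (-1 : F) • Submodule.Quotient.mk v
    rw [← Submodule.Quotient.mk_smul, Submodule.Quotient.eq, I.mem_W, neg_one_smul, sub_neg_eq_add,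
      map_add, I.TT, Units.val_one, one_smul, add_comm]
  rw [hres, LinearMap.det_id, one_mul, hq, LinearMap.det_smul, LinearMap.det_id, mul_one,
    show I.T = Matrix.toLin' (I.g.1 : Mι) from rfl, LinearMap.det_toLin'] at h
  have hfr := (I.W 1).finrank_quotient_add_finrank
  rw [Module.finrank_fintype_fun_eq_card, hk] at hfr
  rcases Nat.even_or_odd (finrank F (Vι ⧸ I.W 1)) with he' | ho
  · exact absurd (h.trans he'.neg_one_pow) hdet
  · rw [Nat.odd_iff] at ho ⊢
    omega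

/-- The two steps, for an involution. -/
theorem steps [Finite (MulAut (Cfsg.POmega F ⇑Q))] (hdet : (I.g.1 : Mι).det ≠ 1) {k : ℕ}
    (hk : Fintype.card ι = 2 * k) {y : MulAut (Cfsg.POmega F ⇑Q)} (hodd : Odd (orderOf y))
    (hyc : Commute y (A Q I.g))
    (h : (∃ M : Subgroup (MulAut (Cfsg.POmega F ⇑Q)), ¬ 2 ∣ Nat.card M ∧
        (∀ g, Commute g (A Q I.g) → ∀ l ∈ M, g * l * g⁻¹ ∈ M) ∧ y ∈ M) ∨
      ∀ e ∈ Cfsg.Inn (Cfsg.POmega F ⇑Q) ⊓ Subgroup.centralizer {A Q I.g}, Commute y e) :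
    y = 1 := by
  obtain ⟨z, hz, hzy⟩ := exists_root hodd
  have hzc : Commute z (A Q I.g) := by
    obtain ⟨i, rfl⟩ := hz
    exact hyc.zpow_left i
  obtain ⟨Z, hZ⟩ := exists_data I.hG z
  obtain ⟨u, hu⟩ := exists_twist I.hG hZ hzc
  have hu' : ∀ v, Z.L (I.T v) = (u : F) • I.T (Z.L v) := hu
  have huu : (u : F) * u = 1 := by
    obtain ⟨v, hv⟩ := exists_Q_one I.hG
    have hv0 : Z.L v ≠ 0 := by
      rw [ne_eq, Z.L.map_eq_zero_iff]
      rintro rfl
      rw [QuadraticMap.map_zero] at hv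
      exact zero_ne_one hv
    refine smul_left_injective F hv0 ?_
    show ((u : F) * u) • Z.L v = (1 : F) • Z.L v
    conv_rhs => rw [one_smul, ← I.TT v, hu', hu', map_smul, I.TT, smul_smul]
  set S := Z.trans Z with hSd
  have hS : MulAut.congr (pomEquiv Q) y = S.A := by rw [← hzy]; exact data_mul hZ hZ
  have hC : I.Comm S := I.comm_of fun v => by
    show Z.L (Z.L (I.T v)) = I.T (Z.L (Z.L v))
    rw [hu', Z.map_smul', fix_of_sq Z.σ _ huu, hu', smul_smul, huu, one_smul]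
  obtain ⟨hodd1, hsum⟩ := I.dims hdet hk
  obtain ⟨t, ht, hbig, hsmall⟩ : ∃ t : Fˣ, (t : F) * t = 1 ∧ 4 ≤ finrank F (I.W t) ∧
      (finrank F (I.W (-t)) = 1 ∨ 3 ≤ finrank F (I.W (-t))) := by
    have hdim := I.hG.dim
    rw [Module.finrank_fintype_fun_eq_card, hk] at hdim
    rw [Nat.odd_iff] at hodd1
    rcases le_or_gt 4 (finrank F (I.W 1)) with h4 | h4
    · exact ⟨1, by simp, h4, by omega⟩
    · refine ⟨-1, by simp, by omega, ?_⟩
      rw [neg_neg]
      omega
  have ht' : ((-t : Fˣ) : F) * ((-t : Fˣ) : F) = 1 := by rw [Units.val_neg, neg_mul_neg, ht]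
  have hd : 3 ≤ finrank F (I.W t) := by omega
  rcases h with ⟨M, hM, hn, hy⟩ | hE
  · obtain ⟨hσ, α, hα⟩ := I.step_one ht hd hC hM hn hy hS
    obtain ⟨β, hβ⟩ : ∃ β : F, ∀ v ∈ I.W (-t), S.L v = β • v := by
      rcases hsmall with h1 | h3
      · exact I.line h1 (fun a v => by rw [S.map_smul', hσ]; rfl) fun v hv => I.L_mem hC _ ht' hv
      · exact (I.step_one ht' h3 hC hM hn hy hS).2
    exact finish hS hodd (k := S.c) (I.sq_of_sides hσ (map_add S.L)
      (fun a b => (S.map_B a b).trans (by rw [hσ]; rfl)) ht (by omega) (by omega) hα hβ)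
  · obtain ⟨hσ, α, hα⟩ := I.step_two ht hd hC hS hE (Or.inl hbig)
    have hσ' : ∀ a, S.σ (S.σ a) = a := fun a => RingEquiv.congr_fun hσ a
    obtain ⟨β, hβ⟩ : ∃ β : F, ∀ v ∈ I.W (-t), S.L (S.L v) = β • v := by
      rcases hsmall with h1 | h3
      · exact I.line h1 (fun a v => by rw [S.map_smul', S.map_smul', hσ'])
          fun v hv => I.L_mem hC _ ht' (I.L_mem hC _ ht' hv)
      · exact (I.step_two ht' h3 hC hS hE (Or.inr (by rw [neg_neg]; exact hd))).2
    have hk' : ∀ v, S.L (S.L (S.L (S.L v))) = (S.c * S.σ S.c) • v :=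
      I.sq_of_sides (S := S.trans S) (RingEquiv.ext hσ') (M := fun v => S.L (S.L v))
        (fun a b => by simp only [map_add])
        (fun a b => by
          show QuadraticMap.polar ⇑Q _ _ = _
          rw [S.map_B, S.map_B, map_mul, hσ', mul_assoc]
          rfl) ht (by omega) (by omega) hα hβ
    exact finish_sq hS hodd hk'

end Invol

/-- **Graph involutions are balanced.** -/
theorem core_eq_bot (h2 : (2 : F) ≠ 0) (hG : Good Q) {k : ℕ} (hk : Fintype.card ι = 2 * k)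
    {hV : ∃ v, Q v ≠ 0} (A' : Subgroup (MulAut (Cfsg.POmega F ⇑Q)))
    (hinn : ∀ x : Cfsg.POmega F ⇑Q, MulAut.conj x ∈ A') (g : GO Q)
    (hdet : detGO g ≠ sim hV g ^ k) (hx : A Q g ^ 2 = 1) :
    Cfsg.pPrimeCore 2 ↥(A' ⊓ Subgroup.centralizer {A Q g}) = ⊥ := by
  classical
  haveI : Finite (MulAut (Cfsg.POmega F ⇑Q)) :=
    Finite.of_injective (fun e : MulAut _ => (e : _ → _)) DFunLike.coe_injective
  have hIA : Cfsg.Inn (Cfsg.POmega F ⇑Q) ≤ A' := by rintro _ ⟨x, rfl⟩; exact hinn x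
  obtain ⟨c, hc'⟩ := (A_eq_one_iff hG _).mp (by rwa [map_mul, ← pow_two] : A Q (g * g) = 1)
  have hc : g * g = sc Q c := hc'.symm
  obtain ⟨hμ, hadj⟩ := self_adjoint h2 hG hk hc hdet
  have hsq : ∀ v, (g.1 : Mι) *ᵥ ((g.1 : Mι) *ᵥ v) = (c : F) • v := fun v => by
    rw [← sc_mulVec c v, ← hc]
    show _ = ((g.1 * g.1 : GL ι F) : Mι) *ᵥ v
    rw [Units.val_mul, ← Matrix.mulVec_mulVec]
  suffices h : ∀ y : MulAut (Cfsg.POmega F ⇑Q), Odd (orderOf y) → Commute y (A Q g) →
      ((∃ M : Subgroup (MulAut (Cfsg.POmega F ⇑Q)), ¬ 2 ∣ Nat.card M ∧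
          (∀ z, Commute z (A Q g) → ∀ l ∈ M, z * l * z⁻¹ ∈ M) ∧ y ∈ M) ∨
        ∀ e ∈ Cfsg.Inn (Cfsg.POmega F ⇑Q) ⊓ Subgroup.centralizer {A Q g}, Commute y e) → y = 1 by
    refine Reflect.core_eq_bot_steps A' (Cfsg.Inn _) hIA _ (fun M hM hle hn y hy => ?_)
      fun y hy hodd hE => h y hodd hy (Or.inr hE)
    exact h y (Reflect.odd_orderOf_of_mem M hM hy)
      (Subgroup.mem_centralizer_singleton_iff.mp (hle hy).2) (Or.inl ⟨M, hM, hn, hy⟩)
  by_cases hcs : IsSquare (c : F)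
  · obtain ⟨d, hd⟩ := hcs
    have hd0 : d ≠ 0 := fun h0 => c.ne_zero (by rw [hd, h0, mul_zero])
    set e := (Units.mk0 d hd0)⁻¹ with he
    have hA : A Q (sc Q e * g) = A Q g := by
      rw [map_mul, (A_eq_one_iff hG _).mpr ⟨e, rfl⟩, one_mul]
    have hval : ∀ v, ((sc Q e * g).1 : Mι) *ᵥ v = (e : F) • (g.1 : Mι) *ᵥ v := fun v => by
      show (((sc Q e).1 * g.1 : GL ι F) : Mι) *ᵥ v = _
      rw [Units.val_mul, ← Matrix.mulVec_mulVec, sc_mulVec]
    let I : Invol Q :=
      { h2 := h2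
        hG := hG
        g := sc Q e * g
        invol := fun v => by
          rw [hval, hval, Matrix.mulVec_smul, hsq, smul_smul, smul_smul, he, Units.val_inv_eq_inv_val,
            Units.val_mk0, hd]
          field_simp
          simp
        adj := fun u v => by rw [hval, hval, B_smul_left, B_smul_right, hadj] }
    have hIdet : (I.g.1 : Mι).det ≠ 1 := fun h1 => hdet (by
      have hμ1 : sim hV I.g = 1 := by
        refine Units.ext ?_
        rw [map_mul, sim_sc, hμ, Units.val_mul, Units.val_mul, Units.val_one, he,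
          Units.val_inv_eq_inv_val, Units.val_mk0, hd]
        field_simp
      have hdet' : detGO I.g = sim hV I.g ^ k := by
        rw [hμ1, one_pow]
        exact Units.ext h1
      rw [map_mul, map_mul, mul_pow, det_sc, sim_sc, hk, ← pow_two, ← pow_mul] at hdet'
      exact mul_left_cancel hdet')
    intro y hodd hyc hy
    exact I.steps hIdet hk hodd (by rwa [hA]) (by simpa only [I, hA] using hy)
  · haveI : Fact (∀ r : F, r ^ 2 ≠ (c : F) + 0 * r) :=
      ⟨fun r hr => hcs ⟨r, by linear_combination -hr⟩⟩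
    let N : Nonsplit Q (c : F) := ⟨h2, hG, g, hsq, hadj⟩
    exact fun y hodd hyc hy => N.steps hk hodd hyc hy

end Cfsg.Agent.KnownB.Proj.Balance.OrthGraph
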