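import Cfsg.Agent.KnownB.Proj.Balance.OrthBalance
import Cfsg.Agent.KnownB.Proj.Balance.OrthGraph
import Cfsg.Agent.KnownB.Proj.Orth.MinusField
import Cfsg.Agent.KnownB.Proj.Orth.MinusFrob
import Cfsg.Agent.KnownB.Proj.Orth.GraphClass
import Cfsg.Agent.KnownB.Proj.Orth.GraphField

/-! The balance criterion for the orthogonal groups of minus type. -/

set_option autoImplicit false
set_option maxHeartbeats 1000000

namespace Cfsg.Agent.KnownB.Proj.Balance.MinusBalance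

open Matrix Module
open Cfsg.Agent.Forms (qMinus)
open Cfsg.Agent.KnownB.Proj.Orth
open Cfsg.Agent.KnownB.AutPSL (nrm pow_coset fixSub mem_fixSub)

universe u

variable {F : Type u} [Field F] [Fintype F] {m : ℕ} {a b : F}

local notation "Jm" => ((Fin m ⊕ Fin m) ⊕ Fin 2)

theorem proj_Fd {Q : QuadraticForm F (Jm → F)} (π : MulAut (Cfsg.POmega F ⇑Q) →* (F ≃+* F))
    (hπ : ∀ β (S : SSim Q), MulAut.congr (pomEquiv Q) β = S.A → π β = S.σ) (σ : fieldSub Q) :
    π (Fd Q σ) = σ := by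
  have hQ : ∀ v : Jm → F, Q (((1 : GO Q).1 : Matrix Jm Jm F) *ᵥ (⇑(σ : F ≃+* F) ∘ v)) =
      1 * (σ : F ≃+* F) (Q v) := fun v => by
    rw [OneMemClass.coe_one, Units.val_one, Matrix.one_mulVec, one_mul]
    exact σ.2 v
  exact hπ _ (pairSSim one_ne_zero hQ) ((isInduced_iff one_ne_zero hQ _).mp
    ((isInduced_iff' (g := 1) σ _).mpr (by rw [map_one, one_mul])))

/-- Involutions induce no field automorphism in odd characteristic. -/
theorem involution_proj_one (hm : 3 ≤ m) (h2 : (2 : F) ≠ 0) (hab : Aniso a b)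
    (π : MulAut (Cfsg.POmega F ⇑(qMinus m F a b)) →* (F ≃+* F))
    (hker : π.ker = (A (qMinus m F a b)).range)
    (hπ : ∀ β (S : SSim (qMinus m F a b)),
      MulAut.congr (pomEquiv (qMinus m F a b)) β = S.A → π β = S.σ)
    {x : MulAut (Cfsg.POmega F ⇑(qMinus m F a b))} (hx : x ^ 2 = 1) : π x = 1 := by
  classical
  by_contra hne
  have hG := good_qMinus (F := F) m hm hab
  have hσ2 : orderOf (π x) = 2 := orderOf_eq_prime (by rw [← map_pow, hx, map_one]) hne
  obtain ⟨r, hr⟩ := CharP.exists F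
  obtain ⟨f, hrp, hF⟩ := FiniteField.card F r
  haveI := Fact.mk hrp
  have hr2 : r ≠ 2 := fun h => h2 (by
    subst h
    exact_mod_cast CharP.cast_eq_zero F 2)
  obtain ⟨β, w, hw, hπβ, hβf⟩ := exists_frob_lift hm hF hr2 hab hπ
  obtain ⟨e, he⟩ : 2 ∣ (f : ℕ) := hσ2 ▸ ringAut_order_dvd hF f.pos (π x)
  have he0 : 0 < e := by have := f.pos; omega
  have hfe : π (β ^ e) = π x := by
    refine (ringAut_involution_unique hF f.pos hσ2 ?_).symm
    rw [map_pow, hπβ]
    refine orderOf_eq_prime ?_ fun h => ?_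
    · rw [← pow_mul, mul_comm, ← he]
      refine RingEquiv.ext fun z => ?_
      rw [frobenius_pow_apply, ← hF, FiniteField.pow_card]
      rfl
    · have := Nat.le_of_dvd he0 (frobenius_dvd hF h)
      omega
  obtain ⟨g, hg⟩ : x * (β ^ e)⁻¹ ∈ (A (qMinus m F a b)).range := by
    rw [← hker, MonoidHom.mem_ker, map_mul, map_inv, hfe, mul_inv_cancel]
  have hxg : x = A _ g * β ^ e := by rw [hg, inv_mul_cancel_right]
  obtain ⟨ε, hε, -⟩ := exists_par_minus (m := m) (by omega) hab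
  set M := ε.ker.map (A (qMinus m F a b))
  haveI : M.Normal := minus_normal hm hab hε
  set t := A (qMinus m F a b) (reflGO _ w) with ht
  have htM : t ∉ M := by
    rintro ⟨k, hk, hkt⟩
    obtain ⟨u, hu⟩ := (A_eq_one_iff hG (k⁻¹ * reflGO _ w)).mp (by
      rw [map_mul, map_inv, hkt, inv_mul_cancel])
    have h1 := congrArg ε hu
    rw [hε.scal, map_mul, map_inv, show ε k = 1 from hk, inv_one, one_mul, hε.refl w hw] at h1
    exact absurd h1 (by decide)
  have ht2 : t * t = 1 := by rw [ht, ← map_mul, reflGO_mul_self, map_one]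
  have hmk : ∀ k, ε k = 1 → (A (qMinus m F a b) k : MulAut _) ∈ M := fun k hk => ⟨k, hk, rfl⟩
  have hq : (QuotientGroup.mk (β ^ e) : MulAut (Cfsg.POmega F ⇑(qMinus m F a b)) ⧸ M) *
      QuotientGroup.mk (β ^ e) = QuotientGroup.mk t := by
    rw [← QuotientGroup.mk_mul, ← pow_add, show e + e = (f : ℕ) by omega, hβf]
  have hsq : (QuotientGroup.mk x : MulAut (Cfsg.POmega F ⇑(qMinus m F a b)) ⧸ M) *
      QuotientGroup.mk x = 1 := by
    rw [← QuotientGroup.mk_mul, ← pow_two, hx, QuotientGroup.mk_one]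
  refine htM ((QuotientGroup.eq_one_iff _).mp ?_)
  rcases mz2_cases (ε g) with hg1 | hg1
  · rw [hxg, QuotientGroup.mk_mul, (QuotientGroup.eq_one_iff _).mpr (hmk g hg1), one_mul, hq]
      at hsq
    exact hsq
  · have hgt : (QuotientGroup.mk (A (qMinus m F a b) g) :
        MulAut (Cfsg.POmega F ⇑(qMinus m F a b)) ⧸ M) = QuotientGroup.mk t := by
      rw [eq_comm, QuotientGroup.eq, ← map_inv, ← map_mul]
      exact hmk _ (by rw [map_mul, map_inv, hε.refl w hw, hg1, inv_mul_cancel])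
    have hcomm : (QuotientGroup.mk (β ^ e) : MulAut (Cfsg.POmega F ⇑(qMinus m F a b)) ⧸ M) *
        QuotientGroup.mk t = QuotientGroup.mk t * QuotientGroup.mk (β ^ e) := by
      rw [← QuotientGroup.mk_mul, ← QuotientGroup.mk_mul, ← hβf,
        (Commute.pow_pow (Commute.refl β) e (f : ℕ)).eq]
    have htt : (QuotientGroup.mk t : MulAut (Cfsg.POmega F ⇑(qMinus m F a b)) ⧸ M) *
        QuotientGroup.mk t = 1 := by rw [← QuotientGroup.mk_mul, ht2, QuotientGroup.mk_one]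
    rw [hxg, QuotientGroup.mk_mul, hgt, mul_assoc, ← mul_assoc (QuotientGroup.mk (β ^ e)), hcomm,
      mul_assoc, ← mul_assoc (QuotientGroup.mk t), htt, one_mul, hq] at hsq
    exact hsq

/-- The automorphisms of prime order `p` of a finite field lie in one cyclic subgroup. -/
theorem mem_zpowers_of_order {p : ℕ} (hp : p.Prime) {σ τ : F ≃+* F} (hσ : orderOf σ = p)
    (hτ : τ ^ p = 1) : τ ∈ Subgroup.zpowers σ := by
  classical
  obtain ⟨r, hr⟩ := CharP.exists F
  obtain ⟨f, hrp, hF⟩ := FiniteField.card F r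
  haveI := Fact.mk hrp
  obtain ⟨e⟩ := AutPSL.exists_ringAut_equiv (F := F) (by rw [Nat.card_eq_fintype_card, hF]) f.pos
  haveI : NeZero (f : ℕ) := ⟨f.pos.ne'⟩
  haveI : IsCyclic (F ≃+* F) := isCyclic_of_surjective e.symm.toMonoidHom e.symm.surjective
  haveI : Finite (F ≃+* F) := Finite.of_injective e e.injective
  haveI : Fintype (F ≃+* F) := Fintype.ofFinite _
  let s := (Finset.range p).image fun i => σ ^ i
  have hsub : s ⊆ Finset.univ.filter fun a : F ≃+* F => a ^ p = 1 := by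
    intro a ha
    obtain ⟨i, -, rfl⟩ := Finset.mem_image.mp ha
    rw [Finset.mem_filter]
    refine ⟨Finset.mem_univ _, ?_⟩
    rw [← pow_mul, mul_comm, pow_mul, ← hσ, pow_orderOf_eq_one, one_pow]
  have hcard : s.card = p := by
    rw [Finset.card_image_of_injOn, Finset.card_range]
    intro i hi j hj h
    exact pow_injOn_Iio_orderOf (by rw [hσ]; exact Finset.mem_range.mp hi)
      (by rw [hσ]; exact Finset.mem_range.mp hj) h
  have heq := Finset.eq_of_subset_of_card_le hsub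
    (by rw [hcard]; exact IsCyclic.card_pow_eq_one_le hp.pos)
  have hmem : τ ∈ s := by rw [heq]; simp [hτ]
  obtain ⟨i, -, rfl⟩ := Finset.mem_image.mp hmem
  exact pow_mem (Subgroup.mem_zpowers σ) i

/-- An anisotropic plane over a fixed field of odd index. -/
theorem exists_fixed_plane {p : ℕ} (hp : p.Prime) (hp2 : p ≠ 2) {σ : F ≃+* F}
    (hσ : orderOf σ = p) : ∃ ζ : F, Aniso 1 ζ ∧ σ ζ = ζ := by
  haveI : Finite (fixedF σ) := Finite.of_injective _ Subtype.val_injective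
  obtain ⟨ζ, hζ⟩ := exists_aniso_one (fixedF σ)
  refine ⟨(fixedF σ).subtype ζ, fun z₁ z₂ h => ?_, (fixedF_spec σ _).mpr ⟨ζ, rfl⟩⟩
  by_cases h0 : z₂ = 0
  · subst h0; exact ⟨by simpa using h, rfl⟩
  exfalso
  set z := z₁ / z₂ with hz
  have hroot : z ^ 2 + z + (fixedF σ).subtype ζ = 0 := by
    rw [hz]; field_simp; linear_combination h
  have hσζ : σ ((fixedF σ).subtype ζ) = (fixedF σ).subtype ζ := (fixedF_spec σ _).mpr ⟨ζ, rfl⟩
  have hstep : σ z = z ∨ σ z = -1 - z := by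
    have h1 := congrArg σ hroot
    rw [map_add, map_add, map_pow, hσζ, map_zero] at h1
    rcases mul_eq_zero.mp (show (σ z - z) * (σ z - (-1 - z)) = 0 by
      linear_combination h1 - hroot) with e | e
    · exact Or.inl (sub_eq_zero.mp e)
    · exact Or.inr (sub_eq_zero.mp e)
  have hfix : σ z = z := by
    rcases hstep with e | e
    · exact e
    obtain ⟨k, hk⟩ := hp.odd_of_ne_two hp2
    have h2 : σ (σ z) = z := by rw [e, map_sub, map_neg, map_one, e]; ring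
    have hpow : ∀ i, (σ ^ (2 * i)) z = z := fun i => by
      induction i with
      | zero => rfl
      | succ i ih => rw [mul_add, mul_one, pow_add, RingAut.mul_apply, pow_two, RingAut.mul_apply, h2, ih]
    have h3 : (σ ^ p) z = z := by rw [← hσ, pow_orderOf_eq_one]; rfl
    rwa [hk, pow_succ', RingAut.mul_apply, hpow] at h3
  obtain ⟨z₀, hz₀⟩ := (fixedF_spec σ z).mp hfix
  refine one_ne_zero (hζ z₀ 1 ((fixedF σ).subtype.injective ?_)).2
  simp only [map_add, map_mul, map_pow, map_one, map_zero, hz₀]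
  linear_combination hroot

/-- The criterion for odd primes, on an adapted model. -/
theorem balance_model (hm : 3 ≤ m) {p : ℕ} [Fact p.Prime] (hp2 : p ≠ 2) (hab : Aniso a b)
    {σ₀ : F ≃+* F} (hσ₀ : orderOf σ₀ = p) (ha : σ₀ a = a) (hb : σ₀ b = b)
    (A' : Subgroup (MulAut (Cfsg.POmega F ⇑(qMinus m F a b))))
    (hinn : ∀ k : Cfsg.POmega F ⇑(qMinus m F a b), MulAut.conj k ∈ A')
    {ε : GO (qMinus m F a b) →* Multiplicative (ZMod 2)}
    (hε : IsPar (exists_ne_qMinus hab) (m + 1) ε)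
    (x : MulAut (Cfsg.POmega F ⇑(qMinus m F a b))) (hord : orderOf x = p)
    (hx : x ∉ ε.ker.map (A (qMinus m F a b))) :
    (∃ (α : MulAut (Cfsg.POmega F ⇑(qMinus m F a b))) (σ : fieldSub (qMinus m F a b)),
        (σ : F ≃+* F) ≠ 1 ∧ (σ : F ≃+* F) a = a ∧ (σ : F ≃+* F) b = b ∧
        α * x * α⁻¹ = Fd (qMinus m F a b) σ) ∧
      (Cfsg.pPrimeCore p ↥(A' ⊓ Subgroup.centralizer {x}) ≠ ⊥ ↔
        Nat.Coprime p (Nat.card ↥(MonoidHom.eqLocus x.toMonoidHom
          (MonoidHom.id (Cfsg.POmega F ⇑(qMinus m F a b)))))) := by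
  classical
  have hp : p.Prime := Fact.out
  have hG := good_qMinus (F := F) m hm hab
  obtain ⟨π, -, hker, hπ⟩ := exists_projAut hG fun τ => exists_ssim_minus hab τ
  have hσp : π x ^ p = 1 := by rw [← map_pow, ← hord, pow_orderOf_eq_one, map_one]
  obtain ⟨i, hi⟩ := mem_zpowers_of_order hp hσ₀ hσp
  have hfix : ∀ z, σ₀ z = z → π x z = z := fun z hz => by
    rw [← hi]
    have h : σ₀ ∈ MulAction.stabilizer (F ≃+* F) z := hz
    exact (zpow_mem h i : σ₀ ^ i ∈ MulAction.stabilizer (F ≃+* F) z)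
  let σ : fieldSub (qMinus m F a b) := ⟨π x, fieldSub_minus_iff (hfix a ha) (hfix b hb)⟩
  obtain ⟨g, hg⟩ : x * (Fd (qMinus m F a b) σ)⁻¹ ∈ (A (qMinus m F a b)).range := by
    rw [← hker, MonoidHom.mem_ker, map_mul, map_inv, proj_Fd π hπ]
    exact mul_inv_cancel _
  have hxg : x = A _ g * Fd _ σ := by rw [hg, inv_mul_cancel_right]
  have hinv : ∀ k, ε (mapGO σ k) = ε k := fun k =>
    par_comp ((σ : F ≃+* F) : F →+* F) (fun v => σ.2 v)
      (Forms.qMinus_nondegenerate a b (Forms.disc_ne_zero hab)) (by simp; omega) hε hε (mapGO σ)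
      (mapGO_val σ) k
  have hgε : ε g = 1 := by
    have h1 := pow_orderOf_eq_one x
    rw [hord, hxg, pow_coset (mapGO σ) (A _) _ (Fd_A σ), ← map_pow,
      show σ ^ p = 1 from Subtype.ext (by rw [SubmonoidClass.coe_pow]; exact hσp), map_one, mul_one]
      at h1
    obtain ⟨u, hu⟩ := (A_eq_one_iff hG _).mp h1
    have h2 : ∀ k, ε (nrm (mapGO σ) k g) = ε g ^ k := fun k => by
      induction k with
      | zero => simp [nrm]
      | succ k ih => rw [nrm, map_mul, hinv, ih, pow_succ']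
    have h3 := h2 p
    rw [← hu, hε.scal] at h3
    rcases mz2_cases (ε g) with h | h
    · exact h
    · exfalso
      obtain ⟨l, hl⟩ := hp.odd_of_ne_two hp2
      rw [h, hl, pow_succ, pow_mul] at h3
      rw [show (Multiplicative.ofAdd (1 : ZMod 2)) ^ 2 = 1 by decide, one_pow, one_mul] at h3
      exact absurd h3 (by decide)
  have hσ1 : (σ : F ≃+* F) ≠ 1 := fun h => hx (by
    rw [hxg, show σ = 1 from Subtype.ext h, map_one, mul_one]
    exact ⟨g, hgε, rfl⟩)
  have hσ : orderOf (σ : F ≃+* F) = p := orderOf_eq_prime hσp hσ1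
  obtain ⟨_, T⟩ := minusFieldTwist hm hab hε hp.pos (hfix a ha) (hfix b hb) hσ
  obtain ⟨c, hc⟩ := T.coset_conj ⟨g, hgε⟩ (by
    show (A _ g * Fd _ σ) ^ p = 1
    rw [← hxg, ← hord, pow_orderOf_eq_one])
  change A (qMinus m F a b) g * Fd _ σ = A _ c.1 * Fd _ σ * (A _ c.1)⁻¹ at hc
  have hαx : (A (qMinus m F a b) c.1)⁻¹ * x * ((A (qMinus m F a b) c.1)⁻¹)⁻¹ =
      Fd (qMinus m F a b) σ := by
    rw [hxg, hc]; group
  refine ⟨⟨_, σ, hσ1, hfix a ha, hfix b hb, hαx⟩, ?_⟩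
  haveI : Finite (fixedF (σ : F ≃+* F)) := Finite.of_injective _ Subtype.val_injective
  haveI : Fintype (fixedF (σ : F ≃+* F)) := Fintype.ofFinite _
  set j := (fixedF (σ : F ≃+* F)).subtype
  have hj := fixedF_spec (σ : F ≃+* F)
  obtain ⟨a₀, ha₀⟩ := (hj a).mp (hfix a ha)
  obtain ⟨b₀, hb₀⟩ := (hj b).mp (hfix b hb)
  have ha₀' : j a₀ = a := ha₀
  have hb₀' : j b₀ = b := hb₀
  have hab₀ : Aniso a₀ b₀ := fun z₁ z₂ h => by
    have e := congrArg j h
    simp only [map_add, map_mul, map_pow, map_zero] at e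
    have h' := hab (j z₁) (j z₂) (by
      linear_combination e - (j z₁ * j z₂) * ha₀' - (j z₂ ^ 2) * hb₀')
    exact ⟨j.injective (h'.1.trans (map_zero j).symm), j.injective (h'.2.trans (map_zero j).symm)⟩
  have hQ : ∀ v, qMinus m F a b (⇑j ∘ v) = j (qMinus m _ a₀ b₀ v) := fun v =>
    (DFunLike.congr_fun (congrArg₂ (qMinus m F) ha₀' hb₀') _).symm.trans (qMinus_comp' j a₀ b₀ v)
  have hle : Cfsg.Inn (Cfsg.POmega F ⇑(qMinus m F a b)) ≤
      ((A (qMinus m F a b)).comp ε.ker.subtype).range := by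
    rw [Inn_eq_map, range_comp_ker]
    refine Subgroup.map_mono ?_
    rintro _ ⟨s, hs, rfl⟩
    have hhom : (ε.comp (isoInc (qMinus m F a b))) s = 1 :=
      Abelianization.commutator_subset_ker _ hs
    exact hhom
  refine orth_balance j hQ hG (good_qMinus m hm hab₀) σ hj (fun h => absurd h hp2) A' hinn hαx hord
    (fun h => hσ1 ?_) ?_
  · obtain ⟨k, hk⟩ := hle h
    have h1 : π (Fd _ σ) = 1 := by
      rw [← MonoidHom.mem_ker, hker]; exact ⟨k.1, hk⟩
    rwa [proj_Fd π hπ] at h1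
  · intro y hy
    obtain ⟨hy1, hy2⟩ := Subgroup.mem_inf.mp hy
    have hy' : y ∈ ((A (qMinus m F a b)).comp ε.ker.subtype).range ⊓
        Subgroup.centralizer {Fd (qMinus m F a b) σ} := ⟨hle hy1, hy2⟩
    rw [T.centralizer_eq] at hy'
    obtain ⟨t, ht, rfl⟩ := hy'
    rw [SetLike.mem_coe, mem_fixSub] at ht
    obtain ⟨g₀, hg₀⟩ := (range_liftJ_eq j σ hj hQ (exists_ne_qMinus hab₀) t.1).mp
      (congrArg Subtype.val ht)
    exact ⟨g₀, congrArg (A _) hg₀⟩

/-- **The criterion.** -/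
theorem balance (hm : 3 ≤ m) (hab : Aniso a b) (Qf : (Jm → F) → F)
    (hQf : ⇑(qMinus m F a b) = Qf) {r : ℕ} [Fact r.Prime] [CharP F r]
    (A' : Subgroup (MulAut (Cfsg.POmega F Qf))) (hinn : ∀ k, MulAut.conj k ∈ A')
    {p : ℕ} [Fact p.Prime] (hpr : p ≠ r) (x : MulAut (Cfsg.POmega F Qf)) (hord : orderOf x = p)
    (hnot : ¬ ∃ g : GL Jm F, g ∈ Cfsg.Geo.quadSimilarityGroup (F := F) Qf ∧
      Cfsg.PreservesSingularClassesMinus m a b (g : Matrix Jm Jm F) ∧
      Cfsg.IsInducedBySemilinearPOmega Qf g (RingEquiv.refl F) x) :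
    Cfsg.pPrimeCore p ↥(A' ⊓ Subgroup.centralizer {x}) ≠ ⊥ ↔
      ((∃ (a' b' : F) (ψ : Cfsg.POmega F Qf ≃*
          Cfsg.POmega F (Cfsg.quadFormMinus m F a' b')) (σ : F ≃+* F),
        (∀ z₁ z₂ : F, z₁ ^ 2 + a' * z₁ * z₂ + b' * z₂ ^ 2 = 0 → z₁ = 0 ∧ z₂ = 0) ∧
        σ ≠ RingEquiv.refl F ∧ σ a' = a' ∧ σ b' = b' ∧
        Cfsg.IsFieldAutPOmegaOf (Cfsg.quadFormMinus m F a' b') σ ((ψ.symm.trans x).trans ψ)) ∧
      Nat.Coprime p (Nat.card ↥(MonoidHom.eqLocus x.toMonoidHom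
        (MonoidHom.id (Cfsg.POmega F Qf))))) := by
  subst hQf
  classical
  have hp : p.Prime := Fact.out
  have hG := good_qMinus (F := F) m hm hab
  obtain ⟨ε, hε, hεp⟩ := exists_par_minus (m := m) (by omega) hab
  have hxM : x ∉ ε.ker.map (A (qMinus m F a b)) := by
    rintro ⟨g, hg, rfl⟩
    exact hnot ⟨g.1, g.2, (hεp g).mpr hg,
      (isInduced_iff' (g := g) 1 _).mpr (by rw [map_one, mul_one])⟩
  obtain ⟨π, -, hker, hπ⟩ := exists_projAut hG fun τ => exists_ssim_minus hab τ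
  by_cases hp2 : p = 2
  · subst hp2
    have h2 : (2 : F) ≠ 0 := fun h => hpr ((Nat.prime_dvd_prime_iff_eq Fact.out Nat.prime_two).mp
      ((CharP.cast_eq_zero_iff F r 2).mp (by exact_mod_cast h))).symm
    have hx2 : x ^ 2 = 1 := by
      have := pow_orderOf_eq_one x
      rwa [hord] at this
    obtain ⟨g, rfl⟩ : x ∈ (A (qMinus m F a b)).range := by
      rw [← hker]; exact involution_proj_one hm h2 hab π hker hπ hx2
    have hdet : detGO g ≠ sim (exists_ne_qMinus hab) g ^ (m + 1) := fun h =>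
      hxM ⟨g, (hε.det h2 g).mp h, rfl⟩
    refine iff_of_false (not_not.mpr (OrthGraph.core_eq_bot h2 hG (k := m + 1) (by simp; ring) A' hinn g
      hdet hx2)) ?_
    rintro ⟨hx, -⟩
    obtain ⟨a', b', hab', σ, ψ, -, -, hσ, h⟩ := minus_class hm hab _ hx hord
    obtain ⟨π', -, hker', hπ'⟩ := exists_projAut (good_qMinus m hm hab') fun τ => exists_ssim_minus hab' τ
    have h1 := involution_proj_one hm h2 hab' π' hker' hπ' (x := Fd (qMinus m F a' b') σ)
      (by rw [← h, ← map_pow, hx2, map_one])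
    rw [proj_Fd π' hπ'] at h1
    rw [h1, orderOf_one] at hσ
    omega
  have hσ : π x ≠ 1 := fun h => by
    obtain ⟨g, rfl⟩ : x ∈ (A (qMinus m F a b)).range := hker ▸ h
    rcases mz2_cases (ε g) with hg | hg
    · exact hxM ⟨g, hg, rfl⟩
    obtain ⟨u, hu⟩ := (A_eq_one_iff hG (g ^ p)).mp (by rw [map_pow, ← hord, pow_orderOf_eq_one])
    have h3 := congrArg ε hu
    obtain ⟨l, hl⟩ := hp.odd_of_ne_two hp2
    rw [hε.scal, map_pow, hg, hl, pow_succ, pow_mul] at h3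
    rw [show (Multiplicative.ofAdd (1 : ZMod 2)) ^ 2 = 1 by decide, one_pow, one_mul] at h3
    exact absurd h3 (by decide)
  have hσ₀ : orderOf (π x) = p :=
    orderOf_eq_prime (by rw [← map_pow, ← hord, pow_orderOf_eq_one, map_one]) hσ
  obtain ⟨ζ, hζ, hσζ⟩ := exists_fixed_plane hp hp2 hσ₀
  obtain ⟨M, hM⟩ := exists_plane_change m hζ hab
  obtain ⟨ε', hε', -⟩ := exists_par_minus (m := m) (by omega) hζ
  set T : GL Jm F := (Forms.glEquiv Jm F).symm M
  have hT : ∀ v, qMinus m F 1 ζ ((T : Matrix Jm Jm F) *ᵥ v) = qMinus m F a b v := fun v => by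
    rw [Forms.glEquiv_symm_mulVec]; exact hM v
  set ψ := transP T hT
  set em := MulAut.congr ψ
  have hmap := minus_congr hm hab hζ hε hε' ψ
  have key := balance_model hm hp2 hζ hσ₀ (map_one _) hσζ (A'.map em.toMonoidHom)
    (fun k => ⟨MulAut.conj (ψ.symm k), hinn _, by
      refine MulEquiv.ext fun y => ?_
      show ψ (ψ.symm k * ψ.symm y * (ψ.symm k)⁻¹) = k * y * k⁻¹
      rw [map_mul, map_mul, map_inv, MulEquiv.apply_symm_apply, MulEquiv.apply_symm_apply]⟩)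
    hε' (em x) (by rw [MulEquiv.orderOf_eq, hord]) (fun h => hxM (by
      rw [← hmap] at h
      obtain ⟨y, hy, hyx⟩ := h
      rwa [← em.injective hyx]))
  obtain ⟨⟨α, σ, hσ1, ha, hb, hα⟩, key⟩ := key
  have hfield : ∃ (a' b' : F) (ψ : Cfsg.POmega F ⇑(qMinus m F a b) ≃*
      Cfsg.POmega F (Cfsg.quadFormMinus m F a' b')) (σ : F ≃+* F),
      (∀ z₁ z₂ : F, z₁ ^ 2 + a' * z₁ * z₂ + b' * z₂ ^ 2 = 0 → z₁ = 0 ∧ z₂ = 0) ∧
      σ ≠ RingEquiv.refl F ∧ σ a' = a' ∧ σ b' = b' ∧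
      Cfsg.IsFieldAutPOmegaOf (Cfsg.quadFormMinus m F a' b') σ ((ψ.symm.trans x).trans ψ) := by
    have e := Forms.coe_qMinus m F 1 ζ
    refine ⟨1, ζ, ?_⟩
    rw [← e]
    refine ⟨ψ.trans α, σ, hζ, hσ1, ha, hb, (isField_iff σ _).mpr (Eq.trans ?_ hα)⟩
    exact MulEquiv.ext fun y => rfl
  have hcore : Cfsg.pPrimeCore p ↥(A' ⊓ Subgroup.centralizer {x}) = ⊥ ↔
      Cfsg.pPrimeCore p ↥(A'.map em.toMonoidHom ⊓ Subgroup.centralizer {em x}) = ⊥ := by
    obtain ⟨e⟩ := centralizer_map em A' x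
    exact Core.pPrimeCore_eq_bot_congr e
  have hcard : Nat.card ↥(MonoidHom.eqLocus (em x).toMonoidHom
      (MonoidHom.id (Cfsg.POmega F ⇑(qMinus m F 1 ζ)))) =
      Nat.card ↥(MonoidHom.eqLocus x.toMonoidHom (MonoidHom.id (Cfsg.POmega F ⇑(qMinus m F a b)))) := by
    refine (Nat.card_congr (ψ.toEquiv.subtypeEquiv fun k => ?_)).symm
    show x k = k ↔ ψ (x (ψ.symm (ψ k))) = ψ k
    rw [MulEquiv.symm_apply_apply, EmbeddingLike.apply_eq_iff_eq]
  rw [ne_eq, hcore, ← ne_eq, key, hcard]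
  exact ⟨fun h => ⟨hfield, h⟩, fun h => h.2⟩

end Cfsg.Agent.KnownB.Proj.Balance.MinusBalance
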