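import Cfsg.Agent.KnownB.Proj.Balance.OrthBalance
import Cfsg.Agent.KnownB.Proj.Orth.TwistGen

/-! The balance criterion for the odd-dimensional orthogonal groups. -/

set_option autoImplicit false
set_option maxHeartbeats 1000000

namespace Cfsg.Agent.KnownB.Proj.Balance

open Matrix Module
open Cfsg.Agent.Forms (qOdd)
open Cfsg.Agent.KnownB.Proj.Orth
open Cfsg.Agent.KnownB.AutPSL (fixSub mem_fixSub)

universe u

theorem balance_odd {F : Type u} [Field F] [Fintype F] (hodd : Odd (Fintype.card F))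
    {m : ℕ} (hm : 3 ≤ m)
    (Qf : (Unit ⊕ (Fin m ⊕ Fin m) → F) → F) (hQf : ⇑(qOdd m F) = Qf)
    (A' : Subgroup (MulAut (Cfsg.POmega F Qf))) (hinn : ∀ k, MulAut.conj k ∈ A')
    {p : ℕ} [Fact p.Prime] (x : MulAut (Cfsg.POmega F Qf))
    (hord : orderOf x = p) (hnot : ¬ Cfsg.IsSimilarityInducedAutPOmega Qf x) :
    Cfsg.pPrimeCore p ↥(A' ⊓ Subgroup.centralizer {x}) ≠ ⊥ ↔
      (Cfsg.IsFieldAutClassPOmega Qf x ∧ Nat.Coprime p
        (Nat.card ↥(MonoidHom.eqLocus x.toMonoidHom (MonoidHom.id (Cfsg.POmega F Qf))))) := by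
  subst hQf
  classical
  have h2 := two_ne_zero_of_odd hodd
  have hG := good_qOdd (F := F) m hm h2
  obtain ⟨g, σ, rfl⟩ := exists_decomp hG fieldSub_qOdd x
  have hσ1 : σ ≠ 1 := fun h => hnot
    ⟨g.1, g.2, (isInduced_iff' (g := g) 1 _).mpr (by rw [h])⟩
  have hss : ∀ τ : F ≃+* F, ∃ S : SSim (qOdd m F), S.σ = τ := fun τ => by
    have hτ : τ ∈ fieldSub (qOdd m F) := by rw [fieldSub_qOdd]; trivial
    have h1 : ∀ v : Unit ⊕ (Fin m ⊕ Fin m) → F, qOdd m F (((1 : GL (Unit ⊕ (Fin m ⊕ Fin m)) F) : Matrix _ (Unit ⊕ (Fin m ⊕ Fin m)) F) *ᵥ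
        (⇑τ ∘ v)) = 1 * τ (qOdd m F v) := fun v => by
      rw [Units.val_one, Matrix.one_mulVec, one_mul]; exact hτ v
    exact ⟨pairSSim one_ne_zero h1, rfl⟩
  obtain ⟨π, hπ⟩ := exists_fieldProj hG hss
  have hσp : orderOf (σ : F ≃+* F) = p := by
    refine orderOf_eq_prime ?_ (fun h => hσ1 (Subtype.ext h))
    have := congrArg π (pow_orderOf_eq_one (A (qOdd m F) g * Fd (qOdd m F) σ))
    rwa [map_pow, hord, hπ, map_one] at this
  obtain ⟨s, hs⟩ : A (qOdd m F) g ∈ (Aso m F).range := range_A_eq h2 ▸ ⟨g, rfl⟩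
  have hp : p.Prime := Fact.out
  have T := fieldTwist hm h2 hp.pos hσp
  obtain ⟨c, hc⟩ := T.coset_conj s (by rw [hs]; exact hord ▸ pow_orderOf_eq_one _)
  rw [hs] at hc
  set α := (Aso m F c)⁻¹ with hα
  have hx : α * (A (qOdd m F) g * Fd (qOdd m F) σ) * α⁻¹ = Fd (qOdd m F) σ := by
    rw [hc, hα]; group
  have hfield : Cfsg.IsFieldAutClassPOmega ⇑(qOdd m F) (A (qOdd m F) g * Fd (qOdd m F) σ) :=
    ⟨α, Fd (qOdd m F) σ, σ, fun h => hσ1 (Subtype.ext h), (isField_iff σ _).mpr rfl, hx⟩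
  let K₀ := fixedF (σ : F ≃+* F)
  haveI : Fintype K₀ := Fintype.ofFinite _
  have hQ : ∀ v, qOdd m F (⇑K₀.subtype ∘ v) = K₀.subtype (qOdd m K₀ v) := qOdd_comp K₀.subtype
  have h20 : (2 : K₀) ≠ 0 := fun h => h2 (by rw [← map_ofNat K₀.subtype 2, h, map_zero])
  have hle : Cfsg.Inn (Cfsg.POmega F ⇑(qOdd m F)) ≤ (Aso m F).range := by
    rw [Inn_eq hm h2]; exact Subgroup.map_le_range _ _
  have hτI : Fd (qOdd m F) σ ∉ Cfsg.Inn (Cfsg.POmega F ⇑(qOdd m F)) := fun h => by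
    obtain ⟨s', hs'⟩ := hle h
    have h1 := hπ (soInc m F s') 1
    have h2' := hπ 1 σ
    rw [map_one, mul_one] at h1
    rw [map_one, one_mul, show Fd (qOdd m F) σ = A (qOdd m F) (soInc m F s') from hs'.symm, h1] at h2'
    exact hσ1 (Subtype.ext h2'.symm)
  rw [orth_balance K₀.subtype hQ hG (good_qOdd m hm h20) σ (fixedF_spec _) (fun _ => h20) A' hinn hx
    hord hτI ?_, and_iff_right hfield]
  rintro y hy
  obtain ⟨hy1, hy2⟩ := Subgroup.mem_inf.mp hy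
  have hy' : y ∈ (Aso m F).range ⊓ Subgroup.centralizer {Fd (qOdd m F) σ} := ⟨hle hy1, hy2⟩
  rw [T.centralizer_eq] at hy'
  obtain ⟨t, ht, rfl⟩ := hy'
  rw [SetLike.mem_coe, mem_fixSub] at ht
  obtain ⟨v, hv⟩ := exists_Q_one (good_qOdd (F := K₀) m hm h20)
  obtain ⟨g₀, hg₀⟩ := (range_liftJ_eq K₀.subtype σ (fixedF_spec _) hQ
    ⟨v, by rw [hv]; exact one_ne_zero⟩ (soInc m F t)).mp
      (Subtype.ext (congrArg Subtype.val ht :))
  exact ⟨g₀, congrArg (A _) hg₀⟩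

end Cfsg.Agent.KnownB.Proj.Balance
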