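import Cfsg.Agent.KnownB.Proj.Balance.OrthFix
import Cfsg.Agent.KnownB.Proj.Orth.Diag

/-! The balance criterion for field automorphisms of orthogonal groups. -/

set_option autoImplicit false
set_option maxHeartbeats 1000000

namespace Cfsg.Agent.KnownB.Proj.Balance

open Matrix Module
open Cfsg.Agent.KnownB.Proj.Orth

universe u v

variable {ι : Type} [Fintype ι] [DecidableEq ι] [Nonempty ι] {F : Type u} [Field F] [Fintype F]
  {Q : QuadraticForm F (ι → F)} {F₀ : Type v} [Field F₀] [Fintype F₀]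
  {Q₀ : QuadraticForm F₀ (ι → F₀)} (j : F₀ →+* F) (hQ : ∀ x, Q (⇑j ∘ x) = j (Q₀ x))

theorem lift_ker (hG : Good Q) (hG₀ : Good Q₀) (g : GO Q₀) :
    A Q (liftJ j hQ g) = 1 ↔ A Q₀ g = 1 := by
  rw [A_eq_one_iff hG, A_eq_one_iff hG₀]
  constructor
  · rintro ⟨u, hu⟩
    obtain ⟨i⟩ := ‹Nonempty ι›
    have h2 : ∀ a b, j ((g.1 : Matrix ι ι F₀) a b) = Matrix.scalar ι (u : F) a b := fun a b => by
      rw [show Matrix.scalar ι (u : F) a b = ((sc Q u).1 : Matrix ι ι F) a b from rfl, hu]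
      rfl
    have hd : j ((g.1 : Matrix ι ι F₀) i i) = (u : F) := by simpa using h2 i i
    have hu0 : (g.1 : Matrix ι ι F₀) i i ≠ 0 := fun h => u.ne_zero (by rw [← hd, h, map_zero])
    refine ⟨Units.mk0 _ hu0, Subtype.ext (Units.ext (Matrix.ext fun a b => j.injective ?_))⟩
    rw [h2, ← hd]
    show j (Matrix.scalar ι ((g.1 : Matrix ι ι F₀) i i) a b) = _
    by_cases hab : a = b <;> simp [Matrix.scalar_apply, hab]
  · rintro ⟨u, hu⟩
    exact ⟨Units.map (j : F₀ →* F) u, by rw [← liftJ_sc, hu]⟩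

/-- Isometries over the subfield. -/
noncomputable def isoLift (hG₀ : Good Q₀) :
    Cfsg.isometryGroup F₀ ⇑Q₀ →* Cfsg.isometryGroup F ⇑Q :=
  ((GO Q).subtype.comp ((liftJ j hQ).comp (isoInc Q₀))).codRestrict _ fun s => by
    obtain ⟨v, hv⟩ := Orth.exists_Q_one hG₀
    have hV₀ : ∃ v, Q₀ v ≠ 0 := ⟨v, by rw [hv]; exact one_ne_zero⟩
    have hV : ∃ v, Q v ≠ 0 := ⟨⇑j ∘ v, by rw [hQ, hv, map_one]; exact one_ne_zero⟩
    rw [Forms.mem_isometryGroup_iff]
    intro w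
    refine (sim_spec hV (liftJ j hQ (isoInc Q₀ s)) w).trans ?_
    rw [sim_hom j hQ hV hV₀ (liftJ j hQ) (liftJ_val j hQ), sim_isoInc, map_one, Units.val_one,
      one_mul]

theorem isoLift_mem (hG₀ : Good Q₀) (s : Cfsg.Omega F₀ ⇑Q₀) :
    isoLift j hQ hG₀ (s : Cfsg.isometryGroup F₀ ⇑Q₀) ∈ Cfsg.Omega F ⇑Q := by
  rw [Forms.mem_omega_iff]
  exact mem_commutator_map ((Forms.isometryEquiv Q).toMonoidHom.comp
    ((isoLift j hQ hG₀).comp (Forms.isometryEquiv Q₀).symm.toMonoidHom))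
    ((Forms.mem_omega_iff Q₀ s.1).mp s.2) |> (fun h => by simpa using h)

theorem isoLift_inc (hG₀ : Good Q₀) (s : Cfsg.isometryGroup F₀ ⇑Q₀) :
    isoInc Q (isoLift j hQ hG₀ s) = liftJ j hQ (isoInc Q₀ s) := Subtype.ext rfl

/-- The criterion. -/
theorem orth_balance (hG : Good Q) (hG₀ : Good Q₀) {p : ℕ} [Fact p.Prime] (σ : fieldSub Q)
    (hj : ∀ x : F, (σ : F ≃+* F) x = x ↔ x ∈ j.range) (hp2 : p = 2 → (2 : F₀) ≠ 0)
    (A' : Subgroup (MulAut (Cfsg.POmega F ⇑Q)))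
    (hinn : ∀ k : Cfsg.POmega F ⇑Q, MulAut.conj k ∈ A')
    {x α : MulAut (Cfsg.POmega F ⇑Q)} (hx : α * x * α⁻¹ = Fd Q σ) (hord : orderOf x = p)
    (hτI : Fd Q σ ∉ Cfsg.Inn (Cfsg.POmega F ⇑Q))
    (hrange : ∀ y ∈ Cfsg.Inn (Cfsg.POmega F ⇑Q) ⊓ Subgroup.centralizer {Fd Q σ},
      ∃ g : GO Q₀, A Q (liftJ j hQ g) = y) :
    Cfsg.pPrimeCore p ↥(A' ⊓ Subgroup.centralizer {x}) ≠ ⊥ ↔
      Nat.Coprime p (Nat.card ↥(MonoidHom.eqLocus x.toMonoidHom
        (MonoidHom.id (Cfsg.POmega F ⇑Q)))) := by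
  classical
  let Ξ : Cfsg.Omega F₀ ⇑Q₀ →* MulAut (Cfsg.POmega F ⇑Q) :=
    (A Q).comp ((liftJ j hQ).comp ((isoInc Q₀).comp (Cfsg.Omega F₀ ⇑Q₀).subtype))
  have hΞ : ∀ s, Ξ s = MulAut.conj
      (QuotientGroup.mk (⟨_, isoLift_mem j hQ hG₀ s⟩ : Cfsg.Omega F ⇑Q) : Cfsg.POmega F ⇑Q) :=
    fun s => by
      rw [Orth.conj_eq, isoLift_inc]
      rfl
  have hker : Ξ.ker = Subgroup.center (Cfsg.Omega F₀ ⇑Q₀) := by
    ext s
    rw [MonoidHom.mem_ker]
    show A Q (liftJ j hQ (isoInc Q₀ (s : Cfsg.isometryGroup F₀ ⇑Q₀))) = 1 ↔ _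
    rw [lift_ker j hQ hG hG₀, ← Orth.conj_eq, map_eq_one_iff _ (Orth.conj_injective hG₀),
      QuotientGroup.eq_one_iff]
  haveI := Forms.matrix_pomega_simple Q₀ hG₀.nd (by
    have := hG₀.dim; rwa [Module.finrank_fintype_fun_eq_card] at this)
  have e₀ : Cfsg.POmega F₀ ⇑Q₀ ≃* Ξ.range :=
    (QuotientGroup.quotientMulEquivOfEq hker.symm).trans (QuotientGroup.quotientKerEquivRange Ξ)
  have hfixg : ∀ g : GO Q₀, mapGO σ (liftJ j hQ g) = liftJ j hQ g := fun g => by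
    obtain ⟨v, hv⟩ := Orth.exists_Q_one hG₀
    exact (range_liftJ_eq j σ hj hQ ⟨v, by rw [hv]; exact one_ne_zero⟩ _).mpr ⟨g, rfl⟩
  refine balance_iff (Orth.conj_injective hG) A' hinn hx hord hτI Ξ.range ?_ ?_
    (e₀.symm.isSimpleGroup_congr.2 inferInstance) ?_ ?_
  · rintro _ ⟨s, rfl⟩
    refine Subgroup.mem_inf.mpr ⟨⟨_, (hΞ s).symm⟩, ?_⟩
    rw [Subgroup.mem_centralizer_singleton_iff]
    show A Q (liftJ j hQ _) * Fd Q σ = Fd Q σ * A Q (liftJ j hQ _)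
    rw [Fd_A, hfixg]
  · rintro y hy _ ⟨s, rfl⟩
    obtain ⟨g, rfl⟩ := hrange y hy
    refine ⟨⟨conjI g (s : Cfsg.isometryGroup F₀ ⇑Q₀), ?_⟩, ?_⟩
    · rw [Forms.mem_omega_iff]
      have := mem_commutator_map ((Forms.isometryEquiv Q₀).toMonoidHom.comp
        ((conjI g).toMonoidHom.comp (Forms.isometryEquiv Q₀).symm.toMonoidHom))
        ((Forms.mem_omega_iff Q₀ s.1).mp s.2)
      simpa using this
    · show A Q (liftJ j hQ _) = A Q (liftJ j hQ g) * A Q (liftJ j hQ _) * (A Q (liftJ j hQ g))⁻¹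
      rw [← map_mul, ← map_inv, ← map_mul, ← map_mul, ← map_inv, ← map_mul]
      refine congrArg (fun z => A Q (liftJ j hQ z)) (Subtype.ext rfl)
  · intro hd
    rw [Nat.card_congr e₀.toEquiv.symm]
    by_cases h2 : p = 2
    · subst h2
      obtain ⟨z, hz⟩ := exists_involution hG₀ (hp2 rfl)
      exact hz ▸ orderOf_dvd_natCard z
    · haveI : Finite (MulAut (Cfsg.POmega F ⇑Q)) :=
        Finite.of_injective (fun e : MulAut _ => (e : _ → _)) DFunLike.coe_injective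
      obtain ⟨z, hz⟩ := exists_prime_orderOf_dvd_card' (G := ↥(Cfsg.Inn (Cfsg.POmega F ⇑Q) ⊓
        Subgroup.centralizer {Fd Q σ})) p hd
      obtain ⟨g, hg⟩ := hrange z.1 z.2
      obtain ⟨s, hs⟩ := pow_four_inn hG₀ g
      have h4 : (z.1) ^ 4 = Ξ s := by
        rw [← hg, ← map_pow, ← map_pow]
        show A Q (liftJ j hQ (g ^ 4)) = A Q (liftJ j hQ (isoInc Q₀ s.1))
        rw [← inv_mul_eq_one, ← map_inv, ← map_mul, ← map_inv, ← map_mul, lift_ker j hQ hG hG₀,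
          map_mul, map_inv, hs, inv_mul_cancel]
      have ho : orderOf (z.1 ^ 4) = p := by
        rw [orderOf_pow', Subgroup.orderOf_coe, hz]
        · have : Nat.Coprime p 4 := by
            rw [show 4 = 2 ^ 2 from rfl]
            exact ((Nat.coprime_primes Fact.out Nat.prime_two).mpr h2).pow_right 2
          rw [this.gcd_eq_one, Nat.div_one]
        · norm_num
      rw [Nat.card_congr e₀.toEquiv, ← ho]
      have hmem : z.1 ^ 4 ∈ Ξ.range := ⟨s, h4.symm⟩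
      have := orderOf_dvd_natCard (⟨z.1 ^ 4, hmem⟩ : Ξ.range)
      rwa [Subgroup.orderOf_mk] at this
  · intro y _ hyk
    obtain ⟨g, τ, c, hc, h, hy⟩ := Orth.exists_induced hG y
    have hA := (isInduced_iff hc h y).mp hy
    have hE : ∀ a b, RE Q₀ a b → (pairSSim hc h).A (QuotientGroup.mk (E hG (⇑j ∘ a) (⇑j ∘ b))) =
        QuotientGroup.mk (E hG (⇑j ∘ a) (⇑j ∘ b)) := by
      intro a b hab
      set s := (Forms.omegaEquiv Q₀).symm (E hG₀ a b) with hsdef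
      set t : Cfsg.Omega F ⇑Q := ⟨_, isoLift_mem j hQ hG₀ s⟩
      have hte : Forms.omegaEquiv Q t = E hG (⇑j ∘ a) (⇑j ∘ b) := by
        have hre := re_comp j hQ hG₀ hab
        have hlin : (act (Forms.omegaEquiv Q t)).toLinearMap =
            (act (E hG (⇑j ∘ a) (⇑j ∘ b))).toLinearMap := (Pi.basisFun F ι).ext fun i => by
          rw [Pi.basisFun_apply, show Pi.single i (1 : F) = ⇑j ∘ Pi.single i (1 : F₀) by
            funext l; by_cases hl : l = i <;> simp [hl], LinearEquiv.coe_coe, LinearEquiv.coe_coe,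
            act_omegaEquiv, E_apply' hG hre.qa hre.qb hre.ab]
          show (((s : Cfsg.isometryGroup F₀ ⇑Q₀) : GL ι F₀) : Matrix ι ι F₀).map j *ᵥ _ = _
          rw [gl_map_mulVec, ← act_omegaEquiv, hsdef, MulEquiv.apply_symm_apply,
            E_apply' hG₀ hab.qa hab.qb hab.ab]
          funext l
          simp [polar_comp j hQ]
        exact om_ext fun v => LinearMap.congr_fun hlin v
      have hc' : Commute y (MulAut.conj (QuotientGroup.mk t : Cfsg.POmega F ⇑Q)) :=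
        hyk _ ⟨s, hΞ s⟩
      have hfix : y (QuotientGroup.mk t) = QuotientGroup.mk t := by
        apply Orth.conj_injective hG
        refine Eq.trans (MulEquiv.ext fun w => ?_) (mul_inv_eq_iff_eq_mul.mpr hc'.eq)
        show y (QuotientGroup.mk t) * w * (y (QuotientGroup.mk t))⁻¹ =
          y (QuotientGroup.mk t * y⁻¹ w * (QuotientGroup.mk t)⁻¹)
        rw [map_mul, map_mul, map_inv, MulAut.apply_inv_self]
      rw [← hA, ← hte]
      show pomEquiv Q (y ((pomEquiv Q).symm (QuotientGroup.mk (Forms.omegaEquiv Q t)))) = _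
      rw [← pomEquiv_mk, MulEquiv.symm_apply_apply, hfix, pomEquiv_mk]
    obtain ⟨hτ, k, hk, hkg⟩ := fix_data j hQ hG hG₀ hc h hE
    obtain ⟨i, hi⟩ := mem_zpowers_of_fix j hj hτ
    have hτmem : τ ∈ fieldSub Q := hi ▸ Subgroup.zpow_mem _ σ.2 i
    have hgmem : g = (sc Q (Units.mk0 k hk)).1 :=
      Units.ext (Forms.matrix_ext_mulVec fun v => (hkg v).trans (sc_mulVec (Units.mk0 k hk) v).symm)
    refine ⟨i, ?_⟩
    have hy' := (isInduced_iff' (g := sc Q (Units.mk0 k hk)) ⟨τ, hτmem⟩ y).mp (hgmem ▸ hy)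
    rw [(A_eq_one_iff hG _).mpr ⟨_, rfl⟩, one_mul] at hy'
    show Fd Q σ ^ i = y
    rw [hy', ← map_zpow]
    exact congrArg (Fd Q) (Subtype.ext (by rw [SubgroupClass.coe_zpow]; exact hi))

end Cfsg.Agent.KnownB.Proj.Balance
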