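import Cfsg.Agent.KnownB.Proj.Balance.GraphDriver

/-! Graph involutions of orthogonal groups: the steps of the core computation. -/

set_option autoImplicit false

namespace Cfsg.Agent.KnownB.Proj.Balance.Reflect

open Module
open Cfsg.Agent.Core
open scoped commutatorElement

universe u v w

section Steps

variable {G : Type w} [Group G] [Finite G]

/-- The two steps of the core computation. -/
theorem core_eq_bot_steps (A I : Subgroup G) [I.Normal] (hIA : I ≤ A) (x : G)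
    (h1 : ∀ M : Subgroup G, ¬ 2 ∣ Nat.card M → M ≤ I ⊓ Subgroup.centralizer {x} →
      (∀ g, Commute g x → ∀ l ∈ M, g * l * g⁻¹ ∈ M) → ∀ y ∈ M, y = 1)
    (h2 : ∀ y, Commute y x → Odd (orderOf y) →
      (∀ e ∈ I ⊓ Subgroup.centralizer {x}, Commute y e) → y = 1) :
    Cfsg.pPrimeCore 2 ↥(A ⊓ Subgroup.centralizer {x}) = ⊥ := by
  haveI : Fact (Nat.Prime 2) := ⟨Nat.prime_two⟩
  set C := A ⊓ Subgroup.centralizer {x} with hC
  set E := I ⊓ Subgroup.centralizer {x} with hE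
  have hEC : E ≤ C := inf_le_inf_right _ hIA
  have hIn : I.Normal := inferInstance
  set M := (Cfsg.pPrimeCore 2 E).map E.subtype with hM
  have hMp : ¬ 2 ∣ Nat.card M := by
    rw [hM, Subgroup.card_map_of_injective E.subtype_injective]
    exact not_dvd_card_pPrimeCore 2 E
  have hME : M ≤ E := Subgroup.map_subtype_le _
  have hEconj : ∀ g, Commute g x → ∀ e ∈ E, g * e * g⁻¹ ∈ E := fun g hg e he => by
    obtain ⟨he1, he2⟩ := Subgroup.mem_inf.mp he
    refine Subgroup.mem_inf.mpr ⟨hIn.conj_mem e he1 g, ?_⟩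
    have hg' : g ∈ Subgroup.centralizer {x} := Subgroup.mem_centralizer_singleton_iff.mpr hg
    exact mul_mem (mul_mem hg' he2) (inv_mem hg')
  have hle : ∀ L : Subgroup G, L ≤ E → (∀ e ∈ E, ∀ l ∈ L, e * l * e⁻¹ ∈ L) → ¬ 2 ∣ Nat.card L →
      L ≤ M := fun L hL hLn hLp l hl => by
    refine ⟨⟨l, hL hl⟩, ?_, rfl⟩
    have hn : (L.subgroupOf E).Normal := ⟨fun n hn e => hLn e e.2 n hn⟩
    refine le_pPrimeCore hn ?_ hl
    rw [Nat.card_congr (Subgroup.subgroupOfEquivOfLe hL).toEquiv]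
    exact ((Nat.prime_two).coprime_iff_not_dvd.mpr hLp).symm
  have hMn : ∀ e ∈ E, ∀ l ∈ M, e * l * e⁻¹ ∈ M := by
    rintro e he _ ⟨n, hn, rfl⟩
    exact ⟨⟨e, he⟩ * n * ⟨e, he⟩⁻¹,
      (inferInstance : (Cfsg.pPrimeCore 2 E).Normal).conj_mem n hn ⟨e, he⟩, rfl⟩
  have hMC : ∀ g, Commute g x → ∀ l ∈ M, g * l * g⁻¹ ∈ M := fun g hg l hl => by
    refine hle (M.map (MulAut.conj g).toMonoidHom) ?_ ?_ ?_ ⟨l, hl, rfl⟩
    · rintro _ ⟨n, hn, rfl⟩
      exact hEconj g hg n (hME hn)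
    · rintro e he _ ⟨n, hn, rfl⟩
      refine ⟨g⁻¹ * e * g * n * (g⁻¹ * e * g)⁻¹, hMn _ ?_ n hn, ?_⟩
      · simpa using hEconj g⁻¹ hg.inv_left e he
      · show g * _ * g⁻¹ = e * (g * n * g⁻¹) * e⁻¹
        group
    · rwa [Subgroup.card_map_of_injective (MulAut.conj g).injective]
  have hM1 := h1 M hMp hME hMC
  set N := (Cfsg.pPrimeCore 2 C).map C.subtype with hN
  have hNp : ¬ 2 ∣ Nat.card N := by
    rw [hN, Subgroup.card_map_of_injective C.subtype_injective]
    exact not_dvd_card_pPrimeCore 2 C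
  have hNC : N ≤ C := Subgroup.map_subtype_le _
  have hNn : ∀ c ∈ C, ∀ n ∈ N, c * n * c⁻¹ ∈ N := by
    rintro c hc _ ⟨n, hn, rfl⟩
    exact ⟨⟨c, hc⟩ * n * ⟨c, hc⟩⁻¹,
      (inferInstance : (Cfsg.pPrimeCore 2 C).Normal).conj_mem n hn ⟨c, hc⟩, rfl⟩
  have hNE : ∀ n ∈ N, n ∈ E → n = 1 := fun n hn hnE => by
    refine hM1 n (hle (N ⊓ E) inf_le_right ?_ ?_ ⟨hn, hnE⟩)
    · intro e he l hl
      obtain ⟨hl1, hl2⟩ := Subgroup.mem_inf.mp hl
      exact Subgroup.mem_inf.mpr ⟨hNn e (hEC he) l hl1, mul_mem (mul_mem he hl2) (inv_mem he)⟩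
    · exact fun h => hNp (h.trans (Subgroup.card_dvd_of_le inf_le_left))
  suffices h : ∀ y ∈ N, y = 1 by
    have h' : N = ⊥ := (Subgroup.eq_bot_iff_forall N).mpr h
    exact (Subgroup.map_eq_bot_iff_of_injective _ C.subtype_injective).mp h'
  intro y hy
  have hyx : Commute y x := Subgroup.mem_centralizer_singleton_iff.mp (hNC hy).2
  refine h2 y hyx (odd_orderOf_of_mem N hNp hy) fun e he => ?_
  have h3 : y * e * y⁻¹ * e⁻¹ ∈ N := by
    simpa [mul_assoc] using mul_mem hy (hNn e (hEC he) _ (inv_mem hy))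
  have h4 := hNE _ h3 (mul_mem (hEconj y hyx e he) (inv_mem he))
  rwa [mul_inv_eq_one, mul_inv_eq_iff_eq_mul] at h4

end Steps

variable {K : Type u} [Field K] {V : Type v} [AddCommGroup V] [Module K V] (D : Herm K V)

namespace Herm

/-- Anisotropic vectors orthogonal to a short orthogonal family. -/
theorem exists_perp_family [FiniteDimensional K V] {k : ℕ} (hk : k < finrank K V) (f : Fin k → V)
    (haniso : ∀ i, D.H (f i) (f i) ≠ 0) (horth : ∀ i j, i ≠ j → D.H (f i) (f j) = 0) :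
    ∃ w, (∀ i, D.H (f i) w = 0) ∧ D.H w w ≠ 0 := by
  classical
  let P : V →ₗ[K] V :=
    LinearMap.id - ∑ i, (1 / D.H (f i) (f i)) • (D.fn (f i)).smulRight (f i)
  have hP : ∀ x, P x = x - ∑ i, (D.H (f i) x / D.H (f i) (f i)) • f i := fun x => by
    simp [P, fn, smul_smul, div_eq_inv_mul]
  have hHsum : ∀ (z : V) (c : Fin k → K), D.H z (∑ i, c i • f i) = ∑ i, c i * D.H z (f i) := by
    intro z c
    have h := map_sum (D.fn z) (fun i => c i • f i) Finset.univ
    exact h.trans (Finset.sum_congr rfl fun i _ => D.smul_right z (c i) (f i))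
  have hfP : ∀ i x, D.H (f i) (P x) = 0 := fun i x => by
    rw [hP, D.sub_right, hHsum, Finset.sum_eq_single i (fun j _ hj => by
      rw [horth i j (Ne.symm hj), mul_zero]) (fun h => absurd (Finset.mem_univ i) h),
      div_mul_cancel₀ _ (haniso i), sub_self]
  have hfix : ∀ z, (∀ i, D.H (f i) z = 0) → P z = z := fun z hz => by
    rw [hP]
    simp [hz]
  obtain ⟨z, hz, hz0⟩ := (LinearMap.ker (LinearMap.pi fun i => D.fn (f i))).ne_bot_iff.mp
    (LinearMap.ker_ne_bot_of_finrank_lt (by simp; omega))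
  rw [LinearMap.mem_ker] at hz
  obtain ⟨w, hw, hw'⟩ := D.exists_aniso P (fun x z hz => by
      have hzf : ∀ i, D.H z (f i) = 0 := fun i => by
        rw [← D.symm (f i) z, ← hz, hfP, map_zero]
      rw [hP, D.sub_right, hHsum, Finset.sum_eq_zero (fun i _ => by rw [hzf, mul_zero]), sub_zero])
    ⟨z, hz0, hfix z fun i => congrFun hz i⟩ fun x => hfix _ fun i => hfP i x
  exact ⟨w, fun i => hw ▸ hfP i w, hw'⟩

/-- Two orthogonal vectors of a given value beside a given one. -/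
theorem exists_frame [Finite K] [FiniteDimensional K V] (hd : 4 ≤ finrank K V) {a : V}
    (ha : D.H a a ≠ 0) :
    ∃ b c, D.H a b = 0 ∧ D.H a c = 0 ∧ D.H b c = 0 ∧ D.H b b = D.H a a ∧ D.H c c = D.H a a := by
  have hrep : ∀ e₁ e₂ : V, D.H e₁ e₁ ≠ 0 → D.H e₂ e₂ ≠ 0 → D.H e₁ e₂ = 0 →
      ∃ x y : K, D.H (x • e₁ + y • e₂) (x • e₁ + y • e₂) = D.H a a := by
    intro e₁ e₂ h₁ h₂ h12
    obtain ⟨x, y, hx, hy, hxy⟩ := D.exists_binary h₁ h₂ (D.real_self e₁) (D.real_self e₂) (D.real_self a)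
    refine ⟨x, y, ?_⟩
    simp only [D.add_left, D.add_right, D.smul_left, D.smul_right, hx, hy, h12,
      show D.H e₂ e₁ = 0 by rw [← D.symm e₁ e₂, h12, map_zero]]
    linear_combination hxy
  obtain ⟨e₁, he₁, h₁⟩ := D.exists_perp_one ha
  obtain ⟨e₂, ha₂, h12, h₂⟩ := D.exists_perp_two (a := a) (b := e₁) (by
    rw [he₁, zero_mul, sub_zero]; exact mul_ne_zero ha h₁)
  obtain ⟨x, y, hb⟩ := hrep e₁ e₂ h₁ h₂ h12
  set b := x • e₁ + y • e₂
  have hab : D.H a b = 0 := by rw [D.add_right, D.smul_right, D.smul_right, he₁, ha₂]; ring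
  obtain ⟨c₁, ha₁', hbc₁, hc₁⟩ := D.exists_perp_two (a := a) (b := b) (by
    rw [hab, zero_mul, sub_zero, hb]; exact mul_ne_zero ha ha)
  have hperp : ∀ i j : Fin 3, i ≠ j → D.H (![a, b, c₁] i) (![a, b, c₁] j) = 0 := by
    intro i j hij
    fin_cases i <;> fin_cases j <;>
      simp [hab, ha₁', hbc₁, show D.H b a = 0 by rw [← D.symm a b, hab, map_zero],
        show D.H c₁ a = 0 by rw [← D.symm a c₁, ha₁', map_zero],
        show D.H c₁ b = 0 by rw [← D.symm b c₁, hbc₁, map_zero]] at hij ⊢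
  obtain ⟨c₂, hc₂', hc₂⟩ := D.exists_perp_family (k := 3) (by omega) ![a, b, c₁]
    (fun i => by fin_cases i <;> simp [ha, hb, hc₁]) hperp
  obtain ⟨x', y', hc⟩ := hrep c₁ c₂ hc₁ hc₂ (hc₂' 2)
  refine ⟨b, x' • c₁ + y' • c₂, hab, ?_, ?_, hb, hc⟩
  · rw [D.add_right, D.smul_right, D.smul_right, ha₁', show D.H a c₂ = 0 from hc₂' 0]; ring
  · rw [D.add_right, D.smul_right, D.smul_right, hbc₁, show D.H b c₂ = 0 from hc₂' 1]; ring

/-- The product of two orthogonal reflections of the same value is a commutator. -/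
theorem refl_mul_mem_commutator {a b : V} (ha : D.H a a ≠ 0) (hb : D.H b b ≠ 0)
    (hab : D.H a b = 0) (he : D.H b b = D.H a a) :
    D.refl ha * D.refl hb ∈ commutator D.U := by
  have hba : D.H b a = 0 := by rw [← D.symm a b, hab, map_zero]
  have hd : D.H (a - b) (a - b) ≠ 0 := by
    rw [D.sub_left, D.sub_right, D.sub_right, hab, hba, he,
      show D.H a a - 0 - (0 - D.H a a) = 2 * D.H a a by ring]
    exact mul_ne_zero D.two ha
  set w := D.refl hd with hw
  have hwi : w⁻¹ = w := inv_eq_of_mul_eq_one_right (D.refl_sq hd)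
  have hai : (D.refl ha)⁻¹ = D.refl ha := inv_eq_of_mul_eq_one_right (D.refl_sq ha)
  have hwa : w.1 a = b := by
    rw [hw, refl_apply, D.sub_left, D.sub_left, D.sub_right, D.sub_right, hab, hba, he,
      show 2 * (D.H a a - 0) / (D.H a a - 0 - (0 - D.H a a)) = 1 by
        rw [sub_zero, zero_sub, sub_neg_eq_add, ← two_mul,
          div_self (mul_ne_zero D.two ha)],
      one_smul, sub_sub_cancel]
  have hconj : w * D.refl ha * w⁻¹ = D.refl hb := by
    rw [mul_inv_eq_iff_eq_mul]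
    refine D.U_ext fun x => ?_
    show w.1 ((D.refl ha).1 x) = (D.refl hb).1 (w.1 x)
    rw [refl_apply D ha x, refl_apply D hb (w.1 x), map_sub, map_smul]
    have h1 : D.H b (w.1 x) = D.H a x := by rw [← hwa, w.2]
    rw [hwa, h1, he]
  have h2 : ⁅D.refl ha, w⁆ = D.refl ha * D.refl hb := by
    rw [commutatorElement_def, hai, mul_assoc, mul_assoc, ← mul_assoc w, hconj]
  rw [← h2]
  exact Subgroup.commutator_mem_commutator (Subgroup.mem_top _) (Subgroup.mem_top _)

variable [Finite K] [FiniteDimensional K V]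

/-- Elements of an odd subgroup normalised by the reflections act as scalars. -/
theorem scalar_of_norm {G : Type w} [Group G] [Finite G] (Φ : D.U →* G)
    (hker : ∀ h, Φ h = 1 → ∃ k : K, ∀ x, h.1 x = k • x) (M : Subgroup G) (hM : ¬ 2 ∣ Nat.card M)
    (hnorm : ∀ (a : V) (ha : D.H a a ≠ 0), ∀ n ∈ M, Φ (D.refl ha) * n * (Φ (D.refl ha))⁻¹ ∈ M)
    {y : G} (hy : y ∈ M) (S : D.Semi) (hS : ∀ h, y * Φ h * y⁻¹ = Φ (S.conj h)) :
    S.τ = 1 ∧ ∃ k : K, ∀ z, S.L z = k • z :=
  D.scalar_of_points S.L.toAddMonoidHom S.τ S.smul (fun ha => D.ne_zero (S.ne ha)) fun _a ha =>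
    D.points Φ hker M (Nat.not_even_iff_odd.mp fun h => hM (even_iff_two_dvd.mp h)) hnorm hy S hS ha

omit [Finite K] in
/-- A semisimilarity commuting with enough products of two orthogonal reflections. -/
theorem sq_scalar (S : D.Semi) (Pr : ∀ {a b : V}, D.H a a ≠ 0 → D.H b b ≠ 0 → Prop)
    (hex : ∀ {a : V} (ha : D.H a a ≠ 0), ∃ (b c : V) (hb : D.H b b ≠ 0) (hc : D.H c c ≠ 0),
      D.H a b = 0 ∧ D.H a c = 0 ∧ D.H b c = 0 ∧ Pr ha hb ∧ Pr ha hc)
    (hcomm : ∀ (a b : V) (ha : D.H a a ≠ 0) (hb : D.H b b ≠ 0), D.H a b = 0 → Pr ha hb →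
      ∃ k : K, ∀ z, S.L ((D.refl ha * D.refl hb).1 z) = k • (D.refl ha * D.refl hb).1 (S.L z)) :
    S.τ * S.τ = 1 ∧ ∃ k : K, ∀ z, S.L (S.L z) = k • z := by
  refine D.scalar_of_points (S.L.toAddMonoidHom.comp S.L.toAddMonoidHom) (S.τ * S.τ)
    (fun k z => by
      show S.L (S.L (k • z)) = S.τ (S.τ k) • S.L (S.L z)
      rw [S.smul, S.smul]) (fun {a} ha => D.ne_zero (S.ne (S.ne ha))) fun a ha => ?_
  have key : ∀ (b : V) (hb : D.H b b ≠ 0), D.H a b = 0 → Pr ha hb →
      ∀ x, D.H a x = 0 → D.H b x = 0 → D.H (S.L (S.L a)) x = 0 := by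
    intro b hb hab hP x hax hbx
    obtain ⟨k, hk⟩ := hcomm a b ha hb hab hP
    set h := D.refl ha * D.refl hb
    have hha : h.1 a = -a := by
      show (D.refl ha).1 ((D.refl hb).1 a) = -a
      rw [refl_apply_perp D hb (by rw [← D.symm a b, hab, map_zero]), refl_apply_self D ha]
    have hhx : h.1 x = x := by
      show (D.refl ha).1 ((D.refl hb).1 x) = x
      rw [refl_apply_perp D hb hbx, refl_apply_perp D ha hax]
    have hsq : ∀ w, h.1 (h.1 w) = w := fun w => by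
      show (D.refl ha).1 ((D.refl hb).1 ((D.refl ha).1 ((D.refl hb).1 w))) = w
      simp only [refl_apply, map_sub, map_smul, D.sub_right, D.smul_right, hab,
        show D.H b a = 0 by rw [← D.symm a b, hab, map_zero], mul_zero, sub_zero, zero_div,
        zero_smul]
      match_scalars
      · ring
      · field_simp
        ring
      · field_simp
        ring
    set a₁ := S.L a with ha₁
    have ha₁0 : a₁ ≠ 0 := D.ne_zero (S.ne ha)
    have e1 : k • h.1 a₁ = -a₁ := by rw [← hk, hha, map_neg]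
    have hk0 : k ≠ 0 := fun h0 => ha₁0 (by rw [h0, zero_smul] at e1; exact neg_eq_zero.mp e1.symm)
    have e1' : h.1 a₁ = -(k⁻¹) • a₁ := by
      rw [neg_smul, ← smul_neg, ← e1, inv_smul_smul₀ hk0]
    have hk2 : k⁻¹ * k⁻¹ = 1 := by
      have h1 := hsq a₁
      rw [e1', map_smul, e1', smul_smul, neg_mul_neg] at h1
      exact smul_left_injective K ha₁0 (h1.trans (one_smul K a₁).symm)
    have hk1 : k = 1 ∨ k = -1 := by
      rcases mul_self_eq_one_iff.mp hk2 with h | h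
      · exact Or.inl (inv_eq_one.mp h)
      · exact Or.inr (by rw [← inv_inv k, h, inv_neg, inv_one])
    have e2 : h.1 (S.L a₁) = -(S.L a₁) := by
      have h1 := hk a₁
      rw [e1', S.smul] at h1
      rcases hk1 with rfl | rfl
      · rw [inv_one, map_neg, map_one, neg_one_smul, one_smul] at h1
        exact h1.symm
      · rw [inv_neg, inv_one, neg_neg, map_one, one_smul, neg_one_smul] at h1
        conv_rhs => rw [h1, neg_neg]
    have h5 := h.2 (S.L a₁) x
    rw [e2, hhx, ← neg_one_smul K, D.smul_left, map_neg, map_one] at h5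
    exact (mul_eq_zero.mp (show (2 : K) * D.H (S.L a₁) x = 0 by linear_combination -h5)).resolve_left
      D.two
  obtain ⟨b, c, hb, hc, hab, hac, hbc, hPb, hPc⟩ := hex ha
  have hcb : D.H c b = 0 := by rw [← D.symm b c, hbc, map_zero]
  set A := S.L (S.L a) with hA
  refine ⟨D.H a A / D.H a a, ?_⟩
  show A = _
  rw [← sub_eq_zero]
  refine D.nd _ fun u => ?_
  set u₀ := u - (D.H a u / D.H a a) • a with hu₀
  have hau₀ : D.H a u₀ = 0 := by
    rw [hu₀, D.sub_right, D.smul_right, div_mul_cancel₀ _ ha, sub_self]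
  set u₁ := u₀ - (D.H b u₀ / D.H b b) • b with hu₁
  have e₁ : D.H A u₁ = 0 := key b hb hab hPb u₁
    (by rw [hu₁, D.sub_right, D.smul_right, hau₀, hab]; ring)
    (by rw [hu₁, D.sub_right, D.smul_right, div_mul_cancel₀ _ hb, sub_self])
  have e₂ : D.H A b = 0 := key c hc hac hPc b hab hcb
  have e₃ : D.H A u₀ = 0 := by
    rwa [hu₁, D.sub_right, D.smul_right, e₂, mul_zero, sub_zero] at e₁
  have e₄ : D.H A u = D.H a u / D.H a a * D.H A a := by
    rw [hu₀, D.sub_right, D.smul_right, sub_eq_zero] at e₃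
    exact e₃
  rw [D.sub_right, D.smul_right, ← D.symm A u, e₄, map_mul, map_div₀, D.symm, D.real_self,
    D.symm]
  ring

end Herm

end Cfsg.Agent.KnownB.Proj.Balance.Reflect
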