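import Cfsg.Agent.KnownB.Proj.Balance.OrthSub
import Mathlib.FieldTheory.Fixed

/-! Automorphisms centralising the root elements over the fixed field. -/

set_option autoImplicit false
set_option maxHeartbeats 1000000

namespace Cfsg.Agent.KnownB.Proj.Balance

open Matrix Module
open Cfsg.Agent.KnownB.Proj.Orth

universe u v

theorem mem_zpowers_of_fix {F : Type u} [Field F] [Finite F] {F₀ : Type v} [Field F₀]
    (j : F₀ →+* F) {σ τ : F ≃+* F} (hj : ∀ x, σ x = x ↔ x ∈ j.range)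
    (hτ : ∀ c, τ (j c) = j c) : τ ∈ Subgroup.zpowers σ := by
  haveI : Finite (F ≃+* F) := Finite.of_injective (fun e => (e : F → F)) DFunLike.coe_injective
  let G := Subgroup.zpowers σ
  let τ' : F ≃ₐ[FixedPoints.subfield G F] F := AlgEquiv.ofRingEquiv (f := τ) fun x => by
    show τ x.1 = x.1
    obtain ⟨c, hc⟩ := (hj x.1).mp (x.2 ⟨σ, Subgroup.mem_zpowers σ⟩)
    rw [← hc, hτ]
  obtain ⟨g, hg⟩ := FixedPoints.toAlgAut_surjective G F τ'
  have : (g : F ≃+* F) = τ := RingEquiv.ext fun x => by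
    exact DFunLike.congr_fun hg x
  exact this ▸ g.2

variable {ι : Type} [Fintype ι] [DecidableEq ι] {F : Type u} [Field F] [Fintype F]
  {Q : QuadraticForm F (ι → F)} {F₀ : Type v} [Field F₀] [Fintype F₀]
  {Q₀ : QuadraticForm F₀ (ι → F₀)} (j : F₀ →+* F) (hQ : ∀ x, Q (⇑j ∘ x) = j (Q₀ x))

include hQ in
omit [DecidableEq ι] [Fintype F] [Fintype F₀] [Fintype ι] in
theorem polar_comp (a b : ι → F₀) :
    QuadraticMap.polar ⇑Q (⇑j ∘ a) (⇑j ∘ b) = j (QuadraticMap.polar ⇑Q₀ a b) := by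
  simp only [QuadraticMap.polar, show ⇑j ∘ a + ⇑j ∘ b = ⇑j ∘ (a + b) by funext i; simp, hQ, map_sub]

omit [DecidableEq ι] [Fintype F] [Fintype F₀] [Fintype ι] in
theorem comp_smul (c : F₀) (a : ι → F₀) : ⇑j ∘ (c • a) = j c • (⇑j ∘ a) := by funext i; simp

omit [DecidableEq ι] [Fintype F] [Fintype F₀] [Fintype ι] in
theorem comp_add (a b : ι → F₀) : ⇑j ∘ (a + b) = ⇑j ∘ a + ⇑j ∘ b := by funext i; simp

omit [DecidableEq ι] [Fintype F] [Fintype F₀] [Fintype ι] in
theorem comp_ne {a : ι → F₀} (ha : a ≠ 0) : ⇑j ∘ a ≠ 0 := fun h =>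
  ha (funext fun i => j.injective ((congrFun h i).trans (map_zero j).symm))

include hQ in
omit [DecidableEq ι] in
theorem re_comp (hG₀ : Good Q₀) {a b : ι → F₀} (h : RE Q₀ a b) : RE Q (⇑j ∘ a) (⇑j ∘ b) := by
  refine ⟨LinearIndependent.pair_iff.mpr fun s t e => ?_, by rw [hQ, h.qa, map_zero],
    by rw [hQ, h.qb, map_zero], by rw [polar_comp j hQ, h.ab, map_zero]⟩
  by_contra hne
  -- a vector detecting each coefficient
  have key : ∀ w, s * j (QuadraticMap.polar ⇑Q₀ a w) + t * j (QuadraticMap.polar ⇑Q₀ b w) = 0 :=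
    fun w => by
      have := congrArg (fun z => QuadraticMap.polar ⇑Q z (⇑j ∘ w)) e
      simpa [B_add_left, B_smul_left, B_zero_left, polar_comp j hQ] using this
  have hdet : ∀ (s t : F₀), (∀ w, QuadraticMap.polar ⇑Q₀ (s • a + t • b) w = 0) → s = 0 ∧ t = 0 :=
    fun s t hw => h.zero (hG₀.nd.1 _ fun w => hw w)
  obtain ⟨w₁, hw₁⟩ : ∃ w, QuadraticMap.polar ⇑Q₀ a w ≠ 0 := by
    by_contra hcon
    push Not at hcon
    exact one_ne_zero (hdet 1 0 fun w => by simp [hcon w]).1
  set α := QuadraticMap.polar ⇑Q₀ a w₁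
  set β := QuadraticMap.polar ⇑Q₀ b w₁
  obtain ⟨w₂, hw₂⟩ : ∃ w, QuadraticMap.polar ⇑Q₀ ((-β) • a + α • b) w ≠ 0 := by
    by_contra hcon
    push Not at hcon
    exact hw₁ (hdet _ _ hcon).2
  have h1 := key w₁
  have h2 := key w₂
  set γ := QuadraticMap.polar ⇑Q₀ a w₂
  set δ := QuadraticMap.polar ⇑Q₀ b w₂
  have hγδ : j (α * δ - β * γ) ≠ 0 := (map_ne_zero j).mpr fun h0 => hw₂ (by
    rw [B_add_left, B_smul_left, B_smul_left]; linear_combination h0)
  refine hne ⟨?_, ?_⟩
  · have : s * j (α * δ - β * γ) = 0 := by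
      rw [map_sub, map_mul, map_mul]; linear_combination (j δ) * h1 - (j β) * h2
    exact (mul_eq_zero.mp this).resolve_right hγδ
  · have : t * j (α * δ - β * γ) = 0 := by
      rw [map_sub, map_mul, map_mul]; linear_combination (j α) * h2 - (j γ) * h1
    exact (mul_eq_zero.mp this).resolve_right hγδ

include hQ in
/-- A semisimilarity fixing the rational root elements is trivial up to scalars. -/
theorem fix_data (hG : Good Q) (hG₀ : Good Q₀) {g : GL ι F} {τ : F ≃+* F} {c : F} (hc : c ≠ 0)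
    (h : ∀ v : ι → F, Q ((g : Matrix ι ι F) *ᵥ (⇑τ ∘ v)) = c * τ (Q v))
    (hE : ∀ a b, RE Q₀ a b → (pairSSim hc h).A (QuotientGroup.mk (E hG (⇑j ∘ a) (⇑j ∘ b))) =
      QuotientGroup.mk (E hG (⇑j ∘ a) (⇑j ∘ b))) :
    (∀ e, τ (j e) = j e) ∧ ∃ k : F, k ≠ 0 ∧ ∀ v, (g : Matrix ι ι F) *ᵥ v = k • v := by
  classical
  have hn := hG₀.dim
  set S := pairSSim hc h with hS
  have hL : ∀ v, S.L v = (g : Matrix ι ι F) *ᵥ (⇑τ ∘ v) := fun v => rfl
  -- lines
  have hline : ∀ a b, RE Q₀ a b →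
      S.L (⇑j ∘ a) ∈ (ln (⇑j ∘ a) (⇑j ∘ b) : Submodule F (ι → F)) := by
    intro a b hab
    have hr := re_comp j hQ hG₀ hab
    have h1 := (S.map_RE hr).hasLine (hG := hG)
    rw [← S.A_E hr.qa hr.ab, hE a b hab] at h1
    rw [← h1.unique hr.hasLine]
    exact left_mem_ln _ _
  -- points
  have hpt : ∀ a, a ≠ 0 → Q₀ a = 0 → ∃ k : F, S.L (⇑j ∘ a) = k • (⇑j ∘ a) := by
    intro a ha haq
    obtain ⟨f, hf, haf⟩ := Forms.exists_sing_partner hG₀.nd haq ha
    have haf : QuadraticMap.polar ⇑Q₀ a f = 1 := haf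
    have hfa : QuadraticMap.polar ⇑Q₀ f a = 1 := (B_comm f a).trans haf
    obtain ⟨x, y, hx, hy, hxy, hvx, hvy⟩ := exists_hyp_perp hG₀ ![a, f] ![1, 0] (by decide) (by
      intro i k
      fin_cases i <;> fin_cases k <;> simp [B_sing haq, B_sing hf, haf, hfa]) (by omega)
    have hax : QuadraticMap.polar ⇑Q₀ a x = 0 := hvx 0
    have hfx : QuadraticMap.polar ⇑Q₀ f x = 0 := hvx 1
    have hay : QuadraticMap.polar ⇑Q₀ a y = 0 := hvy 0
    obtain ⟨x', y', hx', hy', hxy', hvx', hvy'⟩ := exists_hyp_perp hG₀ ![a, f, x, y] ![1, 0, 3, 2]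
      (by decide) (by
        intro i k
        fin_cases i <;> fin_cases k <;>
          simp [B_sing haq, B_sing hf, haf, hfa, B_sing hx, B_sing hy, hxy, hax, hfx, hay,
            show QuadraticMap.polar ⇑Q₀ f y = 0 from hvy 1, B_comm x a, B_comm x f, B_comm y a,
            B_comm y f, B_comm y x]) (by omega)
    have hre : ∀ z z', Q₀ z = 0 → QuadraticMap.polar ⇑Q₀ a z = 0 →
        QuadraticMap.polar ⇑Q₀ z z' = 1 → QuadraticMap.polar ⇑Q₀ a z' = 0 → RE Q₀ a z := by
      intro z z' hz haz hzz' haz'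
      refine RE.mk' (fun hmem => ?_) ha haq hz haz
      obtain ⟨r, hr⟩ := Submodule.mem_span_singleton.mp hmem
      rw [← hr, B_smul_left, haz', mul_zero] at hzz'
      exact zero_ne_one hzz'
    obtain ⟨s, t, hst⟩ := mem_ln.mp (hline a x (hre x y hx hax hxy hay))
    obtain ⟨s', t', hst'⟩ := mem_ln.mp (hline a x'
      (hre x' y' hx' (hvx' 0) hxy' (hvy' 0)))
    have ht : t = 0 := by
      have := congrArg (fun z => QuadraticMap.polar ⇑Q z (⇑j ∘ y)) (hst.trans hst'.symm)
      simp only [B_add_left, B_smul_left, polar_comp j hQ] at this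
      rw [hay, hxy, B_comm x' y, show QuadraticMap.polar ⇑Q₀ y x' = 0 from hvx' 3, map_zero,
        map_one, mul_zero, mul_zero, mul_one, zero_add, zero_add] at this
      simpa using this
    exact ⟨s, by rw [← hst, ht, zero_smul, add_zero]⟩
  choose k hk using hpt
  have hk0 : ∀ a ha haq, k a ha haq ≠ 0 := fun a ha haq h0 => by
    have := hk a ha haq
    rw [h0, zero_smul] at this
    exact comp_ne j ha (S.L.injective (this.trans (map_zero S.L).symm))
  -- constant along orthogonal pairs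
  have hpair : ∀ a b (hab : RE Q₀ a b) (e : F₀),
      τ (j e) * k b hab.ne' hab.qb = j e * k a hab.ne hab.qa := by
    intro a b hab e
    have hne : a + e • b ≠ 0 := fun h0 =>
      one_ne_zero (hab.zero (s := 1) (t := e) (by rw [one_smul]; exact h0)).1
    have hq : Q₀ (a + e • b) = 0 := by
      rw [Q_add, Q_smul, hab.qa, hab.qb, B_smul_right, hab.ab]; ring
    have h1 := hk _ hne hq
    rw [comp_add, comp_smul, map_add, S.map_smul', hk a hab.ne hab.qa, hk b hab.ne' hab.qb,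
      smul_add, smul_smul, smul_smul] at h1
    change _ + (τ (j e) * _) • _ = _ at h1
    obtain ⟨h3, h4⟩ := (re_comp j hQ hG₀ hab).zero (s := k a hab.ne hab.qa - k _ hne hq)
      (t := τ (j e) * k b hab.ne' hab.qb - k _ hne hq * j e)
      (by linear_combination (norm := module) h1)
    rw [sub_eq_zero.mp h4, sub_eq_zero.mp h3, mul_comm]
  have heq : ∀ a b (hab : RE Q₀ a b), k b hab.ne' hab.qb = k a hab.ne hab.qa := fun a b hab => by
    simpa using hpair a b hab 1
  obtain ⟨e, he, -, heS⟩ := exists_sing_perp hG₀ (![] : Fin 0 → ι → F₀) (by omega)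
  have he0 : e ≠ 0 := fun h0 => heS (h0 ▸ Submodule.zero_mem _)
  obtain ⟨f, hf, hef⟩ := Forms.exists_sing_partner hG₀.nd he he0
  have hef : QuadraticMap.polar ⇑Q₀ e f = 1 := hef
  obtain ⟨x, y, hx, -, hxy, hvx, hvy⟩ := exists_hyp_perp hG₀ ![e, f] ![1, 0] (by decide) (by
    intro i k
    fin_cases i <;> fin_cases k <;>
      simp [B_sing he, B_sing hf, hef, B_comm f e]) (by omega)
  have hre : RE Q₀ e x := RE.mk' (fun hmem => by
    obtain ⟨r, hr⟩ := Submodule.mem_span_singleton.mp hmem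
    rw [← hr, B_smul_left, show QuadraticMap.polar ⇑Q₀ e y = 0 from hvy 0, mul_zero] at hxy
    exact zero_ne_one hxy) he0 he hx (hvx 0)
  have hτ : ∀ c, τ (j c) = j c := fun c => by
    have := hpair e x hre c
    rw [heq e x hre] at this
    exact mul_right_cancel₀ (hk0 _ _ _) this
  set k₀ := k e he0 he with hk₀def
  have hfix : ∀ a : ι → F₀, ⇑τ ∘ (⇑j ∘ a) = ⇑j ∘ a := fun a => funext fun i => hτ (a i)
  have hall : ∀ v, Q₀ v = 0 → (g : Matrix ι ι F) *ᵥ (⇑j ∘ v) = k₀ • (⇑j ∘ v) := by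
    intro v hvq
    rw [← hfix v, ← hL, hfix v]
    by_cases hv : v ∈ Submodule.span F₀ {e}
    · obtain ⟨r, rfl⟩ := Submodule.mem_span_singleton.mp hv
      rw [comp_smul, S.map_smul', hk e he0 he, smul_comm]
      show _ • τ (j r) • _ = _
      rw [hτ]
    have hv0 : v ≠ 0 := fun h0 => hv (h0 ▸ Submodule.zero_mem _)
    rw [hk v hv0 hvq]
    congr 1
    by_cases hev : QuadraticMap.polar ⇑Q₀ e v = 0
    · exact heq e v (RE.mk' hv he0 he hvq hev)
    · set v' := (QuadraticMap.polar ⇑Q₀ e v)⁻¹ • v with hv'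
      have hev' : QuadraticMap.polar ⇑Q₀ e v' = 1 := by rw [hv', B_smul_right, inv_mul_cancel₀ hev]
      have hv'q : Q₀ v' = 0 := by rw [hv', Q_smul, hvq, mul_zero]
      obtain ⟨a, b, ha, -, hab, hva, hvb⟩ := exists_hyp_perp hG₀ ![e, v'] ![1, 0] (by decide) (by
        intro i k
        fin_cases i <;> fin_cases k <;> simp [B_sing he, B_sing hv'q, hev', B_comm v' e])
        (by omega)
      have hva' : QuadraticMap.polar ⇑Q₀ v a = 0 := by
        have := hva 1
        simpa [hv', B_smul_left, hev] using this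
      have hvb' : QuadraticMap.polar ⇑Q₀ v b = 0 := by
        have := hvb 1
        simpa [hv', B_smul_left, hev] using this
      have mk : ∀ z, z ≠ 0 → Q₀ z = 0 → QuadraticMap.polar ⇑Q₀ z a = 0 →
          QuadraticMap.polar ⇑Q₀ z b = 0 → RE Q₀ z a := fun z hz hzq hza hzb =>
        RE.mk' (fun hmem => by
          obtain ⟨r, hr⟩ := Submodule.mem_span_singleton.mp hmem
          rw [← hr, B_smul_left, hzb, mul_zero] at hab
          exact zero_ne_one hab) hz hzq ha hza
      exact ((heq v a (mk v hv0 hvq hva' hvb')).symm.trans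
        (heq e a (mk e he0 he (hva 0) (hvb 0))))
  have hrat : ∀ v, (g : Matrix ι ι F) *ᵥ (⇑j ∘ v) = k₀ • (⇑j ∘ v) := fun v => by
    have hv := Forms.le_span_singular (W := (⊤ : Submodule F₀ (ι → F₀))) (Q := Q₀) (s := e)
      (y₀ := f) trivial he trivial (by rw [hef]; exact one_ne_zero) (Submodule.mem_top (x := v))
    induction hv using Submodule.span_induction with
    | mem z hz => exact hall z hz.2
    | zero => rw [show ⇑j ∘ (0 : ι → F₀) = 0 by funext i; simp]; simp
    | add u v _ _ hu hv => rw [comp_add, Matrix.mulVec_add, hu, hv, smul_add]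
    | smul c u _ hu => rw [comp_smul, Matrix.mulVec_smul, hu, smul_comm]
  refine ⟨hτ, k₀, hk0 _ _ _, fun v => ?_⟩
  have h1 : Matrix.mulVecLin (g : Matrix ι ι F) = k₀ • LinearMap.id :=
    (Pi.basisFun F ι).ext fun i => by
      have := hrat (Pi.single i 1)
      rw [show ⇑j ∘ Pi.single i (1 : F₀) = Pi.single i (1 : F) by
        funext l; by_cases hl : l = i <;> simp [hl]] at this
      simpa [Pi.basisFun_apply] using this
  exact LinearMap.congr_fun h1 v

end Cfsg.Agent.KnownB.Proj.Balance
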