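import Cfsg.Agent.KnownB.Proj.Balance.OrthDriver
import Cfsg.Agent.KnownB.Proj.Balance.LinHelp
import Cfsg.Agent.KnownB.Proj.Orth.Diag
import Mathlib.LinearAlgebra.Matrix.Charpoly.Coeff
import Mathlib.LinearAlgebra.Matrix.BilinearForm

/-! Isometries and semisimilarities of an orthogonal group acting on `PΩ`: common tools for the
graph involutions. -/

set_option autoImplicit false
set_option maxHeartbeats 1000000

namespace Cfsg.Agent.KnownB.Proj.Balance.OrthGraph

open Matrix Module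
open Cfsg.Agent.KnownB.Proj.Orth
open Cfsg.Agent.KnownB.Proj.Balance.Reflect (Herm)

universe u

variable {ι : Type} [Fintype ι] [DecidableEq ι] {F : Type u} [Field F] [Fintype F]
  {Q : QuadraticForm F (ι → F)}

local notation "Vι" => (ι → F)
local notation "Mι" => Matrix ι ι F

/-- The polar form. -/
def form (h2 : (2 : F) ≠ 0) (hG : Good Q) : Herm F (ι → F) where
  σ := 1
  invol _ := rfl
  H := QuadraticMap.polar ⇑Q
  add_right := B_add_right
  smul_right u k x := B_smul_right k u x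
  symm u x := B_comm u x
  nd x hx := hG.nd.2 x fun u => hx u
  two := h2
  dim := le_trans (by norm_num) hG.dim

variable {h2 : (2 : F) ≠ 0} {hG : Good Q}

theorem Q_of_form {h : (form h2 hG).U} (v : Vι) : Q (h.1 v) = Q v := by
  have h1 : QuadraticMap.polar ⇑Q (h.1 v) (h.1 v) = QuadraticMap.polar ⇑Q v v := h.2 v v
  rw [QuadraticMap.polar_self, QuadraticMap.polar_self] at h1
  simp only [smul_eq_mul, two_smul] at h1
  exact mul_left_cancel₀ h2 (by linear_combination h1)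

variable (h2 hG)

/-- Isometries as matrices. -/
noncomputable def toIso : (form h2 hG).U →* Cfsg.isometryGroup F ⇑Q :=
  (LinHelp.toGL.comp (form h2 hG).U.subtype).codRestrict _ fun h =>
    Forms.mem_isometryGroup_iff.mpr fun v => by
      rw [MonoidHom.comp_apply, LinHelp.toGL_mulVec]
      exact Q_of_form v

theorem toIso_mulVec (h : (form h2 hG).U) (v : Vι) :
    (((toIso h2 hG h : Cfsg.isometryGroup F ⇑Q) : GL ι F) : Mι) *ᵥ v = h.1 v :=
  LinHelp.toGL_mulVec h.1 v

/-- The action of the isometries. -/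
noncomputable def phi : (form h2 hG).U →* MulAut (Cfsg.POmega F ⇑Q) :=
  (A Q).comp ((isoInc Q).comp (toIso h2 hG))

theorem phi_one (h : (form h2 hG).U) (hh : phi h2 hG h = 1) :
    ∃ k : F, ∀ x, h.1 x = k • x := by
  obtain ⟨u, hu⟩ := (A_eq_one_iff hG _).mp hh
  exact ⟨u, fun x => by
    rw [← toIso_mulVec h2 hG, ← sc_mulVec u x, hu]
    rfl⟩

theorem phi_mem_inn {h : (form h2 hG).U} (hh : h ∈ commutator (form h2 hG).U) :
    phi h2 hG h ∈ Cfsg.Inn (Cfsg.POmega F ⇑Q) := by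
  rw [Inn_eq_map]
  exact ⟨_, ⟨toIso h2 hG h, mem_commutator_map (toIso h2 hG) hh, rfl⟩, rfl⟩

theorem phi_commute {g : GO Q} {h : (form h2 hG).U}
    (hc : ∀ v, h.1 ((g.1 : Mι) *ᵥ v) = (g.1 : Mι) *ᵥ h.1 v) :
    Commute (phi h2 hG h) (A Q g) := by
  refine Commute.map (show Commute (isoInc Q (toIso h2 hG h)) g from go_ext fun v => ?_) (A Q)
  show (((toIso h2 hG h : Cfsg.isometryGroup F ⇑Q).1 * g.1 : GL ι F) : Mι) *ᵥ v =
    ((g.1 * (toIso h2 hG h : Cfsg.isometryGroup F ⇑Q).1 : GL ι F) : Mι) *ᵥ v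
  rw [Units.val_mul, Units.val_mul, ← Matrix.mulVec_mulVec, ← Matrix.mulVec_mulVec,
    toIso_mulVec, toIso_mulVec, hc]

theorem A_eq_of_L {S T : SSim Q} (h : ∀ v, S.L v = T.L v) : S.A = T.A :=
  SSim.eq_A _ fun k k' hk => S.A_spec fun v => by rw [h, h, hk]

theorem exists_pairSSim (g : GO Q) : ∃ S : SSim Q,
    MulAut.congr (pomEquiv Q) (A Q g) = S.A ∧ ∀ v, S.L v = (g.1 : Mι) *ᵥ v := by
  obtain ⟨c, hc⟩ := g.2
  have hQ : ∀ v : Vι, Q ((g.1 : Mι) *ᵥ (⇑(1 : F ≃+* F) ∘ v)) = (c : F) * (1 : F ≃+* F) (Q v) :=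
    fun v => hc v
  exact ⟨pairSSim c.ne_zero hQ, (isInduced_iff c.ne_zero hQ _).mp
    ((isInduced_iff' (g := g) (1 : fieldSub Q) _).mpr (by rw [map_one, mul_one])), fun v => rfl⟩

/-- Every automorphism comes from a semisimilarity. -/
theorem exists_data (hG : Good Q) (y : MulAut (Cfsg.POmega F ⇑Q)) :
    ∃ S : SSim Q, MulAut.congr (pomEquiv Q) y = S.A := exists_ssim hG _

theorem data_mul {y z : MulAut (Cfsg.POmega F ⇑Q)} {S T : SSim Q}
    (hy : MulAut.congr (pomEquiv Q) y = S.A) (hz : MulAut.congr (pomEquiv Q) z = T.A) :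
    MulAut.congr (pomEquiv Q) (y * z) = (T.trans S).A := by
  rw [map_mul, hy, hz, SSim.A_trans]

theorem conj_eq' {y : MulAut (Cfsg.POmega F ⇑Q)} {S : SSim Q}
    (hy : MulAut.congr (pomEquiv Q) y = S.A) {g g' : GO Q}
    (h : ∀ v, (g'.1 : Mι) *ᵥ S.L v = S.L ((g.1 : Mι) *ᵥ v)) :
    y * A Q g * y⁻¹ = A Q g' := by
  rw [mul_inv_eq_iff_eq_mul]
  refine (MulAut.congr (pomEquiv Q)).injective ?_
  obtain ⟨T, hT, hTL⟩ := exists_pairSSim g
  obtain ⟨T', hT', hTL'⟩ := exists_pairSSim g'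
  rw [data_mul hy hT, data_mul hT' hy]
  refine A_eq_of_L fun v => ?_
  show S.L (T.L v) = T'.L (S.L v)
  rw [hTL, hTL', h]

theorem exists_conjGO (S : SSim Q) (g : GO Q) :
    ∃ g' : GO Q, ∀ v, (g'.1 : Mι) *ᵥ S.L v = S.L ((g.1 : Mι) *ᵥ v) := by
  obtain ⟨c, hc⟩ := g.2
  let f : Vι ≃ₗ[F] Vι :=
    { toFun := fun v => S.L ((g.1 : Mι) *ᵥ S.L.symm v)
      invFun := fun v => S.L (((g.1⁻¹ : GL ι F) : Mι) *ᵥ S.L.symm v)
      left_inv := fun v => by
        simp only [AddEquiv.symm_apply_apply, gl_inv_mulVec, AddEquiv.apply_symm_apply]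
      right_inv := fun v => by
        simp only [AddEquiv.symm_apply_apply, gl_mulVec_inv, AddEquiv.apply_symm_apply]
      map_add' := fun u v => by simp only [map_add, Matrix.mulVec_add]
      map_smul' := fun a v => by
        simp only [S.symm_smul, Matrix.mulVec_smul, S.map_smul', RingEquiv.apply_symm_apply,
          RingHom.id_apply] }
  refine ⟨⟨LinHelp.toGL f, Units.map (S.σ : F →* F) c, fun v => ?_⟩, fun v => ?_⟩
  · rw [LinHelp.toGL_mulVec]
    show Q (S.L ((g.1 : Mι) *ᵥ S.L.symm v)) = S.σ (c : F) * Q v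
    rw [S.map_Q, hc, map_mul, mul_left_comm, ← S.map_Q, AddEquiv.apply_symm_apply]
  · rw [LinHelp.toGL_mulVec]
    show S.L ((g.1 : Mι) *ᵥ S.L.symm (S.L v)) = _
    rw [AddEquiv.symm_apply_apply]

theorem exists_twist (hG : Good Q) {g : GO Q} {y : MulAut (Cfsg.POmega F ⇑Q)} {S : SSim Q}
    (hy : MulAut.congr (pomEquiv Q) y = S.A) (hc : Commute y (A Q g)) :
    ∃ u : Fˣ, ∀ v, S.L ((g.1 : Mι) *ᵥ v) = (u : F) • (g.1 : Mι) *ᵥ S.L v := by
  obtain ⟨g', hg'⟩ := exists_conjGO S g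
  have h1 : A Q (g⁻¹ * g') = 1 := by
    rw [map_mul, map_inv, ← conj_eq' hy hg', hc.eq, mul_inv_cancel_right, inv_mul_cancel]
  obtain ⟨u, hu⟩ := (A_eq_one_iff hG _).mp h1
  refine ⟨u, fun v => ?_⟩
  have h3 : g' = g * sc Q u := by rw [hu, mul_inv_cancel_left]
  rw [← hg' v, h3]
  show (((g.1 * (sc Q u).1 : GL ι F)) : Mι) *ᵥ S.L v = _
  rw [Units.val_mul, ← Matrix.mulVec_mulVec, sc_mulVec, Matrix.mulVec_smul]

/-- A semisimilarity in the language of hermitian forms. -/
def semi (S : SSim Q) : (form h2 hG).Semi where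
  L := S.L
  τ := S.σ
  c := S.c
  hc := S.c_ne
  smul := S.map_smul'
  map := S.map_B

theorem semi_conj {y : MulAut (Cfsg.POmega F ⇑Q)} {S : SSim Q}
    (hy : MulAut.congr (pomEquiv Q) y = S.A) (h : (form h2 hG).U) :
    y * phi h2 hG h * y⁻¹ = phi h2 hG ((semi h2 hG S).conj h) :=
  conj_eq' hy fun v =>
    ((toIso_mulVec h2 hG _ _).trans ((semi h2 hG S).conj_apply h v)).trans
      (congrArg S.L (toIso_mulVec h2 hG h v).symm)

/-- A semisimilarity with scalar square, inducing an element of odd order, gives nothing. -/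
theorem finish {y : MulAut (Cfsg.POmega F ⇑Q)} {S : SSim Q}
    (hy : MulAut.congr (pomEquiv Q) y = S.A) (hodd : Odd (orderOf y)) {k : F}
    (hk : ∀ v, S.L (S.L v) = k • v) : y = 1 := by
  refine Reflect.eq_one_of_sq hodd ((MulAut.congr (pomEquiv Q)).injective ?_)
  rw [data_mul hy hy, map_one]
  symm
  refine SSim.eq_A _ fun a b hab => ?_
  rw [MulAut.one_apply]
  refine congrArg QuotientGroup.mk (om_ext fun v => ?_)
  have h1 := hab v
  change act b (S.L (S.L v)) = S.L (S.L (act a v)) at h1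
  rw [hk, hk, map_smul] at h1
  rcases eq_or_ne k 0 with rfl | hk0
  · have h0 : S.L (S.L v) = 0 := by rw [hk, zero_smul]
    rw [S.L.map_eq_zero_iff, S.L.map_eq_zero_iff] at h0
    rw [h0, map_zero, map_zero]
  · exact (smul_right_injective _ hk0 h1).symm

theorem finish_sq {y : MulAut (Cfsg.POmega F ⇑Q)} {S : SSim Q}
    (hy : MulAut.congr (pomEquiv Q) y = S.A) (hodd : Odd (orderOf y)) {k : F}
    (hk : ∀ v, S.L (S.L (S.L (S.L v))) = k • v) : y = 1 := by
  refine Reflect.eq_one_of_sq hodd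
    (finish (S := S.trans S) (data_mul hy hy) ?_ fun v => hk v)
  rw [← pow_two]
  exact hodd.of_dvd_nat (orderOf_pow_dvd 2)

/-- A square root of an element of odd order. -/
theorem exists_root {G : Type*} [Group G] {y : G} (hy : Odd (orderOf y)) :
    ∃ z, z ∈ Subgroup.zpowers y ∧ z * z = y := by
  obtain ⟨o, ho⟩ := hy
  refine ⟨y ^ (o + 1), pow_mem (Subgroup.mem_zpowers y) _, ?_⟩
  rw [← pow_add, show o + 1 + (o + 1) = (2 * o + 1) + 1 by ring, ← ho, pow_succ,
    pow_orderOf_eq_one, one_mul]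

/-- The determinant of a skew similarity of square `c`. -/
theorem det_of_skew (h2 : (2 : F) ≠ 0) {G J : Mι} {c : F} {k : ℕ} (hk : Fintype.card ι = 2 * k)
    (hJ : J.det ≠ 0) (hsq : G * G = Matrix.scalar ι c) (hs : G.transpose * J = -(J * G)) :
    G.det = (-c) ^ k := by
  obtain ⟨Ju, hJu⟩ : IsUnit J := (Matrix.isUnit_iff_isUnit_det J).mpr (isUnit_iff_ne_zero.mpr hJ)
  have h1 : (-G).charpoly = G.charpoly := by
    rw [← Matrix.charpoly_units_conj Ju (-G), ← Matrix.charpoly_transpose G]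
    congr 1
    rw [hJu, Matrix.mul_neg, ← hs, ← hJu]
    rw [Matrix.mul_assoc, Matrix.mul_nonsing_inv _ ((Matrix.isUnit_iff_isUnit_det _).mp Ju.isUnit),
      Matrix.mul_one]
  have h2' : G.charmatrix * (-G).charmatrix =
      Matrix.scalar ι (Polynomial.X ^ 2 - Polynomial.C c) := by
    unfold Matrix.charmatrix
    have h := congrArg (Polynomial.C.mapMatrix : Mι →+* _) hsq
    rw [map_mul] at h
    rw [map_neg, sub_neg_eq_add, mul_add, sub_mul, sub_mul, h,
      ← (Matrix.scalar_commute _ (fun r => Commute.all _ r) _).eq]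
    rw [map_sub, map_pow, pow_two]
    have h4 : (Polynomial.C.mapMatrix (Matrix.scalar ι c) : Matrix ι ι (Polynomial F)) =
        Matrix.scalar ι (Polynomial.C c) := by
      simp [Matrix.scalar_apply, Matrix.diagonal_map]
    rw [h4, (Matrix.scalar_commute Polynomial.X (fun r => Commute.all _ r)
      (Polynomial.C.mapMatrix G)).eq]
    abel
  have h3 : G.charpoly ^ 2 = ((Polynomial.X ^ 2 - Polynomial.C c) ^ k) ^ 2 := by
    have h := congrArg Matrix.det h2'
    rw [Matrix.det_mul, Matrix.scalar_apply, Matrix.det_diagonal, Finset.prod_const,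
      Finset.card_univ, hk] at h
    change G.charpoly * (-G).charpoly = _ at h
    rw [h1] at h
    rw [pow_two, h, ← pow_mul, mul_comm]
  have h4 : G.charpoly = (Polynomial.X ^ 2 - Polynomial.C c) ^ k := by
    refine (sq_eq_sq_iff_eq_or_eq_neg.mp h3).resolve_right fun h => ?_
    have h5 := congrArg Polynomial.leadingCoeff h
    rw [Polynomial.leadingCoeff_neg, (Matrix.charpoly_monic G).leadingCoeff,
      ((Polynomial.monic_X_pow_sub_C c two_ne_zero).pow k).leadingCoeff] at h5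
    exact h2 (by linear_combination h5)
  rw [Matrix.det_eq_sign_charpoly_coeff, h4, hk, pow_mul, neg_one_sq, one_pow, one_mul,
    Polynomial.coeff_zero_eq_eval_zero]
  simp

/-- Self-adjointness of the similarities of square `c` outside the kernel of the determinant. -/
theorem self_adjoint (h2 : (2 : F) ≠ 0) (hG : Good Q) {k : ℕ} (hk : Fintype.card ι = 2 * k)
    {hV : ∃ v, Q v ≠ 0} {g : GO Q} {c : Fˣ} (hc : g * g = sc Q c)
    (hdet : detGO g ≠ sim hV g ^ k) :
    sim hV g = c ∧ ∀ u v, QuadraticMap.polar ⇑Q ((g.1 : Mι) *ᵥ u) v =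
      QuadraticMap.polar ⇑Q u ((g.1 : Mι) *ᵥ v) := by
  set μ := sim hV g with hμ
  have hgg : ∀ v, (g.1 : Mι) *ᵥ ((g.1 : Mι) *ᵥ v) = (c : F) • v := fun v => by
    rw [← sc_mulVec c v, ← hc]
    show _ = ((g.1 * g.1 : GL ι F) : Mι) *ᵥ v
    rw [Units.val_mul, ← Matrix.mulVec_mulVec]
  have hB : ∀ u v, (c : F) * QuadraticMap.polar ⇑Q ((g.1 : Mι) *ᵥ u) v =
      (μ : F) * QuadraticMap.polar ⇑Q u ((g.1 : Mι) *ᵥ v) := fun u v => by
    rw [← B_smul_right, ← hgg v]
    simp only [QuadraticMap.polar, ← Matrix.mulVec_add, sim_spec hV]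
    ring
  have hsq : μ * μ = c * c := by
    rw [← sim_sc hV c, ← hc, map_mul]
  have hpm : (μ : F) = c ∨ (μ : F) = -c := by
    refine mul_self_eq_mul_self_iff.mp ?_
    rw [← Units.val_mul, hsq, Units.val_mul]
  rcases hpm with h | h
  · refine ⟨Units.ext h, fun u v => mul_left_cancel₀ c.ne_zero ?_⟩
    rw [hB, h]
  exfalso
  set B : LinearMap.BilinForm F Vι := QuadraticMap.polarBilin Q with hBdef
  set J := LinearMap.BilinForm.toMatrix' B with hJd
  have hJ : J.det ≠ 0 := LinearMap.BilinForm.nondegenerate_iff_det_ne_zero (Pi.basisFun F ι) |>.mp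
    hG.nd |> fun h => by rwa [LinearMap.BilinForm.toMatrix_basisFun] at h
  have hs : (g.1 : Mι).transpose * J = -(J * (g.1 : Mι)) := by
    have e : B.compLeft (Matrix.toLin' (g.1 : Mι)) = B.compRight (Matrix.toLin' (-(g.1 : Mι))) := by
      refine LinearMap.BilinForm.ext fun u v => ?_
      show QuadraticMap.polar ⇑Q ((g.1 : Mι) *ᵥ u) v =
        QuadraticMap.polar ⇑Q u ((-(g.1 : Mι)) *ᵥ v)
      rw [Matrix.neg_mulVec, ← neg_one_smul F ((g.1 : Mι) *ᵥ v), B_smul_right]
      refine mul_left_cancel₀ c.ne_zero ?_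
      rw [hB, h]; ring
    have e2 := congrArg LinearMap.BilinForm.toMatrix' e
    rwa [LinearMap.BilinForm.toMatrix'_compLeft, LinearMap.BilinForm.toMatrix'_compRight, LinearMap.toMatrix'_toLin',
      LinearMap.toMatrix'_toLin', Matrix.mul_neg] at e2
  refine hdet (Units.ext ?_)
  rw [Units.val_pow_eq_pow_val, h]
  refine det_of_skew h2 hk hJ ?_ hs
  have e := congrArg (fun z : GO Q => ((z.1 : GL ι F) : Mι)) hc
  exact e

end Cfsg.Agent.KnownB.Proj.Balance.OrthGraph
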