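import Cfsg.Agent.KnownB.Proj.Balance.OrthGraphBase
import Mathlib.LinearAlgebra.Dimension.FreeAndStrongRankCondition

/-! The centraliser of an isometric involution with two eigenspaces of odd dimension. -/

set_option autoImplicit false
set_option maxHeartbeats 1000000

namespace Cfsg.Agent.KnownB.Proj.Balance

open Module
open Cfsg.Agent.KnownB.Proj.Balance.Reflect (Herm)

universe u v

namespace Reflect.Herm

variable {K : Type u} [Field K] {V : Type v} [AddCommGroup V] [Module K V]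
  [Finite K] [FiniteDimensional K V] (D : Herm K V)

/-- Two orthogonal vectors of given values. -/
theorem exists_two_values {k k' : K} (hk : k ≠ 0) (hkr : D.σ k = k) (hk' : D.σ k' = k') :
    ∃ e f, D.H e f = 0 ∧ D.H e e = k ∧ D.H f f = k' := by
  have hrep : ∀ e₁ e₂ : V, D.H e₁ e₁ ≠ 0 → D.H e₂ e₂ ≠ 0 → D.H e₁ e₂ = 0 → ∀ l, D.σ l = l →
      ∃ x y : K, D.H (x • e₁ + y • e₂) (x • e₁ + y • e₂) = l := by
    intro e₁ e₂ h₁ h₂ h12 l hl
    obtain ⟨x, y, hx, hy, hxy⟩ := D.exists_binary h₁ h₂ (D.real_self e₁) (D.real_self e₂) hl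
    refine ⟨x, y, ?_⟩
    simp only [D.add_left, D.add_right, D.smul_left, D.smul_right, hx, hy, h12,
      show D.H e₂ e₁ = 0 by rw [← D.symm e₁ e₂, h12, map_zero]]
    linear_combination hxy
  obtain ⟨z, hz0, -⟩ := D.exists_two_functional 0 0
  obtain ⟨a, -, ha⟩ := D.exists_aniso LinearMap.id (fun _ _ _ => rfl) ⟨z, hz0, rfl⟩ fun _ => rfl
  obtain ⟨b, hab, hb⟩ := D.exists_perp_one ha
  obtain ⟨x, y, he⟩ := hrep a b ha hb hab k hkr
  set e := x • a + y • b
  have he0 : D.H e e ≠ 0 := by rw [he]; exact hk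
  obtain ⟨f₁, hef₁, hf₁⟩ := D.exists_perp_one he0
  obtain ⟨f₂, hef₂, hf12, hf₂⟩ := D.exists_perp_two (a := e) (b := f₁) (by
    rw [hef₁, zero_mul, sub_zero]; exact mul_ne_zero he0 hf₁)
  obtain ⟨x', y', hf⟩ := hrep f₁ f₂ hf₁ hf₂ hf12 k' hk'
  refine ⟨e, x' • f₁ + y' • f₂, ?_, he, hf⟩
  rw [D.add_right, D.smul_right, D.smul_right, hef₁, hef₂]; ring

end Reflect.Herm

namespace OrthGraph

open Matrix
open Cfsg.Agent.KnownB.Proj.Orth

variable {ι : Type} [Fintype ι] [DecidableEq ι] {F : Type u} [Field F] [Fintype F]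
  {Q : QuadraticForm F (ι → F)}

local notation "Vι" => (ι → F)
local notation "Mι" => Matrix ι ι F

/-- An isometric involution, self-adjoint. -/
structure Invol (Q : QuadraticForm F (ι → F)) where
  h2 : (2 : F) ≠ 0
  hG : Good Q
  g : GO Q
  invol : ∀ v, (g.1 : Matrix ι ι F) *ᵥ ((g.1 : Matrix ι ι F) *ᵥ v) = v
  adj : ∀ u v, QuadraticMap.polar ⇑Q ((g.1 : Matrix ι ι F) *ᵥ u) v =
    QuadraticMap.polar ⇑Q u ((g.1 : Matrix ι ι F) *ᵥ v)

namespace Invol

variable (I : Invol Q)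

/-- The form. -/
abbrev D : Herm F Vι := form I.h2 I.hG

/-- The involution as a linear map. -/
def T : Vι →ₗ[F] Vι := (I.g.1 : Mι).mulVecLin

theorem T_apply (v : Vι) : I.T v = (I.g.1 : Mι) *ᵥ v := rfl

theorem TT (v : Vι) : I.T (I.T v) = v := I.invol v

theorem T_adj (u v : Vι) : I.D.H (I.T u) v = I.D.H u (I.T v) := I.adj u v

/-- An eigenspace. -/
def W (s : Fˣ) : Submodule F Vι := LinearMap.ker (I.T - (s : F) • LinearMap.id)

theorem mem_W {s : Fˣ} {v : Vι} : v ∈ I.W s ↔ I.T v = (s : F) • v := by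
  simp [W, sub_eq_zero]

/-- The projection. -/
noncomputable def P (s : Fˣ) : Vι →ₗ[F] Vι := (2 : F)⁻¹ • (LinearMap.id + (s : F) • I.T)

theorem P_apply (s : Fˣ) (v : Vι) : I.P s v = (2 : F)⁻¹ • (v + (s : F) • I.T v) := rfl

theorem P_fix {s : Fˣ} (hs : (s : F) * s = 1) {v : Vι} (hv : v ∈ I.W s) : I.P s v = v := by
  rw [P_apply, I.mem_W.mp hv, smul_smul, hs, one_smul, ← two_smul F, inv_smul_smul₀ I.h2]

theorem P_mem {s : Fˣ} (hs : (s : F) * s = 1) (v : Vι) : I.P s v ∈ I.W s := by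
  rw [mem_W, P_apply, map_smul, map_add, map_smul, TT, smul_comm (s : F) (2 : F)⁻¹]
  congr 1
  rw [smul_add, smul_smul, hs, one_smul, add_comm]

theorem P_add (s : Fˣ) (v : Vι) : I.P s v + I.P (-s) v = v := by
  rw [P_apply, P_apply, Units.val_neg, neg_smul, ← smul_add,
    show v + (s : F) • I.T v + (v + -((s : F) • I.T v)) = v + v by abel, ← two_smul F,
    inv_smul_smul₀ I.h2]

theorem T_P (s : Fˣ) (v : Vι) : I.T (I.P s v) = I.P s (I.T v) := by
  simp [P_apply]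

theorem P_adj (s : Fˣ) (u v : Vι) : I.D.H (I.P s u) v = I.D.H u (I.P s v) := by
  rw [P_apply, P_apply, I.D.smul_left, I.D.smul_right, I.D.add_left, I.D.add_right, I.D.smul_left,
    I.D.smul_right, T_adj]
  rfl

theorem orth {s : Fˣ} (hs : (s : F) * s = 1) {u v : Vι} (hu : u ∈ I.W s) (hv : v ∈ I.W (-s)) :
    I.D.H u v = 0 := by
  have h := I.T_adj u v
  rw [I.mem_W.mp hu, I.mem_W.mp hv, I.D.smul_left, I.D.smul_right, Units.val_neg] at h
  have h' : (s : F) * I.D.H u v = -(s : F) * I.D.H u v := h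
  exact (mul_eq_zero.mp (show ((2 : F) * s) * I.D.H u v = 0 by linear_combination h')).resolve_left
    (mul_ne_zero I.h2 s.ne_zero)

/-- The form on an eigenspace of dimension at least three. -/
def DW {s : Fˣ} (hs : (s : F) * s = 1) (hd : 3 ≤ finrank F (I.W s)) : Herm F (I.W s) where
  σ := 1
  invol _ := rfl
  H a b := I.D.H a.1 b.1
  add_right u x y := I.D.add_right _ _ _
  smul_right u k x := I.D.smul_right _ _ _
  symm u x := I.D.symm _ _
  nd x hx := Subtype.ext (I.D.nd _ fun u => by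
    have h1 := hx ⟨I.P s u, I.P_mem hs u⟩
    change I.D.H (I.P s u) x.1 = 0 at h1
    rwa [P_adj, I.P_fix hs x.2] at h1)
  two := I.h2
  dim := hd

theorem exists_aniso {s : Fˣ} (hs : (s : F) * s = 1) (hd : 1 ≤ finrank F (I.W s)) :
    ∃ a ∈ I.W s, I.D.H a a ≠ 0 := by
  obtain ⟨z, hz⟩ := (finrank_pos_iff_exists_ne_zero (R := F) (M := I.W s)).mp hd
  obtain ⟨w, hw, hw'⟩ := I.D.exists_aniso (I.P s) (fun x z hz => by
      rw [← P_adj, hz]) ⟨z.1, fun h => hz (Subtype.ext h), I.P_fix hs z.2⟩ fun x =>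
    I.P_fix hs (I.P_mem hs x)
  exact ⟨w, hw ▸ I.P_mem hs w, hw'⟩

variable {s : Fˣ} (hs : (s : F) * s = 1) (hd : 3 ≤ finrank F (I.W s))

/-- The projection to an eigenspace. -/
noncomputable def P' : Vι →ₗ[F] I.W s := (I.P s).codRestrict _ (I.P_mem hs)

/-- Extension of a linear map of an eigenspace by the identity. -/
noncomputable def extL (h : I.W s →ₗ[F] I.W s) : Vι →ₗ[F] Vι :=
  (I.W s).subtype ∘ₗ h ∘ₗ I.P' hs + (LinearMap.id - I.P s)

theorem extL_apply (h : I.W s →ₗ[F] I.W s) (v : Vι) :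
    I.extL hs h v = (h ⟨I.P s v, I.P_mem hs v⟩).1 + (v - I.P s v) := rfl

theorem P_extL (h : I.W s →ₗ[F] I.W s) (v : Vι) :
    I.P s (I.extL hs h v) = (h ⟨I.P s v, I.P_mem hs v⟩).1 := by
  rw [extL_apply, map_add, map_sub, I.P_fix hs (h _).2, I.P_fix hs (I.P_mem hs v), sub_self,
    add_zero]

theorem extL_comp (h k : I.W s →ₗ[F] I.W s) (v : Vι) :
    I.extL hs h (I.extL hs k v) = I.extL hs (h ∘ₗ k) v := by
  have e : (⟨I.P s (I.extL hs k v), I.P_mem hs _⟩ : I.W s) = k ⟨I.P s v, I.P_mem hs v⟩ :=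
    Subtype.ext (I.P_extL hs k v)
  conv_lhs => rw [extL_apply, e, P_extL, extL_apply]
  rw [extL_apply, LinearMap.comp_apply]
  abel

theorem extL_id (v : Vι) : I.extL hs LinearMap.id v = v := by
  rw [extL_apply]; simp

theorem extL_T (h : I.W s →ₗ[F] I.W s) (v : Vι) :
    I.extL hs h (I.T v) = I.T (I.extL hs h v) := by
  have e : (⟨I.P s (I.T v), I.P_mem hs _⟩ : I.W s) = (s : F) • ⟨I.P s v, I.P_mem hs v⟩ :=
    Subtype.ext (by
      show I.P s (I.T v) = (s : F) • I.P s v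
      rw [← T_P, I.mem_W.mp (I.P_mem hs v)])
  rw [extL_apply, extL_apply, e, map_smul, map_add, map_sub, T_P]
  rw [show ((s : F) • h ⟨I.P s v, I.P_mem hs v⟩ : I.W s).1 = (s : F) • (h ⟨I.P s v, I.P_mem hs v⟩).1
    from rfl, ← I.mem_W.mp (h _).2]

/-- Isometries of an eigenspace, extended. -/
noncomputable def ext : (I.DW hs hd).U →* I.D.U where
  toFun h := ⟨LinearEquiv.ofLinear (I.extL hs h.1.toLinearMap) (I.extL hs h.1.symm.toLinearMap)
    (LinearMap.ext fun v => by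
      rw [LinearMap.comp_apply, extL_comp,
        show h.1.toLinearMap ∘ₗ h.1.symm.toLinearMap = LinearMap.id from
          LinearMap.ext h.1.apply_symm_apply, extL_id]
      rfl)
    (LinearMap.ext fun v => by
      rw [LinearMap.comp_apply, extL_comp,
        show h.1.symm.toLinearMap ∘ₗ h.1.toLinearMap = LinearMap.id from
          LinearMap.ext h.1.symm_apply_apply, extL_id]
      rfl), fun x y => by
    show I.D.H (I.extL hs h.1.toLinearMap x) (I.extL hs h.1.toLinearMap y) = I.D.H x y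
    have key : ∀ (a : I.W s) (w : Vι), I.D.H a.1 (w - I.P s w) = 0 := fun a w => by
      rw [I.D.sub_right, ← P_adj, I.P_fix hs a.2, sub_self]
    have key' : ∀ (a : I.W s) (w : Vι), I.D.H (w - I.P s w) a.1 = 0 := fun a w => by
      rw [← I.D.symm, key, map_zero]
    have e := h.2 ⟨I.P s x, I.P_mem hs x⟩ ⟨I.P s y, I.P_mem hs y⟩
    change I.D.H (h.1 _).1 (h.1 _).1 = I.D.H (I.P s x) (I.P s y) at e
    rw [extL_apply, extL_apply, I.D.add_left, I.D.add_right, I.D.add_right, key, key',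
      LinearEquiv.coe_coe, e]
    conv_rhs => rw [← add_sub_cancel (I.P s x) x, ← add_sub_cancel (I.P s y) y]
    rw [I.D.add_left (I.P s x), I.D.add_right (I.P s x), I.D.add_right (x - I.P s x),
      key ⟨_, I.P_mem hs x⟩, key' ⟨_, I.P_mem hs y⟩]⟩
  map_one' := I.D.U_ext fun v => I.extL_id hs v
  map_mul' h k := I.D.U_ext fun v => (I.extL_comp hs h.1.toLinearMap k.1.toLinearMap v).symm

theorem ext_apply (h : (I.DW hs hd).U) (v : Vι) :
    (I.ext hs hd h).1 v = (h.1 ⟨I.P s v, I.P_mem hs v⟩).1 + (v - I.P s v) := rfl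

theorem ext_mem (h : (I.DW hs hd).U) (w : I.W s) : (I.ext hs hd h).1 w.1 = (h.1 w).1 := by
  rw [ext_apply, show (⟨I.P s w.1, I.P_mem hs w.1⟩ : I.W s) = w from Subtype.ext (I.P_fix hs w.2),
    I.P_fix hs w.2, sub_self, add_zero]

/-- The action of the isometries of an eigenspace. -/
noncomputable def Φ : (I.DW hs hd).U →* MulAut (Cfsg.POmega F ⇑Q) :=
  (phi I.h2 I.hG).comp (I.ext hs hd)

theorem Φ_one (h : (I.DW hs hd).U) (hh : I.Φ hs hd h = 1) :
    ∃ k : F, ∀ x, h.1 x = k • x := by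
  obtain ⟨k, hk⟩ := phi_one I.h2 I.hG _ hh
  exact ⟨k, fun x => Subtype.ext ((I.ext_mem hs hd h x).symm.trans (hk x.1))⟩

theorem Φ_commute (h : (I.DW hs hd).U) : Commute (I.Φ hs hd h) (A Q I.g) :=
  phi_commute I.h2 I.hG fun v => I.extL_T hs h.1.toLinearMap v

/-- A semisimilarity commuting with the involution. -/
structure Comm (S : SSim Q) : Prop where
  comm : ∀ v, S.L (I.T v) = I.T (S.L v)
  fix : ∀ s : Fˣ, (s : F) * s = 1 → S.σ s = s

theorem fix_of_sq (σ : F ≃+* F) (t : F) (ht : t * t = 1) : σ t = t := by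
  rcases mul_self_eq_one_iff.mp ht with rfl | rfl <;> simp

theorem comm_of {S : SSim Q} (h : ∀ v, S.L (I.T v) = I.T (S.L v)) : I.Comm S :=
  ⟨h, fun t ht => fix_of_sq _ _ ht⟩

variable {S : SSim Q}

theorem L_P (hS : I.Comm S) (t : Fˣ) (ht : (t : F) * t = 1) (v : Vι) :
    S.L (I.P t v) = I.P t (S.L v) := by
  rw [P_apply, P_apply, S.map_smul', map_add, S.map_smul', hS.comm, hS.fix t ht, map_inv₀,
    map_ofNat]

theorem L_mem (hS : I.Comm S) (t : Fˣ) (ht : (t : F) * t = 1) {v : Vι} (hv : v ∈ I.W t) :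
    S.L v ∈ I.W t := by
  rw [← I.P_fix ht hv, I.L_P hS t ht]
  exact I.P_mem ht _

theorem L_symm_mem (hS : I.Comm S) (t : Fˣ) (ht : (t : F) * t = 1) {v : Vι} (hv : v ∈ I.W t) :
    S.L.symm v ∈ I.W t := by
  have h1 : S.L (I.P t (S.L.symm v)) = v := by
    rw [I.L_P hS t ht, AddEquiv.apply_symm_apply, I.P_fix ht hv]
  rw [← AddEquiv.symm_apply_apply S.L (I.P t (S.L.symm v)), h1] at *
  have h3 := I.P_mem ht (S.L.symm v)
  rwa [← AddEquiv.symm_apply_apply S.L (I.P t (S.L.symm v)), I.L_P hS t ht,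
    AddEquiv.apply_symm_apply, I.P_fix ht hv] at h3

/-- The restriction of a semisimilarity to an eigenspace. -/
def semiW (hS : I.Comm S) : (I.DW hs hd).Semi where
  L :=
    { toFun := fun w => ⟨S.L w.1, I.L_mem hS s hs w.2⟩
      invFun := fun w => ⟨S.L.symm w.1, I.L_symm_mem hS s hs w.2⟩
      left_inv := fun w => Subtype.ext (S.L.symm_apply_apply _)
      right_inv := fun w => Subtype.ext (S.L.apply_symm_apply _)
      map_add' := fun a b => Subtype.ext (map_add S.L _ _) }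
  τ := S.σ
  c := S.c
  hc := S.c_ne
  smul k x := Subtype.ext (S.map_smul' k x.1)
  map x y := S.map_B x.1 y.1

theorem ext_conj (hS : I.Comm S) (h : (I.DW hs hd).U) :
    I.ext hs hd ((I.semiW hs hd hS).conj h) = (semi I.h2 I.hG S).conj (I.ext hs hd h) := by
  refine I.D.U_ext fun v => ?_
  obtain ⟨v, rfl⟩ := (semi I.h2 I.hG S).L.surjective v
  rw [Herm.Semi.conj_apply]
  show (I.ext hs hd ((I.semiW hs hd hS).conj h)).1 (S.L v) = S.L ((I.ext hs hd h).1 v)
  rw [ext_apply, ext_apply, map_add, map_sub, I.L_P hS s hs]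
  have e : (⟨I.P s (S.L v), I.P_mem hs _⟩ : I.W s) =
      (I.semiW hs hd hS).L ⟨I.P s v, I.P_mem hs v⟩ := Subtype.ext (I.L_P hS s hs v).symm
  rw [e, Herm.Semi.conj_apply]
  rfl

theorem Φ_conj (hS : I.Comm S) {y : MulAut (Cfsg.POmega F ⇑Q)}
    (hy : MulAut.congr (pomEquiv Q) y = S.A) (h : (I.DW hs hd).U) :
    y * I.Φ hs hd h * y⁻¹ = I.Φ hs hd ((I.semiW hs hd hS).conj h) := by
  show y * phi I.h2 I.hG _ * y⁻¹ = phi I.h2 I.hG _
  rw [semi_conj I.h2 I.hG hy, ext_conj]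

include hs hd in
/-- The step in the inner centraliser, on one eigenspace. -/
theorem step_one (hS : I.Comm S) {M : Subgroup (MulAut (Cfsg.POmega F ⇑Q))}
    [Finite (MulAut (Cfsg.POmega F ⇑Q))]
    (hM : ¬ 2 ∣ Nat.card M) (hn : ∀ g, Commute g (A Q I.g) → ∀ l ∈ M, g * l * g⁻¹ ∈ M)
    {y : MulAut (Cfsg.POmega F ⇑Q)} (hy : y ∈ M) (hyS : MulAut.congr (pomEquiv Q) y = S.A) :
    S.σ = 1 ∧ ∃ k : F, ∀ v ∈ I.W s, S.L v = k • v := by
  obtain ⟨hτ, k, hk⟩ := (I.DW hs hd).scalar_of_norm (I.Φ hs hd) (I.Φ_one hs hd) M hM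
    (fun a ha l hl => hn _ (I.Φ_commute hs hd _) l hl) hy (I.semiW hs hd hS) (I.Φ_conj hs hd hS hyS)
  exact ⟨hτ, k, fun v hv => congrArg Subtype.val (hk ⟨v, hv⟩)⟩

include hs in
/-- Two reflections compensated in the other eigenspace. -/
theorem pair {hs' : ((-s : Fˣ) : F) * ((-s : Fˣ) : F) = 1}
    (hrT : ∀ {t : Fˣ} {a : Vι} (ha : I.D.H a a ≠ 0), a ∈ I.W t → ∀ v,
      (I.D.refl ha).1 (I.T v) = I.T ((I.D.refl ha).1 v))
    {a b : I.W s} (ha : I.D.H a.1 a.1 ≠ 0) (hb : I.D.H b.1 b.1 ≠ 0) (hab : I.D.H a.1 b.1 = 0)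
    (e f : I.W (-s)) (hef : I.D.H e.1 f.1 = 0) (he : I.D.H e.1 e.1 = I.D.H a.1 a.1)
    (hf : I.D.H f.1 f.1 = I.D.H b.1 b.1) :
    ∃ h : I.D.U, h ∈ commutator I.D.U ∧ (∀ v, h.1 (I.T v) = I.T (h.1 v)) ∧ ∀ z : I.W s,
      h.1 z.1 = (I.D.refl ha * I.D.refl hb).1 z.1 := by
  have he0 : I.D.H e.1 e.1 ≠ 0 := he ▸ ha
  have hf0 : I.D.H f.1 f.1 ≠ 0 := hf ▸ hb
  refine ⟨(I.D.refl ha * I.D.refl he0) * (I.D.refl hb * I.D.refl hf0),
    mul_mem (I.D.refl_mul_mem_commutator ha he0 (I.orth hs a.2 e.2) he)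
      (I.D.refl_mul_mem_commutator hb hf0 (I.orth hs b.2 f.2) hf), fun v => ?_, fun z => ?_⟩
  · show (I.D.refl ha).1 ((I.D.refl he0).1 ((I.D.refl hb).1 ((I.D.refl hf0).1 (I.T v)))) = _
    rw [hrT _ f.2, hrT _ b.2, hrT _ e.2, hrT _ a.2]
    rfl
  · show (I.D.refl ha).1 ((I.D.refl he0).1 ((I.D.refl hb).1 ((I.D.refl hf0).1 z.1))) =
      (I.D.refl ha).1 ((I.D.refl hb).1 z.1)
    have hperp : ∀ {w : Vι} (w' : I.W (-s)), w ∈ I.W s → I.D.H w'.1 w = 0 := fun {w} w' hw => by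
      rw [← I.D.symm w w'.1, I.orth hs hw w'.2, map_zero]
    have hbz : (I.D.refl hb).1 z.1 ∈ I.W s := by
      rw [Herm.refl_apply]
      exact sub_mem z.2 (Submodule.smul_mem _ _ b.2)
    rw [Herm.refl_apply_perp I.D hf0 (hperp f z.2), Herm.refl_apply_perp I.D he0 (hperp e hbz)]

include hs hd in
/-- The step for elements centralising the inner centraliser, on one eigenspace. -/
theorem step_two (hS : I.Comm S) {y : MulAut (Cfsg.POmega F ⇑Q)}
    (hyS : MulAut.congr (pomEquiv Q) y = S.A)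
    (hyE : ∀ e ∈ Cfsg.Inn (Cfsg.POmega F ⇑Q) ⊓ Subgroup.centralizer {A Q I.g}, Commute y e)
    (hside : 4 ≤ finrank F (I.W s) ∨ 3 ≤ finrank F (I.W (-s))) :
    S.σ * S.σ = 1 ∧ ∃ k : F, ∀ v ∈ I.W s, S.L (S.L v) = k • v := by
  have hrT : ∀ {t : Fˣ} {a : Vι} (ha : I.D.H a a ≠ 0), a ∈ I.W t → ∀ v,
      (I.D.refl ha).1 (I.T v) = I.T ((I.D.refl ha).1 v) := by
    intro t a ha hat v
    rw [Herm.refl_apply, Herm.refl_apply, map_sub, map_smul, I.mem_W.mp hat, smul_smul, ← T_adj,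
      I.mem_W.mp hat, I.D.smul_left]
    congr 2
    show 2 * ((t : F) * _) / _ = _
    ring
  have hcomm : ∀ h : I.D.U, h ∈ commutator I.D.U → (∀ v, h.1 (I.T v) = I.T (h.1 v)) →
      ∃ k : F, ∀ v, S.L (h.1 v) = k • h.1 (S.L v) := by
    intro h hh hT
    have hc := hyE _ (Subgroup.mem_inf.mpr ⟨phi_mem_inn I.h2 I.hG hh,
      Subgroup.mem_centralizer_singleton_iff.mpr (phi_commute I.h2 I.hG hT)⟩)
    obtain ⟨k, hk⟩ := phi_one I.h2 I.hG (h⁻¹ * (semi I.h2 I.hG S).conj h) (by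
      rw [map_mul, map_inv, ← semi_conj I.h2 I.hG hyS, hc.eq, mul_inv_cancel_right, inv_mul_cancel])
    refine ⟨k, fun v => ?_⟩
    have h1 := congrArg h.1 (hk (S.L v))
    change h.1 (h.1.symm (((semi I.h2 I.hG S).conj h).1 ((semi I.h2 I.hG S).L v))) = _ at h1
    rw [LinearEquiv.apply_symm_apply, Herm.Semi.conj_apply, map_smul] at h1
    exact h1
  obtain ⟨hτ, k, hk⟩ := (I.DW hs hd).sq_scalar (I.semiW hs hd hS)
    (Pr := fun {a b} ha hb => ∃ h : I.D.U, h ∈ commutator I.D.U ∧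
      (∀ v, h.1 (I.T v) = I.T (h.1 v)) ∧ ∀ z : I.W s,
        h.1 z.1 = ((I.D.refl (a := a.1) ha) * I.D.refl (a := b.1) hb).1 z.1)
    (fun {a} ha => by
      rcases hside with h4 | h3
      · obtain ⟨b, c, hab, hac, hbc, hb, hc⟩ := (I.DW hs hd).exists_frame h4 ha
        refine ⟨b, c, by rw [hb]; exact ha, by rw [hc]; exact ha, hab, hac, hbc, ?_, ?_⟩
        · have ha' : I.D.H a.1 a.1 ≠ 0 := ha
          have hb' : I.D.H b.1 b.1 ≠ 0 := hb.trans_ne ha
          refine ⟨_, I.D.refl_mul_mem_commutator ha' hb' hab hb,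
            fun v => ?_, fun z => rfl⟩
          show (I.D.refl ha').1 ((I.D.refl hb').1 (I.T v)) =
            I.T ((I.D.refl ha').1 ((I.D.refl hb').1 v))
          rw [hrT _ b.2, hrT _ a.2]
        · have ha' : I.D.H a.1 a.1 ≠ 0 := ha
          have hc' : I.D.H c.1 c.1 ≠ 0 := hc.trans_ne ha
          refine ⟨_, I.D.refl_mul_mem_commutator ha' hc' hac hc,
            fun v => ?_, fun z => rfl⟩
          show (I.D.refl ha').1 ((I.D.refl hc').1 (I.T v)) =
            I.T ((I.D.refl ha').1 ((I.D.refl hc').1 v))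
          rw [hrT _ c.2, hrT _ a.2]
      · have hs' : ((-s : Fˣ) : F) * ((-s : Fˣ) : F) = 1 := by
          rw [Units.val_neg, neg_mul_neg, hs]
        obtain ⟨b, hab, hb⟩ := (I.DW hs hd).exists_perp_one ha
        obtain ⟨c, hac, hbc, hc⟩ := (I.DW hs hd).exists_perp_two (a := a) (b := b) (by
          rw [hab, zero_mul, sub_zero]; exact mul_ne_zero ha hb)
        refine ⟨b, c, hb, hc, hab, hac, hbc, ?_, ?_⟩
        all_goals
          first
            | obtain ⟨e, f, hef, he, hf⟩ := (I.DW hs' h3).exists_two_values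
                (k := I.D.H a.1 a.1) (k' := I.D.H b.1 b.1) ha rfl rfl
              exact I.pair hs (hs' := hs') hrT ha hb hab e f hef he hf
            | obtain ⟨e, f, hef, he, hf⟩ := (I.DW hs' h3).exists_two_values
                (k := I.D.H a.1 a.1) (k' := I.D.H c.1 c.1) ha rfl rfl
              exact I.pair hs (hs' := hs') hrT ha hc hac e f hef he hf)
    (fun a b ha hb hab hP => by
      obtain ⟨h, hh, hT, hz⟩ := hP
      obtain ⟨k, hk⟩ := hcomm h hh hT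
      have hW : ∀ z : I.W s, (((I.DW hs hd).refl ha * (I.DW hs hd).refl hb).1 z).1 = h.1 z.1 :=
        fun z => (hz z).symm
      refine ⟨k, fun z => Subtype.ext ?_⟩
      show S.L (((I.DW hs hd).refl ha * (I.DW hs hd).refl hb).1 z).1 =
        k • (((I.DW hs hd).refl ha * (I.DW hs hd).refl hb).1 ((I.semiW hs hd hS).L z)).1
      rw [hW, hW, hk]
      rfl)
  exact ⟨hτ, k, fun v hv => congrArg Subtype.val (hk ⟨v, hv⟩)⟩

end Invol

end OrthGraph

end Cfsg.Agent.KnownB.Proj.Balance
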