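import Cfsg.Agent.KnownB.Proj.Balance.Core
import Cfsg.Agent.KnownB.Proj.Orth.FixField
import Cfsg.Agent.KnownB.Proj.Orth.OddApps

/-! The subgroup of `PΩ` over the fixed field: involutions and powers. -/

set_option autoImplicit false
set_option maxHeartbeats 1000000

namespace Cfsg.Agent.KnownB.Proj.Balance

open Matrix Module
open Cfsg.Agent.Forms (orthGroup)
open Cfsg.Agent.KnownB.Proj.Orth

universe u v

variable {ι : Type} [Fintype ι] [DecidableEq ι] {F₀ : Type v} [Field F₀] [Fintype F₀]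
  {Q₀ : QuadraticForm F₀ (ι → F₀)}

omit [DecidableEq ι] in
theorem sq_mem_commutator (hG₀ : Good Q₀) (x : orthGroup Q₀) :
    x * x ∈ commutator (orthGroup Q₀) := by
  classical
  have hgen : Subgroup.closure (Forms.reflectionSet Q₀) = ⊤ := by
    by_cases h2 : (2 : F₀) = 0
    · exact Forms.closure_reflectionSet_two h2 hG₀.nd (Or.inr (by have := hG₀.dim; omega))
    · exact Forms.closure_reflectionSet_odd h2 Q₀ hG₀.nd
  have key : Abelianization.of x * Abelianization.of x = 1 := by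
    have hx : x ∈ Subgroup.closure (Forms.reflectionSet Q₀) := hgen ▸ Subgroup.mem_top x
    induction hx using Subgroup.closure_induction with
    | mem r hr =>
      obtain ⟨v, -, rfl⟩ := hr
      rw [← map_mul, Forms.reflection_mul_self, map_one]
    | one => simp
    | mul a b _ _ ha hb => rw [map_mul, mul_mul_mul_comm, ha, hb, one_mul]
    | inv a _ ha => rw [map_inv, ← _root_.mul_inv, ha, inv_one]
  rw [← map_mul] at key
  exact Abelianization.ker_of (orthGroup Q₀) ▸ MonoidHom.mem_ker.mpr key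

theorem pow_four_inn (hG₀ : Good Q₀) (g : GO Q₀) :
    ∃ s : Cfsg.Omega F₀ ⇑Q₀, A Q₀ (g ^ 4) = A Q₀ (isoInc Q₀ (s : Cfsg.isometryGroup F₀ ⇑Q₀)) := by
  obtain ⟨v, hv⟩ := Orth.exists_Q_one hG₀
  have hV : ∃ v, Q₀ v ≠ 0 := ⟨v, by rw [hv]; exact one_ne_zero⟩
  set c := sim hV g with hc
  have hmem : g ^ 2 * (sc Q₀ c)⁻¹ ∈ (sim hV).ker := by
    rw [MonoidHom.mem_ker, map_mul, map_inv, map_pow, sim_sc, ← hc, sq, mul_inv_cancel]
  rw [sim_ker] at hmem
  obtain ⟨s, hs⟩ := hmem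
  have hss : s * s ∈ Cfsg.Omega F₀ ⇑Q₀ := by
    rw [Forms.mem_omega_iff, map_mul]; exact sq_mem_commutator hG₀ _
  refine ⟨⟨s * s, hss⟩, ?_⟩
  have hsc : ∀ u, A Q₀ (sc Q₀ u) = 1 := fun u => (A_eq_one_iff hG₀ _).mpr ⟨u, rfl⟩
  rw [show g ^ 4 = g ^ 2 * g ^ 2 by rw [← pow_add],
    show g ^ 2 = isoInc Q₀ s * sc Q₀ c by rw [hs, inv_mul_cancel_right], map_mul, map_mul, hsc,
    mul_one, ← map_mul, ← map_mul]

/-- `PΩ` in odd characteristic has an involution. -/
theorem exists_involution (hG₀ : Good Q₀) (h2 : (2 : F₀) ≠ 0) :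
    ∃ z : Cfsg.POmega F₀ ⇑Q₀, orderOf z = 2 := by
  classical
  have hd := hG₀.dim
  obtain ⟨e, f, he, hf, hef, -, -⟩ := exists_hyp_perp hG₀ (![] : Fin 0 → ι → F₀) id (fun i => rfl)
    (fun i => i.elim0) (by omega)
  have hfe : QuadraticMap.polar ⇑Q₀ f e = 1 := (B_comm f e).trans hef
  obtain ⟨a, b, ha, hb, hab, hva, hvb⟩ := exists_hyp_perp hG₀ ![e, f] ![1, 0] (by decide) (by
    intro i j
    fin_cases i <;> fin_cases j <;> simp [B_sing he, B_sing hf, hef, hfe]) (by omega)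
  have hea : QuadraticMap.polar ⇑Q₀ e a = 0 := hva 0
  have hfa : QuadraticMap.polar ⇑Q₀ f a = 0 := hva 1
  have heb : QuadraticMap.polar ⇑Q₀ e b = 0 := hvb 0
  have hfb : QuadraticMap.polar ⇑Q₀ f b = 0 := hvb 1
  have hba : QuadraticMap.polar ⇑Q₀ b a = 1 := (B_comm b a).trans hab
  have hQp : ∀ x y, Q₀ x = 0 → Q₀ y = 0 → QuadraticMap.polar ⇑Q₀ x y = 1 →
      Q₀ (x + y) = 1 ∧ Q₀ (x - y) = -1 := fun x y hx hy hxy => by
    refine ⟨by rw [Q_add, hx, hy, hxy]; ring, ?_⟩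
    rw [sub_eq_add_neg, ← neg_one_smul F₀ y, Q_add, Q_smul, hx, hy, B_smul_right, hxy]; ring
  obtain ⟨hu, hu'⟩ := hQp e f he hf hef
  obtain ⟨hw, hw'⟩ := hQp a b ha hb hab
  set R := Forms.reflection Q₀ (e + f) * Forms.reflection Q₀ (a + b) *
    (Forms.reflection Q₀ (e - f) * Forms.reflection Q₀ (a - b)) with hR
  have hd2 : 2 ≤ finrank F₀ (ι → F₀) := by omega
  have hmem : R ∈ commutator (orthGroup Q₀) := by
    rw [Forms.mem_commutator_iff h2 hG₀.nd hd2]
    have h0 : ∀ v, Q₀ v = 1 → Forms.spinor Q₀ h2 (Forms.reflection Q₀ v) = 1 := fun v hv =>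
      (Forms.spinor_reflection h2 hG₀.nd (by rw [hv]; exact one_ne_zero)).1
        (by rw [hv]; exact IsSquare.one)
    have hne : ∀ v, Q₀ v = -1 → Q₀ v ≠ 0 := fun v hv => by rw [hv]; exact neg_ne_zero.mpr one_ne_zero
    constructor
    · refine Units.ext ?_
      simp [hR, Forms.orthDet_reflection Q₀ (show Q₀ (e + f) ≠ 0 by rw [hu]; exact one_ne_zero),
        Forms.orthDet_reflection Q₀ (show Q₀ (a + b) ≠ 0 by rw [hw]; exact one_ne_zero),
        Forms.orthDet_reflection Q₀ (hne _ hu'), Forms.orthDet_reflection Q₀ (hne _ hw')]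
    · rw [hR, map_mul, map_mul, h0 _ hu, h0 _ hw, one_mul, one_mul, map_mul]
      by_cases hs : IsSquare (-1 : F₀)
      · rw [(Forms.spinor_reflection h2 hG₀.nd (hne _ hu')).1 (by rwa [hu']),
          (Forms.spinor_reflection h2 hG₀.nd (hne _ hw')).1 (by rwa [hw'])]; rfl
      · rw [(Forms.spinor_reflection h2 hG₀.nd (hne _ hu')).2 (by rwa [hu']),
          (Forms.spinor_reflection h2 hG₀.nd (hne _ hw')).2 (by rwa [hw'])]
        exact Int.units_mul_self _
  have happ : ∀ v, ((R : orthGroup Q₀) : (ι → F₀) ≃ₗ[F₀] (ι → F₀)) v =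
      v - (2 * QuadraticMap.polar ⇑Q₀ e v) • f - (2 * QuadraticMap.polar ⇑Q₀ f v) • e -
        (2 * QuadraticMap.polar ⇑Q₀ a v) • b - (2 * QuadraticMap.polar ⇑Q₀ b v) • a := by
    intro v
    rw [hR]
    simp only [Forms.orth_mul_apply, Forms.reflection_apply, hu, hu', hw, hw', inv_one, one_mul,
      inv_neg, B_add_left, B_sub_left, B_add_right, B_sub_right, B_smul_right, hef, hfe, hab, hba,
      hea, hfa, heb, hfb, B_sing he, B_sing hf, B_sing ha, B_sing hb, B_comm a e, B_comm a f,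
      B_comm b e, B_comm b f]
    module
  set z₁ : Om Q₀ := ⟨R, hmem⟩
  have hsq : z₁ * z₁ = 1 := om_ext fun v => by
    show ((R * R : orthGroup Q₀) : (ι → F₀) ≃ₗ[F₀] (ι → F₀)) v = v
    rw [Forms.orth_mul_apply, happ, happ v]
    simp only [B_sub_right, B_smul_right, hef, hfe, hab, hba, hea, hfa, heb, hfb, B_sing he,
      B_sing hf, B_sing ha, B_sing hb, B_comm a e, B_comm a f, B_comm b e, B_comm b f]
    module
  refine ⟨(pomEquiv Q₀).symm (QuotientGroup.mk z₁), ?_⟩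
  rw [MulEquiv.orderOf_eq]
  refine orderOf_eq_prime (by rw [← QuotientGroup.mk_pow, sq, hsq]; rfl) fun h => ?_
  obtain ⟨c, hc⟩ := (Forms.omega_center_iff hG₀.nd (by omega) z₁).mp
    ((QuotientGroup.eq_one_iff _).mp h)
  obtain ⟨v, hv0, hv⟩ := exists_perp_ne hG₀ ![e, f, a, b] (by omega)
  have h1 := hc v
  rw [happ, show QuadraticMap.polar ⇑Q₀ e v = 0 from hv 0,
    show QuadraticMap.polar ⇑Q₀ f v = 0 from hv 1,
    show QuadraticMap.polar ⇑Q₀ a v = 0 from hv 2,
    show QuadraticMap.polar ⇑Q₀ b v = 0 from hv 3] at h1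
  simp only [mul_zero, zero_smul, sub_zero] at h1
  have hc1 : c = 1 := by
    have h2' : (c - 1) • v = 0 := by rw [sub_smul, one_smul, ← h1, sub_self]
    exact sub_eq_zero.mp ((smul_eq_zero.mp h2').resolve_right hv0)
  have h2v := hc e
  rw [happ, hc1, one_smul, B_sing he, hfe, show QuadraticMap.polar ⇑Q₀ a e = 0 from
    (B_comm a e).trans hea, show QuadraticMap.polar ⇑Q₀ b e = 0 from (B_comm b e).trans heb] at h2v
  have he0 : e ≠ 0 := fun h0 => by rw [h0, B_zero_left] at hef; exact zero_ne_one hef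
  simp only [mul_zero, zero_smul, sub_zero, mul_one] at h2v
  refine he0 ((smul_eq_zero.mp (show (2 : F₀) • e = 0 from ?_)).resolve_left h2)
  exact sub_eq_self.mp h2v

end Cfsg.Agent.KnownB.Proj.Balance
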