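import Cfsg.Agent.Linear.SLNormal

/-! Elements of prime order in `PSL_n`, and normal subgroups of the two smallest ones. -/

set_option autoImplicit false

namespace Cfsg.Agent.KnownB.Proj.Balance.PSLSmall

open Matrix

universe u

theorem two_two (g : Matrix.SpecialLinearGroup (Fin 2) (ZMod 2)) :
    g = 1 ∨ g ^ 3 = 1 ∨
      ∃ h, g * (h * g⁻¹ * h⁻¹) ≠ 1 ∧ (g * (h * g⁻¹ * h⁻¹)) ^ 3 = 1 := by
  revert g
  decide +kernel

theorem two_three (g : Matrix.SpecialLinearGroup (Fin 2) (ZMod 3)) :
    g ∈ [1, -1] ∨ g * g ∈ [1, -1] ∨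
      ∃ h, g * (h * g⁻¹ * h⁻¹) ∉ [1, -1] ∧
        g * (h * g⁻¹ * h⁻¹) * (g * (h * g⁻¹ * h⁻¹)) ∈ [1, -1] := by
  revert g
  decide +kernel

variable {n : ℕ} {F : Type u} [Field F]

theorem center_entry {s : Matrix.SpecialLinearGroup (Fin n) F}
    (hs : s ∈ Subgroup.center (Matrix.SpecialLinearGroup (Fin n) F)) {i j : Fin n} (hij : i ≠ j) :
    s.1 i j = 0 ∧ s.1 i i = s.1 j j := by
  haveI : Nonempty (Fin n) := ⟨i⟩
  obtain ⟨r, -, hr⟩ := Matrix.SpecialLinearGroup.mem_center_iff.mp hs
  rw [← hr]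
  simp [Matrix.scalar_apply, Matrix.diagonal_apply, hij]

/-- A prime dividing the degree divides the order. -/
theorem dvd_card [Fintype F] {p : ℕ} (hp : p.Prime) (hn : 2 ≤ n) (hpn : p ∣ n)
    (h2 : p = 2 → (2 : F) ≠ 0) :
    p ∣ Nat.card (Matrix.ProjectiveSpecialLinearGroup (Fin n) F) := by
  classical
  haveI := Fact.mk hp
  suffices h : ∃ s : Matrix.SpecialLinearGroup (Fin n) F,
      s ∉ Subgroup.center _ ∧ ∃ k, s ^ p ^ k ∈ Subgroup.center _ by
    obtain ⟨s, hs, k, hk⟩ := h
    set z : Matrix.ProjectiveSpecialLinearGroup (Fin n) F := QuotientGroup.mk s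
    have hz : z ^ p ^ k = 1 := by
      rw [← QuotientGroup.mk_pow, QuotientGroup.eq_one_iff]; exact hk
    obtain ⟨i, -, hi⟩ := (Nat.dvd_prime_pow hp).mp (orderOf_dvd_of_pow_eq_one hz)
    have hi0 : i ≠ 0 := by
      rintro rfl
      rw [pow_zero, orderOf_eq_one_iff, QuotientGroup.eq_one_iff] at hi
      exact hs hi
    exact ((dvd_pow_self p hi0).trans (hi ▸ dvd_refl _)).trans (orderOf_dvd_natCard z)
  by_cases hp2 : p = 2
  · subst hp2
    have h20 := h2 rfl
    by_cases hn2 : n = 2
    · subst hn2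
      obtain ⟨s, hs⟩ : ∃ s : Matrix.SpecialLinearGroup (Fin 2) F, s.1 = !![0, 1; -1, 0] :=
        ⟨⟨!![0, 1; -1, 0], by simp [Matrix.det_fin_two]⟩, rfl⟩
      refine ⟨s, fun h => ?_, 2, ?_⟩
      · have := (center_entry h (i := 0) (j := 1) (by decide)).1
        simp [hs] at this
      · have e : s ^ 2 ^ 2 = 1 := by
          refine Subtype.ext ?_
          rw [Matrix.SpecialLinearGroup.coe_pow, hs]
          ext i j
          fin_cases i <;> fin_cases j <;> simp [pow_succ, Matrix.mul_apply]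
        rw [e]
        exact one_mem _
    · let i₀ : Fin n := ⟨0, by omega⟩
      let i₁ : Fin n := ⟨1, by omega⟩
      let i₂ : Fin n := ⟨2, by omega⟩
      let d : Fin n → F := fun i => if i = i₀ ∨ i = i₁ then -1 else 1
      have hd : ∀ i, d i * d i = 1 := fun i => by
        by_cases h : i = i₀ ∨ i = i₁ <;> simp [d, h]
      have hdet : (Matrix.diagonal d).det = 1 := by
        rw [Matrix.det_diagonal, ← Finset.prod_sdiff (Finset.subset_univ ({i₀, i₁} : Finset (Fin n))),
          Finset.prod_eq_one (fun i hi => ?_), one_mul, Finset.prod_pair (by simp [i₀, i₁])]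
        · simp [d]
        · simp only [Finset.mem_sdiff, Finset.mem_insert, Finset.mem_singleton] at hi
          simp [d, hi.2]
      obtain ⟨s, hs⟩ : ∃ s : Matrix.SpecialLinearGroup (Fin n) F, s.1 = Matrix.diagonal d :=
        ⟨⟨Matrix.diagonal d, hdet⟩, rfl⟩
      refine ⟨s, fun h => ?_, 1, ?_⟩
      · have := (center_entry h (i := i₀) (j := i₂) (by simp [i₀, i₂])).2
        simp [hs, d, i₀, i₁, i₂] at this
        exact h20 (by linear_combination -this)
      · have e : s ^ 2 ^ 1 = 1 := by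
          refine Subtype.ext ?_
          rw [pow_one, pow_two, Matrix.SpecialLinearGroup.coe_mul, hs, Matrix.diagonal_mul_diagonal,
            Matrix.SpecialLinearGroup.coe_one, ← Matrix.diagonal_one]
          exact congrArg Matrix.diagonal (funext hd)
        rw [e]
        exact one_mem _
  · obtain ⟨π, hπ⟩ := exists_prime_orderOf_dvd_card' (G := Equiv.Perm (Fin n)) p
      (by rw [Nat.card_perm, Nat.card_eq_fintype_card, Fintype.card_fin]
          exact Nat.dvd_factorial hp.pos (Nat.le_of_dvd (by omega) hpn))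
    have hπp : π ^ p = 1 := hπ ▸ pow_orderOf_eq_one π
    have hsign : ∀ σ : Equiv.Perm (Fin n), σ ^ p = 1 → Equiv.Perm.sign σ = 1 := fun σ hσ => by
      have h := congrArg Equiv.Perm.sign hσ
      rw [map_pow, map_one] at h
      rcases Int.units_eq_one_or (Equiv.Perm.sign σ) with h1 | h1
      · exact h1
      · rw [h1, (hp.odd_of_ne_two hp2).neg_one_pow] at h
        exact absurd h (by decide)
    have hdet : (Matrix.permMatrixHom (n := Fin n) (R := F) π).det = 1 := by
      rw [Matrix.permMatrixHom_apply, Matrix.det_permutation, hsign]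
      · simp
      · rw [inv_pow, hπp, inv_one]
    obtain ⟨s, hs⟩ : ∃ s : Matrix.SpecialLinearGroup (Fin n) F,
        s.1 = Matrix.permMatrixHom (n := Fin n) (R := F) π := ⟨⟨_, hdet⟩, rfl⟩
    refine ⟨s, fun h => ?_, 1, ?_⟩
    · obtain ⟨i, hi⟩ : ∃ i, π⁻¹ i ≠ i := by
        by_contra hcon
        push Not at hcon
        have h1 : π⁻¹ = 1 := Equiv.ext hcon
        rw [inv_eq_one] at h1
        rw [h1, orderOf_one] at hπ
        exact hp.ne_one hπ.symm
      have := (center_entry h (i := i) (j := π⁻¹ i) (Ne.symm hi)).1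
      simp [hs, Matrix.permMatrixHom_apply, PEquiv.toMatrix_apply] at this
    · have e : s ^ p ^ 1 = 1 := by
        refine Subtype.ext ?_
        rw [Matrix.SpecialLinearGroup.coe_pow, pow_one, Matrix.SpecialLinearGroup.coe_one]
        rw [hs]
        rw [← map_pow, hπp, map_one]
      rw [e]
      exact one_mem _

/-- Normal subgroups of order prime to a divisor of the order. -/
theorem normal_eq_bot [Fintype F] (hn : 2 ≤ n) {p r : ℕ} (hp : p.Prime) (hr : r.Prime)
    [CharP F r] (hpr : p ≠ r) (hd : p ∣ Nat.card (Matrix.ProjectiveSpecialLinearGroup (Fin n) F))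
    (M : Subgroup (Matrix.ProjectiveSpecialLinearGroup (Fin n) F)) (hM : M.Normal)
    (hMp : ¬ p ∣ Nat.card M) : M = ⊥ := by
  classical
  haveI := Fact.mk hr
  haveI := Fact.mk hp
  by_cases hex : n = 2 ∧ Fintype.card F ≤ 3
  swap
  · haveI := Linear.psl_simple_finite (F := F) n hn hex
    refine (IsSimpleGroup.eq_bot_or_eq_top_of_normal M hM).resolve_right fun ht => hMp ?_
    rwa [ht, Subgroup.card_top]
  obtain ⟨rfl, hle⟩ := hex
  have h1 := Fintype.one_lt_card (α := F)
  have hq : ∃ q, Fintype.card F = q ∧ (q = 2 ∨ q = 3) := ⟨_, rfl, by omega⟩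
  obtain ⟨q, hq, hq23⟩ := hq
  haveI : Fact q.Prime := ⟨by rcases hq23 with rfl | rfl <;> norm_num⟩
  have hc : Fintype.card F = Fintype.card (ZMod q) := by rw [hq, ZMod.card]
  let e := FiniteField.ringEquivOfCardEq hc
  have hrq : r = q := by
    have h2 : ((q : ℕ) : F) = 0 := by rw [← hq]; exact FiniteField.cast_card_eq_zero F
    exact (Nat.prime_dvd_prime_iff_eq hr Fact.out).mp ((CharP.cast_eq_zero_iff F r q).mp h2)
  let E : Matrix.SpecialLinearGroup (Fin 2) F →* Matrix.SpecialLinearGroup (Fin 2) (ZMod q) :=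
    Matrix.SpecialLinearGroup.map (e : F →+* ZMod q)
  have hEi : Function.Injective E := fun a b h => Subtype.ext (Matrix.ext fun i j =>
    e.injective (congrArg (fun x : Matrix.SpecialLinearGroup (Fin 2) (ZMod q) => x.1 i j) h))
  have hEs : Function.Surjective E := fun b =>
    ⟨Matrix.SpecialLinearGroup.map (e.symm : ZMod q →+* F) b,
      Subtype.ext (Matrix.ext fun i j => e.apply_symm_apply _)⟩
  have hEc : ∀ s, E s ∈ Subgroup.center _ ↔ s ∈ Subgroup.center _ := fun s => by
    rw [Subgroup.mem_center_iff, Subgroup.mem_center_iff]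
    refine ⟨fun h g => hEi (by rw [map_mul, map_mul, h]), fun h g => ?_⟩
    obtain ⟨g, rfl⟩ := hEs g
    rw [← map_mul, h, map_mul]
  by_contra hne
  obtain ⟨x, hxM, hx1⟩ := M.ne_bot_iff_exists_ne_one.mp hne |> fun ⟨x, hx⟩ =>
    (⟨x.1, x.2, fun h => hx (Subtype.ext h)⟩ : ∃ x ∈ M, x ≠ 1)
  obtain ⟨s, rfl⟩ := QuotientGroup.mk_surjective x
  have hsc : s ∉ Subgroup.center _ := fun h => hx1 ((QuotientGroup.eq_one_iff s).mpr h)
  have hcl : ∀ h, (QuotientGroup.mk (s * (h * s⁻¹ * h⁻¹)) :
      Matrix.ProjectiveSpecialLinearGroup (Fin 2) F) ∈ M := fun h => by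
    rw [QuotientGroup.mk_mul, QuotientGroup.mk_mul, QuotientGroup.mk_mul, QuotientGroup.mk_inv,
      QuotientGroup.mk_inv]
    exact mul_mem hxM (hM.conj_mem _ (inv_mem hxM) _)
  have hkill : ∀ t, (QuotientGroup.mk t : Matrix.ProjectiveSpecialLinearGroup (Fin 2) F) ∈ M →
      E t ∉ Subgroup.center _ → (E t) ^ p ∈ Subgroup.center _ → False := fun t ht h2 h3 => by
    have ho : orderOf (QuotientGroup.mk t : Matrix.ProjectiveSpecialLinearGroup (Fin 2) F) = p := by
      refine orderOf_eq_prime ?_ fun h => h2 ((hEc t).mpr ((QuotientGroup.eq_one_iff t).mp h))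
      rw [← QuotientGroup.mk_pow, QuotientGroup.eq_one_iff, ← hEc, map_pow]
      exact h3
    refine hMp ?_
    rw [← ho, ← Subgroup.orderOf_mk _ ht]
    exact orderOf_dvd_natCard _
  rcases hq23 with rfl | rfl
  · have hp3 : p = 3 := by
      have h6 : Nat.card (Matrix.SpecialLinearGroup (Fin 2) (ZMod 2)) = 6 := by
        rw [Nat.card_eq_fintype_card]; decide +kernel
      have h7 := hd.trans (Subgroup.card_quotient_dvd_card _)
      rw [Nat.card_congr (Equiv.ofBijective E ⟨hEi, hEs⟩), h6] at h7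
      have := Nat.le_of_dvd (by norm_num) h7
      interval_cases p <;> norm_num at *
      all_goals omega
    subst hp3
    rcases two_two (E s) with h | h | ⟨h, h2, h3⟩
    · exact hsc ((hEc s).mp (h ▸ one_mem _))
    · exact hkill s hxM (fun hh => hsc ((hEc s).mp hh)) (h ▸ one_mem _)
    · obtain ⟨h, rfl⟩ := hEs h
      rw [← map_inv, ← map_inv, ← map_mul, ← map_mul, ← map_mul] at h2 h3
      refine hkill _ (hcl h) (fun hh => h2 ?_) (h3 ▸ one_mem _)
      exact (show ∀ z : Matrix.SpecialLinearGroup (Fin 2) (ZMod 2),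
        (∀ g, g * z = z * g) → z = 1 by decide +kernel) _ (Subgroup.mem_center_iff.mp hh)
  · have hp2 : p = 2 := by
      have h6 : Nat.card (Matrix.SpecialLinearGroup (Fin 2) (ZMod 3)) = 24 := by
        rw [Nat.card_eq_fintype_card]; decide +kernel
      have h7 := hd.trans (Subgroup.card_quotient_dvd_card _)
      rw [Nat.card_congr (Equiv.ofBijective E ⟨hEi, hEs⟩), h6] at h7
      have := Nat.le_of_dvd (by norm_num) h7
      interval_cases p <;> norm_num at *
      all_goals omega
    subst hp2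
    have hcen : ∀ z : Matrix.SpecialLinearGroup (Fin 2) (ZMod 3),
        z ∈ [1, -1] ↔ z ∈ Subgroup.center _ := fun z => by
      rw [Subgroup.mem_center_iff]
      revert z
      decide +kernel
    rcases two_three (E s) with h | h | ⟨h, h2, h3⟩
    · exact hsc ((hEc s).mp ((hcen _).mp h))
    · exact hkill s hxM (fun hh => hsc ((hEc s).mp hh)) (by rw [pow_two]; exact (hcen _).mp h)
    · obtain ⟨h, rfl⟩ := hEs h
      rw [← map_inv, ← map_inv, ← map_mul, ← map_mul, ← map_mul] at h2 h3
      exact hkill _ (hcl h) (fun hh => h2 ((hcen _).mpr hh))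
        (by rw [pow_two]; exact (hcen _).mp h3)

end Cfsg.Agent.KnownB.Proj.Balance.PSLSmall
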