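import Cfsg.Agent.KnownB.Proj.Balance.PSLGraph
import Cfsg.Agent.KnownB.Proj.Balance.PSLSmall

/-! The balance criterion for `PSL_n(q)`. -/

set_option autoImplicit false
set_option maxHeartbeats 1000000

namespace Cfsg.Agent.KnownB.Proj.Balance.PSLBalance

open Matrix
open Cfsg.Agent.KnownB.AutPSL
open Cfsg.Agent.KnownB.Proj.Orth (fixedF fixedF_spec)

universe u v

variable {n : ℕ} {F : Type u} [Field F]

theorem psl_nontrivial [Fintype F] (hn : 2 ≤ n) :
    Nontrivial (Matrix.ProjectiveSpecialLinearGroup (Fin n) F) := by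
  let i₀ : Fin n := ⟨0, by omega⟩
  let i₁ : Fin n := ⟨1, by omega⟩
  haveI := nontrivial_fin hn
  exact ⟨⟨X i₀ i₁ (1 : F), 1, fun h => one_ne_zero (X_eq_one (by simp [i₀, i₁]) h)⟩⟩

variable [Fintype F]

theorem conj_injective (hn : 2 ≤ n) :
    Function.Injective (MulAut.conj : Matrix.ProjectiveSpecialLinearGroup (Fin n) F →
      MulAut (Matrix.ProjectiveSpecialLinearGroup (Fin n) F)) := by
  show Function.Injective ⇑(MulAut.conj : Matrix.ProjectiveSpecialLinearGroup (Fin n) F →*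
    MulAut (Matrix.ProjectiveSpecialLinearGroup (Fin n) F))
  rw [injective_iff_map_eq_one]
  intro z
  obtain ⟨s, rfl⟩ := pslMk_surjective z
  intro h
  rw [conj_eq, A_eq_one_iff hn] at h
  refine (QuotientGroup.eq_one_iff s).mpr (Subgroup.mem_center_iff.mpr fun t => ?_)
  refine Matrix.SpecialLinearGroup.ext _ _ fun i k => ?_
  have h1 := congrArg (fun z : GL (Fin n) F => z.1 i k)
    (Subgroup.mem_center_iff.mp h (Matrix.SpecialLinearGroup.toGL t))
  exact h1

section Fix

variable {F₀ : Type v} [Field F₀] (j : F₀ →+* F)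

/-- An automorphism fixing the rational root elements. -/
theorem eq_Fd_of_fix (hn : 2 ≤ n) (y : MulAut (Matrix.ProjectiveSpecialLinearGroup (Fin n) F))
    (hfix : ∀ (i k : Fin n), i ≠ k → ∀ c : F₀, y (X i k (j c)) = X i k (j c)) :
    ∃ τ : F ≃+* F, (∀ c, τ (j c) = j c) ∧ y = Fd n F τ := by
  haveI := nontrivial_fin hn
  obtain ⟨g, τ, rfl⟩ : ∃ (g : GL (Fin n) F) (τ : F ≃+* F), y = A n F g * Fd n F τ := by
    rcases Nat.lt_or_ge n 3 with h | h
    · obtain rfl : n = 2 := by omega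
      exact exists_decomp2 y
    obtain ⟨g, τ, e, hy⟩ := exists_decomp y
    cases e
    · exact ⟨g, τ, by simpa using hy⟩
    exfalso
    simp only [if_true] at hy
    -- the exceptional factor exchanges the centres and axes
    have key : ∀ i k : Fin n, i ≠ k →
        ∃ a : F, a ≠ 0 ∧ (Pi.single i 1 : Fin n → F) = a • (g.1 *ᵥ Pi.single k 1) := by
      intro i k hik
      have h1 := (X_tv hik (one_ne_zero (α := F))).map_It
      obtain ⟨u, φ, hu, huφ⟩ : ∃ u φ : Fin n → F, IsTvOf u φ (It n F (X i k (1 : F))) ∧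
          ∃ a : F, a ≠ 0 ∧ u = a • Pi.single k 1 := by
        refine ⟨_, _, h1, ?_⟩
        exact ⟨-1, neg_ne_zero.mpr one_ne_zero, by simp⟩
      obtain ⟨a, ha, rfl⟩ := huφ
      have h2 : IsTvOf (g.1 *ᵥ (⇑τ ∘ (a • Pi.single k 1))) (⇑τ ∘ φ ᵥ* (g⁻¹).1)
          (A n F g (Fd n F τ (It n F (X i k (1 : F))))) := by
        refine IsTvOf.map_A g ?_
        obtain ⟨h3, h4, h5, h6⟩ := hu
        have h7 : (⇑τ ∘ φ) ⬝ᵥ (⇑τ ∘ (a • Pi.single k 1)) = 0 := by
          rw [LinHelp.comp_dot, h5, map_zero]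
        refine ⟨fun h0 => h3 (funext fun l => τ.injective ((congrFun h0 l).trans (map_zero τ).symm)),
          fun h0 => h4 (funext fun l => τ.injective ((congrFun h0 l).trans (map_zero τ).symm)),
          h7, ?_⟩
        rw [← h6]
        refine congrArg (pslMk n F) (Subtype.ext ?_)
        show _ = (tvSL _ φ h5).1.map τ
        rw [tvSL_val, tvSL_val]
        ext p q
        by_cases hpq : p = q <;> simp [Matrix.vecMulVec_apply, hpq, mul_assoc]
      have h8 : IsTvOf (g.1 *ᵥ (⇑τ ∘ (a • Pi.single k 1))) (⇑τ ∘ φ ᵥ* (g⁻¹).1)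
          (X i k (1 : F)) := by
        have := hfix i k hik 1
        rw [map_one, hy, MulAut.mul_apply, MulAut.mul_apply] at this
        rwa [this] at h2
      obtain ⟨b, hb, hb'⟩ := (tv_par h8 (X_tv hik one_ne_zero)).1
      refine ⟨b * τ a, mul_ne_zero hb ((map_ne_zero τ).mpr ha), ?_⟩
      rw [hb', LinHelp.comp_smul, LinHelp.comp_single, Matrix.mulVec_smul, smul_smul]
    obtain ⟨i₂, hi₂, hi₂'⟩ := exists_third h (⟨0, by omega⟩ : Fin n) ⟨1, by omega⟩
    obtain ⟨a, ha, e1⟩ := key ⟨0, by omega⟩ i₂ hi₂.symm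
    obtain ⟨b, -, e2⟩ := key ⟨1, by omega⟩ i₂ hi₂'.symm
    rw [← inv_smul_smul₀ ha (g.1 *ᵥ Pi.single i₂ 1), ← e1] at e2
    simpa [Pi.single_apply, Fin.ext_iff] using congrFun e2 ⟨1, by omega⟩
  have hfix' : ∀ (i k : Fin n), i ≠ k → ∀ c : F₀,
      A n F g (Fd n F τ (X i k (j c))) = X i k (j c) := hfix
  have hcol : ∀ i : Fin n, g.1 *ᵥ Pi.single i 1 = Pi.single i (g.1 i i) := by
    intro i
    obtain ⟨k, hki⟩ := exists_ne i
    have h1 := A_Fd_X_tv (c := (1 : F)) hki.symm one_ne_zero g τ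
    rw [← map_one j, hfix' i k hki.symm 1, map_one, map_one] at h1
    obtain ⟨c, -, he⟩ := (tv_par (X_tv hki.symm one_ne_zero) h1).1
    funext l
    by_cases hl : l = i
    · subst hl; simp
    · rw [Pi.single_eq_of_ne hl, congrFun he l]; simp [hl]
  have hg : g.1 = Matrix.diagonal fun i => g.1 i i := by
    ext l i
    have := congrFun (hcol i) l
    rw [Matrix.mulVec_single_one, Matrix.col_apply] at this
    by_cases hl : l = i
    · subst hl; simp
    · rw [this, Pi.single_eq_of_ne hl, Matrix.diagonal_apply_ne _ hl]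
  have hd : ∀ i, g.1 i i ≠ 0 := fun i hi => by
    have h1 : g.1.det ≠ 0 := (Matrix.GeneralLinearGroup.det g).ne_zero
    rw [hg, Matrix.det_diagonal] at h1
    exact h1 (Finset.prod_eq_zero (Finset.mem_univ i) hi)
  have key : ∀ i k, i ≠ k → ∀ c, g.1 i i * τ (j c) / g.1 k k = j c := fun i k hik c => by
    apply X_inj hik
    rw [← A_diag_X hik g _ hg, ← Fd_X hik]
    exact hfix' i k hik c
  have hdd : ∀ i k, g.1 i i = g.1 k k := by
    intro i k
    rcases eq_or_ne i k with rfl | hik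
    · rfl
    have := key i k hik 1
    rw [map_one, map_one, mul_one] at this
    exact eq_of_div_eq_one this
  obtain ⟨a, b, hab⟩ := exists_pair_ne (Fin n)
  refine ⟨τ, fun c => ?_, ?_⟩
  · have := key a b hab c
    rwa [hdd a b, mul_div_assoc, mul_comm, div_mul_cancel₀ _ (hd b)] at this
  · have : A n F g = 1 := by
      rw [A_eq_one_iff hn, GeneralLinearGroup.center_eq_range_scalar]
      refine ⟨Units.mk0 _ (hd a), Units.ext ?_⟩
      rw [GeneralLinearGroup.coe_scalar]
      conv_rhs => rw [hg]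
      exact congrArg Matrix.diagonal (funext fun i => hdd a i)
    rw [this, one_mul]

end Fix

/-- The criterion for elements of field type. -/
theorem balance_field (hn : 2 ≤ n) {r : ℕ} [Fact r.Prime] [CharP F r]
    (A' : Subgroup (MulAut (Matrix.ProjectiveSpecialLinearGroup (Fin n) F)))
    (hinn : ∀ k : Matrix.ProjectiveSpecialLinearGroup (Fin n) F, MulAut.conj k ∈ A')
    {p : ℕ} [Fact p.Prime] (hpr : p ≠ r) {g : GL (Fin n) F} {σ : F ≃+* F} (hσ1 : σ ≠ 1)
    (hord : orderOf (A n F g * Fd n F σ) = p) :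
    Cfsg.pPrimeCore p ↥(A' ⊓ Subgroup.centralizer {A n F g * Fd n F σ}) ≠ ⊥ ↔
      Nat.Coprime p (Nat.card ↥(MonoidHom.eqLocus (A n F g * Fd n F σ).toMonoidHom
        (MonoidHom.id (Matrix.ProjectiveSpecialLinearGroup (Fin n) F)))) := by
  classical
  have hp : p.Prime := Fact.out
  set x := A n F g * Fd n F σ with hxd
  have hσp : orderOf σ = p := by
    refine orderOf_eq_prime ?_ hσ1
    have h := pow_orderOf_eq_one x
    rw [hord, hxd, pow_coset (mapGL σ) (A n F) _ (Fd_A σ), ← map_pow] at h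
    exact (eq_of_A_mul_Fd_eq_one hn h).1
  have tw := fieldTwist hn hp.pos hσp
  obtain ⟨c, hc⟩ := tw.coset_conj g (by rw [← hxd]; exact hord ▸ pow_orderOf_eq_one x)
  have hx : (A n F c)⁻¹ * x * (A n F c)⁻¹⁻¹ = Fd n F σ := by
    rw [hxd, hc]; group
  let F₀ := fixedF σ
  haveI : Fintype F₀ := Fintype.ofFinite _
  set j : F₀ →+* F := F₀.subtype with hjdef
  have hj : ∀ y : F, σ y = y ↔ y ∈ j.range := fixedF_spec σ
  have hτI : Fd n F σ ∉ Cfsg.Inn (Matrix.ProjectiveSpecialLinearGroup (Fin n) F) := fun h => by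
    obtain ⟨g', hg'⟩ := Inn_le_range h
    exact hσ1 (eq_of_A_mul_Fd_eq_one hn (g := g'⁻¹)
      (by rw [map_inv, hg', inv_mul_cancel])).1
  let Ξ : Matrix.SpecialLinearGroup (Fin n) F₀ →*
      MulAut (Matrix.ProjectiveSpecialLinearGroup (Fin n) F) :=
    (A n F).comp (Matrix.SpecialLinearGroup.toGL.comp (Matrix.SpecialLinearGroup.map j))
  have hΞval : ∀ s : Matrix.SpecialLinearGroup (Fin n) F₀, (Matrix.SpecialLinearGroup.toGL (Matrix.SpecialLinearGroup.map j s)) =
      GeneralLinearGroup.map j (Matrix.SpecialLinearGroup.toGL s) := fun s =>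
    Units.ext (Matrix.ext fun i k => rfl)
  have hker : Ξ.ker = Subgroup.center (Matrix.SpecialLinearGroup (Fin n) F₀) := by
    ext s
    rw [MonoidHom.mem_ker]
    show A n F (Matrix.SpecialLinearGroup.toGL (Matrix.SpecialLinearGroup.map j s)) = 1 ↔ _
    rw [A_eq_one_iff hn, Subgroup.mem_center_iff, Subgroup.mem_center_iff]
    constructor
    · intro h t
      refine Matrix.SpecialLinearGroup.ext _ _ fun i k => j.injective ?_
      have h1 := congrArg (fun z : GL (Fin n) F => z.1 i k)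
        (h (Matrix.SpecialLinearGroup.toGL (Matrix.SpecialLinearGroup.map j t)))
      simp only [← map_mul] at h1
      exact h1
    · intro h t
      haveI : Nonempty (Fin n) := ⟨⟨0, by omega⟩⟩
      obtain ⟨k, -, hk⟩ := Matrix.SpecialLinearGroup.mem_center_iff.mp
        (Subgroup.mem_center_iff.mpr h)
      refine Units.ext ?_
      show t.1 * s.1.map j = s.1.map j * t.1
      rw [← hk, Matrix.scalar_apply, Matrix.diagonal_map (map_zero j),
        ← Matrix.smul_one_eq_diagonal, Matrix.mul_smul, Matrix.smul_mul, Matrix.one_mul,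
        Matrix.mul_one]
  have e₀ : Matrix.ProjectiveSpecialLinearGroup (Fin n) F₀ ≃* Ξ.range :=
    (QuotientGroup.quotientMulEquivOfEq hker.symm).trans (QuotientGroup.quotientKerEquivRange Ξ)
  have hcenteq : ∀ y ∈ Cfsg.Inn (Matrix.ProjectiveSpecialLinearGroup (Fin n) F) ⊓
      Subgroup.centralizer {Fd n F σ}, ∃ g₀, A n F (GeneralLinearGroup.map j g₀) = y := by
    intro y hy
    obtain ⟨hy1, hy2⟩ := Subgroup.mem_inf.mp hy
    have hy' : y ∈ (A n F).range ⊓ Subgroup.centralizer {Fd n F σ} := ⟨Inn_le_range hy1, hy2⟩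
    rw [tw.centralizer_eq] at hy'
    obtain ⟨t, ht, rfl⟩ := hy'
    have h : ∀ a b, t.1 a b ∈ j.range := fun a b => (hj _).mp
      (congrArg (fun z : GL (Fin n) F => z.1 a b) (show mapGL σ t = t from ht))
    choose e he using h
    have hm : (Matrix.of e).map j = t.1 := Matrix.ext fun a b => he a b
    have hd : (Matrix.of e).det ≠ 0 := fun h0 => by
      have h1 : t.1.det ≠ 0 := (GeneralLinearGroup.det t).ne_zero
      rw [← hm, ← RingHom.mapMatrix_apply, ← RingHom.map_det, h0, map_zero] at h1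
      exact h1 rfl
    exact ⟨GeneralLinearGroup.mkOfDetNeZero _ hd, congrArg (A n F) (Units.ext hm)⟩
  haveI : Finite (MulAut (Matrix.ProjectiveSpecialLinearGroup (Fin n) F)) :=
    Finite.of_injective (fun e : MulAut _ => (e : _ → _)) DFunLike.coe_injective
  refine balance_iff' (conj_injective hn) A' hinn hx hord hτI Ξ.range ?_ ?_ ?_ ?_ ?_
  · rintro _ ⟨s, rfl⟩
    refine Subgroup.mem_inf.mpr ⟨(mem_Inn_iff _).mpr ⟨_, rfl⟩, ?_⟩
    rw [Subgroup.mem_centralizer_singleton_iff]
    show A n F _ * Fd n F σ = Fd n F σ * A n F _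
    rw [Fd_A]
    refine congrArg (fun z => A n F z * Fd n F σ) (Units.ext ?_)
    ext a b
    exact ((hj _).mpr ⟨s.1 a b, rfl⟩).symm
  · rintro y hy _ ⟨s, rfl⟩
    obtain ⟨g₀, rfl⟩ := hcenteq y hy
    refine ⟨conjSL g₀ s, ?_⟩
    show A n F _ = A n F (GeneralLinearGroup.map j g₀) * A n F _ *
      (A n F (GeneralLinearGroup.map j g₀))⁻¹
    rw [← map_mul, ← map_inv, ← map_mul, MonoidHom.comp_apply, MonoidHom.comp_apply, hΞval, hΞval, ← map_mul, ← map_inv, ← map_mul]
    exact congrArg (fun z => A n F (GeneralLinearGroup.map j z)) (Units.ext rfl)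
  · haveI := psl_nontrivial (F := F₀) hn
    exact e₀.symm.toEquiv.nontrivial
  · intro hd M hM hMp
    haveI : CharP F₀ r := RingHom.charP j j.injective r
    have hd₀ : p ∣ Nat.card (Matrix.ProjectiveSpecialLinearGroup (Fin n) F₀) := by
      by_cases hpn : p ∣ n
      · refine PSLSmall.dvd_card hp hn hpn fun h2 h => ?_
        subst h2
        have h' : ((2 : ℕ) : F₀) = 0 := by exact_mod_cast h
        exact hpr ((Nat.prime_dvd_prime_iff_eq Fact.out Nat.prime_two).mp
          ((CharP.cast_eq_zero_iff F₀ r 2).mp h')).symm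
      · obtain ⟨z, hz⟩ := exists_prime_orderOf_dvd_card' (G := ↥(Cfsg.Inn
          (Matrix.ProjectiveSpecialLinearGroup (Fin n) F) ⊓
          Subgroup.centralizer {Fd n F σ})) p hd
        obtain ⟨g₀, hg₀⟩ := hcenteq z.1 z.2
        set g₁ := g₀ ^ n * GeneralLinearGroup.scalar (Fin n) (GeneralLinearGroup.det g₀)⁻¹ with hg₁
        have hdet : g₁.1.det = 1 := by
          have h2 : GeneralLinearGroup.det g₁ = 1 := by
            rw [hg₁, map_mul, map_pow, det_scalar, inv_pow, mul_inv_cancel]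
          exact congrArg Units.val h2
        obtain ⟨s₁, hs₁⟩ : ∃ s₁ : Matrix.SpecialLinearGroup (Fin n) F₀,
            Matrix.SpecialLinearGroup.toGL s₁ = g₁ := ⟨⟨g₁.1, hdet⟩, Units.ext rfl⟩
        have h2' : z.1 ^ n = Ξ s₁ := by
          show _ = A n F (Matrix.SpecialLinearGroup.toGL (Matrix.SpecialLinearGroup.map j s₁))
          rw [hΞval, hs₁,
            hg₁, map_mul, map_pow, map_mul, map_pow, hg₀]
          have : A n F (GeneralLinearGroup.map j
              (GeneralLinearGroup.scalar (Fin n) (GeneralLinearGroup.det g₀)⁻¹)) = 1 := by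
            rw [A_eq_one_iff hn, GeneralLinearGroup.center_eq_range_scalar]
            refine ⟨Units.map (j : F₀ →* F) (GeneralLinearGroup.det g₀)⁻¹,
              Units.ext (Matrix.ext fun a b => ?_)⟩
            by_cases hab : a = b
            · subst hab; simp [GeneralLinearGroup.coe_scalar]
            · simp [GeneralLinearGroup.coe_scalar, hab]
          rw [this, mul_one]
        have ho : orderOf (z.1 ^ n) = p := by
          rw [orderOf_pow', Subgroup.orderOf_coe, hz]
          · rw [(hp.coprime_iff_not_dvd.mpr hpn).gcd_eq_one, Nat.div_one]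
          · omega
        rw [Nat.card_congr e₀.toEquiv, ← ho]
        have hmem : z.1 ^ n ∈ Ξ.range := ⟨_, h2'.symm⟩
        have := orderOf_dvd_natCard (⟨z.1 ^ n, hmem⟩ : Ξ.range)
        rwa [Subgroup.orderOf_mk] at this
    exact (Subgroup.map_eq_bot_iff_of_injective _ e₀.symm.injective).mp
      (PSLSmall.normal_eq_bot hn hp (r := r) Fact.out hpr hd₀ (M.map e₀.symm.toMonoidHom)
        (hM.map _ e₀.symm.surjective)
        (by rwa [Subgroup.card_map_of_injective e₀.symm.injective]))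
  · intro y _ hyk
    have hfix : ∀ (i k : Fin n), i ≠ k → ∀ c : F₀, y (X i k (j c)) = X i k (j c) := by
      intro i k hik c
      have he : X i k (j c) = pslMk n F (Matrix.SpecialLinearGroup.map j
          (Matrix.SpecialLinearGroup.transvection hik c)) := by
        rw [X_def hik]
        refine congrArg (pslMk n F) (Matrix.SpecialLinearGroup.ext _ _ fun a b => ?_)
        show Matrix.transvection i k (j c) a b = j (Matrix.transvection i k c a b)
        by_cases hab : a = b
        · subst hab; simp [Matrix.transvection, Matrix.single, apply_ite j]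
        · simp [Matrix.transvection, Matrix.single, apply_ite j, hab]
      have hc' : Commute y (MulAut.conj (X i k (j c))) := by
        rw [he, conj_eq]
        exact hyk _ ⟨_, rfl⟩
      apply conj_injective hn
      refine Eq.trans (MulEquiv.ext fun w => ?_) (mul_inv_eq_iff_eq_mul.mpr hc'.eq)
      show y _ * w * (y _)⁻¹ = y (_ * y⁻¹ w * _⁻¹)
      rw [map_mul, map_mul, map_inv, MulAut.apply_inv_self]
    obtain ⟨τ, hτ, rfl⟩ := eq_Fd_of_fix j hn y hfix
    obtain ⟨i, hi⟩ := Balance.mem_zpowers_of_fix j hj hτ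
    exact ⟨i, by rw [← hi]; exact (map_zpow (Fd n F) σ i).symm⟩

/-- The criterion. -/
theorem balance (hn : 2 ≤ n) {r : ℕ} [Fact r.Prime] [CharP F r]
    (A' : Subgroup (MulAut (Matrix.ProjectiveSpecialLinearGroup (Fin n) F)))
    (hinn : ∀ k : Matrix.ProjectiveSpecialLinearGroup (Fin n) F, MulAut.conj k ∈ A')
    {p : ℕ} [Fact p.Prime] (hpr : p ≠ r)
    (β : MulAut (Matrix.ProjectiveSpecialLinearGroup (Fin n) F)) (hord : orderOf β = p)
    (hnot : ¬ Cfsg.IsInnerDiagonalAutPSL β) :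
    Cfsg.pPrimeCore p ↥(A' ⊓ Subgroup.centralizer {β}) ≠ ⊥ ↔
      ((∃ γ φ : MulAut (Matrix.ProjectiveSpecialLinearGroup (Fin n) F),
          Cfsg.IsInnerDiagonalAutPSL γ ∧ Cfsg.IsFieldAutPSL φ ∧ β = φ.trans γ) ∧
        Nat.Coprime p (Nat.card ↥(MonoidHom.eqLocus β.toMonoidHom
          (MonoidHom.id (Matrix.ProjectiveSpecialLinearGroup (Fin n) F))))) := by
  classical
  have hp : p.Prime := Fact.out
  have hfieldOf : ∀ (g : GL (Fin n) F) (σ : F ≃+* F), β = A n F g * Fd n F σ →
      ∃ γ φ : MulAut (Matrix.ProjectiveSpecialLinearGroup (Fin n) F),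
        Cfsg.IsInnerDiagonalAutPSL γ ∧ Cfsg.IsFieldAutPSL φ ∧ β = φ.trans γ := fun g σ h =>
    ⟨A n F g, Fd n F σ, (isInnerDiagonal_iff _).mpr ⟨g, rfl⟩, ⟨σ, (isStdField_iff σ _).mpr rfl⟩, h⟩
  rcases Nat.lt_or_ge n 3 with h3 | h3
  · obtain rfl : n = 2 := by omega
    obtain ⟨g, σ, rfl⟩ := exists_decomp2 β
    have hσ1 : σ ≠ 1 := fun h => hnot ((isInnerDiagonal_iff _).mpr
      ⟨g, by rw [h, map_one, mul_one]⟩)
    rw [balance_field hn A' hinn hpr hσ1 hord, and_iff_right (hfieldOf g σ rfl)]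
  obtain ⟨g, σ, e, hβ⟩ := exists_decomp3 h3 β
  by_cases he : e = 1
  · rw [he, map_one, mul_one] at hβ
    have hσ1 : σ ≠ 1 := fun h => hnot ((isInnerDiagonal_iff β).mpr
      ⟨g, by rw [hβ, h, map_one, mul_one]⟩)
    rw [and_iff_right (hfieldOf g σ hβ)]
    subst hβ
    exact balance_field hn A' hinn hpr hσ1 hord
  · have he1 : e = Multiplicative.ofAdd 1 :=
      ((show ∀ e : Multiplicative (ZMod 2), e = 1 ∨ e = Multiplicative.ofAdd 1 by decide) e).resolve_left he
    obtain ⟨π, -, -, hπ⟩ := exists_proj3 (F := F) h3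
    have hπβ : π β = (σ, e) := hβ ▸ hπ g σ e
    have hp2 : p = 2 := by
      have h := congrArg π (pow_orderOf_eq_one β)
      rw [hord, map_pow, hπβ, map_one π] at h
      have h' : e ^ p = 1 := (Prod.ext_iff.mp h).2
      have h8 : orderOf (Multiplicative.ofAdd (1 : ZMod 2)) = 2 :=
        orderOf_eq_prime (by decide) (by decide)
      have h9 := orderOf_dvd_of_pow_eq_one h'
      rw [he1, h8] at h9
      exact ((Nat.prime_dvd_prime_iff_eq Nat.prime_two hp).mp h9).symm
    subst hp2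
    rw [he1, ItP_ofAdd_one] at hβ
    have hnofield : ¬ ∃ γ φ : MulAut (Matrix.ProjectiveSpecialLinearGroup (Fin n) F),
        Cfsg.IsInnerDiagonalAutPSL γ ∧ Cfsg.IsFieldAutPSL φ ∧ β = φ.trans γ := by
      rintro ⟨γ, φ, hγ, ⟨σ', hφ⟩, h⟩
      obtain ⟨g', rfl⟩ := (isInnerDiagonal_iff γ).mp hγ
      obtain rfl := (isStdField_iff σ' φ).mp hφ
      have h' : β = A n F g' * Fd n F σ' * ItP n F 1 := by rw [map_one, mul_one]; exact h
      have h1 : π β = (σ', 1) := h' ▸ hπ g' σ' 1
      exact he (Prod.ext_iff.mp (hπβ.symm.trans h1)).2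
    have h20 : (2 : F) ≠ 0 := fun h => hpr ((Nat.prime_dvd_prime_iff_eq Fact.out Nat.prime_two).mp
      ((CharP.cast_eq_zero_iff F r 2).mp (by exact_mod_cast h))).symm
    simp only [hnofield, false_and, iff_false, not_not]
    rw [hβ]
    exact PSLGraph.core_eq_bot h3 h20 A' hinn g σ (by
      rw [← hβ, ← pow_two, ← hord, pow_orderOf_eq_one])

end Cfsg.Agent.KnownB.Proj.Balance.PSLBalance
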