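import Cfsg.Agent.KnownB.Proj.Balance.LinHelp
import Cfsg.Agent.Forms.Instances

/-! The `2'`-core of the centraliser of a graph automorphism of `PSL_n(q)`, `q` odd. -/

set_option autoImplicit false
set_option maxHeartbeats 1000000

namespace Cfsg.Agent.KnownB.Proj.Balance.PSLGraph

open Matrix
open Cfsg.Agent.KnownB.AutPSL
open Cfsg.Agent.KnownB.Proj.Balance.LinHelp
open Cfsg.Agent.KnownB.Proj.Balance.Reflect (Herm)

universe u

variable {n : ℕ} {F : Type u} [Field F]

variable [Fintype F]

/-- The matrix equation of the centraliser. -/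
theorem commute_iff (hn : 2 ≤ n) (G g : GL (Fin n) F) (σ τ : F ≃+* F) (hc : Commute σ τ) :
    Commute (A n F g * Fd n F τ) (A n F G * Fd n F σ * It n F) ↔
      ∃ u : Fˣ, (g.1.map σ).transpose * (G⁻¹).1 * g.1 = (u : F) • (G⁻¹).1.map τ := by
  have hcm : Fd n F σ * Fd n F τ = Fd n F τ * Fd n F σ := (hc.map (Fd n F)).eq
  have e1 : A n F G * Fd n F σ * It n F * (A n F g * Fd n F τ) =
      A n F (G * mapGL σ (itGL g)) * (Fd n F τ * Fd n F σ * It n F) := by
    calc A n F G * Fd n F σ * It n F * (A n F g * Fd n F τ)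
        = A n F G * Fd n F σ * (It n F * A n F g) * Fd n F τ := by simp only [mul_assoc]
      _ = A n F G * (Fd n F σ * A n F (itGL g)) * (It n F * Fd n F τ) := by
          rw [It_A]; simp only [mul_assoc]
      _ = A n F G * A n F (mapGL σ (itGL g)) * (Fd n F σ * Fd n F τ) * It n F := by
          rw [Fd_A, It_Fd]; simp only [mul_assoc]
      _ = _ := by rw [← map_mul, hcm]; simp only [mul_assoc]
  have e2 : A n F g * Fd n F τ * (A n F G * Fd n F σ * It n F) =
      A n F (g * mapGL τ G) * (Fd n F τ * Fd n F σ * It n F) := by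
    calc A n F g * Fd n F τ * (A n F G * Fd n F σ * It n F)
        = A n F g * (Fd n F τ * A n F G) * Fd n F σ * It n F := by simp only [mul_assoc]
      _ = A n F g * A n F (mapGL τ G) * Fd n F τ * Fd n F σ * It n F := by
          rw [Fd_A]; simp only [mul_assoc]
      _ = _ := by rw [← map_mul]; simp only [mul_assoc]
  have e3 : Commute (A n F g * Fd n F τ) (A n F G * Fd n F σ * It n F) ↔
      A n F (G * mapGL σ (itGL g)) = A n F (g * mapGL τ G) := by
    rw [Commute, SemiconjBy, e1, e2, mul_left_inj, eq_comm]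
  rw [e3, show A n F (G * mapGL σ (itGL g)) = A n F (g * mapGL τ G) ↔
    A n F ((G * mapGL σ (itGL g))⁻¹ * (g * mapGL τ G)) = 1 by
      rw [map_mul _ _⁻¹, map_inv, inv_mul_eq_one], A_eq_one_iff hn,
    GeneralLinearGroup.center_eq_range_scalar, MonoidHom.mem_range]
  have hσT : (mapGL σ (itGL g))⁻¹.1 = (g.1.map σ).transpose := by
    rw [← map_inv, mapGL_val]
    show ((itGL g)⁻¹).1.map σ = _
    rfl
  have hτG : ((mapGL τ G)⁻¹).1 = (G⁻¹).1.map τ := by rw [← map_inv, mapGL_val]
  constructor
  · rintro ⟨u, hu⟩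
    refine ⟨u, ?_⟩
    have h := congrArg Units.val hu
    rw [_root_.mul_inv_rev, Units.val_mul, Units.val_mul, Units.val_mul, hσT] at h
    calc (g.1.map σ).transpose * (G⁻¹).1 * g.1
        = (g.1.map σ).transpose * (G⁻¹).1 * (g.1 * (mapGL τ G).1) * ((mapGL τ G)⁻¹).1 := by
          rw [Matrix.mul_assoc _ (g.1 * (mapGL τ G).1), Matrix.mul_assoc g.1, ← Units.val_mul (mapGL τ G),
            mul_inv_cancel, Units.val_one, Matrix.mul_one]
      _ = _ := by
          rw [← h, hτG, GeneralLinearGroup.coe_scalar, Matrix.scalar_apply, ← Matrix.smul_one_eq_diagonal,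
            Matrix.smul_mul, Matrix.one_mul]
  · rintro ⟨u, hu⟩
    refine ⟨u, Units.ext ?_⟩
    rw [_root_.mul_inv_rev, Units.val_mul, Units.val_mul, Units.val_mul, hσT,
      GeneralLinearGroup.coe_scalar, Matrix.scalar_apply, ← Matrix.mul_assoc, hu, Matrix.smul_mul,
      ← hτG, ← Units.val_mul, inv_mul_cancel, Units.val_one, Matrix.smul_one_eq_diagonal]

theorem det_refl_mul {D : Herm F (Fin n → F)} {a b : Fin n → F} (ha : D.H a a ≠ 0)
    (hb : D.H b b ≠ 0) :
    GeneralLinearGroup.det (toGL (D.refl ha * D.refl hb).1) = 1 := by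
  classical
  have key : ∀ {c : Fin n → F} (hc : D.H c c ≠ 0),
      (toGL (D.refl hc).1 : GL (Fin n) F).1.det = -1 := by
    intro c hc
    let w : Fin n → F := fun i => -(2 * D.H c (Pi.single i 1) / D.H c c)
    have he : (toGL (D.refl hc).1 : GL (Fin n) F).1 =
        1 + Matrix.replicateCol Unit c * Matrix.replicateRow Unit w := by
      refine Matrix.ext fun i k => ?_
      have h := congrFun (toGL_mulVec (D.refl hc).1 (Pi.single k 1)) i
      rw [Matrix.mulVec_single_one, Matrix.col_apply] at h
      rw [h, Reflect.Herm.refl_apply]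
      simp [w, Matrix.mul_apply, Matrix.one_apply, Pi.single_apply]
      ring
    rw [he, Matrix.det_one_add_replicateCol_mul_replicateRow]
    have hcc : D.H c c = ∑ i, c i * D.H c (Pi.single i 1) := by
      have e := congrArg (D.fn c) (pi_eq_sum_univ' c)
      rw [map_sum] at e
      refine e.trans (Finset.sum_congr rfl fun i _ => ?_)
      exact D.smul_right c _ _
    have hw : w ⬝ᵥ c = -(2 * D.H c c / D.H c c) := by
      nth_rewrite 1 [hcc]
      rw [dotProduct, Finset.mul_sum, Finset.sum_div, ← Finset.sum_neg_distrib]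
      refine Finset.sum_congr rfl fun i _ => ?_
      simp only [w]
      ring
    rw [hw, mul_div_assoc, div_self hc]
    ring
  refine Units.ext ?_
  rw [Subgroup.coe_mul, map_mul, map_mul, Units.val_mul]
  show (toGL (D.refl ha).1 : GL (Fin n) F).1.det * (toGL (D.refl hb).1 : GL (Fin n) F).1.det = 1
  rw [key ha, key hb]
  ring

theorem odd_decomp (hn : 3 ≤ n) (y : MulAut (Matrix.ProjectiveSpecialLinearGroup (Fin n) F))
    (hy : Odd (orderOf y)) :
    ∃ (g : GL (Fin n) F) (τ : F ≃+* F), y = A n F g * Fd n F τ := by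
  obtain ⟨g, τ, e, h⟩ := exists_decomp3 hn y
  obtain ⟨π, -, -, hπ⟩ := exists_proj3 (F := F) hn
  have h1 : π y = (τ, e) := h ▸ hπ g τ e
  have h2 := congrArg π (pow_orderOf_eq_one y)
  rw [map_pow, h1, map_one π] at h2
  have h3 : e ^ orderOf y = 1 := (Prod.ext_iff.mp h2).2
  have he2 : e ^ 2 = 1 := (show ∀ e : Multiplicative (ZMod 2), e ^ 2 = 1 by decide) e
  have he : e = 1 := by
    obtain ⟨k, hk⟩ := hy
    rwa [hk, pow_succ, pow_mul, he2, one_pow, one_mul] at h3
  exact ⟨g, τ, by rw [h, he, map_one, mul_one]⟩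

/-- The criterion. -/
theorem core_eq_bot (hn : 3 ≤ n) (h2 : (2 : F) ≠ 0)
    (A' : Subgroup (MulAut (Matrix.ProjectiveSpecialLinearGroup (Fin n) F)))
    (hinn : ∀ k : Matrix.ProjectiveSpecialLinearGroup (Fin n) F, MulAut.conj k ∈ A')
    (G : GL (Fin n) F) (σ : F ≃+* F)
    (hx : (A n F G * Fd n F σ * It n F) * (A n F G * Fd n F σ * It n F) = 1) :
    Cfsg.pPrimeCore 2 ↥(A' ⊓ Subgroup.centralizer {A n F G * Fd n F σ * It n F}) = ⊥ := by
  classical
  haveI : Finite (MulAut (Matrix.ProjectiveSpecialLinearGroup (Fin n) F)) :=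
    Finite.of_injective (fun e : MulAut _ => (e : _ → _)) DFunLike.coe_injective
  have hn2 : 2 ≤ n := by omega
  have hIA : Cfsg.Inn (Matrix.ProjectiveSpecialLinearGroup (Fin n) F) ≤ A' := by
    rintro _ ⟨k, rfl⟩; exact hinn k
  haveI : (Cfsg.Inn (Matrix.ProjectiveSpecialLinearGroup (Fin n) F)).Normal := ⟨by
    rintro _ ⟨k, rfl⟩ β
    exact ⟨β k, MulEquiv.ext fun y => by
      show β k * y * (β k)⁻¹ = β (k * β⁻¹ y * k⁻¹)
      rw [map_mul, map_mul, map_inv, MulAut.apply_inv_self]⟩⟩
  set x := A n F G * Fd n F σ * It n F with hxdef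
  set J := (G⁻¹).1 with hJ
  have hJdet : J.det ≠ 0 := (GeneralLinearGroup.det G⁻¹).ne_zero
  have hJ0 : J ≠ 0 := fun h => hJdet (by
    haveI : Nonempty (Fin n) := ⟨⟨0, by omega⟩⟩
    simp [h])
  -- the square of the involution
  obtain ⟨π, -, -, hπ⟩ := exists_proj3 (F := F) hn
  have hσσ : σ * σ = 1 := by
    have h : π x = (σ, Multiplicative.ofAdd 1) := by rw [hxdef, ← ItP_ofAdd_one, hπ]
    have h1 := congrArg π hx
    rw [map_mul, h, map_one π] at h1
    exact (Prod.ext_iff.mp h1).1
  have hss : ∀ a, σ (σ a) = a := fun a => RingEquiv.congr_fun hσσ a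
  obtain ⟨c, hc⟩ : ∃ c : F, (J.map σ).transpose = c • J := by
    have e : x * x = A n F (G * mapGL σ (itGL G)) := by
      calc x * x = A n F G * Fd n F σ * (It n F * A n F G) * Fd n F σ * It n F := by
            rw [hxdef]; simp only [mul_assoc]
        _ = A n F G * (Fd n F σ * A n F (itGL G)) * (It n F * Fd n F σ) * It n F := by
            rw [It_A]; simp only [mul_assoc]
        _ = A n F G * A n F (mapGL σ (itGL G)) * (Fd n F σ * Fd n F σ) * (It n F * It n F) := by
            rw [Fd_A, It_Fd]; simp only [mul_assoc]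
        _ = _ := by rw [← map_mul (Fd n F), hσσ, map_one, It_sq, mul_one, mul_one, ← map_mul]
    rw [e, A_eq_one_iff hn2, GeneralLinearGroup.center_eq_range_scalar] at hx
    obtain ⟨u, hu⟩ := hx
    refine ⟨u, ?_⟩
    have h : (mapGL σ (itGL G)).1 = (u : F) • J := by
      have h1 := congrArg (fun z => ((G⁻¹ * z : GL (Fin n) F)).1) hu
      simp only [inv_mul_cancel_left] at h1
      rw [← h1, Units.val_mul, GeneralLinearGroup.coe_scalar, ← hJ, Matrix.scalar_apply, ← Matrix.smul_one_eq_diagonal,
        Matrix.mul_smul, Matrix.mul_one]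
    rw [← h, mapGL_val]
    rfl
  have hcc : σ c * c = 1 := by
    have h1 := congrArg (fun M : Matrix (Fin n) (Fin n) F => (M.map σ).transpose) hc
    have e : ((J.map σ).transpose.map σ).transpose = J := by ext i k; simp [hss]
    have e' : ((c • J).map σ).transpose = σ c • (J.map σ).transpose := by ext i k; simp
    rw [e, e', hc, smul_smul] at h1
    exact smul_left_injective F hJ0 (show (σ c * c) • J = (1 : F) • J by rw [one_smul]; exact h1.symm)
  have hcomm : ∀ g : GL (Fin n) F, (∀ a b, bf σ J (g.1 *ᵥ a) (g.1 *ᵥ b) = bf σ J a b) →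
      Commute (A n F g) x := fun g hg => by
    have := (commute_iff hn2 G g σ 1 (Commute.one_right σ)).mpr ⟨1, by
      rw [← hJ, eq_of_bf σ J g.1 hg, Units.val_one, one_smul]; ext i k; rfl⟩
    rwa [map_one, mul_one] at this
  have hsemi : ∀ y, Commute y x → Odd (orderOf y) → ∃ (g : GL (Fin n) F) (τ : F ≃+* F),
      y = A n F g * Fd n F τ ∧ ∃ u : F, u ≠ 0 ∧
        ∀ a b, bf σ J (g.1 *ᵥ (⇑τ ∘ a)) (g.1 *ᵥ (⇑τ ∘ b)) = u * τ (bf σ J a b) := by
    intro y hy hodd
    obtain ⟨g, τ, rfl⟩ := odd_decomp hn y hodd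
    obtain ⟨u, hu⟩ := (commute_iff hn2 G g σ τ (ringAut_comm σ τ)).mp hy
    exact ⟨g, τ, rfl, u, u.ne_zero,
      bf_semi σ τ (fun a => RingEquiv.congr_fun (ringAut_comm σ τ).eq a) J g.1 u hu⟩
  have hscal : ∀ (g : GL (Fin n) F) (k : F), (∀ z, g.1 *ᵥ z = k • z) → A n F g = 1 := by
    intro g k hk
    have hk0 : k ≠ 0 := by
      rintro rfl
      have h1 : (g⁻¹.1 * g.1) *ᵥ (Pi.single ⟨0, by omega⟩ 1 : Fin n → F) = 0 := by
        rw [← Matrix.mulVec_mulVec, hk, zero_smul, Matrix.mulVec_zero]
      rw [← Units.val_mul, inv_mul_cancel, Units.val_one, Matrix.one_mulVec] at h1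
      simpa using congrFun h1 ⟨0, by omega⟩
    rw [A_eq_one_iff hn2, GeneralLinearGroup.center_eq_range_scalar]
    refine ⟨Units.mk0 k hk0, Units.ext (Matrix.ext_of_mulVec_single fun i => ?_)⟩
    rw [GeneralLinearGroup.coe_scalar, hk, Units.val_mk0]
    funext l
    by_cases hl : l = i <;> simp [hl, Matrix.mulVec_diagonal]
  have hdim : 3 ≤ Module.finrank F (Fin n → F) := by simpa using hn
  by_cases halt : σ = 1 ∧ c = -1
  · -- alternating forms
    obtain ⟨rfl, rfl⟩ := halt
    have hskew : ∀ i k, J k i = -J i k := fun i k => by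
      have := congrFun (congrFun hc i) k
      simpa using this
    set Bl := Matrix.toBilin' J with hBl
    have hBv : ∀ a b, Bl a b = bf 1 J a b := fun a b => Matrix.toBilin'_apply' _ _ _
    have halt' : Bl.IsAlt := fun a => by
      rw [hBv]
      have h1 : bf 1 J a a = -bf 1 J a a := by
        conv_lhs => rw [show bf 1 J a a = a ⬝ᵥ (J *ᵥ a) from rfl, Matrix.dotProduct_mulVec,
          dotProduct_comm, ← Matrix.mulVec_transpose,
          show J.transpose = -J from Matrix.ext fun i k => hskew i k, Matrix.neg_mulVec,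
          dotProduct_neg]
        rfl
      exact (mul_eq_zero.mp (show (2 : F) * bf 1 J a a = 0 by linear_combination h1)).resolve_left
        h2
    have hI := Forms.isForm_alt Bl (Matrix.nondegenerate_toBilin'_iff.mpr
      (Matrix.nondegenerate_of_det_ne_zero hJdet)) halt'
    obtain ⟨m, hm⟩ : ∃ m, n = 2 * m := by
      rcases Nat.even_or_odd n with ⟨m, hm⟩ | hodd
      · exact ⟨m, by omega⟩
      exfalso
      have h1 := congrArg Matrix.det (show J.transpose = -J from Matrix.ext fun i k => hskew i k)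
      rw [Matrix.det_transpose, Matrix.det_neg, Fintype.card_fin, hodd.neg_one_pow] at h1
      exact hJdet ((mul_eq_zero.mp (show (2 : F) * J.det = 0 by linear_combination h1)).resolve_left
        h2)
    obtain ⟨b, hb⟩ := Symp.exists_symp_basis Bl hI m (by simp [hm])
    set Θ : (Fin m ⊕ Fin m → F) ≃ₗ[F] (Fin n → F) := b.equivFun.symm with hΘ
    have hΘB : ∀ w w', bf 1 J (Θ w) (Θ w') = Cfsg.sympForm m F w w' := by
      intro w w'
      have h1 : Bl.compl₁₂ Θ.toLinearMap Θ.toLinearMap = Forms.sympB m F :=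
        LinearMap.ext_basis (Pi.basisFun F _) (Pi.basisFun F _) fun i k => by
          simp [hΘ, Symp.sB, hb, Module.Basis.equivFun_symm_apply, Pi.single_apply]
      rw [← hBv, ← Symp.sB, ← h1]
      rfl
    let spLin : Matrix.symplecticGroup (Fin m) F →* ((Fin n → F) ≃ₗ[F] (Fin n → F)) :=
      { toFun := fun s => Θ.symm.trans ((Matrix.toLinearEquiv' (s.1)
          (Units.invertible (Forms.spToGL m F s))).trans Θ)
        map_one' := LinearEquiv.ext fun z => by
          show Θ ((1 : Matrix.symplecticGroup (Fin m) F).1 *ᵥ Θ.symm z) = z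
          rw [Symp.sp_one_mulVec, LinearEquiv.apply_symm_apply]
        map_mul' := fun s t => LinearEquiv.ext fun z => by
          show Θ ((s * t).1 *ᵥ Θ.symm z) = Θ (s.1 *ᵥ Θ.symm (Θ (t.1 *ᵥ Θ.symm z)))
          rw [Symp.sp_mul_mulVec, LinearEquiv.symm_apply_apply] }
    have hspLin : ∀ s z, spLin s z = Θ (s.1 *ᵥ Θ.symm z) := fun s z => rfl
    let Φ := (A n F).comp (toGL.comp spLin)
    have hm2 : 2 ≤ m := by omega
    refine Reflect.core_eq_bot_symp hm2 h2 A' (Cfsg.Inn _) hIA x Φ ?_ ?_ ?_ ?_
    · ext s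
      rw [MonoidHom.mem_ker, ← Symplectic.spInc_scalar_iff (by omega : 1 ≤ m)]
      constructor
      · intro h
        have h' : A n F (toGL (spLin s)) = 1 := h
        rw [A_eq_one_iff hn2, GeneralLinearGroup.center_eq_range_scalar] at h'
        obtain ⟨k, hk⟩ := h'
        refine ⟨k, Symp.gsp_ext fun w => Θ.injective ?_⟩
        rw [Symp.sc_mulVec, Symp.spInc_val, map_smul]
        have h1 := toGL_mulVec (spLin s) (Θ w)
        rw [hspLin, LinearEquiv.symm_apply_apply, ← hk, GeneralLinearGroup.coe_scalar] at h1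
        rw [← h1]
        funext l
        simp [Matrix.mulVec_diagonal]
      · rintro ⟨k, hk⟩
        refine hscal _ (k : F) fun z => ?_
        rw [MonoidHom.comp_apply, toGL_mulVec, hspLin, ← Symp.spInc_val, ← hk, Symp.sc_mulVec, map_smul,
          LinearEquiv.apply_symm_apply]
    · intro s
      refine hcomm _ fun a b => ?_
      rw [MonoidHom.comp_apply, toGL_mulVec, toGL_mulVec, hspLin, hspLin, hΘB, Symp.sp_B, ← hΘB,
        LinearEquiv.apply_symm_apply, LinearEquiv.apply_symm_apply]
    · intro s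
      show A n F (toGL (spLin s)) ∈ _
      rw [A_mem_Inn_iff hn2]
      refine ⟨1, ?_⟩
      let f : Matrix.symplecticGroup (Fin m) F →* Fˣ :=
        GeneralLinearGroup.det.comp (toGL.comp spLin)
      have hf : f = 1 := by
        have h1 := Abelianization.commutator_subset_ker f
        rw [Forms.commutator_symplectic_eq_top (by
          have := Fintype.one_lt_card (α := F)
          have h3 : 3 ≤ Fintype.card F := by
            by_contra hcon
            have hc2 : Fintype.card F = 2 := by omega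
            exact h2 (by
              have h4 := FiniteField.cast_card_eq_zero F
              rw [hc2] at h4
              exact_mod_cast h4)
          rcases eq_or_lt_of_le hm2 with h | h
          · exact Or.inr (Or.inl ⟨h.symm, h3⟩)
          · exact Or.inl h)] at h1
        exact MonoidHom.ext fun s => MonoidHom.mem_ker.mp (h1 (Subgroup.mem_top s))
      rw [map_one]
      exact (DFunLike.congr_fun hf s).symm
    · intro y hy hodd
      obtain ⟨g, τ, rfl, u, hu, hsem⟩ := hsemi y hy hodd
      let L : (Fin m ⊕ Fin m → F) → (Fin m ⊕ Fin m → F) :=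
        fun w => Θ.symm (g.1 *ᵥ (⇑τ ∘ Θ w))
      let f : (Fin m ⊕ Fin m → F) →ₗ[F] (Fin m ⊕ Fin m → F) :=
        { toFun := fun w => L (⇑τ.symm ∘ w)
          map_add' := fun w w' => by
            simp only [L, LinHelp.comp_add, map_add, Matrix.mulVec_add]
          map_smul' := fun k w => by
            simp only [L, LinHelp.comp_smul, map_smul, Matrix.mulVec_smul, RingHom.id_apply,
              RingEquiv.apply_symm_apply] }
      have hfinj : Function.Injective f := fun w w' h => by
        have h1 := congrArg (fun z => (g⁻¹).1 *ᵥ z) (Θ.symm.injective h)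
        simp only [Matrix.mulVec_mulVec, ← Units.val_mul, inv_mul_cancel, Units.val_one,
          Matrix.one_mulVec] at h1
        have h2 := Θ.injective (funext fun i => τ.injective (congrFun h1 i))
        exact funext fun i => τ.symm.injective (congrFun h2 i)
      let fe := LinearEquiv.ofInjectiveEndo f hfinj
      have hgm : (toGL fe : GL (Fin m ⊕ Fin m) F) ∈ Cfsg.GSp m F := by
        refine ⟨Units.mk0 u hu, fun w w' => ?_⟩
        rw [toGL_mulVec, toGL_mulVec]
        show Cfsg.sympForm m F (L _) (L _) = u * _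
        rw [← hΘB, LinearEquiv.apply_symm_apply, LinearEquiv.apply_symm_apply, hsem, hΘB,
          ← Symp.sympForm_map, Symp.comp_symm, Symp.comp_symm]
      refine ⟨⟨toGL fe, hgm⟩, τ, fun s => ?_, ?_⟩
      · show A n F g * Fd n F τ * A n F (toGL (spLin s)) * (A n F g * Fd n F τ)⁻¹ =
          A n F (toGL (spLin _))
        rw [_root_.mul_inv_rev, mul_assoc (A n F g), Fd_A,
          show A n F g * (A n F (mapGL τ (toGL (spLin s))) * Fd n F τ) *
            ((Fd n F τ)⁻¹ * (A n F g)⁻¹) =
            A n F g * A n F (mapGL τ (toGL (spLin s))) * (A n F g)⁻¹ by group,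
          ← map_inv, ← map_mul, ← map_mul]
        refine congrArg (A n F) (Units.ext (Forms.matrix_ext_mulVec fun z => ?_))
        obtain ⟨z, rfl⟩ : ∃ z', g.1 *ᵥ (⇑τ ∘ Θ z') = z := by
          refine ⟨Θ.symm (⇑τ.symm ∘ ((g⁻¹).1 *ᵥ z)), ?_⟩
          rw [LinearEquiv.apply_symm_apply,
            show ⇑τ ∘ (⇑τ.symm ∘ ((g⁻¹).1 *ᵥ z)) = (g⁻¹).1 *ᵥ z from
              funext fun i => τ.apply_symm_apply _,
            Matrix.mulVec_mulVec, ← Units.val_mul, mul_inv_cancel, Units.val_one, Matrix.one_mulVec]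
        rw [Units.val_mul, Units.val_mul, ← Matrix.mulVec_mulVec, ← Matrix.mulVec_mulVec,
          Matrix.mulVec_mulVec _ (g⁻¹).1, ← Units.val_mul, inv_mul_cancel, Units.val_one,
          Matrix.one_mulVec, mapGL_val, LinHelp.map_mulVec, toGL_mulVec, toGL_mulVec, hspLin,
          hspLin, LinearEquiv.symm_apply_apply]
        apply Θ.symm.injective
        rw [LinearEquiv.symm_apply_apply]
        have hL : ∀ w, (toGL fe : GL (Fin m ⊕ Fin m) F).1 *ᵥ (⇑τ ∘ w) = L w := fun w => by
          rw [toGL_mulVec]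
          show L (⇑τ.symm ∘ (⇑τ ∘ w)) = L w
          rw [show ⇑τ.symm ∘ (⇑τ ∘ w) = w from funext fun i => τ.symm_apply_apply _]
        show L (s.1 *ᵥ z) =
          ((toGL fe : GL (Fin m ⊕ Fin m) F).1 * s.1.map τ * (toGL fe)⁻¹.1) *ᵥ L z
        rw [← hL, ← hL, ← Symp.map_mulVec, Matrix.mulVec_mulVec, Matrix.mulVec_mulVec,
          Matrix.mul_assoc _ _ (toGL fe).1, ← Units.val_mul, inv_mul_cancel, Units.val_one,
          Matrix.mul_one]
      · rintro ⟨k, hk⟩ rfl
        rw [map_one, mul_one]
        refine hscal g (k : F) fun z => ?_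
        have h1 : (toGL fe : GL (Fin m ⊕ Fin m) F).1 *ᵥ Θ.symm z = (k : F) • Θ.symm z := by
          rw [← Symp.sc_mulVec, hk]
        rw [toGL_mulVec] at h1
        have h3 : Θ (L (⇑(1 : F ≃+* F).symm ∘ Θ.symm z)) = Θ ((k : F) • Θ.symm z) :=
          congrArg Θ h1
        simp only [L, LinearEquiv.apply_symm_apply, map_smul] at h3
        rw [show ⇑(1 : F ≃+* F).symm ∘ Θ.symm z = Θ.symm z from rfl,
          LinearEquiv.apply_symm_apply] at h3
        exact h3
  · -- hermitian or symmetric forms
    obtain ⟨w, hw0, hw⟩ : ∃ w : F, w ≠ 0 ∧ σ w * c = w := by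
      by_cases hσ : σ = 1
      · subst hσ
        have hc1 : c = 1 := (mul_self_eq_one_iff.mp hcc).resolve_right fun h => halt ⟨rfl, h⟩
        exact ⟨1, one_ne_zero, by rw [hc1, map_one, one_mul]⟩
      · have key : ∀ t, σ (t + c * σ t) * c = t + c * σ t := fun t => by
          rw [map_add, map_mul, hss, add_mul, mul_comm (σ c) t, mul_assoc, hcc]; ring
        by_cases hc1 : c = -1
        · obtain ⟨t, ht⟩ : ∃ t, σ t ≠ t := by
            by_contra hcon
            push Not at hcon
            exact hσ (RingEquiv.ext hcon)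
          exact ⟨_, fun h0 => ht (by rw [hc1] at h0; linear_combination -h0), key t⟩
        · exact ⟨_, fun h0 => hc1 (by rw [map_one, mul_one] at h0; linear_combination h0), key 1⟩
    have hH : ∀ a b, σ (w * bf σ J a b) = w * bf σ J b a := by
      intro a b
      have e : σ (bf σ J a b) = c * bf σ J b a := by
        rw [bf, ← LinHelp.comp_dot, ← LinHelp.map_mulVec,
          show ⇑σ ∘ (⇑σ ∘ a) = a from funext fun i => hss _, Matrix.dotProduct_mulVec,
          dotProduct_comm, ← Matrix.mulVec_transpose, hc, Matrix.smul_mulVec, dotProduct_smul,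
          smul_eq_mul]
        rfl
      rw [map_mul, e, ← mul_assoc, hw]
    let D : Herm F (Fin n → F) :=
      { σ := σ
        invol := hss
        H := fun a b => w * bf σ J a b
        add_right := fun u x y => by simp [bf, Matrix.mulVec_add, dotProduct_add, mul_add]
        smul_right := fun u k x => by
          simp [bf, Matrix.mulVec_smul, dotProduct_smul, mul_left_comm]
        symm := hH
        nd := fun x hx => by
          by_contra hx0
          obtain ⟨i, hi⟩ : ∃ i, (J *ᵥ x) i ≠ 0 := by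
            by_contra hcon
            push Not at hcon
            exact hx0 (Matrix.eq_zero_of_mulVec_eq_zero hJdet (funext hcon))
          have h1 := hx (Pi.single i 1)
          simp only [bf, LinHelp.comp_single, single_dotProduct, one_mul, mul_eq_zero] at h1
          exact hi (h1.resolve_left hw0)
        two := h2
        dim := hdim }
    refine Reflect.core_eq_bot_herm D A' (Cfsg.Inn _) hIA x
      ((A n F).comp (toGL.comp D.U.subtype)) ?_ ?_ ?_ ?_
    · intro h hh
      have h' : A n F (toGL h.1) = 1 := hh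
      rw [A_eq_one_iff hn2, GeneralLinearGroup.center_eq_range_scalar] at h'
      obtain ⟨k, hk⟩ := h'
      refine ⟨k, fun z => ?_⟩
      rw [← toGL_mulVec h.1, ← hk, GeneralLinearGroup.coe_scalar]
      funext l
      simp [Matrix.mulVec_diagonal]
    · intro h
      refine hcomm _ fun a b => ?_
      rw [MonoidHom.comp_apply, toGL_mulVec, toGL_mulVec]
      exact mul_left_cancel₀ hw0 (h.2 a b)
    · intro a b ha hb _
      show A n F (toGL (D.refl ha * D.refl hb).1) ∈ _
      rw [A_mem_Inn_iff hn2, det_refl_mul ha hb]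
      exact ⟨1, map_one _⟩
    · intro y hy hodd
      obtain ⟨g, τ, rfl, u, hu, hsem⟩ := hsemi y hy hodd
      have hc' : u * w / τ w ≠ 0 := div_ne_zero (mul_ne_zero hu hw0) ((map_ne_zero τ).mpr hw0)
      let L : (Fin n → F) ≃+ (Fin n → F) :=
        { toFun := fun z => g.1 *ᵥ (⇑τ ∘ z)
          invFun := fun z => ⇑τ.symm ∘ ((g⁻¹).1 *ᵥ z)
          left_inv := fun z => by
            dsimp only
            rw [Matrix.mulVec_mulVec, ← Units.val_mul, inv_mul_cancel, Units.val_one,
              Matrix.one_mulVec]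
            exact funext fun i => τ.symm_apply_apply _
          right_inv := fun z => by
            dsimp only
            rw [show ⇑τ ∘ (⇑τ.symm ∘ ((g⁻¹).1 *ᵥ z)) = (g⁻¹).1 *ᵥ z from
                funext fun i => τ.apply_symm_apply _,
              Matrix.mulVec_mulVec, ← Units.val_mul, mul_inv_cancel, Units.val_one,
              Matrix.one_mulVec]
          map_add' := fun a b => by rw [LinHelp.comp_add, Matrix.mulVec_add] }
      let S : D.Semi :=
        { L := L
          τ := τ
          c := u * w / τ w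
          hc := hc'
          smul := fun k z => by
            show g.1 *ᵥ (⇑τ ∘ (k • z)) = _
            rw [LinHelp.comp_smul, Matrix.mulVec_smul]
            rfl
          map := fun a b => by
            show w * bf σ J (g.1 *ᵥ (⇑τ ∘ a)) (g.1 *ᵥ (⇑τ ∘ b)) =
              u * w / τ w * τ (w * bf σ J a b)
            rw [hsem, map_mul]
            field_simp [(map_ne_zero τ).mpr hw0] }
      refine ⟨S, fun h => ?_, fun hτ k hk => ?_⟩
      · show A n F g * Fd n F τ * A n F (toGL h.1) * (A n F g * Fd n F τ)⁻¹ =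
          A n F (toGL (S.conj h).1)
        rw [_root_.mul_inv_rev, mul_assoc (A n F g), Fd_A,
          show A n F g * (A n F (mapGL τ (toGL h.1)) * Fd n F τ) *
            ((Fd n F τ)⁻¹ * (A n F g)⁻¹) =
            A n F g * A n F (mapGL τ (toGL h.1)) * (A n F g)⁻¹ by group,
          ← map_inv, ← map_mul, ← map_mul]
        refine congrArg (A n F) (Units.ext (Forms.matrix_ext_mulVec fun z => ?_))
        obtain ⟨z, rfl⟩ := L.surjective z
        rw [Units.val_mul, Units.val_mul, ← Matrix.mulVec_mulVec, ← Matrix.mulVec_mulVec,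
          toGL_mulVec, Reflect.Herm.Semi.conj_apply]
        show g.1 *ᵥ ((mapGL τ (toGL h.1)).1 *ᵥ ((g⁻¹).1 *ᵥ (g.1 *ᵥ (⇑τ ∘ z)))) = _
        rw [Matrix.mulVec_mulVec _ (g⁻¹).1, ← Units.val_mul, inv_mul_cancel, Units.val_one,
          Matrix.one_mulVec, mapGL_val, LinHelp.map_mulVec, toGL_mulVec]
        rfl
      · change τ = 1 at hτ
        subst hτ
        rw [map_one, mul_one]
        exact hscal g k hk

end Cfsg.Agent.KnownB.Proj.Balance.PSLGraph
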