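import Cfsg.Agent.Core.Cores
import Mathlib.FieldTheory.Finite.Basic
import Mathlib.FieldTheory.Fixed
import Mathlib.LinearAlgebra.FiniteDimensional.Basic
import Mathlib.LinearAlgebra.FiniteDimensional.Lemmas

/-! Subgroups of odd order normalised by the reflections of a hermitian or symmetric form. -/

set_option autoImplicit false

namespace Cfsg.Agent.KnownB.Proj.Balance.Reflect

open Module

universe u v w

/-- A non-degenerate hermitian (or symmetric) form in dimension at least three. -/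
structure Herm (K : Type u) [Field K] (V : Type v) [AddCommGroup V] [Module K V] where
  σ : K ≃+* K
  invol : ∀ x, σ (σ x) = x
  H : V → V → K
  add_right : ∀ u x y, H u (x + y) = H u x + H u y
  smul_right : ∀ u (k : K) x, H u (k • x) = k * H u x
  symm : ∀ u x, σ (H u x) = H x u
  nd : ∀ x, (∀ u, H u x = 0) → x = 0
  two : (2 : K) ≠ 0
  dim : 3 ≤ finrank K V

variable {K : Type u} [Field K] {V : Type v} [AddCommGroup V] [Module K V] (D : Herm K V)

namespace Herm

theorem add_left (u u' x : V) : D.H (u + u') x = D.H u x + D.H u' x := by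
  rw [← D.symm x, D.add_right, map_add, D.symm, D.symm]

theorem smul_left (u : V) (k : K) (x : V) : D.H (k • u) x = D.σ k * D.H u x := by
  rw [← D.symm x, D.smul_right, map_mul, D.symm]

theorem zero_right (u : V) : D.H u 0 = 0 := by
  simpa using D.smul_right u 0 0

theorem zero_left (u : V) : D.H 0 u = 0 := by
  simpa using D.smul_left 0 0 u

theorem sub_right (u x y : V) : D.H u (x - y) = D.H u x - D.H u y := by
  rw [sub_eq_add_neg, ← neg_one_smul K y, D.add_right, D.smul_right]; ring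

theorem sub_left (u u' x : V) : D.H (u - u') x = D.H u x - D.H u' x := by
  rw [sub_eq_add_neg, ← neg_one_smul K u', D.add_left, D.smul_left, map_neg, map_one]; ring

theorem real_self (u : V) : D.σ (D.H u u) = D.H u u := D.symm u u

theorem ne_zero {a : V} (ha : D.H a a ≠ 0) : a ≠ 0 := fun h => ha (by rw [h, D.zero_left])

/-- The functional of a vector. -/
def fn (a : V) : V →ₗ[K] K where
  toFun x := D.H a x
  map_add' := D.add_right a
  map_smul' k x := D.smul_right a k x

/-- The reflection as a linear map. -/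
def reflMap (a : V) : V →ₗ[K] V :=
  LinearMap.id - (2 / D.H a a) • (D.fn a).smulRight a

theorem reflMap_apply (a x : V) : D.reflMap a x = x - (2 * D.H a x / D.H a a) • a := by
  simp [reflMap, fn, smul_smul, div_mul_eq_mul_div]

theorem reflMap_invol {a : V} (ha : D.H a a ≠ 0) (x : V) : D.reflMap a (D.reflMap a x) = x := by
  simp only [reflMap_apply, D.sub_right, D.smul_right]
  match_scalars
  · ring
  · field_simp
    ring

theorem reflMap_isom {a : V} (ha : D.H a a ≠ 0) (x y : V) :
    D.H (D.reflMap a x) (D.reflMap a y) = D.H x y := by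
  simp only [reflMap_apply, D.sub_right, D.sub_left, D.smul_right, D.smul_left, map_div₀, map_mul,
    map_ofNat, D.symm, D.real_self]
  field_simp
  ring

/-- The isometry group. -/
def U : Subgroup (V ≃ₗ[K] V) where
  carrier := {h | ∀ x y, D.H (h x) (h y) = D.H x y}
  one_mem' _ _ := rfl
  mul_mem' {g h} hg hh x y := (hg (h x) (h y)).trans (hh x y)
  inv_mem' {g} hg x y := by
    have := hg (g⁻¹ x) (g⁻¹ y)
    rw [show g (g⁻¹ x) = x from g.apply_symm_apply x, show g (g⁻¹ y) = y from g.apply_symm_apply y]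
      at this
    exact this.symm

/-- A reflection. -/
def refl {a : V} (ha : D.H a a ≠ 0) : D.U :=
  ⟨LinearEquiv.ofLinear (D.reflMap a) (D.reflMap a) (LinearMap.ext (D.reflMap_invol ha))
    (LinearMap.ext (D.reflMap_invol ha)), D.reflMap_isom ha⟩

theorem refl_apply {a : V} (ha : D.H a a ≠ 0) (x : V) :
    (D.refl ha).1 x = x - (2 * D.H a x / D.H a a) • a := D.reflMap_apply a x

theorem refl_sq {a : V} (ha : D.H a a ≠ 0) : D.refl ha * D.refl ha = 1 :=
  Subtype.ext (LinearEquiv.ext (D.reflMap_invol ha))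

theorem U_ext {g h : D.U} (e : ∀ x, g.1 x = h.1 x) : g = h := Subtype.ext (LinearEquiv.ext e)

theorem exists_two_functional (a b : V) [FiniteDimensional K V] :
    ∃ x, x ≠ 0 ∧ D.H a x = 0 ∧ D.H b x = 0 := by
  have hd := D.dim
  obtain ⟨x, hx, hx0⟩ := (LinearMap.ker ((D.fn a).prod (D.fn b))).ne_bot_iff.mp
    (LinearMap.ker_ne_bot_of_finrank_lt (by simp; omega))
  rw [LinearMap.mem_ker] at hx
  exact ⟨x, hx0, congrArg Prod.fst hx, congrArg Prod.snd hx⟩

/-- An anisotropic vector in the image of an orthogonal projection. -/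
theorem exists_aniso (P : V →ₗ[K] V) (hP : ∀ x z, P z = z → D.H z (P x) = D.H z x)
    (hne : ∃ z, z ≠ 0 ∧ P z = z) (hidem : ∀ x, P (P x) = P x) :
    ∃ w, P w = w ∧ D.H w w ≠ 0 := by
  by_contra hcon
  push Not at hcon
  obtain ⟨z, hz0, hz⟩ := hne
  refine hz0 (D.nd z fun u => ?_)
  rw [← D.symm z u, map_eq_zero, ← hP u z hz]
  set t := P u
  have ht : P t = t := hidem u
  by_contra hne
  set s := (D.H z t)⁻¹ • t with hs
  have hPs : P s = s := by rw [hs, map_smul, ht]
  have h1 := hcon (z + s) (by rw [map_add, hz, hPs])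
  rw [D.add_left, D.add_right, D.add_right, hcon z hz, hcon s hPs, ← D.symm z s,
    show D.H z s = 1 by rw [hs, D.smul_right, inv_mul_cancel₀ hne], map_one, zero_add, add_zero] at h1
  exact D.two (by linear_combination h1)

theorem exists_perp_one [FiniteDimensional K V] {a : V} (ha : D.H a a ≠ 0) :
    ∃ w, D.H a w = 0 ∧ D.H w w ≠ 0 := by
  let P : V →ₗ[K] V := LinearMap.id - (1 / D.H a a) • (D.fn a).smulRight a
  have hP : ∀ x, P x = x - (D.H a x / D.H a a) • a := fun x => by
    simp [P, fn, smul_smul, div_eq_inv_mul]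
  have hfix : ∀ z, P z = z ↔ D.H a z = 0 := fun z => by
    rw [hP, sub_eq_self, smul_eq_zero, div_eq_zero_iff]
    simp [ha, D.ne_zero ha]
  have haP : ∀ x, D.H a (P x) = 0 := fun x => by
    rw [hP, D.sub_right, D.smul_right, div_mul_cancel₀ _ ha, sub_self]
  obtain ⟨z, hz0, hz, -⟩ := D.exists_two_functional a a
  obtain ⟨w, hw, hw'⟩ := D.exists_aniso P (fun x z hz => by
      rw [hP, D.sub_right, D.smul_right, ← D.symm a z, (hfix z).mp hz, map_zero, mul_zero,
        sub_zero])
    ⟨z, hz0, (hfix z).mpr hz⟩ fun x => (hfix _).mpr (haP x)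
  exact ⟨w, (hfix w).mp hw, hw'⟩

theorem exists_perp_two [FiniteDimensional K V] {a b : V}
    (h : D.H a a * D.H b b - D.H a b * D.H b a ≠ 0) :
    ∃ w, D.H a w = 0 ∧ D.H b w = 0 ∧ D.H w w ≠ 0 := by
  set d := D.H a a * D.H b b - D.H a b * D.H b a with hd
  let f : V →ₗ[K] K := (D.H b b / d) • D.fn a - (D.H a b / d) • D.fn b
  let f' : V →ₗ[K] K := (D.H a a / d) • D.fn b - (D.H b a / d) • D.fn a
  let P : V →ₗ[K] V := LinearMap.id - f.smulRight a - f'.smulRight b
  have hP : ∀ x, P x = x - f x • a - f' x • b := fun x => rfl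
  have haP : ∀ x, D.H a (P x) = 0 := fun x => by
    simp only [hP, D.sub_right, D.smul_right, f, f', fn, LinearMap.sub_apply, LinearMap.smul_apply,
      LinearMap.coe_mk, AddHom.coe_mk, smul_eq_mul]
    field_simp
    rw [hd]; ring
  have hbP : ∀ x, D.H b (P x) = 0 := fun x => by
    simp only [hP, D.sub_right, D.smul_right, f, f', fn, LinearMap.sub_apply, LinearMap.smul_apply,
      LinearMap.coe_mk, AddHom.coe_mk, smul_eq_mul]
    field_simp
    rw [hd]; ring
  have hfix : ∀ z, D.H a z = 0 → D.H b z = 0 → P z = z := fun z h1 h2 => by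
    simp [hP, f, f', fn, h1, h2]
  have hfix' : ∀ z, P z = z → D.H a z = 0 ∧ D.H b z = 0 := fun z hz => by
    rw [← hz]; exact ⟨haP z, hbP z⟩
  obtain ⟨z, hz0, hza, hzb⟩ := D.exists_two_functional a b
  obtain ⟨w, hw, hw'⟩ := D.exists_aniso P (fun x z hz => by
      rw [hP, D.sub_right, D.sub_right, D.smul_right, D.smul_right, ← D.symm a z, ← D.symm b z,
        (hfix' z hz).1, (hfix' z hz).2, map_zero, mul_zero, mul_zero, sub_zero, sub_zero])
    ⟨z, hz0, hfix z hza hzb⟩ fun x => hfix _ (haP x) (hbP x)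
  exact ⟨w, (hfix' w hw).1, (hfix' w hw).2, hw'⟩

/-- Binary forms represent every real value. -/
theorem exists_binary [Finite K] {α β k : K} (hα : α ≠ 0) (hβ : β ≠ 0) (ha : D.σ α = α)
    (hb : D.σ β = β) (hk : D.σ k = k) :
    ∃ x y : K, D.σ x = x ∧ D.σ y = y ∧ α * x ^ 2 + β * y ^ 2 = k := by
  classical
  let K₁ : Subfield K := (D.σ : K →+* K).eqLocusField (RingHom.id K)
  haveI : Fintype K₁ := Fintype.ofFinite _
  have hodd : ringChar K₁ ≠ 2 := fun h => D.two (by
    have h1 : ((2 : ℕ) : K₁) = 0 := by rw [← h]; exact ringChar.Nat.cast_ringChar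
    have h2 : ((2 : ℕ) : K) = 0 := by
      have h3 := congrArg K₁.subtype h1
      rwa [map_natCast, map_zero] at h3
    exact_mod_cast h2)
  have hα' : (⟨α, ha⟩ : K₁) ≠ 0 := fun h => hα (congrArg Subtype.val h)
  have hβ' : (⟨β, hb⟩ : K₁) ≠ 0 := fun h => hβ (congrArg Subtype.val h)
  obtain ⟨x, y, hxy⟩ := FiniteField.exists_root_sum_quadratic
    (f := Polynomial.C (⟨α, ha⟩ : K₁) * Polynomial.X ^ 2)
    (g := Polynomial.C (⟨β, hb⟩ : K₁) * Polynomial.X ^ 2 - Polynomial.C (⟨k, hk⟩ : K₁))
    (Polynomial.degree_C_mul_X_pow 2 hα')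
    (by rw [Polynomial.degree_sub_C (by rw [Polynomial.degree_C_mul_X_pow 2 hβ']; norm_num),
      Polynomial.degree_C_mul_X_pow 2 hβ']; rfl)
    (Nat.odd_iff.mp (Nat.odd_iff.mpr (FiniteField.odd_card_of_char_ne_two hodd)))
  refine ⟨(x : K), (y : K), x.2, y.2, ?_⟩
  have h := congrArg Subtype.val hxy
  simp at h
  linear_combination h

/-- The value `H(v, ρ v)` for a product of two reflections vanishes somewhere anisotropic. -/
theorem exists_perp_image [Finite K] [FiniteDimensional K V] {a b : V} (ha : D.H a a ≠ 0)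
    (hb : D.H b b ≠ 0) (hab : ∀ k : K, b ≠ k • a) :
    ∃ v, D.H v v ≠ 0 ∧ D.H (D.reflMap a v) (D.reflMap b v) = 0 := by
  by_cases hΔ : D.H a a * D.H b b - D.H a b * D.H b a = 0
  · -- degenerate plane
    have hγ0 : D.H a b ≠ 0 := fun h => mul_ne_zero ha hb (by rwa [h, zero_mul, sub_zero] at hΔ)
    set t := D.H a a / D.H a b with ht
    set z := t • b - a with hz
    have hba0 : D.H b a ≠ 0 := by rw [← D.symm a b]; exact (map_ne_zero D.σ).mpr hγ0
    have ht0 : t ≠ 0 := div_ne_zero ha hγ0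
    have haz : D.H a z = 0 := by
      rw [hz, D.sub_right, D.smul_right, ht, div_mul_cancel₀ _ hγ0, sub_self]
    have hzz : D.H z z = 0 := by
      rw [hz, D.sub_left, D.smul_left, D.sub_right, D.sub_right, D.smul_right, D.smul_right, ht,
        map_div₀, D.real_self, D.symm]
      field_simp
      linear_combination (D.H a a) * hΔ
    have hz0 : z ≠ 0 := fun h => hab t⁻¹ (by
      rw [hz, sub_eq_zero] at h
      rw [← h, inv_smul_smul₀ ht0])
    obtain ⟨u, hu⟩ : ∃ u, D.H u z ≠ 0 := by
      by_contra hcon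
      push Not at hcon
      exact hz0 (D.nd z hcon)
    set u₁ := u - (D.H a u / D.H a a) • a with hu₁
    have hau₁ : D.H a u₁ = 0 := by
      rw [hu₁, D.sub_right, D.smul_right, div_mul_cancel₀ _ ha, sub_self]
    have hzu₁ : D.H z u₁ ≠ 0 := by
      rw [hu₁, D.sub_right, D.smul_right, ← D.symm a z, haz, map_zero, mul_zero, sub_zero,
        ← D.symm u z]
      exact (map_ne_zero D.σ).mpr hu
    obtain ⟨v₀, hv₀⟩ : ∃ v₀, v₀ = (D.H z u₁)⁻¹ • u₁ := ⟨_, rfl⟩
    have hav₀ : D.H a v₀ = 0 := by rw [hv₀, D.smul_right, hau₁, mul_zero]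
    have hzv₀ : D.H z v₀ = 1 := by rw [hv₀, D.smul_right, inv_mul_cancel₀ hzu₁]
    obtain ⟨s, hs⟩ : ∃ s, s = (2 / D.H a a - D.H v₀ v₀) / 2 := ⟨_, rfl⟩
    have hsr : D.σ s = s := by
      rw [hs, map_div₀, map_sub, map_div₀, map_ofNat, D.real_self, D.real_self]
    obtain ⟨v, hv⟩ : ∃ v, v = v₀ + s • z := ⟨_, rfl⟩
    have hvv : D.H v v = 2 / D.H a a := by
      rw [hv, D.add_left, D.add_right, D.add_right, D.smul_left, D.smul_right, D.smul_left,
        D.smul_right, hsr, hzz, hzv₀, ← D.symm z v₀, hzv₀, map_one, hs]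
      field_simp [D.two]
      ring
    have hav : D.H a v = 0 := by rw [hv, D.add_right, D.smul_right, hav₀, haz]; ring
    have hva : D.H v a = 0 := by rw [← D.symm a v, hav, map_zero]
    have hzv : D.H z v = 1 := by rw [hv, D.add_right, D.smul_right, hzv₀, hzz]; ring
    have hvz : D.H v z = 1 := by rw [← D.symm z v, hzv, map_one]
    refine ⟨v, by rw [hvv]; exact div_ne_zero D.two ha, ?_⟩
    have hb' : b = t⁻¹ • (a + z) := by rw [hz, add_sub_cancel, inv_smul_smul₀ ht0]
    have hbv : D.H b v = D.σ t⁻¹ := by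
      rw [hb', D.smul_left, D.add_left, hav, hzv, zero_add, mul_one]
    have hvb : D.H v b = t⁻¹ := by
      rw [hb', D.smul_right, D.add_right, hva, hvz, zero_add, mul_one]
    simp only [reflMap_apply, D.sub_right, D.sub_left, D.smul_right, D.smul_left, map_div₀, map_mul,
      map_ofNat, hva, hav, hvv, hbv, hvb, ht, map_inv₀, D.symm, D.real_self, map_zero]
    field_simp
    linear_combination 2 * hΔ
  · -- non-degenerate plane
    obtain ⟨t, ht0, htr⟩ : ∃ t : K, t ≠ 0 ∧ D.σ (t * D.H a b) = t * D.H a b := by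
      by_cases h : D.H a b = 0
      · exact ⟨1, one_ne_zero, by rw [h, mul_zero, map_zero]⟩
      · refine ⟨D.H b a, ?_, ?_⟩
        · rw [← D.symm a b]; exact (map_ne_zero D.σ).mpr h
        · rw [map_mul, D.symm, D.symm, mul_comm]
    obtain ⟨b', hb'⟩ : ∃ b', b' = t • b := ⟨_, rfl⟩
    obtain ⟨α, hα⟩ : ∃ α, α = D.H a a := ⟨_, rfl⟩
    obtain ⟨γ, hγ⟩ : ∃ γ, γ = t * D.H a b := ⟨_, rfl⟩
    obtain ⟨β, hβ⟩ : ∃ β, β = D.H b' b' := ⟨_, rfl⟩
    rw [← hα] at ha hΔ
    have hab' : D.H a b' = γ := by rw [hb', D.smul_right, hγ]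
    have hγr : D.σ γ = γ := by rw [hγ, htr]
    have hb'a : D.H b' a = γ := by rw [← D.symm a b', hab', hγr]
    have hσt0 : D.σ t ≠ 0 := (map_ne_zero D.σ).mpr ht0
    have hβe : β = D.σ t * t * D.H b b := by
      rw [hβ, hb', D.smul_left, D.smul_right]; ring
    have hγsq : γ ^ 2 = D.σ t * t * (D.H a b * D.H b a) := by
      rw [sq]
      nth_rewrite 2 [← hγr]
      rw [hγ, map_mul, D.symm]
      ring
    have hβ0 : β ≠ 0 := by rw [hβe]; exact mul_ne_zero (mul_ne_zero hσt0 ht0) hb
    have hΔ' : α * β - γ ^ 2 ≠ 0 := by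
      rw [hβe, hγsq, show α * (D.σ t * t * D.H b b) - D.σ t * t * (D.H a b * D.H b a) =
        D.σ t * t * (α * D.H b b - D.H a b * D.H b a) by ring]
      exact mul_ne_zero (mul_ne_zero hσt0 ht0) hΔ
    set c := 2 * γ ^ 2 / (α * β) - 1 with hc
    have hcr : D.σ c = c := by
      rw [hc, map_sub, map_div₀, map_mul, map_pow, map_mul, hγr, hα, hβ, D.real_self, D.real_self,
        map_ofNat, map_one]
    have hc1 : c ≠ 1 := fun h => hΔ' (by
      rw [hc, sub_eq_iff_eq_add, div_eq_iff (mul_ne_zero ha hβ0)] at h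
      exact mul_left_cancel₀ D.two (by linear_combination -h))
    have hrefl : ∀ v, D.reflMap b v = D.reflMap b' v := fun v => by
      rw [reflMap_apply, reflMap_apply, hb', smul_smul, D.smul_left, D.smul_left, D.smul_right]
      congr 2
      field_simp [(map_ne_zero D.σ).mpr ht0]
    simp only [hrefl]
    by_cases hc0 : c = 0
    · refine ⟨a, hα ▸ ha, ?_⟩
      simp only [reflMap_apply, D.sub_right, D.sub_left, D.smul_right, D.smul_left, map_div₀,
        map_mul, map_ofNat, hab', hb'a, ← hα, ← hβ, hγr]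
      rw [hc, sub_eq_zero, div_eq_one_iff_eq (mul_ne_zero ha hβ0)] at hc0
      rw [show D.σ α = α by rw [hα, D.real_self]]
      field_simp
      linear_combination hc0
    obtain ⟨w, haw, hbw, hww⟩ := D.exists_perp_two (a := a) (b := b') (by
      rw [hab', hb'a, ← sq, ← hα, ← hβ]; exact hΔ')
    have hwa : D.H w a = 0 := by rw [← D.symm a w, haw, map_zero]
    have hwb : D.H w b' = 0 := by rw [← D.symm b' w, hbw, map_zero]
    obtain ⟨δ, hδ⟩ : ∃ δ, δ = β - γ ^ 2 / α := ⟨_, rfl⟩
    have hδr : D.σ δ = δ := by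
      rw [hδ, map_sub, map_div₀, map_pow, hγr, hα, hβ, D.real_self, D.real_self]
    have hδ0 : δ ≠ 0 := by
      rw [hδ, sub_ne_zero, ne_eq, eq_div_iff ha]
      intro h
      exact hΔ' (by linear_combination h)
    obtain ⟨x, y, hxr, hyr, hxy⟩ := D.exists_binary (k := -D.H w w / c) ha hδ0 (by rw [hα, D.real_self]) hδr
      (by rw [map_div₀, map_neg, D.real_self, hcr])
    obtain ⟨x', hx'⟩ : ∃ x', x' = x - γ / α * y := ⟨_, rfl⟩
    have hx'r : D.σ x' = x' := by
      rw [hx', map_sub, map_mul, map_div₀, hγr, hα, D.real_self, hxr, hyr]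
    have hval : α * x' ^ 2 + 2 * γ * x' * y + β * y ^ 2 = -D.H w w / c := by
      rw [← hxy, hx', hδ]
      field_simp
      ring
    obtain ⟨v, hv⟩ : ∃ v, v = x' • a + y • b' + w := ⟨_, rfl⟩
    have hav : D.H a v = x' * α + y * γ := by
      simp only [hv, D.add_right, D.smul_right, haw, hab', ← hα]; ring
    have hva : D.H v a = x' * α + y * γ := by
      rw [← D.symm a v, hav, map_add, map_mul, map_mul, hx'r, hyr, hγr, hα, D.real_self]
    have hbv : D.H b' v = x' * γ + y * β := by
      simp only [hv, D.add_right, D.smul_right, hbw, hb'a, ← hβ]; ring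
    have hvb : D.H v b' = x' * γ + y * β := by
      rw [← D.symm b' v, hbv, map_add, map_mul, map_mul, hx'r, hyr, hγr, hβ, D.real_self]
    have hvv : D.H v v = α * x' ^ 2 + 2 * γ * x' * y + β * y ^ 2 + D.H w w := by
      simp only [hv, D.add_left, D.add_right, D.smul_left, D.smul_right, hx'r, hyr, hab', hb'a,
        haw, hbw, hwa, hwb, ← hα, ← hβ]
      ring
    refine ⟨v, ?_, ?_⟩
    · rw [hvv, hval]
      intro h
      refine hc1 ?_
      field_simp at h
      exact mul_right_cancel₀ hww (by linear_combination h)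
    · simp only [reflMap_apply, D.sub_right, D.sub_left, D.smul_right, D.smul_left, map_div₀,
        map_mul, map_ofNat, hva, hav, hbv, hvb, hab', hb'a, ← hα, ← hβ, hx'r, hyr, hγr, map_add,
        hvv]
      rw [show D.σ α = α by rw [hα, D.real_self]]
      have hw' : D.H w w = -c * (α * x' ^ 2 + 2 * γ * x' * y + β * y ^ 2) := by
        rw [hval]; field_simp
      rw [hw', hc]
      field_simp
      ring

/-- A semisimilarity. -/
structure Semi where
  L : V ≃+ V
  τ : K ≃+* K
  c : K
  hc : c ≠ 0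
  smul : ∀ (k : K) x, L (k • x) = τ k • L x
  map : ∀ x y, D.H (L x) (L y) = c * τ (D.H x y)

variable {D}

theorem Semi.ne (S : D.Semi) {a : V} (ha : D.H a a ≠ 0) : D.H (S.L a) (S.L a) ≠ 0 := by
  rw [S.map]; exact mul_ne_zero S.hc ((map_ne_zero S.τ).mpr ha)

theorem Semi.symm_smul (S : D.Semi) (k : K) (x : V) :
    S.L.symm (k • x) = S.τ.symm k • S.L.symm x :=
  S.L.injective (by rw [S.smul, S.L.apply_symm_apply, S.L.apply_symm_apply, S.τ.apply_symm_apply])

/-- Conjugation by a semisimilarity. -/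
def Semi.conj (S : D.Semi) (h : D.U) : D.U :=
  ⟨{ toFun := fun x => S.L (h.1 (S.L.symm x))
     invFun := fun x => S.L (h.1.symm (S.L.symm x))
     map_add' := fun x y => by simp only [map_add]
     map_smul' := fun k x => by
       simp only [S.symm_smul, map_smul, S.smul, S.τ.apply_symm_apply, RingHom.id_apply]
     left_inv := fun x => by simp
     right_inv := fun x => by simp }, fun x y => by
    show D.H (S.L (h.1 (S.L.symm x))) (S.L (h.1 (S.L.symm y))) = D.H x y
    rw [S.map, h.2, ← S.map, S.L.apply_symm_apply, S.L.apply_symm_apply]⟩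

theorem Semi.conj_apply (S : D.Semi) (h : D.U) (x : V) :
    (S.conj h).1 (S.L x) = S.L (h.1 x) := by
  show S.L (h.1 (S.L.symm (S.L x))) = _
  rw [S.L.symm_apply_apply]

theorem Semi.conj_mul (S : D.Semi) (g h : D.U) : S.conj (g * h) = S.conj g * S.conj h :=
  U_ext D fun x => by
    obtain ⟨x, rfl⟩ := S.L.surjective x
    rw [Semi.conj_apply]
    show S.L (g.1 (h.1 x)) = (S.conj g).1 ((S.conj h).1 (S.L x))
    rw [Semi.conj_apply, Semi.conj_apply]

theorem Semi.conj_refl (S : D.Semi) {a : V} (ha : D.H a a ≠ 0) :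
    S.conj (D.refl ha) = D.refl (S.ne ha) := U_ext D fun x => by
  obtain ⟨x, rfl⟩ := S.L.surjective x
  rw [Semi.conj_apply, refl_apply, refl_apply, map_sub, S.smul, S.map, S.map]
  congr 2
  rw [map_div₀, map_mul, map_ofNat, ← mul_assoc, mul_comm (2 : K) S.c, mul_assoc,
    mul_div_mul_left _ _ S.hc]

variable (D)

theorem refl_apply_self {a : V} (ha : D.H a a ≠ 0) : (D.refl ha).1 a = -a := by
  rw [refl_apply, mul_div_assoc, div_self ha, mul_one, two_smul]; abel

theorem refl_apply_perp {a x : V} (ha : D.H a a ≠ 0) (hx : D.H a x = 0) :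
    (D.refl ha).1 x = x := by
  rw [refl_apply, hx, mul_zero, zero_div, zero_smul, sub_zero]

variable [Finite K] [FiniteDimensional K V] {G : Type w} [Group G] (Φ : D.U →* G)
  (hker : ∀ h, Φ h = 1 → ∃ k : K, ∀ x, h.1 x = k • x)

include hker

omit [Finite K] in
/-- Reflections with the same image have the same centre. -/
theorem par_of_refl_eq {a b : V} (ha : D.H a a ≠ 0) (hb : D.H b b ≠ 0)
    (h : Φ (D.refl ha) = Φ (D.refl hb)) : ∃ k : K, b = k • a := by
  obtain ⟨k, hk⟩ := hker (D.refl ha * D.refl hb) (by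
    rw [map_mul, h, ← map_mul, refl_sq, map_one])
  obtain ⟨x, hx0, hax, hbx⟩ := D.exists_two_functional a b
  have h1 := hk x
  change (D.refl ha).1 ((D.refl hb).1 x) = _ at h1
  rw [refl_apply_perp D hb hbx, refl_apply_perp D ha hax] at h1
  have hk1 : k = 1 := (smul_left_injective K hx0 ((one_smul K x).trans h1)).symm
  have h2 := hk b
  change (D.refl ha).1 ((D.refl hb).1 b) = _ at h2
  rw [refl_apply_self D hb, map_neg, refl_apply, hk1, one_smul, neg_sub, sub_eq_iff_eq_add] at h2
  refine ⟨2⁻¹ * (2 * D.H a b / D.H a a), ?_⟩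
  rw [mul_smul, h2, ← two_smul K b, inv_smul_smul₀ D.two]

/-- Elements of a subgroup of odd order fix all anisotropic points. -/
theorem points [Finite G] (N : Subgroup G) (hodd : Odd (Nat.card N))
    (hnorm : ∀ (a : V) (ha : D.H a a ≠ 0), ∀ n ∈ N, Φ (D.refl ha) * n * (Φ (D.refl ha))⁻¹ ∈ N)
    {y : G} (hy : y ∈ N) (S : D.Semi) (hS : ∀ h, y * Φ h * y⁻¹ = Φ (S.conj h))
    {a : V} (ha : D.H a a ≠ 0) : ∃ k : K, S.L a = k • a := by
  by_contra hcon
  push Not at hcon
  have hcomm : ∀ n ∈ N, ∀ (v : V) (hv : D.H v v ≠ 0),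
      n * Φ (D.refl hv) * n⁻¹ * (Φ (D.refl hv))⁻¹ ∈ N := fun n hn v hv => by
    have := mul_mem hn (hnorm v hv _ (inv_mem hn))
    simpa [mul_assoc] using this
  have hinv : ∀ (v : V) (hv : D.H v v ≠ 0), (Φ (D.refl hv))⁻¹ = Φ (D.refl hv) := fun v hv => by
    rw [inv_eq_iff_mul_eq_one, ← map_mul, refl_sq, map_one]
  set b := S.L a with hb
  set ρ : D.U := D.refl (S.ne ha) * D.refl ha with hρ
  have hρN : Φ ρ ∈ N := by
    have := hcomm y hy a ha
    rwa [hS, Semi.conj_refl, hinv, ← map_mul] at this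
  obtain ⟨v, hv, hperp⟩ := D.exists_perp_image ha (S.ne ha) hcon
  set u := ρ.1 v with hu
  have hvu : D.H v u = 0 := by
    have h1 := D.reflMap_isom (S.ne ha) v u
    have h2 : D.reflMap (S.L a) u = D.reflMap a v := D.reflMap_invol (S.ne ha) _
    rw [h2] at h1
    rw [← h1, ← D.symm, hperp, map_zero]
  have huu : D.H u u ≠ 0 := by rw [hu, ρ.2]; exact hv
  have hu' : ρ * D.refl hv * ρ⁻¹ = D.refl huu := by
    rw [mul_inv_eq_iff_eq_mul]
    refine U_ext D fun x => ?_
    show ρ.1 ((D.refl hv).1 x) = (D.refl huu).1 (ρ.1 x)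
    rw [refl_apply, refl_apply, map_sub, map_smul, hu, ρ.2, ρ.2]
  have hmem := hcomm _ hρN v hv
  rw [← map_mul, ← map_inv, ← map_mul, hu', hinv, ← map_mul] at hmem
  set e := D.refl huu * D.refl hv
  have huv : D.H u v = 0 := by rw [← D.symm v u, hvu, map_zero]
  have hev : e.1 v = -v := by
    show (D.refl huu).1 ((D.refl hv).1 v) = -v
    rw [refl_apply_self D hv, map_neg, refl_apply_perp D huu huv]
  have heu : e.1 u = -u := by
    show (D.refl huu).1 ((D.refl hv).1 u) = -u
    rw [refl_apply_perp D hv hvu, refl_apply_self D huu]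
  have he2 : e * e = 1 := by
    refine U_ext D fun x => ?_
    show (D.refl huu).1 ((D.refl hv).1 ((D.refl huu).1 ((D.refl hv).1 x))) = x
    simp only [refl_apply, map_sub, map_smul, D.sub_right, D.smul_right, huv, hvu, mul_zero,
      sub_zero, zero_div, zero_smul]
    match_scalars
    · ring
    · field_simp
      ring
    · field_simp
      ring
  have hne : Φ e ≠ 1 := fun h => by
    obtain ⟨k, hk⟩ := hker e h
    obtain ⟨x, hx0, hux, hvx⟩ := D.exists_two_functional u v
    have h1 : e.1 x = x := by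
      show (D.refl huu).1 ((D.refl hv).1 x) = x
      rw [refl_apply_perp D hv hvx, refl_apply_perp D huu hux]
    have hk1 : k = 1 := (smul_left_injective K hx0 ((one_smul K x).trans (h1.symm.trans (hk x)))).symm
    have h2 := hev.symm.trans (hk v)
    rw [hk1, one_smul, neg_eq_iff_add_eq_zero, ← two_smul K, smul_eq_zero] at h2
    exact D.ne_zero hv (h2.resolve_left D.two)
  have hord : orderOf (⟨Φ e, hmem⟩ : N) = 2 := by
    rw [Subgroup.orderOf_mk]
    exact orderOf_eq_prime (by rw [pow_two, ← map_mul, he2, map_one]) hne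
  exact (Nat.not_even_iff_odd.mpr hodd) (even_iff_two_dvd.mpr (hord ▸ orderOf_dvd_natCard _))

omit [Finite K] in
/-- Centralising the products of orthogonal reflections. -/
theorem plane_sq (z : G) (S : D.Semi) (hS : ∀ h, z * Φ h * z⁻¹ = Φ (S.conj h))
    (hcomm : ∀ (a b : V) (ha : D.H a a ≠ 0) (hb : D.H b b ≠ 0), D.H a b = 0 →
      Commute z (Φ (D.refl ha * D.refl hb)))
    {a : V} (ha : D.H a a ≠ 0) : ∃ k : K, S.L (S.L a) = k • a := by
  have key : ∀ (b : V) (hb : D.H b b ≠ 0), D.H a b = 0 →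
      ∀ x, D.H a x = 0 → D.H b x = 0 → D.H (S.L (S.L a)) x = 0 := by
    intro b hb hab x hax hbx
    set h := D.refl ha * D.refl hb
    obtain ⟨k, hk⟩ := hker ((S.conj h)⁻¹ * h) (by
      rw [map_mul, map_inv, ← hS, (hcomm a b ha hb hab).eq, mul_inv_cancel_right, inv_mul_cancel])
    have hk' : ∀ w, h.1 w = k • (S.conj h).1 w := fun w => by
      have h1 := congrArg (S.conj h).1 (hk w)
      change (S.conj h).1 (((S.conj h).1).symm (h.1 w)) = _ at h1
      rwa [LinearEquiv.apply_symm_apply, map_smul] at h1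
    have hha : h.1 a = -a := by
      show (D.refl ha).1 ((D.refl hb).1 a) = -a
      rw [refl_apply_perp D hb (by rw [← D.symm a b, hab, map_zero]), refl_apply_self D ha]
    have hhx : h.1 x = x := by
      show (D.refl ha).1 ((D.refl hb).1 x) = x
      rw [refl_apply_perp D hb hbx, refl_apply_perp D ha hax]
    set a₁ := S.L a with ha₁
    have e1 : h.1 a₁ = -(k • a₁) := by
      rw [hk', ha₁, Semi.conj_apply, hha, map_neg, smul_neg]
    have ha₁0 : a₁ ≠ 0 := D.ne_zero (S.ne ha)
    have hk2 : k * k = 1 := by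
      have h1 : h.1 (h.1 a₁) = (k * k) • a₁ := by
        rw [e1, map_neg, map_smul, e1, smul_neg, neg_neg, smul_smul]
      have h2 := h.2 (h.1 a₁) (h.1 a₁)
      rw [h1, D.smul_left, D.smul_right, h.2, map_mul] at h2
      have h3 : D.σ k * k = 1 := by
        have h4 := h.2 a₁ a₁
        rw [e1, ← neg_smul, D.smul_left, D.smul_right, map_neg] at h4
        exact mul_right_cancel₀ (S.ne ha) (by rw [one_mul]; linear_combination h4)
      have hsq : ∀ w, h.1 (h.1 w) = w := fun w => by
        show (D.refl ha).1 ((D.refl hb).1 ((D.refl ha).1 ((D.refl hb).1 w))) = w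
        simp only [refl_apply, map_sub, map_smul, D.sub_right, D.smul_right, hab,
          show D.H b a = 0 by rw [← D.symm a b, hab, map_zero], mul_zero, sub_zero, zero_div,
          zero_smul]
        match_scalars
        · ring
        · field_simp
          ring
        · field_simp
          ring
      exact smul_left_injective K ha₁0 (h1.symm.trans ((hsq a₁).trans (one_smul K a₁).symm))
    have hkτ : S.τ k * k = 1 := by
      rcases mul_self_eq_one_iff.mp hk2 with rfl | rfl <;> simp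
    have e2 : h.1 (S.L a₁) = -(S.L a₁) := by
      rw [hk', Semi.conj_apply, e1, map_neg, S.smul, smul_neg, smul_smul, mul_comm k, hkτ,
        one_smul]
    have h5 := h.2 (S.L a₁) x
    rw [e2, hhx, ← neg_one_smul K, D.smul_left, map_neg, map_one] at h5
    exact (mul_eq_zero.mp (show (2 : K) * D.H (S.L a₁) x = 0 by linear_combination -h5)).resolve_left
      D.two
  obtain ⟨b, hab, hb⟩ := D.exists_perp_one ha
  obtain ⟨c, hac, hbc, hc⟩ := D.exists_perp_two (a := a) (b := b) (by
    rw [hab, zero_mul, sub_zero]; exact mul_ne_zero ha hb)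
  have hcb : D.H c b = 0 := by rw [← D.symm b c, hbc, map_zero]
  set A := S.L (S.L a) with hA
  refine ⟨D.H a A / D.H a a, ?_⟩
  rw [← sub_eq_zero]
  refine D.nd _ fun u => ?_
  set u₀ := u - (D.H a u / D.H a a) • a with hu₀
  have hau₀ : D.H a u₀ = 0 := by
    rw [hu₀, D.sub_right, D.smul_right, div_mul_cancel₀ _ ha, sub_self]
  set u₁ := u₀ - (D.H b u₀ / D.H b b) • b with hu₁
  have e₁ : D.H A u₁ = 0 := key b hb hab u₁
    (by rw [hu₁, D.sub_right, D.smul_right, hau₀, hab]; ring)
    (by rw [hu₁, D.sub_right, D.smul_right, div_mul_cancel₀ _ hb, sub_self])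
  have e₂ : D.H A b = 0 := key c hc hac b hab hcb
  have e₃ : D.H A u₀ = 0 := by
    rwa [hu₁, D.sub_right, D.smul_right, e₂, mul_zero, sub_zero] at e₁
  have e₄ : D.H A u = D.H a u / D.H a a * D.H A a := by
    rw [hu₀, D.sub_right, D.smul_right, sub_eq_zero] at e₃
    exact e₃
  rw [D.sub_right, D.smul_right, ← D.symm A u, e₄, map_mul, map_div₀, D.symm, D.real_self,
    D.symm]
  ring

omit hker [Finite K] in
/-- A semilinear map fixing all anisotropic points is a scalar. -/
theorem scalar_of_points (L : V →+ V) (τ : K ≃+* K) (hL : ∀ (k : K) x, L (k • x) = τ k • L x)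
    (hinj : ∀ {a : V}, D.H a a ≠ 0 → L a ≠ 0)
    (h : ∀ a, D.H a a ≠ 0 → ∃ k : K, L a = k • a) :
    τ = 1 ∧ ∃ k : K, ∀ x, L x = k • x := by
  choose k hk using h
  have hsplit : ∀ (a b : V) (ha : D.H a a ≠ 0) (hb : D.H b b ≠ 0) (c : K)
      (hab : D.H a b = 0) (x : V) (hx : D.H (a + c • b + x) (a + c • b + x) ≠ 0)
      (hax : D.H a x = 0) (hbx : D.H b x = 0) (l : K), L x = l • x →
      τ c * k b hb = k a ha * c := by
    intro a b ha hb c hab x hx hax hbx l hl
    have h1 := hk _ hx
    rw [map_add, map_add, hL, hk a ha, hk b hb, hl] at h1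
    have h2 := congrArg (D.H a) h1
    have h3 := congrArg (D.H b) h1
    simp only [D.add_right, D.smul_right, hab, hax, hbx,
      show D.H b a = 0 by rw [← D.symm a b, hab, map_zero], mul_zero, add_zero, zero_add] at h2 h3
    rw [mul_left_inj' ha] at h2
    rw [← mul_assoc, ← mul_assoc, mul_left_inj' hb, ← h2] at h3
    exact h3
  have hgood : ∀ (a b : V) (ha : D.H a a ≠ 0) (hb : D.H b b ≠ 0) (c : K),
      D.H a b = 0 → τ c * k b hb = k a ha * c := by
    intro a b ha hb c hab
    by_cases h0 : D.H (a + c • b) (a + c • b) = 0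
    · obtain ⟨e, hae, hbe, he⟩ := D.exists_perp_two (a := a) (b := b) (by
        rw [hab, zero_mul, sub_zero]; exact mul_ne_zero ha hb)
      refine hsplit a b ha hb c hab e ?_ hae hbe _ (hk e he)
      have h3 : D.H (a + c • b) e = 0 := by
        rw [D.add_left, D.smul_left, hae, hbe, mul_zero, add_zero]
      rw [D.add_left (a + c • b) e, D.add_right (a + c • b) _ e, D.add_right e, h0,
        ← D.symm (a + c • b) e, h3, map_zero, zero_add, zero_add, zero_add]
      exact he
    · exact hsplit a b ha hb c hab 0 (by rwa [add_zero]) (D.zero_right a) (D.zero_right b) 0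
        (by rw [map_zero, smul_zero])
  have horth : ∀ (a b : V) (ha : D.H a a ≠ 0) (hb : D.H b b ≠ 0),
      D.H a b = 0 → k b hb = k a ha := fun a b ha hb hab => by
    simpa using hgood a b ha hb 1 hab
  obtain ⟨a₀, ha₀⟩ : ∃ a, D.H a a ≠ 0 := by
    obtain ⟨z, hz0, -⟩ := D.exists_two_functional 0 0
    obtain ⟨w, -, hw⟩ := D.exists_aniso LinearMap.id (fun _ _ _ => rfl) ⟨z, hz0, rfl⟩ fun _ => rfl
    exact ⟨w, hw⟩
  obtain ⟨b₀, hab₀, hb₀⟩ := D.exists_perp_one ha₀
  have hk0 : τ = 1 ∨ k a₀ ha₀ = 0 := by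
    by_cases h0 : k a₀ ha₀ = 0
    · exact Or.inr h0
    · refine Or.inl (RingEquiv.ext fun c => ?_)
      have h1 := hgood a₀ b₀ ha₀ hb₀ c hab₀
      rw [horth a₀ b₀ ha₀ hb₀ hab₀, mul_comm (k a₀ ha₀)] at h1
      exact mul_right_cancel₀ h0 h1
  have hall : ∀ a (ha : D.H a a ≠ 0), k a ha = k a₀ ha₀ := by
    intro a ha
    by_cases hpar : ∃ t : K, a = t • a₀
    · obtain ⟨t, rfl⟩ := hpar
      have ht : t ≠ 0 := fun h0 => ha (by rw [h0, zero_smul, D.zero_left])
      rw [← horth a₀ b₀ ha₀ hb₀ hab₀]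
      exact (horth (t • a₀) b₀ ha hb₀ (by rw [D.smul_left, hab₀, mul_zero])).symm
    by_cases hΔ : D.H a₀ a₀ * D.H a a - D.H a₀ a * D.H a a₀ = 0
    · -- a degenerate plane has a second anisotropic point on the line
      push Not at hpar
      have hplus : D.H (a₀ + a) (a₀ + a) ≠ 0 ∨ D.H (a₀ - a) (a₀ - a) ≠ 0 := by
        by_contra hcon
        push Not at hcon
        obtain ⟨h1, h2⟩ := hcon
        rw [D.add_left, D.add_right, D.add_right] at h1
        rw [D.sub_left, D.sub_right, D.sub_right] at h2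
        have e1 : D.H a a = -D.H a₀ a₀ := mul_left_cancel₀ D.two (by linear_combination h1 + h2)
        have e2 : D.H a a₀ = -D.H a₀ a := mul_left_cancel₀ D.two (by linear_combination h1 - h2)
        rw [e1, e2] at hΔ
        have e3 : D.H a₀ a * D.H a₀ a = D.H a₀ a₀ * D.H a₀ a₀ := by linear_combination hΔ
        have e4 : D.σ (D.H a₀ a) = -D.H a₀ a := (D.symm a₀ a).trans e2
        rcases mul_self_eq_mul_self_iff.mp e3 with e | e <;>
        · rw [e] at e4
          simp [map_neg, D.real_self] at e4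
          exact ha₀ ((mul_eq_zero.mp (show (2 : K) * D.H a₀ a₀ = 0 by
            first | linear_combination e4 | linear_combination -e4)).resolve_left D.two)
      have hind : ∀ s t : K, s • a₀ + t • a = 0 → t = 0 ∧ s = 0 := fun s t hst => by
        have ht : t = 0 := by
          by_contra ht
          refine hpar (-(t⁻¹ * s)) ?_
          rw [neg_smul, mul_smul, ← smul_neg, eq_inv_smul_iff₀ ht]
          exact eq_neg_of_add_eq_zero_left (by rw [add_comm]; exact hst)
        rw [ht, zero_smul, add_zero, smul_eq_zero] at hst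
        exact ⟨ht, hst.resolve_right (D.ne_zero ha₀)⟩
      rcases hplus with hp | hp
      · have h1 := hk _ hp
        rw [map_add, hk a₀ ha₀, hk a ha] at h1
        obtain ⟨e1, e2⟩ := hind (k a₀ ha₀ - k _ hp) (k a ha - k _ hp)
          (by linear_combination (norm := module) h1)
        rw [sub_eq_zero] at e1 e2
        rw [e1, e2]
      · have h1 := hk _ hp
        rw [map_sub, hk a₀ ha₀, hk a ha] at h1
        obtain ⟨e1, e2⟩ := hind (k a₀ ha₀ - k _ hp) (-(k a ha - k _ hp))
          (by linear_combination (norm := module) h1)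
        rw [neg_eq_zero, sub_eq_zero] at e1
        rw [sub_eq_zero] at e2
        rw [e1, e2]
    · obtain ⟨e, he₀, hea, he⟩ := D.exists_perp_two hΔ
      rw [← horth a₀ e ha₀ he he₀, horth a e ha he hea]
  set k₀ := k a₀ ha₀
  have hgen : ∀ x, L x = k₀ • x := by
    intro x
    by_cases hx : D.H x x = 0
    · obtain hp | hp : D.H (x + a₀) (x + a₀) ≠ 0 ∨ D.H (x - a₀) (x - a₀) ≠ 0 := by
        by_contra hcon
        push Not at hcon
        obtain ⟨h1, h2⟩ := hcon
        rw [D.add_left, D.add_right, D.add_right, hx] at h1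
        rw [D.sub_left, D.sub_right, D.sub_right, hx] at h2
        exact ha₀ ((mul_eq_zero.mp (show (2 : K) * D.H a₀ a₀ = 0 by
          linear_combination h1 + h2)).resolve_left D.two)
      · have h1 := hk _ hp
        rw [map_add, hk a₀ ha₀, hall _ hp] at h1
        linear_combination (norm := module) h1
      · have h1 := hk _ hp
        rw [map_sub, hk a₀ ha₀, hall _ hp] at h1
        linear_combination (norm := module) h1
    · rw [hk x hx, hall x hx]
  exact ⟨hk0.resolve_right fun h0 => hinj ha₀ (by rw [hgen a₀, show k₀ = 0 from h0, zero_smul]),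
    k₀, hgen⟩

end Herm

end Cfsg.Agent.KnownB.Proj.Balance.Reflect
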