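import Cfsg.Agent.Forms.SpAutCount
import Cfsg.Agent.KnownB.Proj.Symp.Two
import Cfsg.Agent.KnownB.Proj.Balance.OrthFix

/-! Symplectic groups over a subfield, and automorphisms fixing their transvections. -/

set_option autoImplicit false

namespace Cfsg.Agent.KnownB.Proj.Balance.Symplectic

open Matrix
open Cfsg.Agent.KnownB.Proj.Symp
open Cfsg.Agent.Forms (MapsTv)

universe u v

variable {m : ℕ} {F : Type u} [Field F] {F₀ : Type v} [Field F₀] (j : F₀ →+* F)

local notation "Vm" => (Fin m ⊕ Fin m → F)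
local notation "Mm" => Matrix (Fin m ⊕ Fin m) (Fin m ⊕ Fin m) F
local notation "GLm" => Matrix.GeneralLinearGroup (Fin m ⊕ Fin m) F
local notation "B" => Cfsg.sympForm m F

theorem map_mulVec' (M : Matrix (Fin m ⊕ Fin m) (Fin m ⊕ Fin m) F₀)
    (u : Fin m ⊕ Fin m → F₀) : M.map j *ᵥ (⇑j ∘ u) = ⇑j ∘ (M *ᵥ u) := by
  funext i; simp [Matrix.mulVec, dotProduct, map_sum]

theorem comp_single (i : Fin m ⊕ Fin m) :
    ⇑j ∘ (Pi.single i (1 : F₀)) = (Pi.single i (1 : F) : Fin m ⊕ Fin m → F) := by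
  funext l; by_cases hl : l = i <;> simp [hl]

theorem comp_ne {u : Fin m ⊕ Fin m → F₀} (hu : u ≠ 0) : ⇑j ∘ u ≠ 0 := fun h =>
  hu (funext fun i => j.injective ((congrFun h i).trans (map_zero j).symm))

theorem map_gsp_mem (g : Cfsg.GSp m F₀) : GeneralLinearGroup.map j g.1 ∈ Cfsg.GSp m F := by
  obtain ⟨c, hc⟩ := g.2
  refine ⟨Units.map (j : F₀ →* F) c, fun u v => ?_⟩
  show B ((g.1 : Matrix _ _ F₀).map j *ᵥ u) ((g.1 : Matrix _ _ F₀).map j *ᵥ v) = j (c : F₀) * _
  rw [B_mat_ext _ ((j (c : F₀)) • Forms.sympB m F) (fun i k => ?_) u v]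
  · simp [sB]
  · rw [← comp_single j i, ← comp_single j k, map_mulVec', map_mulVec', B_comp_hom, hc, map_mul]
    simp [sB, B_comp_hom]

/-- Similarities over the subfield. -/
noncomputable def jG : Cfsg.GSp m F₀ →* Cfsg.GSp m F :=
  ((GeneralLinearGroup.map j).comp (Cfsg.GSp m F₀).subtype).codRestrict _ (map_gsp_mem j)

theorem jG_val (g : Cfsg.GSp m F₀) : ((jG j g).1 : Mm) = (g.1 : Matrix _ _ F₀).map j := rfl

theorem jG_sc (u : F₀ˣ) : jG j (sc m F₀ u) = sc m F (Units.map (j : F₀ →* F) u) := by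
  refine Subtype.ext (Units.ext (Matrix.ext fun a b => ?_))
  show j (Matrix.scalar (Fin m ⊕ Fin m) (u : F₀) a b) =
    Matrix.scalar (Fin m ⊕ Fin m) (j (u : F₀)) a b
  by_cases hab : a = b <;> simp [Matrix.scalar_apply, hab]

theorem mult_jG (hm : 1 ≤ m) (g : Cfsg.GSp m F₀) :
    mult hm (jG j g) = Units.map (j : F₀ →* F) (mult hm g) := by
  obtain ⟨u, v, huv⟩ := exists_B_one' (F := F₀) hm
  refine Units.ext ?_
  have h := hasMult_mult hm (jG j g) (⇑j ∘ u) (⇑j ∘ v)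
  rw [jG_val, map_mulVec', map_mulVec', B_comp_hom, B_comp_hom, hasMult_mult hm g, huv, map_one,
    mul_one, mul_one] at h
  exact h.symm

theorem spInc_mult (hm : 1 ≤ m) (s : Matrix.symplecticGroup (Fin m) F) : mult hm (spInc s) = 1 :=
  mult_eq hm _ fun u v => (sp_B s u v).trans (one_mul _).symm

theorem exists_spInc (hm : 1 ≤ m) {g : Cfsg.GSp m F} (hg : mult hm g = 1) :
    ∃ s, spInc s = g := by
  have h := hasMult_mult hm g
  rw [hg] at h
  exact ⟨⟨(g.1 : Mm), Forms.mem_symplectic_iff.mpr fun u v => (h u v).trans (one_mul _)⟩,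
    gsp_ext fun x => rfl⟩

/-- The fixed similarities are those defined over the fixed field. -/
theorem exists_jG (hm : 1 ≤ m) {σ : F ≃+* F} (hj : ∀ x : F, σ x = x ↔ x ∈ j.range)
    {g : Cfsg.GSp m F} (hg : mapGSp σ g = g) : ∃ g₀, jG j g₀ = g := by
  have h : ∀ a b, (g.1 : Mm) a b ∈ j.range := fun a b => (hj _).mp
    (congrArg (fun x : Cfsg.GSp m F => (x.1 : Mm) a b) hg)
  choose e he using h
  have hme : (Matrix.of e).map j = (g.1 : Mm) := Matrix.ext fun a b => he a b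
  have hd : (Matrix.of e).det ≠ 0 := fun h0 => by
    have h1 : (g.1 : Mm).det ≠ 0 := (GeneralLinearGroup.det g.1).ne_zero
    rw [← hme, ← RingHom.mapMatrix_apply, ← RingHom.map_det, h0, map_zero] at h1
    exact h1 rfl
  have hμ := hasMult_mult hm g
  obtain ⟨x, y, hxy⟩ := exists_B_one' (m := m) (F := F₀) hm
  have hval : ∀ u v, j (Cfsg.sympForm m F₀ (Matrix.of e *ᵥ u) (Matrix.of e *ᵥ v)) =
      (mult hm g : F) * j (Cfsg.sympForm m F₀ u v) := fun u v => by
    rw [← B_comp_hom j, ← B_comp_hom j, ← map_mulVec', ← map_mulVec', hme, hμ]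
  set c := Cfsg.sympForm m F₀ (Matrix.of e *ᵥ x) (Matrix.of e *ᵥ y) with hc
  have hcμ : j c = (mult hm g : F) := by rw [hc, hval, hxy, map_one, mul_one]
  have hc0 : c ≠ 0 := fun h => (mult hm g).ne_zero (by rw [← hcμ, h, map_zero])
  refine ⟨⟨GeneralLinearGroup.mkOfDetNeZero _ hd, Units.mk0 c hc0, fun u v => j.injective ?_⟩,
    Subtype.ext (Units.ext hme)⟩
  rw [map_mul, Units.val_mk0, hcμ]
  exact hval u v

theorem mapGSp_jG {σ : F ≃+* F} (hj : ∀ x : F, σ x = x ↔ x ∈ j.range) (g : Cfsg.GSp m F₀) :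
    mapGSp σ (jG j g) = jG j g :=
  Subtype.ext (Units.ext (Matrix.ext fun a b => (hj _).mpr ⟨(g.1 : Matrix _ _ F₀) a b, rfl⟩))

/-- A central element in the sense of scalars. -/
theorem spInc_scalar_iff (hm : 1 ≤ m) (s : Matrix.symplecticGroup (Fin m) F) :
    spInc s ∈ (sc m F).range ↔ s ∈ Subgroup.center (Matrix.symplecticGroup (Fin m) F) := by
  constructor
  · rintro ⟨u, hu⟩
    rw [Subgroup.mem_center_iff]
    intro t
    refine sp_ext fun x => ?_
    have h : ∀ y, s.1 *ᵥ y = (u : F) • y := fun y => by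
      rw [← sc_mulVec, hu]; rfl
    rw [sp_mul_mulVec, sp_mul_mulVec, h, h, Matrix.mulVec_smul]
  · intro h
    obtain ⟨k, hk, hkv⟩ := center_scalar hm h
    exact ⟨Units.mk0 k hk, gsp_ext fun x => by rw [sc_mulVec, Units.val_mk0, spInc_val, hkv]⟩

theorem conj_injective (hm : 2 ≤ m) :
    Function.Injective (MulAut.conj : Cfsg.PSp m F → MulAut (Cfsg.PSp m F)) := by
  show Function.Injective ⇑(MulAut.conj : Cfsg.PSp m F →* MulAut (Cfsg.PSp m F))
  rw [injective_iff_map_eq_one]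
  intro x
  induction x using QuotientGroup.induction_on with
  | _ s =>
    intro h
    rw [conj_eq, A_eq_one_iff hm, spInc_scalar_iff (by omega)] at h
    exact (QuotientGroup.eq_one_iff s).mpr h

variable (m) in
/-- The symplectic group over the subfield, acting. -/
noncomputable def Xi : Matrix.symplecticGroup (Fin m) F₀ →* MulAut (Cfsg.PSp m F) :=
  (A m F).comp ((jG j).comp spInc)

theorem Xi_ker (hm : 2 ≤ m) : (Xi m j).ker = Subgroup.center _ := by
  ext s
  rw [MonoidHom.mem_ker, ← spInc_scalar_iff (by omega : 1 ≤ m)]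
  show A m F (jG j (spInc s)) = 1 ↔ _
  rw [A_eq_one_iff hm]
  constructor
  · rintro ⟨u, hu⟩
    have h : ∀ a b, j ((spInc s).1.1 a b) = Matrix.scalar (Fin m ⊕ Fin m) (u : F) a b :=
      fun a b => (congrArg (fun x : Cfsg.GSp m F => (x.1 : Mm) a b) hu).symm
    let z : Fin m ⊕ Fin m := Sum.inl ⟨0, by omega⟩
    have hd : j ((spInc s).1.1 z z) = (u : F) := by simpa using h z z
    have h0 : (spInc s).1.1 z z ≠ 0 := fun h1 => u.ne_zero (by rw [← hd, h1, map_zero])
    refine ⟨Units.mk0 _ h0, Subtype.ext (Units.ext (Matrix.ext fun a b => j.injective ?_))⟩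
    rw [h, ← hd]
    show j (Matrix.scalar (Fin m ⊕ Fin m) ((spInc s).1.1 z z) a b) = _
    by_cases hab : a = b <;> simp [Matrix.scalar_apply, hab]
  · rintro ⟨u, hu⟩
    exact ⟨Units.map (j : F₀ →* F) u, by rw [← jG_sc, hu]⟩

theorem mk_T_mem (v : Fin m ⊕ Fin m → F₀) (a : F₀) :
    MulAut.conj (QuotientGroup.mk (T (⇑j ∘ v) (j a)) : Cfsg.PSp m F) = Xi m j (T v a) := by
  rw [conj_eq]
  refine congrArg (A m F) (Subtype.ext (Units.ext ?_))
  show (T (⇑j ∘ v) (j a)).1 = (T v a).1.map j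
  refine Matrix.ext_of_mulVec_single fun i => ?_
  rw [T_mulVec, ← comp_single j i, map_mulVec', T_mulVec, B_comp_hom]
  funext l
  simp

section Auto

variable [Fintype F]

theorem decomp_of_tv (p : ℕ) [Fact p.Prime] [CharP F p] (hm : 2 ≤ m)
    (y : MulAut (Cfsg.PSp m F)) (hfix : ∃ u x, IsTvOf (m := m) u x ∧ y x = x) :
    ∃ (g : Cfsg.GSp m F) (σ : F ≃+* F), y = A m F g * Fd m F σ := by
  by_cases h : m = 2 ∧ p = 2
  · obtain ⟨rfl, rfl⟩ := h
    obtain ⟨u, x, hx, hyx⟩ := hfix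
    refine (Forms.mapsTv_iff y).mp fun v' z hz => ?_
    obtain ⟨g, rfl⟩ := Forms.exists_conj_tv hx hz
    obtain ⟨s, hs⟩ := QuotientGroup.mk_surjective (y g)
    rw [map_mul, map_mul, map_inv, ← hs, hyx]
    exact ⟨_, hx.conj s⟩
  · exact exists_decomp p hm (fun h2 hp => h ⟨h2, hp⟩) y

theorem decomp_of_odd (p : ℕ) [Fact p.Prime] [CharP F p] (hm : 2 ≤ m)
    (y : MulAut (Cfsg.PSp m F)) {n : ℕ} (hn : m = 2 → p = 2 → Odd n) (hy : y ^ n = 1) :
    ∃ (g : Cfsg.GSp m F) (σ : F ≃+* F), y = A m F g * Fd m F σ := by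
  by_cases h : m = 2 ∧ p = 2
  · obtain ⟨rfl, rfl⟩ := h
    obtain ⟨k, rfl⟩ := hn rfl rfl
    have hsq : ∀ z : MulAut (Cfsg.PSp 2 F), MapsTv (z * z) := fun z => by
      rcases Forms.mapsTv_or z with h1 | h1
      · exact h1.mul h1
      rcases Forms.mapsTv_or (z * z) with h2 | h2
      · exact h2
      · have h3 : MapsTv z := by
          have := h1.inv'.mul h2
          have e : (Forms.graphAut⁻¹ * z)⁻¹ * (Forms.graphAut⁻¹ * (z * z)) = z := by group
          rwa [e] at this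
        exact h3.mul h3
    have hpow : MapsTv ((y * y) ^ k) := by
      clear hy hn
      induction k with
      | zero => rw [pow_zero]; exact Forms.mapsTv_one
      | succ k ih => rw [pow_succ]; exact ih.mul (hsq y)
    refine (Forms.mapsTv_iff y).mp ?_
    have e : y = ((y * y) ^ k)⁻¹ := by
      rw [eq_inv_iff_mul_eq_one, ← pow_two, ← pow_mul, ← pow_succ']
      exact hy
    rw [e]
    exact hpow.inv'
  · exact exists_decomp p hm (fun h2 hp => h ⟨h2, hp⟩) y

/-- An automorphism fixing the rational transvections is a field automorphism fixing the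
subfield. -/
theorem eq_Fd_of_fix (p : ℕ) [Fact p.Prime] [CharP F p] (hm : 2 ≤ m)
    (y : MulAut (Cfsg.PSp m F))
    (hfix : ∀ v : Fin m ⊕ Fin m → F₀, v ≠ 0 →
      y (QuotientGroup.mk (T (⇑j ∘ v) 1)) = QuotientGroup.mk (T (⇑j ∘ v) 1)) :
    ∃ τ : F ≃+* F, (∀ c, τ (j c) = j c) ∧ y = Fd m F τ := by
  classical
  let i₀ : Fin m ⊕ Fin m := Sum.inl ⟨0, by omega⟩
  have hsingle : ∀ i, (Pi.single i 1 : Fin m ⊕ Fin m → F₀) ≠ 0 := fun i h =>
    one_ne_zero (α := F₀) (by simpa using congrFun h i)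
  obtain ⟨g, τ, rfl⟩ := decomp_of_tv p hm y
    ⟨_, _, isTvOf_mk (comp_ne j (hsingle i₀)), hfix _ (hsingle i₀)⟩
  have key : ∀ v : Fin m ⊕ Fin m → F₀, v ≠ 0 →
      ∃ k : F, k ≠ 0 ∧ (g.1 : Mm) *ᵥ (⇑τ ∘ (⇑j ∘ v)) = k • (⇑j ∘ v) := by
    intro v hv
    have h1 := ((isTvOf_mk (comp_ne j hv)).map_Fd τ).map_A g
    rw [← MulAut.mul_apply, hfix v hv] at h1
    obtain ⟨hw, c, hc, e⟩ := h1
    exact T_par_of_mk_eq hm hw hc e
  choose! k hk0 hk using key
  have hτ1 : ∀ i, ⇑τ ∘ (⇑j ∘ Pi.single i (1 : F₀)) = (Pi.single i (1 : F) : Vm) := fun i => by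
    funext l; by_cases hl : l = i <;> simp [hl]
  have hcol : ∀ i, (g.1 : Mm) *ᵥ Pi.single i 1 = k (Pi.single i 1) • Pi.single i 1 := fun i => by
    have := hk _ (hsingle i)
    rwa [hτ1, comp_single] at this
  have hmain : ∀ (i l : Fin m ⊕ Fin m) (c : F₀), i ≠ l →
      τ (j c) * k (Pi.single l 1) = k (Pi.single i 1) * j c := by
    intro i l c hil
    set v : Fin m ⊕ Fin m → F₀ := Pi.single i 1 + c • Pi.single l 1 with hv
    have hv0 : v ≠ 0 := fun h => one_ne_zero (α := F₀) (by simpa [hv, hil] using congrFun h i)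
    have e1 : ⇑τ ∘ (⇑j ∘ v) = (Pi.single i 1 + τ (j c) • Pi.single l 1 : Vm) := by
      funext q
      by_cases hq : q = i
      · subst hq; simp [hv, hil]
      · by_cases hq' : q = l
        · subst hq'; simp [hv, hq]
        · simp [hv, hq, hq']
    have h := hk v hv0
    rw [e1, Matrix.mulVec_add, Matrix.mulVec_smul, hcol, hcol] at h
    have e2 := congrFun h i
    have e3 := congrFun h l
    simp [hv, hil, hil.symm] at e2 e3
    rw [e3, ← e2]
  have hconst : ∀ i, k (Pi.single i 1) = k (Pi.single i₀ 1) := fun i => by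
    by_cases h : i = i₀
    · rw [h]
    · simpa using (hmain i₀ i 1 (Ne.symm h))
  let i₁ : Fin m ⊕ Fin m := Sum.inl ⟨1, by omega⟩
  have hτ : ∀ c, τ (j c) = j c := fun c => by
    have := hmain i₀ i₁ c (by simp [i₀, i₁])
    rw [hconst i₁, mul_comm (k _)] at this
    exact mul_right_cancel₀ (hk0 _ (hsingle i₀)) this
  refine ⟨τ, hτ, ?_⟩
  have hg : g ∈ (sc m F).range := by
    refine ⟨Units.mk0 _ (hk0 _ (hsingle i₀)), gsp_ext fun x => ?_⟩
    rw [sc_mulVec, Units.val_mk0]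
    have h1 : Matrix.mulVecLin (g.1 : Mm) = k (Pi.single i₀ 1) • LinearMap.id :=
      (Pi.basisFun F (Fin m ⊕ Fin m)).ext fun i => by
        rw [Pi.basisFun_apply, Matrix.mulVecLin_apply, hcol, hconst]
        rfl
    exact (LinearMap.congr_fun h1 x).symm
  rw [(A_eq_one_iff hm g).mpr hg, one_mul]

end Auto

end Cfsg.Agent.KnownB.Proj.Balance.Symplectic
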