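import Cfsg.Agent.KnownB.Proj.Balance.UnitGraph

/-! The balance criterion for `PSU_n(q)`. -/

set_option autoImplicit false

namespace Cfsg.Agent.KnownB.Proj.Balance.UnitBalance

open Cfsg.Agent.KnownB.Proj.Unit
open Cfsg.Agent.KnownB.AutPSL (pow_coset)

universe u

variable {n q : ℕ} {F : Type u} [Field F] [Fintype F]

/-- An involutory automorphism of a group of even order has a fixed group of even order. -/
theorem even_fixed {K : Type u} [Group K] [Finite K] (h2 : 2 ∣ Nat.card K) (β : MulAut K)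
    (hβ : orderOf β = 2) :
    2 ∣ Nat.card ↥(MonoidHom.eqLocus β.toMonoidHom (MonoidHom.id K)) := by
  haveI : Fact (Nat.Prime 2) := ⟨Nat.prime_two⟩
  have hG : IsPGroup 2 (Subgroup.zpowers β) :=
    IsPGroup.of_card (n := 1) (by rw [Nat.card_zpowers, hβ, pow_one])
  have h1 := hG.card_modEq_card_fixedPoints K
  have e : Nat.card ↥(MonoidHom.eqLocus β.toMonoidHom (MonoidHom.id K)) =
      Nat.card (MulAction.fixedPoints (Subgroup.zpowers β) K) :=
    Nat.card_congr (Equiv.subtypeEquivRight fun k => ⟨fun (hk : β k = k) g => by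
      obtain ⟨i, hi⟩ := g.2
      show g.1 k = k
      rw [← hi]
      have h3 : β ∈ MulAction.stabilizer (MulAut K) k := hk
      exact zpow_mem h3 i, fun h => h ⟨β, Subgroup.mem_zpowers β⟩⟩)
  rw [e]
  exact Nat.modEq_zero_iff_dvd.mp (h1.symm.trans (Nat.modEq_zero_iff_dvd.mpr h2))

open Matrix in
theorem even_card (hF : Fintype.card F = q ^ 2) (hn : 3 ≤ n) (h2 : (2 : F) ≠ 0) :
    2 ∣ Nat.card (Cfsg.PSU n F q) := by
  classical
  haveI : Fact (Nat.Prime 2) := ⟨Nat.prime_two⟩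
  let i₀ : Fin n := ⟨0, by omega⟩
  let i₁ : Fin n := ⟨1, by omega⟩
  let i₂ : Fin n := ⟨2, by omega⟩
  let d : Fin n → F := fun i => if i = i₀ ∨ i = i₁ then -1 else 1
  have hd : ∀ i, d i * d i = 1 := fun i => by
    by_cases h : i = i₀ ∨ i = i₁ <;> simp [d, h]
  have hdet : (Matrix.diagonal d).det = 1 := by
    rw [Matrix.det_diagonal, ← Finset.prod_sdiff (Finset.subset_univ ({i₀, i₁} : Finset (Fin n))),
      Finset.prod_eq_one (fun i hi => ?_), one_mul, Finset.prod_pair (by simp [i₀, i₁])]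
    · simp [d]
    · simp only [Finset.mem_sdiff, Finset.mem_insert, Finset.mem_singleton] at hi
      simp [d, hi.2]
  have hdq : ∀ i, d i * d i ^ q = 1 := fun i => by
    rw [← Forms.frobQ_apply hF]
    by_cases h : i = i₀ ∨ i = i₁ <;> simp [d, h, map_neg]
  obtain ⟨t, ht⟩ : ∃ t : Matrix.SpecialLinearGroup (Fin n) F, t.1 = Matrix.diagonal d :=
    ⟨⟨Matrix.diagonal d, hdet⟩, rfl⟩
  have htm : t ∈ Cfsg.SU n F q := fun u v => by
    show Cfsg.hermForm n F q (t.1 *ᵥ u) (t.1 *ᵥ v) = _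
    rw [ht]
    exact Forms.hermForm_mulVec_scalar_diag d hdq u v
  set z : Cfsg.PSU n F q := QuotientGroup.mk ⟨t, htm⟩ with hz
  have hz1 : z ≠ 1 := fun h => by
    rw [hz, QuotientGroup.eq_one_iff, Forms.su_mem_center_iff hF (by omega)] at h
    obtain ⟨c, hc⟩ := h
    have h0 := congrFun (hc (Pi.single i₀ 1)) i₀
    have h3 := congrFun (hc (Pi.single i₂ 1)) i₂
    rw [show KnownA.act _ _ = _ from Matrix.toLin'_apply t.1 _, ht] at h0 h3
    simp [d, i₀, i₁, i₂, Matrix.mulVec_diagonal] at h0 h3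
    exact h2 (by linear_combination h3 - h0)
  have hz2 : z ^ 2 = 1 := by
    rw [hz, ← QuotientGroup.mk_pow, QuotientGroup.eq_one_iff,
      show (⟨t, htm⟩ : Cfsg.SU n F q) ^ 2 = 1 from Subtype.ext (Subtype.ext (by
        rw [pow_two]
        show t.1 * t.1 = 1
        rw [ht, Matrix.diagonal_mul_diagonal, ← Matrix.diagonal_one]
        exact congrArg Matrix.diagonal (funext hd)))]
    exact one_mem _
  rw [← orderOf_eq_prime hz2 hz1]
  exact orderOf_dvd_natCard z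

/-- The criterion. -/
theorem balance (hF : Fintype.card F = q ^ 2) (hn : 3 ≤ n) (hK : IsSimpleGroup (Cfsg.PSU n F q))
    {r : ℕ} [Fact r.Prime] [CharP F r] (A' : Subgroup (MulAut (Cfsg.PSU n F q)))
    (hinn : ∀ k : Cfsg.PSU n F q, MulAut.conj k ∈ A') {p : ℕ} [Fact p.Prime] (hpr : p ≠ r)
    (β : MulAut (Cfsg.PSU n F q)) (hord : orderOf β = p)
    (hnot : ¬ Cfsg.IsInnerDiagonalAutPSU β) :
    Cfsg.pPrimeCore p ↥(A' ⊓ Subgroup.centralizer {β}) ≠ ⊥ ↔
      ((∃ γ φ : MulAut (Cfsg.PSU n F q), Cfsg.IsInnerDiagonalAutPSU γ ∧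
          (∃ σ : F ≃+* F, Cfsg.IsFieldAutPSUOf σ φ) ∧ β = φ.trans γ) ∧
        Nat.Coprime p (Nat.card ↥(MonoidHom.eqLocus β.toMonoidHom
          (MonoidHom.id (Cfsg.PSU n F q))))) := by
  have hp : p.Prime := Fact.out
  have h32 := UnitSmall.ne_three_two hF hK
  obtain ⟨g, σ, rfl⟩ := exists_decomp hn hF h32 β
  have hfield : ∃ γ φ : MulAut (Cfsg.PSU n F q), Cfsg.IsInnerDiagonalAutPSU γ ∧
      (∃ σ : F ≃+* F, Cfsg.IsFieldAutPSUOf σ φ) ∧ A n q F g * Fd n q F σ = φ.trans γ :=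
    ⟨A n q F g, Fd n q F σ, (isInnerDiagonal_iff _).mpr ⟨g, rfl⟩,
      ⟨σ, (isFieldAutOf_iff σ _).mpr rfl⟩, rfl⟩
  rw [and_iff_right hfield]
  have hσ1 : σ ≠ 1 := fun h => hnot ((isInnerDiagonal_iff _).mpr ⟨g, by rw [h, map_one, mul_one]⟩)
  have hσ : orderOf σ = p := by
    refine orderOf_eq_prime ?_ hσ1
    have h1 := pow_orderOf_eq_one (A n q F g * Fd n q F σ)
    rw [hord, pow_coset (mapGU σ) (A n q F) _ (Fd_A σ), ← map_pow] at h1
    exact eq_one_of_A_Fd hF hn _ _ h1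
  by_cases hp2 : p = 2
  swap
  · exact UnitFix.balance_field hF hn h32 hp2 A' hinn g hσ hord
  subst hp2
  have h2 : (2 : F) ≠ 0 := fun h => hpr ((Nat.prime_dvd_prime_iff_eq Fact.out Nat.prime_two).mp
    ((CharP.cast_eq_zero_iff F r 2).mp (by exact_mod_cast h))).symm
  refine iff_of_false (not_not.mpr (UnitGraph.core_eq_bot hF hn h32 h2 A' hinn g hσ
    (by rw [← hord]; exact pow_orderOf_eq_one _))) fun hco => ?_
  -- the involution has fixed points of even order
  haveI : Finite (Cfsg.PSU n F q) := inferInstance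
  exact (Nat.prime_two.coprime_iff_not_dvd.mp hco) (even_fixed (even_card hF hn h2) _ hord)

end Cfsg.Agent.KnownB.Proj.Balance.UnitBalance
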