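import Cfsg.Agent.GeomClasses.PSU32
import Cfsg.Agent.Forms.UnitarySimple
import Cfsg.Agent.Forms.UnitaryThreeRoots
import Cfsg.Agent.S0282

/-! Elements of prime order and normal subgroups of small unitary groups. -/

set_option autoImplicit false

namespace Cfsg.Agent.KnownB.Proj.Balance.UnitSmall

open Matrix
open Cfsg.Agent.FGS3 Cfsg.Agent.FGS3.SU32

universe u

/-- A scalar matrix. -/
def Scal (a : Cfsg.SU 3 GF4 2) : Prop :=
  mat a = Matrix.diagonal fun _ => mat a 0 0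

instance decScal (a : Cfsg.SU 3 GF4 2) : Decidable (Scal a) :=
  inferInstanceAs (Decidable (mat a = Matrix.diagonal fun _ => mat a 0 0))

theorem scal_iff (a : Cfsg.SU 3 GF4 2) : Scal a ↔ a ∈ Subgroup.center (Cfsg.SU 3 GF4 2) := by
  rw [Forms.su_mem_center_iff_mat (F := GF4) (q := 2) (by decide +kernel)]
  show mat a = _ ↔ ∃ c : GF4, mat a = c • 1
  constructor
  · exact fun h => ⟨_, h.trans (Matrix.smul_one_eq_diagonal _).symm⟩
  · rintro ⟨c, hc⟩
    rw [hc, Matrix.smul_one_eq_diagonal]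
    congr 1

theorem involution_step : ∀ p : Fin 3 × Fin 3 × Fin 3 × Fin 2,
    Scal (Plane.nf sd sx st sz p * Plane.nf sd sx st sz p) → Scal (Plane.nf sd sx st sz p) ∨
      (¬ Scal (Plane.nf sd sx st sz p * (sx * (Plane.nf sd sx st sz p)⁻¹ * (sx * sx))) ∧
        Scal ((Plane.nf sd sx st sz p * (sx * (Plane.nf sd sx st sz p)⁻¹ * (sx * sx))) *
          (Plane.nf sd sx st sz p * (sx * (Plane.nf sd sx st sz p)⁻¹ * (sx * sx))) *
          (Plane.nf sd sx st sz p * (sx * (Plane.nf sd sx st sz p)⁻¹ * (sx * sx))))) := by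
  decide +kernel

theorem commutator_step (g : Cfsg.SU 3 GF4 2) (hg : g * g ∈ Subgroup.center _)
    (hgc : g ∉ Subgroup.center _) :
    g * (sx * g⁻¹ * sx⁻¹) ∉ Subgroup.center _ ∧
      (g * (sx * g⁻¹ * sx⁻¹)) ^ 3 ∈ Subgroup.center _ := by
  obtain ⟨M, hM54, hMmem⟩ := GeomClasses.PSU32.exists_subgroup
  have hgM : g ∈ M := hMmem g (Or.inl (by rwa [pow_two]))
  have h1 : ∀ a : Cfsg.SU 3 GF4 2, a ^ 3 = 1 → a ∈ M := fun a ha =>
    hMmem a (Or.inr (ha ▸ one_mem _))
  have md' : sd ∈ M := hMmem sd (Or.inl (by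
    rw [show sd ^ 2 = 1 from mat_inj (by decide +kernel)]; exact one_mem _))
  have mx' : sx ∈ M := h1 sx (mat_inj (by decide +kernel))
  have mt' : st ∈ M := h1 st (mat_inj (by decide +kernel))
  have mz' : sz ∈ M := h1 sz (mat_inj (by decide +kernel))
  obtain ⟨p, rfl⟩ : ∃ p, Plane.nf sd sx st sz p = g := by
    have hinj : Function.Injective fun p : Fin 3 × Fin 3 × Fin 3 × Fin 2 =>
        (⟨Plane.nf sd sx st sz p, mul_mem (mul_mem (mul_mem (pow_mem mx' _) (pow_mem mt' _))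
          (pow_mem mz' _)) (pow_mem md' _)⟩ : M) := fun a b h => by
      have h' : ∀ a b : Fin 3 × Fin 3 × Fin 3 × Fin 2,
          mat (Plane.nf sd sx st sz a) = mat (Plane.nf sd sx st sz b) → a = b := by
        decide +kernel
      exact h' a b (congrArg (fun z : M => mat z.1) h)
    haveI : Finite M := Nat.finite_of_card_ne_zero (by omega)
    have hb := (Nat.bijective_iff_injective_and_card _).2 ⟨hinj, by
      rw [hM54, Nat.card_eq_fintype_card]; rfl⟩
    obtain ⟨p, hp⟩ := hb.2 ⟨g, hgM⟩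
    exact ⟨p, congrArg Subtype.val hp⟩
  have hx : sx⁻¹ = sx * sx := inv_eq_of_mul_eq_one_right (mat_inj (by decide +kernel))
  obtain h | ⟨h2, h3⟩ := involution_step p ((scal_iff _).mpr hg)
  · exact absurd ((scal_iff _).mp h) hgc
  rw [hx]
  refine ⟨fun h => h2 ((scal_iff _).mpr h), ?_⟩
  rw [pow_succ, pow_two]
  exact (scal_iff _).mp h3

variable {F : Type u} [Field F] [Fintype F]

/-- A normal `3'`-subgroup of `PSU₃(2)` is trivial. -/
theorem psu32_normal (hF : Fintype.card F = 4) (M : Subgroup (Cfsg.PSU 3 F 2)) (hM : M.Normal)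
    (hM3 : ¬ 3 ∣ Nat.card M) : M = ⊥ := by
  classical
  by_contra hne
  haveI : Fact (Nat.Prime 2) := ⟨Nat.prime_two⟩
  have h72 : Nat.card (Cfsg.PSU 3 F 2) = 2 ^ 3 * 3 ^ 2 := (Cfsg.Agent.S0282.result hF).1
  haveI : Finite (Cfsg.PSU 3 F 2) := Nat.finite_of_card_ne_zero (by omega)
  have h2 : 2 ∣ Nat.card M := by
    obtain ⟨r, hr, hrd⟩ := Nat.exists_prime_and_dvd (fun h => hne (Subgroup.eq_bot_of_card_eq M h))
    have h := hrd.trans (h72 ▸ Subgroup.card_subgroup_dvd_card M)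
    rcases hr.dvd_mul.1 h with h | h
    · obtain rfl := (Nat.prime_dvd_prime_iff_eq hr Nat.prime_two).1 (hr.dvd_of_dvd_pow h)
      exact hrd
    · exact absurd ((Nat.prime_dvd_prime_iff_eq hr Nat.prime_three).1 (hr.dvd_of_dvd_pow h) ▸ hrd)
        hM3
  obtain ⟨⟨z, hzM⟩, hz⟩ := exists_prime_orderOf_dvd_card' (G := M) 2 h2
  rw [Subgroup.orderOf_mk] at hz
  let e : Cfsg.SU 3 GF4 2 ≃* Cfsg.SU 3 F 2 :=
    Linear.suCongr 3 2 (FiniteField.ringEquivOfCardEq (card_gf4.trans hF.symm))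
  have hec : ∀ a, e a ∈ Subgroup.center _ ↔ a ∈ Subgroup.center _ := fun a => by
    rw [Subgroup.mem_center_iff, Subgroup.mem_center_iff]
    exact ⟨fun h y => e.injective (by rw [map_mul, map_mul, h]), fun h y => by
      obtain ⟨y, rfl⟩ := e.surjective y
      rw [← map_mul, h, map_mul]⟩
  let π : Cfsg.SU 3 GF4 2 →* Cfsg.PSU 3 F 2 := (QuotientGroup.mk' _).comp e.toMonoidHom
  have hπ : ∀ a, π a = 1 ↔ a ∈ Subgroup.center _ := fun a =>
    (QuotientGroup.eq_one_iff (e a)).trans (hec a)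
  obtain ⟨g, rfl⟩ : ∃ g, π g = z := by
    obtain ⟨a, rfl⟩ := QuotientGroup.mk_surjective z
    exact ⟨e.symm a, congrArg QuotientGroup.mk (e.apply_symm_apply a)⟩
  obtain ⟨h1, h3⟩ := commutator_step g
    ((hπ _).mp (by have h' := pow_orderOf_eq_one (π g); rwa [hz, pow_two, ← map_mul] at h'))
    (fun h => by rw [(hπ g).mpr h, orderOf_one] at hz; omega)
  refine hM3 ?_
  haveI : Fact (Nat.Prime 3) := ⟨Nat.prime_three⟩
  have ho : orderOf (π (g * (sx * g⁻¹ * sx⁻¹))) = 3 :=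
    orderOf_eq_prime (by rw [← map_pow, hπ]; exact h3) fun h => h1 ((hπ _).mp h)
  have hmem : π (g * (sx * g⁻¹ * sx⁻¹)) ∈ M := by
    rw [map_mul, map_mul, map_mul, map_inv, map_inv]
    exact mul_mem hzM (hM.conj_mem _ (inv_mem hzM) _)
  have h4 := orderOf_dvd_natCard (⟨_, hmem⟩ : M)
  rwa [Subgroup.orderOf_mk, ho] at h4

theorem psu32_not_simple (hF : Fintype.card F = 4) : ¬ IsSimpleGroup (Cfsg.PSU 3 F 2) := by
  classical
  intro hs
  obtain ⟨H, hH, hpr⟩ := GeomClasses.PSU32.exists_proper_containing_prime_order hF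
    (Cfsg.Agent.S0282.result hF).1
  haveI : Finite (Cfsg.PSU 3 F 2) :=
    Nat.finite_of_card_ne_zero (by rw [(Cfsg.Agent.S0282.result hF).1]; norm_num)
  set S : Set (Cfsg.PSU 3 F 2) := {b | (orderOf b).Prime}
  rcases hs.eq_bot_or_eq_top_of_normal (Subgroup.normalClosure S) inferInstance with h | h
  · obtain ⟨b, hb⟩ := exists_prime_orderOf_dvd_card' (G := Cfsg.PSU 3 F 2) 2
      (hp := ⟨Nat.prime_two⟩) (by rw [(Cfsg.Agent.S0282.result hF).1]; norm_num)
    have h1 : b ∈ Subgroup.normalClosure S := Subgroup.subset_normalClosure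
      (show (orderOf b).Prime from hb.symm ▸ Nat.prime_two)
    rw [h, Subgroup.mem_bot] at h1
    rw [h1, orderOf_one] at hb
    omega
  · refine hH (top_le_iff.mp (h ▸ (Subgroup.closure_le H).mpr fun b hb => ?_))
    obtain ⟨a, ha, hab⟩ := Group.mem_conjugatesOfSet_iff.mp hb
    obtain ⟨g, rfl⟩ := isConj_iff.mp hab
    refine hpr _ ?_ _ rfl
    rw [show g * a * g⁻¹ = MulAut.conj g a from rfl, MulEquiv.orderOf_eq]
    exact ha

variable {n q : ℕ} (hF : Fintype.card F = q ^ 2)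

include hF

theorem ne_three_two (hK : IsSimpleGroup (Cfsg.PSU n F q)) : ¬(n = 3 ∧ q = 2) := by
  rintro ⟨rfl, rfl⟩
  exact psu32_not_simple (by rw [hF]; norm_num) hK

/-- An odd prime dividing the degree divides the order. -/
theorem dvd_card (hn : 3 ≤ n) {p : ℕ} (hp : p.Prime) (hp2 : p ≠ 2) (hpn : p ∣ n) :
    p ∣ Nat.card (Cfsg.PSU n F q) := by
  classical
  haveI := Fact.mk hp
  obtain ⟨π, hπ⟩ := exists_prime_orderOf_dvd_card' (G := Equiv.Perm (Fin n)) p
    (by rw [Nat.card_perm, Nat.card_eq_fintype_card, Fintype.card_fin]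
        exact Nat.dvd_factorial hp.pos (Nat.le_of_dvd (by omega) hpn))
  have hπp : π ^ p = 1 := hπ ▸ pow_orderOf_eq_one π
  have hsign : Equiv.Perm.sign π⁻¹ = 1 := by
    have h := congrArg Equiv.Perm.sign (show π⁻¹ ^ p = 1 by rw [inv_pow, hπp, inv_one])
    rw [map_pow, map_one] at h
    rcases Int.units_eq_one_or (Equiv.Perm.sign π⁻¹) with h1 | h1
    · exact h1
    · rw [h1, (hp.odd_of_ne_two hp2).neg_one_pow] at h
      exact absurd h (by decide)
  have hdet : (Matrix.permMatrixHom (n := Fin n) (R := F) π).det = 1 := by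
    rw [Matrix.permMatrixHom_apply, Matrix.det_permutation, hsign]
    simp
  have hmv : ∀ v : Fin n → F, Matrix.permMatrixHom (n := Fin n) (R := F) π *ᵥ v = v ∘ ⇑π⁻¹ := fun v => by
    rw [Matrix.permMatrixHom_apply, Matrix.permMatrix_mulVec]
  obtain ⟨t, ht⟩ : ∃ t : Matrix.SpecialLinearGroup (Fin n) F,
      t.1 = Matrix.permMatrixHom (n := Fin n) (R := F) π := ⟨⟨_, hdet⟩, rfl⟩
  have htm : t ∈ Cfsg.SU n F q := fun u v => by
    show Cfsg.hermForm n F q (t.1 *ᵥ u) (t.1 *ᵥ v) = _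
    rw [ht, hmv, hmv]
    exact Equiv.sum_comp π⁻¹ fun i => u i * v i ^ q
  obtain ⟨i, hi⟩ : ∃ i, π⁻¹ i ≠ i := by
    by_contra hcon
    push Not at hcon
    have h1 : π⁻¹ = 1 := Equiv.ext hcon
    rw [inv_eq_one] at h1
    rw [h1, orderOf_one] at hπ
    exact hp.ne_one hπ.symm
  set z : Cfsg.PSU n F q := QuotientGroup.mk ⟨t, htm⟩ with hz
  have hz1 : z ≠ 1 := fun h => by
    rw [hz, QuotientGroup.eq_one_iff, Forms.su_mem_center_iff hF (by omega)] at h
    obtain ⟨c, hc⟩ := h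
    have h1 := congrFun (hc (Pi.single (π⁻¹ i) 1)) i
    rw [show KnownA.act _ _ = _ from Matrix.toLin'_apply t.1 _, ht, hmv] at h1
    simp only [Function.comp_apply, Pi.single_eq_same, Pi.smul_apply, Pi.single_eq_of_ne (Ne.symm hi),
      smul_zero] at h1
    exact one_ne_zero h1
  have hzp : z ^ p = 1 := by
    rw [hz, ← QuotientGroup.mk_pow, QuotientGroup.eq_one_iff,
      show (⟨t, htm⟩ : Cfsg.SU n F q) ^ p = 1 from Subtype.ext (by
        rw [SubmonoidClass.coe_pow]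
        refine Subtype.ext ?_
        show (t ^ p).1 = (1 : Matrix (Fin n) (Fin n) F)
        rw [Matrix.SpecialLinearGroup.coe_pow, ht, ← map_pow, hπp, map_one])]
    exact one_mem _
  rw [← orderOf_eq_prime hzp hz1]
  exact orderOf_dvd_natCard z

/-- Normal subgroups of order prime to an odd divisor of the order. -/
theorem normal_eq_bot (hn : 3 ≤ n) {p : ℕ} (hp : p.Prime) (hp2 : p ≠ 2)
    (hd : p ∣ Nat.card (Cfsg.PSU n F q)) (M : Subgroup (Cfsg.PSU n F q)) (hM : M.Normal)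
    (hMp : ¬ p ∣ Nat.card M) : M = ⊥ := by
  by_cases h32 : n = 3 ∧ q = 2
  swap
  · haveI := Forms.psu_simple hF hn h32
    refine (IsSimpleGroup.eq_bot_or_eq_top_of_normal M hM).resolve_right fun ht => hMp ?_
    rwa [ht, Subgroup.card_top]
  obtain ⟨rfl, rfl⟩ := h32
  have hF4 : Fintype.card F = 4 := by rw [hF]; norm_num
  refine psu32_normal hF4 M hM ?_
  have hp3 : p = 3 := by
    rw [(Cfsg.Agent.S0282.result hF4).1] at hd
    have h : p ∣ 2 ^ 3 * 3 ^ 2 := hd
    rcases hp.dvd_mul.1 h with h | h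
    · exact absurd ((Nat.prime_dvd_prime_iff_eq hp Nat.prime_two).1 (hp.dvd_of_dvd_pow h)) hp2
    · exact (Nat.prime_dvd_prime_iff_eq hp Nat.prime_three).1 (hp.dvd_of_dvd_pow h)
  rwa [hp3] at hMp

end Cfsg.Agent.KnownB.Proj.Balance.UnitSmall
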