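import Cfsg.Agent.KnownB.Proj.Balance.Core
import Cfsg.Agent.KnownB.Proj.Balance.OrthFix
import Cfsg.Agent.KnownB.Proj.Balance.UnitSmall
import Cfsg.Agent.KnownB.Proj.Unit.Out
import Cfsg.Agent.KnownB.Proj.Orth.TwistGen

/-! Automorphisms of `PSU_n(q)` centralising a subfield subgroup, and the field criterion. -/

set_option autoImplicit false
set_option maxHeartbeats 1000000

namespace Cfsg.Agent.KnownB.Proj.Balance.UnitFix

open Matrix
open Cfsg.Agent.KnownA (ub act)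
open Cfsg.Agent.Forms (frobQ normOne)
open Cfsg.Agent.KnownB.Proj.Unit
open Cfsg.Agent.KnownB.AutPSL (fixSub nrm pow_coset)
open Cfsg.Agent.KnownB.Proj.Orth (fixedF fixedF_spec)

universe u v

variable {n q q₀ : ℕ} {F : Type u} [Field F] [Fintype F] (hF : Fintype.card F = q ^ 2)
  {F₀ : Type v} [Field F₀] [Fintype F₀] (hF₀ : Fintype.card F₀ = q₀ ^ 2) (ι : F₀ →+* F)

theorem ι_smul (c : F₀) (v : Fin n → F₀) : ⇑ι ∘ (c • v) = ι c • (⇑ι ∘ v) := by funext i; simp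

theorem ι_add (v w : Fin n → F₀) : ⇑ι ∘ (v + w) = ⇑ι ∘ v + ⇑ι ∘ w := by funext i; simp

theorem ι_mulVec (M : Matrix (Fin n) (Fin n) F₀) (v : Fin n → F₀) :
    M.map ι *ᵥ (⇑ι ∘ v) = ⇑ι ∘ (M *ᵥ v) := by
  funext i; simp [Matrix.mulVec, dotProduct, map_sum]

theorem ι_single (i : Fin n) : ⇑ι ∘ (Pi.single i 1 : Fin n → F₀) = Pi.single i 1 := by
  funext l; by_cases hl : l = i <;> simp [hl]

theorem ι_ne {v : Fin n → F₀} (hv : v ≠ 0) : ⇑ι ∘ v ≠ 0 := fun h =>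
  hv (funext fun i => ι.injective ((congrFun h i).trans (map_zero ι).symm))

include hF hF₀

theorem ι_frob (hr : ∃ r, Odd r ∧ q = q₀ ^ r) (c : F₀) : ι (frobQ hF₀ c) = frobQ hF (ι c) := by
  obtain ⟨r, hr, hqq⟩ := hr
  rw [Forms.frobQ_apply, Forms.frobQ_apply, ← map_pow ι c q, hqq, pow_q_eq hF₀ hr]

theorem ι_ub (hr : ∃ r, Odd r ∧ q = q₀ ^ r) (u v : Fin n → F₀) :
    ub hF (⇑ι ∘ u) (⇑ι ∘ v) = ι (ub hF₀ u v) := by
  show Cfsg.hermForm n F q _ _ = ι (Cfsg.hermForm n F₀ q₀ _ _)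
  simp only [Cfsg.hermForm, map_sum, map_mul, Function.comp_apply]
  refine Finset.sum_congr rfl fun i _ => ?_
  rw [← Forms.frobQ_apply hF, ← ι_frob hF hF₀ ι hr, Forms.frobQ_apply]

/-- An automorphism fixing the rational isotropic points. -/
theorem fix_rational (hn : 3 ≤ n) (hr : ∃ r, Odd r ∧ q = q₀ ^ r) (g : Cfsg.GU n F q) (τ : F ≃+* F)
    (h : ∀ v : Fin n → F₀, v ≠ 0 → ub hF₀ v v = 0 →
      ∃ k : F, semi g τ (⇑ι ∘ v) = k • (⇑ι ∘ v)) :
    (∀ c, τ (ι c) = ι c) ∧ A n q F g = 1 := by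
  have hub₀ : ∀ u v : Fin n → F₀, ub hF (⇑ι ∘ u) (⇑ι ∘ v) = ι (ub hF₀ u v) := ι_ub hF hF₀ ι hr
  obtain ⟨e₀, f₀, he₀, hf₀, hef₀⟩ := Forms.exists_iso_pair hF₀ (show 2 ≤ n by omega) (n := n)
  have H₀ : Hyp hF₀ e₀ f₀ := ⟨he₀, hf₀, hef₀⟩
  set e := ⇑ι ∘ e₀ with hed
  set f := ⇑ι ∘ f₀ with hfd
  have H : Hyp hF e f := ⟨by rw [hub₀, he₀, map_zero], by rw [hub₀, hf₀, map_zero],
    by rw [hub₀, hef₀, map_one]⟩
  obtain ⟨a, ha⟩ := h e₀ H₀.e_ne he₀
  obtain ⟨b, hb⟩ := h f₀ H₀.f_ne hf₀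
  rw [← hed] at ha
  rw [← hfd] at hb
  have hsm : ∀ (c : F) (x : Fin n → F), semi g τ (c • x) = τ c • semi g τ x := semi_smul g τ
  have hsa : ∀ x y : Fin n → F, semi g τ (x + y) = semi g τ x + semi g τ y := semi_add g τ
  have hub : ∀ x y : Fin n → F, ub hF (semi g τ x) (semi g τ y) = τ (ub hF x y) := ub_semi hF g τ
  have hpt : ∀ u₀, InW hF₀ e₀ f₀ u₀ → ∀ c₀ : F₀, c₀ + frobQ hF₀ c₀ = -ub hF₀ u₀ u₀ →
      semi g τ (⇑ι ∘ u₀) = b • (⇑ι ∘ u₀) ∧ τ (ι c₀) * a = b * ι c₀ := by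
    intro u₀ hu₀ c₀ hc₀
    set u := ⇑ι ∘ u₀ with hud
    set c := ι c₀ with hcd
    have hu : InW hF e f u := ⟨by rw [hub₀, hu₀.1, map_zero], by rw [hub₀, hu₀.2, map_zero]⟩
    have hne : f₀ + u₀ + c₀ • e₀ ≠ 0 := fun h0 => by
      have := congrArg (ub hF₀ e₀) h0
      simp [KnownA.ub_add_right hF₀, KnownA.ub_smul_right hF₀, he₀, hef₀, hu₀.1,
        KnownA.ub_zero_right hF₀] at this
    have hiso : ub hF₀ (f₀ + u₀ + c₀ • e₀) (f₀ + u₀ + c₀ • e₀) = 0 := by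
      simp only [KnownA.ub_add_left hF₀, KnownA.ub_add_right hF₀, KnownA.ub_smul_left hF₀,
        KnownA.ub_smul_right hF₀, he₀, hf₀, hef₀, H₀.fe, hu₀.1, hu₀.2, hu₀.left.1, hu₀.left.2]
      linear_combination hc₀
    obtain ⟨k, hk⟩ := h _ hne hiso
    rw [ι_add, ι_add, ι_smul, ← hud, ← hed, ← hfd, ← hcd, hsa, hsa, hsm, ha, hb] at hk
    have hue : ub hF e (semi g τ u) = 0 := by
      have := hub e u
      rw [ha, KnownA.ub_smul_left hF, hu.1, map_zero, mul_eq_zero, map_eq_zero] at this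
      refine this.resolve_left fun h0 => semi_ne g τ H.e_ne ?_
      rw [ha, h0, zero_smul]
    have huf : ub hF f (semi g τ u) = 0 := by
      have := hub f u
      rw [hb, KnownA.ub_smul_left hF, hu.2, map_zero, mul_eq_zero, map_eq_zero] at this
      refine this.resolve_left fun h0 => semi_ne g τ H.f_ne ?_
      rw [hb, h0, zero_smul]
    have e1 := congrArg (ub hF e) hk
    simp [KnownA.ub_add_right hF, KnownA.ub_smul_right hF, H.he, H.hef, hu.1, hue] at e1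
    have e2 := congrArg (ub hF f) hk
    simp [KnownA.ub_add_right hF, KnownA.ub_smul_right hF, H.hf, H.fe, hu.2, huf] at e2
    subst e1
    refine ⟨?_, e2⟩
    have e3 : τ c • a • e = (b * c) • e := by rw [smul_smul, e2]
    rw [e3, smul_add, smul_add, smul_smul] at hk
    exact add_left_cancel (add_right_cancel hk)
  have hW : ∀ w₀, InW hF₀ e₀ f₀ w₀ → semi g τ (⇑ι ∘ w₀) = b • (⇑ι ∘ w₀) := fun w₀ hw => by
    obtain ⟨c, hc⟩ := exists_c hF₀ w₀
    exact (hpt w₀ hw c hc).1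
  have hb0 : b ≠ 0 := fun h0 => semi_ne g τ H.f_ne (by rw [hb, h0, zero_smul])
  obtain ⟨w, hw, hw0⟩ := H₀.exists_W_ne hn
  have hτ : ∀ c, τ (ι c) = ι c := by
    intro c
    have h1 := hW (c • w) (hw.smul c)
    rw [ι_smul, hsm, hW w hw, smul_smul, smul_smul] at h1
    exact mul_right_cancel₀ hb0 ((smul_left_injective F (ι_ne ι hw0) h1).trans (mul_comm b _))
  have hab : a = b := by
    obtain ⟨z, hz, hzc⟩ := exists_z hF₀
    have h1 := (hpt 0 InW.zero z (neg_ub_zero hF₀ hzc)).2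
    rw [hτ, mul_comm] at h1
    exact mul_right_cancel₀ (show ι z ≠ 0 from (map_ne_zero ι).mpr hz) h1
  refine ⟨hτ, ?_⟩
  have hall : ∀ z, semi g τ (⇑ι ∘ z) = b • (⇑ι ∘ z) := by
    intro z
    have hp := H₀.proj z
    set w₁ := z - ub hF₀ f₀ z • e₀ - ub hF₀ e₀ z • f₀ with hw₁
    rw [show z = w₁ + ub hF₀ f₀ z • e₀ + ub hF₀ e₀ z • f₀ by rw [hw₁]; abel, ι_add, ι_add, ι_smul,
      ι_smul, hsa, hsa, hsm, hsm, hW w₁ hp, hτ, hτ, ← hed, ← hfd, ha, hb, hab, smul_add, smul_add,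
      smul_comm b, smul_comm b]
  have hcol : ∀ i, (g.1 : Matrix (Fin n) (Fin n) F) *ᵥ Pi.single i 1 = b • Pi.single i 1 := fun i => by
    have h1 := hall (Pi.single i 1)
    rw [ι_single, semi, show ⇑τ ∘ (Pi.single i 1 : Fin n → F) = Pi.single i 1 by
      funext l; by_cases hl : l = i <;> simp [hl]] at h1
    exact h1
  have hg : (g.1 : Matrix (Fin n) (Fin n) F) = Matrix.diagonal fun _ => b :=
    Matrix.ext_of_mulVec_single fun i => by
      rw [hcol]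
      funext l
      simp [Matrix.mulVec_diagonal]
  have hbb : b * frobQ hF b = 1 := by
    have h1 := hub e f
    rw [ha, hb, hab, KnownA.ub_smul_left hF, KnownA.ub_smul_right hF, H.hef, map_one, mul_one] at h1
    rwa [mul_comm]
  refine (A_eq_one_iff hF hn g).mpr ⟨⟨Units.mk0 b hb0, (Forms.mem_normOne hF).mpr hbb⟩, gu_ext ?_⟩
  rw [sc_val, hg]
  rfl

/-- The inclusion of the unitary group over a subfield. -/
theorem map_mem (hr : ∃ r, Odd r ∧ q = q₀ ^ r) (g : Cfsg.GU n F₀ q₀) :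
    GeneralLinearGroup.map ι g.1 ∈ Cfsg.GU n F q := by
  intro u v
  have hbase : ∀ i l, ub hF ((g.1 : Matrix (Fin n) (Fin n) F₀).map ι *ᵥ Pi.single i 1)
      ((g.1 : Matrix (Fin n) (Fin n) F₀).map ι *ᵥ Pi.single l 1) = ub hF (Pi.single i 1) (Pi.single l 1) := by
    intro i l
    rw [← ι_single ι i, ← ι_single ι l, ι_mulVec, ι_mulVec, ι_ub hF hF₀ ι hr, ι_ub hF hF₀ ι hr]
    exact congrArg ι (g.2 _ _)
  show ub hF ((g.1 : Matrix (Fin n) (Fin n) F₀).map ι *ᵥ v) ((g.1 : Matrix (Fin n) (Fin n) F₀).map ι *ᵥ u) = ub hF v u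
  conv_lhs => rw [pi_eq_sum_univ' u, pi_eq_sum_univ' v]
  conv_rhs => rw [pi_eq_sum_univ' u, pi_eq_sum_univ' v]
  simp only [ub, Matrix.mulVec_sum, Matrix.mulVec_smul, map_sum, LinearMap.sum_apply, map_smul,
    LinearMap.map_smulₛₗ, LinearMap.smul_apply, smul_eq_mul, Finset.mul_sum]
  refine Finset.sum_congr rfl fun a _ => Finset.sum_congr rfl fun c _ => ?_
  simp only [ub] at hbase
  rw [hbase]

/-- The criterion for elements of field type. -/
theorem balance_of_fixed (hn : 3 ≤ n) (h32 : ¬(n = 3 ∧ q = 2)) {p : ℕ} [Fact p.Prime]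
    (hp2 : p ≠ 2) (hqq : q = q₀ ^ p) (A' : Subgroup (MulAut (Cfsg.PSU n F q)))
    (hinn : ∀ k : Cfsg.PSU n F q, MulAut.conj k ∈ A') (g : Cfsg.GU n F q) {σ : F ≃+* F}
    (hσ : orderOf σ = p) (hι : ∀ x : F, σ x = x ↔ x ∈ ι.range)
    (hord : orderOf (A n q F g * Fd n q F σ) = p) :
    Cfsg.pPrimeCore p ↥(A' ⊓ Subgroup.centralizer {A n q F g * Fd n q F σ}) ≠ ⊥ ↔
      Nat.Coprime p (Nat.card ↥(MonoidHom.eqLocus (A n q F g * Fd n q F σ).toMonoidHom
        (MonoidHom.id (Cfsg.PSU n F q)))) := by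
  classical
  have hp : p.Prime := Fact.out
  have hodd : Odd p := hp.odd_of_ne_two hp2
  have hr : ∃ r, Odd r ∧ q = q₀ ^ r := ⟨p, hodd, hqq⟩
  have tw := fieldTwist hF hn hodd hσ
  obtain ⟨c, hc⟩ := tw.coset_conj g (by rw [← hord]; exact pow_orderOf_eq_one _)
  have hx : (A n q F c)⁻¹ * (A n q F g * Fd n q F σ) * (A n q F c)⁻¹⁻¹ = Fd n q F σ := by
    rw [hc]; group
  have hσ1 : σ ≠ 1 := fun h => hp.ne_one (by rw [← hσ, h, orderOf_one])
  have hτI : Fd n q F σ ∉ Cfsg.Inn (Cfsg.PSU n F q) := fun h => by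
    obtain ⟨s, hs⟩ := (mem_inn_psu_iff _).mp h
    exact hσ1 (eq_one_of_A_Fd hF hn (suInc s)⁻¹ σ (by rw [map_inv, hs, inv_mul_cancel]))
  let j : Cfsg.GU n F₀ q₀ →* Cfsg.GU n F q :=
    ((GeneralLinearGroup.map ι).comp (Cfsg.GU n F₀ q₀).subtype).codRestrict _
      (map_mem hF hF₀ ι hr)
  have hj : ∀ g₀, ((j g₀).1 : Matrix (Fin n) (Fin n) F) =
      (g₀.1 : Matrix (Fin n) (Fin n) F₀).map ι := fun g₀ => rfl
  let Ξ : Cfsg.SU n F₀ q₀ →* MulAut (Cfsg.PSU n F q) := (A n q F).comp (j.comp suInc)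
  have hscal : ∀ (g₀ : Cfsg.GU n F₀ q₀) (a : F₀),
      (∀ v, (g₀.1 : Matrix (Fin n) (Fin n) F₀) *ᵥ v = a • v) → A n q F (j g₀) = 1 := fun g₀ a h =>
    (fix_rational hF hF₀ ι hn hr (j g₀) 1 fun v _ _ => ⟨ι a, by
      rw [semi, show ⇑(1 : F ≃+* F) ∘ (⇑ι ∘ v) = ⇑ι ∘ v from rfl, hj, ι_mulVec, h, ι_smul]⟩).2
  have hker : Ξ.ker = Subgroup.center (Cfsg.SU n F₀ q₀) := by
    ext s
    rw [MonoidHom.mem_ker]
    constructor
    · intro h
      obtain ⟨u, hu⟩ := (A_eq_one_iff hF hn _).mp h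
      rw [Subgroup.mem_center_iff]
      intro t
      refine sm_ext (Matrix.ext fun a b => ι.injective ?_)
      have h1 := congrArg (fun z : Cfsg.GU n F q => (z.1 : Matrix (Fin n) (Fin n) F) a b)
        (sc_comm hF u (j (suInc t))).symm.eq
      simp only [hu, MonoidHom.comp_apply, ← map_mul] at h1
      exact h1
    · intro h
      obtain ⟨a, ha⟩ := (Forms.su_mem_center_iff hF₀ (by omega) s).mp h
      exact hscal _ a fun v => by rw [← ha, act_eq]; rfl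
  have e₀ : Cfsg.PSU n F₀ q₀ ≃* Ξ.range :=
    (QuotientGroup.quotientMulEquivOfEq hker.symm).trans (QuotientGroup.quotientKerEquivRange Ξ)
  have hcenteq : ∀ y ∈ Cfsg.Inn (Cfsg.PSU n F q) ⊓ Subgroup.centralizer {Fd n q F σ},
      ∃ g₀, A n q F (j g₀) = y := by
    intro y hy
    obtain ⟨hy1, hy2⟩ := Subgroup.mem_inf.mp hy
    have hy' : y ∈ (A n q F).range ⊓ Subgroup.centralizer {Fd n q F σ} := ⟨by
      obtain ⟨s, hs⟩ := (mem_inn_psu_iff y).mp hy1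
      exact ⟨_, hs⟩, hy2⟩
    rw [tw.centralizer_eq] at hy'
    obtain ⟨t, ht, rfl⟩ := hy'
    have h : ∀ a b, (t.1 : Matrix (Fin n) (Fin n) F) a b ∈ ι.range := fun a b => (hι _).mp
      (congrArg (fun x : Cfsg.GU n F q => (x.1 : Matrix (Fin n) (Fin n) F) a b)
        (show mapGU σ t = t from ht))
    choose e he using h
    have hme : (Matrix.of e).map ι = (t.1 : Matrix (Fin n) (Fin n) F) := Matrix.ext fun a b => he a b
    have hd : (Matrix.of e).det ≠ 0 := fun h0 => by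
      have h1 : (t.1 : Matrix (Fin n) (Fin n) F).det ≠ 0 :=
        (GeneralLinearGroup.det t.1).ne_zero
      rw [← hme, ← RingHom.mapMatrix_apply, ← RingHom.map_det, h0, map_zero] at h1
      exact h1 rfl
    refine ⟨⟨GeneralLinearGroup.mkOfDetNeZero _ hd, fun u v => ι.injective ?_⟩,
      congrArg (A n q F) (gu_ext hme)⟩
    show ι (ub hF₀ (Matrix.of e *ᵥ v) (Matrix.of e *ᵥ u)) = ι (ub hF₀ v u)
    rw [← ι_ub hF hF₀ ι hr, ← ι_mulVec, ← ι_mulVec, hme, ← ι_ub hF hF₀ ι hr]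
    exact t.2 _ _
  haveI : Finite (MulAut (Cfsg.PSU n F q)) :=
    Finite.of_injective (fun e : MulAut _ => (e : _ → _)) DFunLike.coe_injective
  have hinj : Function.Injective (MulAut.conj : Cfsg.PSU n F q → MulAut (Cfsg.PSU n F q)) := by
    haveI := Forms.psu_simple hF hn h32
    show Function.Injective ⇑(MulAut.conj : Cfsg.PSU n F q →* MulAut (Cfsg.PSU n F q))
    refine (MonoidHom.ker_eq_bot_iff _).mp
      ((IsSimpleGroup.eq_bot_or_eq_top_of_normal _ inferInstance).resolve_right fun ht => ?_)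
    obtain ⟨e, f, he, hf, hef⟩ := Forms.exists_iso_pair hF (show 2 ≤ n by omega) (n := n)
    have H : Hyp hF e f := ⟨he, hf, hef⟩
    obtain ⟨x, hx⟩ := exists_isTvOf hF H.e_ne he
    obtain ⟨z, hz⟩ := exists_isTvOf hF H.f_ne hf
    have h1 : MulAut.conj x = 1 := MonoidHom.mem_ker.mp (ht ▸ Subgroup.mem_top x)
    have h2 : Commute x z := mul_inv_eq_iff_eq_mul.mp (DFunLike.congr_fun h1 z)
    rw [Unit.commute_iff hF (by omega) hx hz, hef] at h2
    exact one_ne_zero h2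
  refine balance_iff' hinj A' hinn hx hord hτI Ξ.range ?_ ?_ ?_ ?_ ?_
  · rintro _ ⟨s, rfl⟩
    refine Subgroup.mem_inf.mpr ⟨?_, ?_⟩
    · rw [mem_inn_psu_iff]
      refine ⟨⟨⟨(sm s).map ι, ?_⟩, fun u v => (j (suInc s)).2 u v⟩, congrArg (A n q F) (gu_ext rfl)⟩
      rw [← RingHom.mapMatrix_apply, ← RingHom.map_det, show (sm s).det = 1 from s.1.2, map_one]
    rw [Subgroup.mem_centralizer_singleton_iff]
    show A n q F _ * Fd n q F σ = Fd n q F σ * A n q F _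
    rw [Fd_A]
    refine congrArg (fun z => A n q F z * Fd n q F σ) (gu_ext ?_)
    ext a b
    exact ((hι _).mpr ⟨sm s a b, rfl⟩).symm
  · rintro y hy _ ⟨s, rfl⟩
    obtain ⟨g₀, rfl⟩ := hcenteq y hy
    refine ⟨conjSU g₀ s, ?_⟩
    show A n q F _ = A n q F (j g₀) * A n q F _ * (A n q F (j g₀))⁻¹
    rw [← map_mul, ← map_inv, ← map_mul, MonoidHom.comp_apply, MonoidHom.comp_apply, ← map_mul,
      ← map_inv, ← map_mul]
    exact congrArg (fun z => A n q F (j z)) (gu_ext rfl)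
  · obtain ⟨e, f, he, hf, hef⟩ := Forms.exists_iso_pair hF₀ (show 2 ≤ n by omega) (n := n)
    have H : Hyp hF₀ e f := ⟨he, hf, hef⟩
    obtain ⟨x, hx⟩ := exists_isTvOf hF₀ H.e_ne he
    haveI : Nontrivial (Cfsg.PSU n F₀ q₀) := ⟨⟨x, 1, hx.ne_one hF₀ (by omega)⟩⟩
    exact e₀.symm.toEquiv.nontrivial
  · intro hd M hM hMp
    have hd₀ : p ∣ Nat.card (Cfsg.PSU n F₀ q₀) := by
      by_cases hpn : p ∣ n
      · exact UnitSmall.dvd_card hF₀ hn hp hp2 hpn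
      · obtain ⟨z, hz⟩ := exists_prime_orderOf_dvd_card' (G := ↥(Cfsg.Inn
          (Cfsg.PSU n F q) ⊓ Subgroup.centralizer {Fd n q F σ})) p hd
        obtain ⟨g₀, hg₀⟩ := hcenteq z.1 z.2
        set d := Forms.guDet hF₀ g₀
        have hdet : g₀ ^ n * (sc n hF₀ d)⁻¹ ∈ (Forms.guDet (n := n) hF₀).ker := by
          rw [MonoidHom.mem_ker, map_mul, map_pow, map_inv, guDet_sc, mul_inv_cancel]
        rw [← Forms.suToGU_range hF₀] at hdet
        obtain ⟨s₁, hs₁⟩ := hdet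
        have h2 : z.1 ^ n = Ξ s₁ := by
          show _ = A n q F (j (suInc s₁))
          rw [show suInc s₁ = Forms.suToGU s₁ from gu_ext rfl, hs₁, map_mul, map_mul, map_inv,
            map_inv, hscal (sc n hF₀ d) _ (sc_mulVec hF₀ d), inv_one, mul_one, map_pow, map_pow,
            hg₀]
        have ho : orderOf (z.1 ^ n) = p := by
          rw [orderOf_pow', Subgroup.orderOf_coe, hz]
          · rw [(hp.coprime_iff_not_dvd.mpr hpn).gcd_eq_one, Nat.div_one]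
          · omega
        rw [Nat.card_congr e₀.toEquiv, ← ho]
        have hmem : z.1 ^ n ∈ Ξ.range := ⟨_, h2.symm⟩
        have := orderOf_dvd_natCard (⟨z.1 ^ n, hmem⟩ : Ξ.range)
        rwa [Subgroup.orderOf_mk] at this
    exact (Subgroup.map_eq_bot_iff_of_injective _ e₀.symm.injective).mp
      (UnitSmall.normal_eq_bot hF₀ hn hp hp2 hd₀ (M.map e₀.symm.toMonoidHom)
        (hM.map _ e₀.symm.surjective)
        (by rwa [Subgroup.card_map_of_injective e₀.symm.injective]))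
  · intro y _ hyk
    obtain ⟨h, τ, rfl⟩ := exists_decomp hn hF h32 y
    obtain ⟨hτ, hA⟩ := fix_rational hF hF₀ ι hn hr h τ fun v hv hvv => by
      obtain ⟨c₀, hc₀, hcc₀⟩ := exists_z hF₀
      have hvv' : ub hF (⇑ι ∘ v) (⇑ι ∘ v) = 0 := by rw [ι_ub hF hF₀ ι hr, hvv, map_zero]
      have hcc : ι c₀ + frobQ hF (ι c₀) = 0 := by
        rw [← ι_frob hF hF₀ ι hr, ← map_add, hcc₀, map_zero]
      set x : Cfsg.PSU n F q := QuotientGroup.mk (tr hF (⇑ι ∘ v) (ι c₀)) with hxd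
      have htv : IsTvOf hF (⇑ι ∘ v) x :=
        ⟨ι_ne ι hv, hvv', ι c₀, (map_ne_zero ι).mpr hc₀, hcc, rfl⟩
      have hxΞ : MulAut.conj x = Ξ (tr hF₀ v c₀) := by
        rw [hxd, conj_eq]
        refine congrArg (A n q F) (gu_ext (Matrix.ext_of_mulVec_single fun i => ?_))
        show sm (tr hF (⇑ι ∘ v) (ι c₀)) *ᵥ _ = (sm (tr hF₀ v c₀)).map ι *ᵥ _
        rw [← ι_single ι i, ι_mulVec, ← act_eq, ← act_eq, act_tr hF hvv' hcc, act_tr hF₀ hvv hcc₀,
          ι_ub hF hF₀ ι hr, ι_add, ι_smul, map_mul]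
      have hfix : (A n q F h * Fd n q F τ) x = x := by
        have h1 : Commute (A n q F h * Fd n q F τ) (MulAut.conj x) := hxΞ ▸ hyk _ ⟨_, rfl⟩
        apply hinj
        refine Eq.trans (MulEquiv.ext fun w => ?_) (mul_inv_eq_iff_eq_mul.mpr h1.eq)
        show (A n q F h * Fd n q F τ) x * w * ((A n q F h * Fd n q F τ) x)⁻¹ =
          (A n q F h * Fd n q F τ) (x * (A n q F h * Fd n q F τ)⁻¹ w * x⁻¹)
        rw [map_mul, map_mul, map_inv, MulAut.apply_inv_self]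
      have h2 := (sends_semi hF h τ (ι_ne ι hv) hvv').2.2 x htv
      rw [hfix] at h2
      obtain ⟨k, -, hk⟩ := h2.par hF (by omega) htv
      exact ⟨k, hk⟩
    obtain ⟨i, hi⟩ := Balance.mem_zpowers_of_fix ι hι hτ
    refine ⟨i, ?_⟩
    rw [hA, one_mul, ← hi]
    exact (map_zpow (Fd n q F) σ i).symm

omit hF₀ in
/-- The criterion for elements of field type and odd order. -/
theorem balance_field (hn : 3 ≤ n) (h32 : ¬(n = 3 ∧ q = 2)) {p : ℕ} [Fact p.Prime]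
    (hp2 : p ≠ 2) (A' : Subgroup (MulAut (Cfsg.PSU n F q)))
    (hinn : ∀ k : Cfsg.PSU n F q, MulAut.conj k ∈ A') (g : Cfsg.GU n F q) {σ : F ≃+* F}
    (hσ : orderOf σ = p) (hord : orderOf (A n q F g * Fd n q F σ) = p) :
    Cfsg.pPrimeCore p ↥(A' ⊓ Subgroup.centralizer {A n q F g * Fd n q F σ}) ≠ ⊥ ↔
      Nat.Coprime p (Nat.card ↥(MonoidHom.eqLocus (A n q F g * Fd n q F σ).toMonoidHom
        (MonoidHom.id (Cfsg.PSU n F q)))) := by
  classical
  have hp : p.Prime := Fact.out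
  let K := fixedF σ
  haveI : Fintype K := Fintype.ofFinite _
  have hK : ∀ x, σ x = x ↔ x ∈ K.subtype.range := fixedF_spec σ
  have hcard := card_fixed hF hσ K fun x => ⟨fun hx => (hK x).mpr ⟨⟨x, hx⟩, rfl⟩,
    fun hx => by obtain ⟨y, rfl⟩ := (hK x).mp hx; exact y.2⟩
  obtain ⟨l, hl⟩ := CharP.exists K
  obtain ⟨b, hlp, hb⟩ := FiniteField.card K l
  rw [Nat.card_eq_fintype_card, hb, ← pow_mul] at hcard
  obtain ⟨a, -, ha⟩ := (Nat.dvd_prime_pow hlp).mp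
    (hcard ▸ dvd_pow_self q (two_ne_zero) : q ∣ l ^ ((b : ℕ) * p))
  rw [ha, ← pow_mul] at hcard
  have hbp := Nat.pow_right_injective hlp.two_le hcard
  obtain ⟨m, hm⟩ : p ∣ a := by
    have h1 : p ∣ a * 2 := ⟨b, by rw [← hbp, mul_comm]⟩
    exact (Nat.Coprime.dvd_of_dvd_mul_right
      ((Nat.coprime_primes hp Nat.prime_two).mpr hp2) h1)
  have hb2 : (b : ℕ) = m * 2 := by
    have h1 : (b : ℕ) * p = m * 2 * p := by rw [hbp, hm]; ring
    exact Nat.eq_of_mul_eq_mul_right hp.pos h1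
  exact balance_of_fixed hF (q₀ := l ^ m) (F₀ := K) (by rw [hb, hb2, ← pow_mul]) K.subtype hn h32 hp2
    (by rw [ha, hm, ← pow_mul, mul_comm]) A' hinn g hσ hK hord

end Cfsg.Agent.KnownB.Proj.Balance.UnitFix
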