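import Cfsg.Agent.KnownB.Proj.Balance.GramDriver
import Cfsg.Agent.KnownB.Proj.Balance.UnitFix
import Cfsg.Agent.KnownB.Proj.Orth.GraphClass

/-! The `2'`-core of the centraliser of the involutory outer automorphisms of `PSU_n(q)`, `q` odd. -/

set_option autoImplicit false
set_option maxHeartbeats 1000000

namespace Cfsg.Agent.KnownB.Proj.Balance.UnitGraph

open Matrix
open Cfsg.Agent.KnownA (ub)
open Cfsg.Agent.Forms (frobQ normOne)
open Cfsg.Agent.KnownB.Proj.Unit
open Cfsg.Agent.KnownB.AutPSL (mapGL mapGL_val nrm pow_coset)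
open Cfsg.Agent.KnownB.Proj.Orth (fixedF fixedF_spec)

universe u

variable {n q : ℕ} {F : Type u} [Field F] [Fintype F] (hF : Fintype.card F = q ^ 2)

include hF

/-- The involutory field automorphism is the `q`-th power map. -/
theorem involution_eq (h2 : (2 : F) ≠ 0) {σ : F ≃+* F} (hσ : orderOf σ = 2) (a : F) :
    σ a = frobQ hF a := by
  classical
  obtain ⟨p, hp⟩ := CharP.exists F
  obtain ⟨f, hpp, hcard⟩ := FiniteField.card F p
  haveI := Fact.mk hpp
  let φ : F ≃+* F := RingEquiv.ofBijective (frobQ hF)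
    (Function.Involutive.bijective (f := frobQ hF) (Forms.frobQ_frobQ hF))
  have hφ : ∀ a, φ a = frobQ hF a := fun a => rfl
  have hord : orderOf φ = 2 := by
    refine orderOf_eq_prime (RingEquiv.ext fun a => ?_) fun h => ?_
    · rw [pow_two]
      exact Forms.frobQ_frobQ hF a
    · obtain ⟨z, hz, hzc⟩ := exists_z hF
      rw [← hφ, h, show (1 : F ≃+* F) z = z from rfl, ← two_mul] at hzc
      exact mul_ne_zero h2 hz hzc
  rw [Orth.ringAut_involution_unique hcard f.pos hσ hord, hφ]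

theorem herm_dot {σ : F ≃+* F} (hσ : ∀ a, σ a = frobQ hF a) (u v : Fin n → F) :
    Cfsg.hermForm n F q u v = u ⬝ᵥ (⇑σ ∘ v) := by
  simp [Cfsg.hermForm, dotProduct, hσ]

theorem mem_gu_iff {σ : F ≃+* F} (hσ : ∀ a, σ a = frobQ hF a) (g : GL (Fin n) F) :
    g ∈ Cfsg.GU n F q ↔ g.1.transpose * g.1.map σ = 1 := by
  have key : ∀ u v : Fin n → F, Cfsg.hermForm n F q (g.1 *ᵥ u) (g.1 *ᵥ v) =
      u ⬝ᵥ ((g.1.transpose * g.1.map σ) *ᵥ (⇑σ ∘ v)) := fun u v => by
    rw [herm_dot hF hσ, ← LinHelp.map_mulVec, ← Matrix.mulVec_mulVec,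
      Matrix.dotProduct_mulVec u g.1.transpose, Matrix.vecMul_transpose]
  constructor
  · intro h
    refine Matrix.ext fun i k => ?_
    have h1 := h (Pi.single i 1) (Pi.single k 1)
    change Cfsg.hermForm n F q (g.1 *ᵥ Pi.single i 1) (g.1 *ᵥ Pi.single k 1) =
      Cfsg.hermForm n F q (Pi.single i 1) (Pi.single k 1) at h1
    rw [key, herm_dot hF hσ, LinHelp.comp_single, single_dotProduct, one_mul, single_dotProduct,
      one_mul, Matrix.mulVec_single_one, Matrix.col_apply] at h1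
    rw [h1]
    simp [Matrix.one_apply, Pi.single_apply]
  · intro h u v
    show Cfsg.hermForm n F q (g.1 *ᵥ u) (g.1 *ᵥ v) = _
    rw [key, h, Matrix.one_mulVec, herm_dot hF hσ]

/-- The criterion. -/
theorem core_eq_bot (hn : 3 ≤ n) (h32 : ¬(n = 3 ∧ q = 2)) (h2 : (2 : F) ≠ 0)
    (A' : Subgroup (MulAut (Cfsg.PSU n F q))) (hinn : ∀ k : Cfsg.PSU n F q, MulAut.conj k ∈ A')
    (g : Cfsg.GU n F q) {σ : F ≃+* F} (hσ2 : orderOf σ = 2)
    (hx : (A n q F g * Fd n q F σ) ^ 2 = 1) :
    Cfsg.pPrimeCore 2 ↥(A' ⊓ Subgroup.centralizer {A n q F g * Fd n q F σ}) = ⊥ := by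
  classical
  haveI : Finite (MulAut (Cfsg.PSU n F q)) :=
    Finite.of_injective (fun e : MulAut _ => (e : _ → _)) DFunLike.coe_injective
  have hIA : Cfsg.Inn (Cfsg.PSU n F q) ≤ A' := by rintro _ ⟨k, rfl⟩; exact hinn k
  haveI : (Cfsg.Inn (Cfsg.PSU n F q)).Normal := ⟨by
    rintro _ ⟨k, rfl⟩ β
    exact ⟨β k, MulEquiv.ext fun y => by
      show β k * y * (β k)⁻¹ = β (k * β⁻¹ y * k⁻¹)
      rw [map_mul, map_mul, map_inv, MulAut.apply_inv_self]⟩⟩
  have hσ := involution_eq hF h2 hσ2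
  have hσsq : σ ^ 2 = 1 := hσ2 ▸ pow_orderOf_eq_one σ
  have hss : ∀ a, σ (σ a) = a := fun a => RingEquiv.congr_fun (show σ * σ = 1 by rw [← pow_two]; exact hσsq) a
  have hmap : ∀ h : GL (Fin n) F, mapGL σ (mapGL σ h) = h := fun h =>
    Units.ext (Matrix.ext fun a b => hss _)
  -- the square
  rw [pow_coset (mapGU σ) (A n q F) _ (Fd_A σ), ← map_pow, hσsq, map_one, mul_one,
    show nrm (mapGU σ) 2 g = g * mapGU σ g by simp [nrm]] at hx
  obtain ⟨c, hc⟩ := (A_eq_one_iff hF hn _).mp hx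
  have hcg : g.1 * mapGL σ g.1 = GeneralLinearGroup.scalar (Fin n) (c : Fˣ) :=
    congrArg Subtype.val hc.symm
  haveI : Nonempty (Fin n) := ⟨⟨0, by omega⟩⟩
  have hscal_inj : ∀ a b : Fˣ, GeneralLinearGroup.scalar (Fin n) a = GeneralLinearGroup.scalar (Fin n) b →
      a = b := fun a b h => by
    have h1 := congrArg (fun z : GL (Fin n) F => z.1 ⟨0, by omega⟩ ⟨0, by omega⟩) h
    exact Units.ext (by simpa [GeneralLinearGroup.coe_scalar] using h1)
  have hscomm : ∀ (a : Fˣ) (h : GL (Fin n) F), Commute (GeneralLinearGroup.scalar (Fin n) a) h :=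
    fun a h => Units.ext (by
      show (GeneralLinearGroup.scalar (Fin n) a).1 * h.1 = h.1 * (GeneralLinearGroup.scalar (Fin n) a).1
      rw [GeneralLinearGroup.coe_scalar, Matrix.scalar_apply]; ext i j; simp [mul_comm])
  have hcσ : Units.map (σ : F →* F) (c : Fˣ) = (c : Fˣ) := by
    refine hscal_inj _ _ ?_
    rw [← AutPSL.mapGL_scalar, ← hcg, map_mul, hmap]
    have h1 : mapGL σ g.1 = g.1⁻¹ * GeneralLinearGroup.scalar (Fin n) (c : Fˣ) := by
      rw [← hcg, inv_mul_cancel_left]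
    rw [h1, mul_assoc, (hscomm _ g.1).eq, inv_mul_cancel_left, ← h1, hcg]
  obtain ⟨l, hl⟩ := KnownA.exists_norm hF ((c : Fˣ) : F) (by rw [← hσ]; exact congrArg Units.val hcσ)
  have hl0 : l ≠ 0 := fun h => (c : Fˣ).ne_zero (by rw [← hl, h, zero_mul])
  set L : Fˣ := Units.mk0 l hl0 with hLd
  set g' := GeneralLinearGroup.scalar (Fin n) L⁻¹ * g.1 with hg'
  have hg'g : g.1 = GeneralLinearGroup.scalar (Fin n) L * g' := by
    rw [hg', ← mul_assoc, ← map_mul, mul_inv_cancel, map_one, one_mul]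
  obtain ⟨P, hP⟩ := AutPSL.lang_field (n := n) two_pos hσ2 g' (by
    show g' * mapGL σ (g' * mapGL σ 1) = 1
    rw [map_one, mul_one, hg', map_mul, AutPSL.mapGL_scalar, mul_assoc, ← mul_assoc g.1,
      ← (hscomm _ g.1).eq, mul_assoc, hcg, ← mul_assoc, ← map_mul, ← map_mul,
      ← map_one (GeneralLinearGroup.scalar (Fin n))]
    refine congrArg _ (Units.ext ?_)
    show l⁻¹ * σ (l⁻¹) * ((c : Fˣ) : F) = 1
    rw [hσ, map_inv₀, ← mul_inv, hl, inv_mul_cancel₀ (c : Fˣ).ne_zero])
  have hσP : mapGL σ P = g'⁻¹ * P := by rw [hP]; group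
  set G₀ := P.1.transpose * P.1.map σ with hG₀
  -- the conjugates of rational matrices
  let K := fixedF σ
  haveI : Fintype K := Fintype.ofFinite _
  set j : K →+* F := K.subtype with hjd
  have hK : ∀ x, σ x = x ↔ x ∈ j.range := fixedF_spec σ
  have hKσ : ∀ x : K, σ (j x) = j x := fun x => (hK _).mpr ⟨x, rfl⟩
  have h2K : (2 : K) ≠ 0 := fun h => h2 (by
    have := congrArg j h
    rwa [map_ofNat, map_zero] at this)
  have hjmap : ∀ h : GL (Fin n) K, mapGL σ (GeneralLinearGroup.map j h) = GeneralLinearGroup.map j h :=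
    fun h => Units.ext (Matrix.ext fun a b => hKσ _)
  -- the Gram matrix
  have hgU : g.1.1.transpose * g.1.1.map σ = 1 := (mem_gu_iff hF hσ g.1).mp g.2
  have hgσ : g.1.1.map σ = ((c : Fˣ) : F) • (g.1⁻¹).1 := by
    have h1 : mapGL σ g.1 = g.1⁻¹ * GeneralLinearGroup.scalar (Fin n) (c : Fˣ) := by
      rw [← hcg, inv_mul_cancel_left]
    rw [← mapGL_val, h1, Units.val_mul, GeneralLinearGroup.coe_scalar, Matrix.scalar_apply,
      ← Matrix.smul_one_eq_diagonal, Matrix.mul_smul, Matrix.mul_one]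
  have hgT : g.1.1.transpose = (((c : Fˣ) : F))⁻¹ • g.1.1 := by
    rw [hgσ, Matrix.mul_smul] at hgU
    calc g.1.1.transpose = g.1.1.transpose * (g.1⁻¹).1 * g.1.1 := by
          rw [Matrix.mul_assoc, ← Units.val_mul, inv_mul_cancel, Units.val_one, Matrix.mul_one]
      _ = _ := by
          rw [show g.1.1.transpose * (g.1⁻¹).1 = (((c : Fˣ) : F))⁻¹ • 1 by
            rw [← hgU, smul_smul, inv_mul_cancel₀ (c : Fˣ).ne_zero, one_smul], Matrix.smul_mul,
            Matrix.one_mul]
  have hG₀eq : G₀ = l • (P.1.transpose * (g.1⁻¹).1 * P.1) := by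
    rw [hG₀, show P.1.map σ = (mapGL σ P).1 from (mapGL_val σ P).symm, hσP, hg', _root_.mul_inv_rev,
      Units.val_mul, Units.val_mul, ← map_inv, inv_inv, GeneralLinearGroup.coe_scalar,
      Matrix.scalar_apply, ← Matrix.smul_one_eq_diagonal]
    simp only [Matrix.mul_smul, Matrix.smul_mul, Matrix.mul_one, Matrix.mul_assoc, L, Units.val_mk0]
  have hgiT : (g.1⁻¹).1.transpose = ((c : Fˣ) : F) • (g.1⁻¹).1 := by
    have h1 : (g.1⁻¹).1.transpose * g.1.1.transpose = 1 := by
      rw [← Matrix.transpose_mul, ← Units.val_mul, mul_inv_cancel, Units.val_one, Matrix.transpose_one]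
    rw [hgT, Matrix.mul_smul] at h1
    calc (g.1⁻¹).1.transpose = (g.1⁻¹).1.transpose * g.1.1 * (g.1⁻¹).1 := by
          rw [Matrix.mul_assoc, ← Units.val_mul, mul_inv_cancel, Units.val_one, Matrix.mul_one]
      _ = _ := by
          rw [show (g.1⁻¹).1.transpose * g.1.1 = ((c : Fˣ) : F) • 1 by
            rw [← h1, smul_smul, mul_inv_cancel₀ (c : Fˣ).ne_zero, one_smul], Matrix.smul_mul,
            Matrix.one_mul]
  have hGT : G₀.transpose = ((c : Fˣ) : F) • G₀ := by
    rw [hG₀eq, Matrix.transpose_smul, Matrix.transpose_mul, Matrix.transpose_mul,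
      Matrix.transpose_transpose, hgiT, Matrix.smul_mul, Matrix.mul_smul, smul_smul, smul_smul,
      mul_comm l, Matrix.mul_assoc]
  have hGdet : G₀.det ≠ 0 := by
    rw [hG₀, Matrix.det_mul, Matrix.det_transpose, ← mapGL_val σ P]
    exact mul_ne_zero (GeneralLinearGroup.det P).ne_zero (GeneralLinearGroup.det (mapGL σ P)).ne_zero
  have hG0 : G₀ ≠ 0 := fun h => hGdet (by simp [h])
  have hc1 : ((c : Fˣ) : F) = 1 ∨ ((c : Fˣ) : F) = -1 := by
    refine mul_self_eq_one_iff.mp ?_
    have h1 := congrArg Matrix.transpose hGT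
    rw [Matrix.transpose_transpose, Matrix.transpose_smul, hGT, smul_smul] at h1
    exact smul_left_injective F hG0 (h1.symm.trans (one_smul F G₀).symm)
  have hσG : G₀.map σ = ((c : Fˣ) : F) • G₀ := by
    rw [← hGT, hG₀, Matrix.map_mul, Matrix.transpose_mul, Matrix.transpose_transpose,
      Matrix.transpose_map, show (P.1.map σ).map σ = P.1 from Matrix.ext fun a b => hss _]
  obtain ⟨w, hw0, hw⟩ : ∃ w : F, w ≠ 0 ∧ σ w * (c : Fˣ) = w := by
    rcases hc1 with h | h
    · exact ⟨1, one_ne_zero, by rw [h, map_one, one_mul]⟩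
    · obtain ⟨z, hz, hzc⟩ := exists_z hF
      exact ⟨z, hz, by rw [h, hσ]; linear_combination -hzc⟩
  obtain ⟨J, hJ⟩ : ∃ J : Matrix (Fin n) (Fin n) K, J.map j = w • G₀ := by
    have h : ∀ a b, (w • G₀) a b ∈ j.range := fun a b => (hK _).mp (by
      rw [Matrix.smul_apply, smul_eq_mul, map_mul,
        show σ (G₀ a b) = ((c : Fˣ) : F) * G₀ a b from congrFun (congrFun hσG a) b, ← mul_assoc, hw])
    choose e he using h
    exact ⟨Matrix.of e, Matrix.ext fun a b => he a b⟩
  have hJdet : J.det ≠ 0 := fun h => by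
    have h1 := congrArg j h
    rw [RingHom.map_det, RingHom.mapMatrix_apply, hJ, Matrix.det_smul, map_zero] at h1
    exact mul_ne_zero (pow_ne_zero _ hw0) hGdet h1
  have hJsym : J.transpose = J ∨ J.transpose = -J := by
    have hJc : J.transpose.map j = ((c : Fˣ) : F) • J.map j := by
      rw [Matrix.transpose_map, hJ, Matrix.transpose_smul, hGT, smul_comm]
    rcases hc1 with h | h
    · rw [h, one_smul] at hJc
      exact Or.inl (Matrix.map_injective j.injective hJc)
    · rw [h, neg_one_smul] at hJc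
      refine Or.inr (Matrix.map_injective j.injective (hJc.trans ?_))
      ext a b
      simp
  -- the isometries
  let ξ : GL (Fin n) K →* GL (Fin n) F :=
    (MulAut.conj P).toMonoidHom.comp (GeneralLinearGroup.map j)
  have hξ : ∀ h, ξ h = P * GeneralLinearGroup.map j h * P⁻¹ := fun h => rfl
  have hξmem : ∀ h : GramDriver.iso J, ξ h.1 ∈ Cfsg.GU n F q := by
    intro h
    rw [mem_gu_iff hF hσ]
    have hh : (h.1.1.map j).transpose * G₀ * h.1.1.map j = G₀ := by
      have h1 := congrArg (fun M : Matrix (Fin n) (Fin n) K => M.map j)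
        (show h.1.1.transpose * J * h.1.1 = J from h.2)
      simp only [Matrix.map_mul, hJ, Matrix.mul_smul, Matrix.smul_mul, Matrix.transpose_map] at h1
      exact smul_right_injective _ hw0 h1
    rw [← mapGL_val σ (ξ h.1), hξ, map_mul, map_mul, hjmap, map_inv, Units.val_mul, Units.val_mul,
      Units.val_mul, Units.val_mul, Matrix.transpose_mul, Matrix.transpose_mul]
    calc (P⁻¹).1.transpose * ((h.1.1.map j).transpose * P.1.transpose) *
          ((mapGL σ P).1 * h.1.1.map j * (mapGL σ P)⁻¹.1)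
        = (P⁻¹).1.transpose * ((h.1.1.map j).transpose * G₀ * h.1.1.map j) * (mapGL σ P)⁻¹.1 := by
          rw [hG₀, ← mapGL_val σ P]; simp only [Matrix.mul_assoc]
      _ = (P.1 * (P⁻¹).1).transpose * ((mapGL σ P).1 * (mapGL σ P)⁻¹.1) := by
          rw [hh, hG₀, ← mapGL_val σ P, Matrix.transpose_mul]; simp only [Matrix.mul_assoc]
      _ = 1 := by rw [Units.mul_inv, Units.mul_inv, Matrix.transpose_one, Matrix.one_mul]
  let Ψ : GramDriver.iso J →* MulAut (Cfsg.PSU n F q) :=
    (A n q F).comp ((ξ.comp (GramDriver.iso J).subtype).codRestrict _ hξmem)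
  have hΨ : ∀ h, Ψ h = A n q F ⟨ξ h.1, hξmem h⟩ := fun h => rfl
  have hscalK : ∀ (h : GL (Fin n) K) (a : Fˣ),
      GeneralLinearGroup.map j h = GeneralLinearGroup.scalar (Fin n) a →
        ∃ k : K, ∀ z, h.1 *ᵥ z = k • z := by
    intro h a ha
    refine ⟨h.1 ⟨0, by omega⟩ ⟨0, by omega⟩, fun z => ?_⟩
    have h1 : ∀ i k, j (h.1 i k) = if i = k then (a : F) else 0 := fun i k => by
      have h2 := congrArg (fun y : GL (Fin n) F => y.1 i k) ha
      rw [GeneralLinearGroup.coe_scalar, Matrix.scalar_apply, Matrix.diagonal_apply] at h2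
      exact h2
    have h3 : h.1 = Matrix.diagonal fun _ => h.1 ⟨0, by omega⟩ ⟨0, by omega⟩ := by
      refine Matrix.map_injective j.injective (Matrix.ext fun i k => ?_)
      show j (h.1 i k) = j _
      rw [h1, Matrix.diagonal_apply]
      by_cases hik : i = k
      · rw [if_pos hik, if_pos hik, h1, if_pos rfl]
      · rw [if_neg hik, if_neg hik, map_zero]
    rw [h3]
    funext i
    simp [Matrix.mulVec_diagonal]
  have hscalF : ∀ (h : GL (Fin n) K) (k : K), (∀ z, h.1 *ᵥ z = k • z) →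
      ∃ a : Fˣ, GeneralLinearGroup.map j h = GeneralLinearGroup.scalar (Fin n) a := by
    intro h k hk
    have h3 : h.1 = Matrix.diagonal fun _ => k := Matrix.ext_of_mulVec_single fun i => by
      rw [hk]; funext l; simp [Matrix.mulVec_diagonal]
    have hk0 : j k ≠ 0 := by
      rw [ne_eq, map_eq_zero]
      rintro rfl
      exact (GeneralLinearGroup.det h).ne_zero (show h.1.det = 0 by rw [h3]; simp)
    refine ⟨Units.mk0 _ hk0, Units.ext ?_⟩
    show h.1.map j = _
    rw [GeneralLinearGroup.coe_scalar, h3, Matrix.diagonal_map (map_zero j)]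
    rfl
  have hunit : ∀ (k : Cfsg.GU n F q) (a : Fˣ), k.1 = GeneralLinearGroup.scalar (Fin n) a →
      A n q F k = 1 := by
    intro k a hk
    have h1 := (mem_gu_iff hF hσ k.1).mp k.2
    rw [hk, GeneralLinearGroup.coe_scalar, Matrix.scalar_apply, Matrix.diagonal_transpose,
      Matrix.diagonal_map (map_zero σ), Matrix.diagonal_mul_diagonal] at h1
    have h2 := congrFun (congrFun h1 ⟨0, by omega⟩) ⟨0, by omega⟩
    simp only [Matrix.diagonal_apply_eq, Matrix.one_apply_eq, hσ] at h2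
    exact (A_eq_one_iff hF hn k).mpr ⟨⟨a, (Forms.mem_normOne hF).mpr h2⟩, Subtype.ext hk.symm⟩
  refine GramDriver.core_eq_bot_gram hn h2K J hJdet hJsym A' (Cfsg.Inn _) hIA _ Ψ ?_ ?_ ?_ ?_
  · intro h
    constructor
    · intro hh
      obtain ⟨u, hu⟩ := (A_eq_one_iff hF hn _).mp hh
      have h1 : ξ h.1 = GeneralLinearGroup.scalar (Fin n) (u : Fˣ) := congrArg Subtype.val hu.symm
      rw [hξ, mul_inv_eq_iff_eq_mul, (hscomm _ P).eq, mul_right_inj] at h1
      exact hscalK h.1 _ h1
    · rintro ⟨k, hk⟩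
      obtain ⟨a, ha⟩ := hscalF h.1 k hk
      refine hunit _ a ?_
      show ξ h.1 = _
      rw [hξ, ha, ← (hscomm a P).eq, mul_inv_cancel_right]
  · intro h
    show A n q F _ * (A n q F g * Fd n q F σ) = A n q F g * Fd n q F σ * A n q F _
    rw [mul_assoc _ (Fd n q F σ), Fd_A, ← mul_assoc, ← mul_assoc, ← map_mul, ← map_mul]
    refine congrArg (fun z => A n q F z * Fd n q F σ) (Subtype.ext ?_)
    show ξ h.1 * g.1 = g.1 * mapGL σ (ξ h.1)
    rw [hξ, map_mul, map_mul, map_inv, hjmap, hσP, hg'g, ← mul_assoc _ (GeneralLinearGroup.scalar _ _),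
      ← (hscomm L _).eq]
    group
  · intro h hdet
    rw [hΨ, A_mem_inn_iff hF hn]
    refine ⟨1, ?_⟩
    rw [map_one]
    refine Subtype.ext (Units.ext ?_)
    show 1 = (ξ h.1).1.det
    rw [hξ, Units.val_mul, Units.val_mul, Matrix.det_units_conj]
    show 1 = (j.mapMatrix h.1.1).det
    rw [← RingHom.map_det, hdet, map_one]
  · intro y hy hodd
    obtain ⟨k, τ, rfl⟩ := exists_decomp hn hF h32 y
    have hστ : σ * τ = τ * σ := (AutPSL.ringAut_comm σ τ).eq
    have hστa : ∀ x, σ (τ x) = τ (σ x) := fun x => RingEquiv.congr_fun hστ x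
    have hmm : ∀ z : GL (Fin n) F, mapGL σ (mapGL τ z) = mapGL τ (mapGL σ z) := fun z =>
      Units.ext (Matrix.ext fun a b => RingEquiv.congr_fun hστ _)
    -- the matrix equation
    have he : A n q F (k * mapGU τ g) = A n q F (g * mapGU σ k) := by
      have h1 : A n q F k * Fd n q F τ * (A n q F g * Fd n q F σ) =
          A n q F g * Fd n q F σ * (A n q F k * Fd n q F τ) := hy.eq
      rw [mul_assoc _ (Fd n q F τ), ← mul_assoc (Fd n q F τ), Fd_A, mul_assoc _ (Fd n q F σ),
        ← mul_assoc (Fd n q F σ), Fd_A, mul_assoc, mul_assoc, ← map_mul (Fd n q F), ← map_mul (Fd n q F),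
        hστ, ← mul_assoc, ← mul_assoc, ← map_mul, ← map_mul] at h1
      exact mul_right_cancel h1
    have he' : A n q F ((g * mapGU σ k)⁻¹ * (k * mapGU τ g)) = 1 := by
      rw [map_mul, map_inv, he, inv_mul_cancel]
    obtain ⟨u, hu⟩ := (A_eq_one_iff hF hn _).mp he'
    have hu' : k.1 * mapGL τ g.1 =
        g.1 * mapGL σ k.1 * GeneralLinearGroup.scalar (Fin n) (u : Fˣ) := by
      have h1 := congrArg (fun z : Cfsg.GU n F q => g.1 * mapGL σ k.1 * z.1) hu
      refine Eq.trans ?_ h1.symm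
      show _ = g.1 * mapGL σ k.1 * ((g.1 * mapGL σ k.1)⁻¹ * (k.1 * mapGL τ g.1))
      rw [mul_inv_cancel_left]
    set m := P⁻¹ * k.1 * mapGL τ P with hmd
    set μ : Fˣ := Units.map (τ : F →* F) L * (L * (u : Fˣ))⁻¹ with hμd
    have hm : mapGL σ m = GeneralLinearGroup.scalar (Fin n) μ * m := by
      have h1 : g.1⁻¹ * (k.1 * mapGL τ g.1) * GeneralLinearGroup.scalar (Fin n) (u : Fˣ)⁻¹ =
          mapGL σ k.1 := by
        rw [hu', map_inv]; group
      have hgg : g' * g.1⁻¹ = GeneralLinearGroup.scalar (Fin n) L⁻¹ := by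
        rw [hg', mul_inv_cancel_right]
      have hτgg : mapGL τ g.1 * GeneralLinearGroup.scalar (Fin n) (u : Fˣ)⁻¹ * (mapGL τ g')⁻¹ =
          GeneralLinearGroup.scalar (Fin n) ((u : Fˣ)⁻¹ * Units.map (τ : F →* F) L) := by
        rw [← (hscomm (u : Fˣ)⁻¹ _).eq, hg'g, map_mul, AutPSL.mapGL_scalar, mul_assoc,
          mul_inv_cancel_right, map_mul]
      rw [hmd, map_mul, map_mul, map_inv, hmm, hσP, ← h1, map_mul, map_inv,
        show (g'⁻¹ * P)⁻¹ * (g.1⁻¹ * (k.1 * mapGL τ g.1) *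
            (GeneralLinearGroup.scalar (Fin n) (u : Fˣ))⁻¹) * (mapGL τ g'⁻¹ * mapGL τ P) =
          P⁻¹ * (g' * g.1⁻¹) * k.1 * (mapGL τ g.1 * GeneralLinearGroup.scalar (Fin n) (u : Fˣ)⁻¹ *
            (mapGL τ g')⁻¹) * mapGL τ P by rw [map_inv, map_inv]; group,
        hgg, hτgg, ← (hscomm L⁻¹ _).eq, mul_assoc _ P⁻¹, mul_assoc (GeneralLinearGroup.scalar (Fin n) L⁻¹),
        ← (hscomm ((u : Fˣ)⁻¹ * Units.map (τ : F →* F) L) _).eq, ← mul_assoc, ← map_mul,
        mul_assoc _ (P⁻¹ * k.1), hμd]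
      refine congrArg (fun z => GeneralLinearGroup.scalar (Fin n) z * (P⁻¹ * k.1 * mapGL τ P)) ?_
      rw [_root_.mul_inv_rev]
      ac_rfl
    have hμμ : σ (μ : F) * (μ : F) = 1 := by
      have h1 := congrArg (mapGL σ) hm
      rw [hmap, map_mul, AutPSL.mapGL_scalar, hm, ← mul_assoc, ← map_mul] at h1
      have h3 : GeneralLinearGroup.scalar (Fin n) (Units.map (σ : F →* F) μ * μ) = 1 :=
        mul_eq_right.mp h1.symm
      exact congrArg Units.val (hscal_inj _ 1 (h3.trans (map_one _).symm))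
    obtain ⟨a, ha0, ha⟩ : ∃ a : F, a ≠ 0 ∧ σ a * (μ : F) = a := by
      have key : ∀ t, σ (t + μ * σ t) * (μ : F) = t + μ * σ t := fun t => by
        rw [map_add, map_mul, hss]; linear_combination t * hμμ
      by_cases hμ1 : (μ : F) = -1
      · obtain ⟨z, hz, hzc⟩ := exists_z hF
        refine ⟨_, fun h0 => ?_, key z⟩
        rw [hμ1, hσ] at h0
        exact mul_ne_zero h2 hz (by linear_combination h0 + hzc)
      · exact ⟨_, fun h0 => hμ1 (by rw [map_one, mul_one] at h0; linear_combination h0), key 1⟩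
    set m' := GeneralLinearGroup.scalar (Fin n) (Units.mk0 a ha0) * m with hm'
    have hm'σ : mapGL σ m' = m' := by
      rw [hm', map_mul, AutPSL.mapGL_scalar, hm, ← mul_assoc, ← map_mul]
      exact congrArg (fun z => GeneralLinearGroup.scalar (Fin n) z * m) (Units.ext ha)
    obtain ⟨m₀, hm₀⟩ : ∃ m₀ : GL (Fin n) K, GeneralLinearGroup.map j m₀ = m' := by
      have h : ∀ i l, m'.1 i l ∈ j.range := fun i l => (hK _).mp
        (congrArg (fun z : GL (Fin n) F => z.1 i l) hm'σ)
      choose e he using h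
      have hme : (Matrix.of e).map j = m'.1 := Matrix.ext fun i l => he i l
      have hd : (Matrix.of e).det ≠ 0 := fun h0 => by
        have h1 : m'.1.det ≠ 0 := (GeneralLinearGroup.det m').ne_zero
        rw [← hme, ← RingHom.mapMatrix_apply, ← RingHom.map_det, h0, map_zero] at h1
        exact h1 rfl
      exact ⟨GeneralLinearGroup.mkOfDetNeZero _ hd, Units.ext hme⟩
    -- the restriction of `τ`
    have hτK : ∀ x : F, x ∈ j.range → τ x ∈ j.range := fun x hx => (hK _).mp (by
      rw [hστa, (hK x).mpr hx])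
    choose τf hτf using fun x : K => hτK (j x) ⟨x, rfl⟩
    let τ₁ : K →+* K :=
      { toFun := τf
        map_one' := j.injective (by rw [hτf, map_one, map_one])
        map_mul' := fun x y => j.injective (by rw [hτf, map_mul, map_mul, map_mul, hτf, hτf])
        map_zero' := j.injective (by rw [hτf, map_zero, map_zero])
        map_add' := fun x y => j.injective (by rw [hτf, map_add, map_add, map_add, hτf, hτf]) }
    let τ₀ : K ≃+* K := RingEquiv.ofBijective τ₁
      ⟨τ₁.injective, (Finite.injective_iff_surjective).mp τ₁.injective⟩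
    have hτ₀ : ∀ x, j (τ₀ x) = τ (j x) := hτf
    have hjτ : ∀ h : GL (Fin n) K, GeneralLinearGroup.map j (mapGL τ₀ h) =
        mapGL τ (GeneralLinearGroup.map j h) := fun h => Units.ext (Matrix.ext fun i l => hτ₀ _)
    obtain ⟨e, he0⟩ : ∃ e : K, j e = w * (a * σ a) / τ w := by
      obtain ⟨e, he⟩ := (hK (w * (a * σ a) / τ w)).mp (by
        have hwσ : σ w = w * ((c : Fˣ) : F)⁻¹ := by
          rw [eq_mul_inv_iff_mul_eq₀ (c : Fˣ).ne_zero]; exact hw
        have hτc : τ ((c : Fˣ) : F) = ((c : Fˣ) : F) := by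
          rcases hc1 with h | h <;> rw [h] <;> simp
        have hτw : σ (τ w) = τ w * ((c : Fˣ) : F)⁻¹ := by
          rw [hστa, hwσ, map_mul, map_inv₀, hτc]
        rw [map_div₀, map_mul, map_mul, hss, hτw, hwσ]
        field_simp [(map_ne_zero τ).mpr hw0, (c : Fˣ).ne_zero])
      exact ⟨e, he⟩
    refine ⟨m₀, τ₀, e, ?_, ?_, ?_, ?_⟩
    · rintro rfl
      rw [map_zero] at he0
      exact div_ne_zero (mul_ne_zero hw0 (mul_ne_zero ha0 ((map_ne_zero σ).mpr ha0)))
        ((map_ne_zero τ).mpr hw0) he0.symm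
    · refine Matrix.map_injective j.injective ?_
      have hmid : m'.1.transpose * G₀ * m'.1 = (a * σ a) • G₀.map τ := by
        have h1 : m'.1 = a • ((P⁻¹).1 * k.1.1 * (mapGL τ P).1) := by
          rw [hm', hmd, Units.val_mul, Units.val_mul, Units.val_mul, GeneralLinearGroup.coe_scalar,
            Matrix.scalar_apply, ← Matrix.smul_one_eq_diagonal, Matrix.smul_mul, Matrix.one_mul,
            Units.val_mk0]
        have h2 : m'.1 = σ a • ((mapGL σ P)⁻¹.1 * (mapGL σ k.1).1 * (mapGL τ (mapGL σ P)).1) := by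
          conv_lhs => rw [← hm'σ]
          rw [hm', hmd, map_mul, map_mul, map_mul, map_inv, hmm, AutPSL.mapGL_scalar, Units.val_mul,
            Units.val_mul, Units.val_mul, GeneralLinearGroup.coe_scalar, Matrix.scalar_apply,
            ← Matrix.smul_one_eq_diagonal, Matrix.smul_mul, Matrix.one_mul]
          rfl
        have hk : k.1.1.transpose * (mapGL σ k.1).1 = 1 := by
          rw [mapGL_val]; exact (mem_gu_iff hF hσ k.1).mp k.2
        calc m'.1.transpose * G₀ * m'.1
            = (a • ((P⁻¹).1 * k.1.1 * (mapGL τ P).1)).transpose * G₀ *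
              (σ a • ((mapGL σ P)⁻¹.1 * (mapGL σ k.1).1 * (mapGL τ (mapGL σ P)).1)) := by
              rw [← h1, ← h2]
          _ = (a * σ a) • ((mapGL τ P).1.transpose * k.1.1.transpose *
              ((P.1 * (P⁻¹).1).transpose) * ((mapGL σ P).1 * (mapGL σ P)⁻¹.1) *
              (mapGL σ k.1).1 * (mapGL τ (mapGL σ P)).1) := by
              rw [hG₀, ← mapGL_val σ P]
              simp only [Matrix.transpose_smul, Matrix.transpose_mul, Matrix.smul_mul,
                Matrix.mul_smul, smul_smul, Matrix.mul_assoc]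
              rw [mul_comm]
          _ = (a * σ a) • ((mapGL τ P).1.transpose * (k.1.1.transpose * (mapGL σ k.1).1) *
              (mapGL τ (mapGL σ P)).1) := by
              rw [Units.mul_inv, Units.mul_inv, Matrix.transpose_one, Matrix.mul_one, Matrix.mul_one]
              simp only [Matrix.mul_assoc]
          _ = _ := by
              rw [hk, Matrix.mul_one, mapGL_val, mapGL_val, mapGL_val, hG₀, Matrix.map_mul,
                Matrix.transpose_map]
      have hτw0 : τ w ≠ 0 := (map_ne_zero τ).mpr hw0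
      have hJτ : (J.map τ₀).map j = τ w • G₀.map τ := by
        ext i l
        show j (τ₀ (J i l)) = τ w * τ (G₀ i l)
        rw [hτ₀, ← map_mul, show j (J i l) = w * G₀ i l from congrFun (congrFun hJ i) l]
      calc (m₀.1.transpose * J * m₀.1).map j
          = m'.1.transpose * (w • G₀) * m'.1 := by
            rw [Matrix.map_mul, Matrix.map_mul, Matrix.transpose_map, hJ,
              show m₀.1.map j = m'.1 from congrArg Units.val hm₀]
        _ = (w * (a * σ a)) • G₀.map τ := by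
            rw [Matrix.mul_smul, Matrix.smul_mul, hmid, smul_smul]
        _ = (e • J.map τ₀).map j := by
            rw [Matrix.map_smul' _ _ _ (map_mul j), hJτ, smul_smul, he0, div_mul_cancel₀ _ hτw0]
    · intro h h' hh'
      rw [hΨ, hΨ, _root_.mul_inv_rev, mul_assoc (A n q F k), Fd_A,
        show A n q F k * (A n q F (mapGU τ ⟨ξ h.1, hξmem h⟩) * Fd n q F τ) *
          ((Fd n q F τ)⁻¹ * (A n q F k)⁻¹) =
          A n q F k * A n q F (mapGU τ ⟨ξ h.1, hξmem h⟩) * (A n q F k)⁻¹ by group,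
        ← map_inv, ← map_mul, ← map_mul]
      refine congrArg (A n q F) (Subtype.ext ?_)
      show k.1 * mapGL τ (ξ h.1) * k.1⁻¹ = ξ h'.1
      rw [hξ, hξ, hh', map_mul, map_mul, map_mul, map_mul, map_inv, map_inv, hm₀, hjτ]
      have hkm : k.1 = P * m * (mapGL τ P)⁻¹ := by rw [hmd]; group
      rw [hkm, hm']
      have h5 : GeneralLinearGroup.scalar (Fin n) (Units.mk0 a ha0) * m *
          mapGL τ (GeneralLinearGroup.map j h.1) *
            (GeneralLinearGroup.scalar (Fin n) (Units.mk0 a ha0) * m)⁻¹ =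
          m * mapGL τ (GeneralLinearGroup.map j h.1) * m⁻¹ := by
        have h6 := hscomm (Units.mk0 a ha0) (m * mapGL τ (GeneralLinearGroup.map j h.1) * m⁻¹)
        calc _ = GeneralLinearGroup.scalar (Fin n) (Units.mk0 a ha0) *
              (m * mapGL τ (GeneralLinearGroup.map j h.1) * m⁻¹) *
              (GeneralLinearGroup.scalar (Fin n) (Units.mk0 a ha0))⁻¹ := by group
          _ = _ := by rw [h6.eq, mul_inv_cancel_right]
      rw [h5]
      group
    · intro hτ1 hs
      obtain ⟨i, hi⟩ := Balance.mem_zpowers_of_fix j hK fun x => by rw [← hτ₀, hτ1]; rfl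
      have hτ2 : τ * τ = 1 := by
        rw [← hi, ← _root_.zpow_add, show i + i = 2 * i by ring, _root_.zpow_mul, show σ ^ (2 : ℤ) = 1 from hσsq,
          _root_.one_zpow]
      have hτo : τ ^ orderOf (A n q F k * Fd n q F τ) = 1 := by
        have h1 := pow_orderOf_eq_one (A n q F k * Fd n q F τ)
        rw [pow_coset (mapGU τ) (A n q F) _ (Fd_A τ), ← map_pow] at h1
        exact eq_one_of_A_Fd hF hn _ _ h1
      obtain rfl : τ = 1 := by
        obtain ⟨o, ho⟩ := hodd
        rwa [ho, pow_succ, pow_mul, pow_two, hτ2, one_pow, one_mul] at hτo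
      obtain ⟨kk, hkk⟩ := hs
      obtain ⟨b, hb⟩ := hscalF m₀ kk hkk
      rw [map_one, mul_one]
      refine hunit k ((Units.mk0 a ha0)⁻¹ * b) ?_
      rw [hm₀, hm'] at hb
      have hkm : k.1 = P * m * (mapGL (1 : F ≃+* F) P)⁻¹ := by rw [hmd]; group
      rw [hkm, show m = GeneralLinearGroup.scalar (Fin n) ((Units.mk0 a ha0)⁻¹ * b) by
          rw [map_mul, ← hb, map_inv, inv_mul_cancel_left],
        ← (hscomm _ P).eq, mul_assoc, show mapGL (1 : F ≃+* F) P = P from Units.ext rfl,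
        mul_inv_cancel, mul_one]

end Cfsg.Agent.KnownB.Proj.Balance.UnitGraph
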